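import Cfsg.Agent.Grp.FpfEnd
import Cfsg.Agent.Grp.BaerSuzuki
import Mathlib.Algebra.Group.Subgroup.Pointwise
import Mathlib.Algebra.GroupWithZero.Action.End

/-!
# Groups acting on an elementary abelian 2-group with 2-groups as point stabilizers: definitions
-/

set_option autoImplicit false
set_option linter.unusedSectionVars false

namespace Cfsg.Gag2

open Subgroup MulAction
open scoped Pointwise

universe u v

section defs

variable {L : Type u} [Group L] (V : Type v) [AddCommGroup V] [DistribMulAction L V]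

/-- The operator of a group element. -/
def op : L →* AddMonoid.End V := DistribMulAction.toAddMonoidEnd L V

/-- `g + 1`. -/
def nu (g : L) : AddMonoid.End V := op V g + 1

/-- The trace `g + g⁻¹`. -/
def tr (g : L) : AddMonoid.End V := op V g + op V g⁻¹

/-- The fixed points of an element. -/
def fx (g : L) : AddSubgroup V where
  carrier := {v | g • v = v}
  zero_mem' := smul_zero g
  add_mem' := fun {a b} ha hb => by
    change g • (a + b) = a + b
    rw [smul_add, ha, hb]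
  neg_mem' := fun {a} ha => by
    change g • (-a) = -a
    rw [smul_neg, ha]

/-- A special pair: `k (a + 1) k = a + 1`. -/
def Sp (a k : L) : Prop := op V k * nu V a * op V k = nu V a

end defs

/-- The pointwise stabilizer of a subgroup of `V`. -/
def cw (L : Type u) [Group L] {V : Type v} [AddCommGroup V] [DistribMulAction L V]
    (W : AddSubgroup V) : Subgroup L where
  carrier := {g | ∀ v ∈ W, g • v = v}
  one_mem' := fun v _ => one_smul L v
  mul_mem' := fun {a b} ha hb v hv => by rw [mul_smul, hb v hv, ha v hv]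
  inv_mem' := fun {a} ha v hv => by rw [inv_smul_eq_iff, ha v hv]

/-- A `2`-element. -/
def Tw {L : Type u} [Group L] (g : L) : Prop := ∃ n : ℕ, g ^ 2 ^ n = 1

/-- An involution. -/
def Iv {L : Type u} [Group L] (t : L) : Prop := t * t = 1 ∧ t ≠ 1

/-- No element of order three acts nontrivially on a `2`-subgroup. -/
def NA4 (L : Type u) [Group L] : Prop :=
  ∀ y : L, orderOf y = 3 → ∀ X : Subgroup L, IsPGroup 2 X → y ∈ normalizer (X : Set L) →
    ∀ x ∈ X, Commute y x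

/-- The standing hypothesis. -/
structure Hyp (L : Type u) [Group L] (V : Type v) [AddCommGroup V] [DistribMulAction L V] :
    Prop where
  two : ∀ v : V, v + v = 0
  faith : ∀ g : L, (∀ v : V, g • v = v) → g = 1
  stab : ∀ v : V, v ≠ 0 → IsPGroup 2 (stabilizer L v)
  nt : ∃ v : V, v ≠ 0
  half : ∀ t : L, Iv t → ∀ v : V, t • v = v → ∃ u : V, t • u + u = v

variable {L : Type u} [Group L] {V : Type v} [AddCommGroup V] [DistribMulAction L V]

@[simp] theorem op_apply (g : L) (v : V) : op V g v = g • v := rfl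

theorem nu_apply (g : L) (v : V) : nu V g v = g • v + v := rfl

theorem tr_apply (g : L) (v : V) : tr V g v = g • v + g⁻¹ • v := rfl

theorem mem_fx {g : L} {v : V} : v ∈ fx V g ↔ g • v = v := Iff.rfl

theorem mem_cw {g : L} {W : AddSubgroup V} : g ∈ cw L W ↔ ∀ v ∈ W, g • v = v := Iff.rfl

theorem self_mem_cw (g : L) : g ∈ cw L (fx V g) := fun _ h => h

theorem op_mul_inv (g : L) : op V g * op V g⁻¹ = 1 := by rw [← map_mul, mul_inv_cancel, map_one]

theorem op_inv_mul (g : L) : op V g⁻¹ * op V g = 1 := by rw [← map_mul, inv_mul_cancel, map_one]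

theorem nu_conj (g t : L) : nu V (g * t * g⁻¹) = op V g * nu V t * op V g⁻¹ := by
  simp only [nu, map_mul, mul_add, add_mul, mul_one, op_mul_inv]

theorem tr_conj (g t : L) : tr V (g * t * g⁻¹) = op V g * tr V t * op V g⁻¹ := by
  simp only [tr, map_mul, mul_add, add_mul, mul_inv_rev, inv_inv, mul_assoc]

theorem smul_fx (g t : L) : g • fx V t = fx V (g * t * g⁻¹) := by
  ext v
  rw [AddSubgroup.mem_pointwise_smul_iff_inv_smul_mem, mem_fx, mem_fx, mul_smul, mul_smul,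
    smul_eq_iff_eq_inv_smul g]

theorem mem_smul_iff {g : L} {W : AddSubgroup V} {v : V} : v ∈ g • W ↔ g⁻¹ • v ∈ W := by
  exact AddSubgroup.mem_pointwise_smul_iff_inv_smul_mem

theorem smul_mem_of_smul_eq {g : L} {W : AddSubgroup V} (h : g • W = W) {v : V} (hv : v ∈ W) :
    g • v ∈ W := by
  rw [← h]
  exact AddSubgroup.smul_mem_pointwise_smul _ _ _ hv

theorem conj_mem_cw {g s : L} {W : AddSubgroup V} (h : s ∈ cw L W) :
    g * s * g⁻¹ ∈ cw L (g • W) := by
  intro v hv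
  rw [mul_smul, mul_smul, h _ (mem_smul_iff.1 hv), smul_inv_smul]

theorem mem_cw_smul {g s : L} {W : AddSubgroup V} : s ∈ cw L (g • W) ↔ g⁻¹ * s * g ∈ cw L W := by
  constructor
  · intro h
    have := conj_mem_cw (g := g⁻¹) h
    rwa [inv_smul_smul, inv_inv] at this
  · intro h
    have := conj_mem_cw (g := g) h
    rwa [show g * (g⁻¹ * s * g) * g⁻¹ = s by group] at this

theorem smul_eq_of_mem_cw {s : L} {W : AddSubgroup V} (h : s ∈ cw L W) : s • W = W := by
  ext v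
  rw [mem_smul_iff]
  constructor
  · intro hv
    have := h _ hv
    rw [smul_inv_smul] at this
    rwa [this]
  · intro hv
    rwa [(cw L W).inv_mem h v hv]

theorem smul_fx_of_commute {g t : L} (h : Commute g t) : g • fx V t = fx V t := by
  rw [smul_fx, h.eq, mul_inv_cancel_right]

theorem mem_normalizer_cw {g : L} {W : AddSubgroup V} (h : g • W = W) :
    g ∈ normalizer ((cw L W : Subgroup L) : Set L) := by
  rw [mem_normalizer_iff]
  intro s
  constructor
  · intro hs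
    have := conj_mem_cw (g := g) hs
    rwa [h] at this
  · intro hs
    rw [← h, mem_cw_smul] at hs
    rwa [show g⁻¹ * (g * s * g⁻¹) * g = s by group] at hs

theorem card_cw_smul (g : L) (W : AddSubgroup V) :
    Nat.card (cw L (g • W)) = Nat.card (cw L W) := by
  refine Nat.card_congr ⟨fun s => ⟨g⁻¹ * s * g, mem_cw_smul.1 s.2⟩,
    fun s => ⟨g * s * g⁻¹, conj_mem_cw s.2⟩, fun s => Subtype.ext ?_, fun s => Subtype.ext ?_⟩
  · change g * (g⁻¹ * s * g) * g⁻¹ = s
    group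
  · change g⁻¹ * (g * s * g⁻¹) * g = s
    group

theorem Iv.conj {t : L} (h : Iv t) (g : L) : Iv (g * t * g⁻¹) := by
  refine ⟨?_, fun e => h.2 ?_⟩
  · rw [show g * t * g⁻¹ * (g * t * g⁻¹) = g * (t * t) * g⁻¹ by group, h.1]
    group
  · rw [show t = g⁻¹ * (g * t * g⁻¹) * g by group, e]
    group

theorem Iv.inv_eq {t : L} (h : Iv t) : t⁻¹ = t := inv_eq_of_mul_eq_one_right h.1

theorem Iv.tw {t : L} (h : Iv t) : Tw t := ⟨1, by rw [pow_one, pow_two, h.1]⟩

theorem tw_of_mem {X : Subgroup L} (hX : IsPGroup 2 X) {x : L} (hx : x ∈ X) : Tw x := by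
  obtain ⟨n, hn⟩ := hX ⟨x, hx⟩
  exact ⟨n, congrArg Subtype.val hn⟩

theorem Tw.eq_one_of_odd {g : L} (h : Tw g) (ho : Odd (orderOf g)) : g = 1 := by
  obtain ⟨n, hn⟩ := h
  have h1 : orderOf g ∣ 2 ^ n := orderOf_dvd_of_pow_eq_one hn
  have h2 : (orderOf g).Coprime (2 ^ n) := (Nat.coprime_two_right.2 ho).pow_right n
  exact orderOf_eq_one_iff.1 (h2.eq_one_of_dvd h1)

/-- A nontrivial `2`-element has a power `g ^ 2 ^ i` that is an involution. -/
theorem Tw.exists_iv {g : L} (h : Tw g) (h1 : g ≠ 1) : ∃ i : ℕ, Iv (g ^ 2 ^ i) := by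
  classical
  have h0 : Nat.find h ≠ 0 := fun e => by
    have := Nat.find_spec h
    rw [e, pow_zero, pow_one] at this
    exact h1 this
  obtain ⟨i, hi⟩ := Nat.exists_eq_succ_of_ne_zero h0
  refine ⟨i, ?_, Nat.find_min h (by omega)⟩
  have := Nat.find_spec h
  rwa [hi, pow_succ, pow_mul, pow_two] at this

/-- A nilpotent map has a fixed vector on a nonzero section. -/
theorem exists_notMem_apply_mem {N : AddMonoid.End V} {n : ℕ} (hN : N ^ n = 0)
    {J W : AddSubgroup V} (hW : ∀ w ∈ W, N w ∈ W) (h : ¬ W ≤ J) :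
    ∃ w ∈ W, w ∉ J ∧ N w ∈ J := by
  by_contra hc
  push Not at hc
  have key : ∀ m, ∀ w ∈ W, (N ^ m) w ∈ J → w ∈ J := by
    intro m
    induction m with
    | zero => intro w _ hw; simpa using hw
    | succ m ih =>
      intro w hw h1
      rw [pow_succ] at h1
      by_contra h2
      exact hc w hw h2 (ih _ (hW w hw) h1)
  exact h fun w hw => key n w hw (by rw [hN]; exact J.zero_mem)

theorem card_ker_mul (f : V →+ V) : Nat.card f.ker * Nat.card f.range = Nat.card V := by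
  rw [← AddSubgroup.index_ker, AddSubgroup.card_mul_index]

theorem Sp.conj {a k : L} (h : Sp V a k) (g : L) : Sp V (g * a * g⁻¹) (g * k * g⁻¹) := by
  unfold Sp at *
  rw [nu_conj, map_mul, map_mul]
  calc _ = op V g * op V k * (op V g⁻¹ * op V g) * nu V a * (op V g⁻¹ * op V g) * op V k *
        op V g⁻¹ := by simp only [mul_assoc]
    _ = op V g * (op V k * nu V a * op V k) * op V g⁻¹ := by
        simp only [op_inv_mul, mul_one, mul_assoc]
    _ = _ := by rw [h]

theorem Sp.mul_nu {a k : L} (h : Sp V a k) : op V k * nu V a = nu V a * op V k⁻¹ := by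
  conv_rhs => rw [← show _ = nu V a from h]
  rw [mul_assoc, op_mul_inv, mul_one]

theorem Sp.nu_mul {a k : L} (h : Sp V a k) : nu V a * op V k = op V k⁻¹ * nu V a := by
  conv_rhs => rw [← show _ = nu V a from h]
  rw [← mul_assoc, ← mul_assoc, op_inv_mul, one_mul]

theorem Sp.inv {a k : L} (h : Sp V a k) : Sp V a k⁻¹ := by
  unfold Sp
  rw [← h.nu_mul, mul_assoc, op_mul_inv, mul_one]

theorem Sp.pow {a k : L} (h : Sp V a k) (n : ℕ) : Sp V a (k ^ n) := by
  induction n with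
  | zero => simp [Sp]
  | succ n ih =>
    unfold Sp at *
    calc _ = op V (k * k ^ n) * nu V a * op V (k ^ n * k) := by rw [← pow_succ, ← pow_succ']
      _ = op V k * (op V (k ^ n) * nu V a * op V (k ^ n)) * op V k := by
          simp only [map_mul, mul_assoc]
      _ = _ := by rw [ih, h]

theorem Sp.zpow {a k : L} (h : Sp V a k) (n : ℤ) : Sp V a (k ^ n) := by
  obtain ⟨m, rfl | rfl⟩ := n.eq_nat_or_neg
  · rw [zpow_natCast]; exact h.pow m
  · rw [zpow_neg, zpow_natCast]; exact (h.pow m).inv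

theorem Sp.of_mem_zpowers {a k k' : L} (h : Sp V a k) (hk : k' ∈ zpowers k) : Sp V a k' := by
  obtain ⟨n, rfl⟩ := hk
  exact h.zpow n

theorem Sp.nu_conj {a k : L} (h : Sp V a k) :
    nu V (k * a * k⁻¹) = op V k * op V k * nu V a := by
  rw [Gag2.nu_conj, mul_assoc, ← h.mul_nu, mul_assoc]

theorem Sp.conj_self {a k : L} (h : Sp V a k) : Sp V (k * a * k⁻¹) k := by
  have := h.conj k
  rwa [mul_inv_cancel_right] at this

namespace Hyp

variable (H : Hyp L V)
include H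

theorem add_self (x : AddMonoid.End V) : x + x = 0 := by
  ext v
  exact H.two _

theorem add_eq_zero_iff {v w : V} : v + w = 0 ↔ v = w := by
  constructor
  · intro h
    rw [eq_neg_of_add_eq_zero_left h, neg_eq_of_add_eq_zero_left (H.two w)]
  · rintro rfl
    exact H.two _

theorem add_eq_zero_iff_end {x y : AddMonoid.End V} : x + y = 0 ↔ x = y := by
  constructor
  · intro h
    rw [eq_neg_of_add_eq_zero_left h, neg_eq_of_add_eq_zero_left (H.add_self y)]
  · rintro rfl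
    exact H.add_self _

theorem op_inj {g h : L} (e : op V g = op V h) : g = h := by
  rw [← mul_inv_eq_one]
  refine H.faith _ fun v => ?_
  have : g • h⁻¹ • v = h • h⁻¹ • v := DFunLike.congr_fun e _
  rw [mul_smul, this, smul_inv_smul]

theorem nu_inj {g h : L} (e : nu V g = nu V h) : g = h := by
  exact H.op_inj (add_right_cancel e)

theorem op_eq (g : L) : op V g = nu V g + 1 := by
  rw [nu, add_assoc, H.add_self, add_zero]

theorem nu_one : nu V (1 : L) = 0 := by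
  rw [nu, map_one, H.add_self]

theorem nu_eq_zero_iff {g : L} : nu V g = 0 ↔ g = 1 := by
  exact ⟨fun e => H.nu_inj (e.trans H.nu_one.symm), fun e => e ▸ H.nu_one⟩

theorem mem_fx_iff {g : L} {v : V} : v ∈ fx V g ↔ nu V g v = 0 := by
  rw [mem_fx, nu_apply, H.add_eq_zero_iff]

theorem nu_mul (g h : L) : nu V (g * h) = nu V g * nu V h + nu V g + nu V h := by
  have h1 := H.add_self (op V g)
  have h2 := H.add_self (op V h)
  have h3 := H.add_self 1
  simp only [nu, map_mul]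
  calc _ = op V g * op V h + 1 + (op V g + op V g) + (op V h + op V h) + (1 + 1) := by
        rw [h1, h2, h3]; simp
    _ = _ := by noncomm_ring

theorem nu_pow (g : L) (n : ℕ) : nu V g ^ 2 ^ n = nu V (g ^ 2 ^ n) := by
  induction n with
  | zero => simp
  | succ n ih =>
    rw [pow_succ 2 n, pow_mul, pow_mul, ih, pow_two, pow_two, H.nu_mul, add_assoc, H.add_self,
      add_zero]

theorem tr_eq (g : L) : tr V g = op V g⁻¹ * (nu V g * nu V g) := by
  have h1 := H.nu_mul g g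
  rw [add_assoc, H.add_self, add_zero] at h1
  rw [← h1, nu, map_mul, mul_add, ← mul_assoc, op_inv_mul, one_mul, mul_one, tr]

theorem nu_mul_self {t : L} (h : t * t = 1) : nu V t * nu V t = 0 := by
  have h1 := H.nu_mul t t
  rw [add_assoc, H.add_self, add_zero, h, H.nu_one] at h1
  exact h1.symm

theorem nu_mem_fx {t : L} (h : t * t = 1) (v : V) : nu V t v ∈ fx V t := by
  rw [H.mem_fx_iff]
  exact DFunLike.congr_fun (H.nu_mul_self h) v

theorem exists_nu_eq {t : L} (h : Iv t) {v : V} (hv : v ∈ fx V t) : ∃ u, nu V t u = v :=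
  H.half t h v hv

theorem sp_smul_fx {a k : L} (h : Sp V a k) : k • fx V a = fx V a := by
  ext v
  rw [mem_smul_iff, H.mem_fx_iff, H.mem_fx_iff]
  have : nu V a (k⁻¹ • v) = k • nu V a v := (DFunLike.congr_fun h.mul_nu v).symm
  rw [this, smul_eq_zero_iff_eq]

theorem sp_fx_conj {a k : L} (h : Sp V a k) : fx V (k * a * k⁻¹) = fx V a := by
  rw [← smul_fx, H.sp_smul_fx h]

theorem tw_of_fix {g : L} {v : V} (h0 : v ≠ 0) (h : g • v = v) : Tw g := by
  exact tw_of_mem (H.stab v h0) h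

theorem eq_zero_of_odd {g : L} (ho : Odd (orderOf g)) (h1 : g ≠ 1) {v : V} (h : g • v = v) :
    v = 0 := by
  by_contra h0
  exact h1 ((H.tw_of_fix h0 h).eq_one_of_odd ho)

theorem isPGroup_cw {W : AddSubgroup V} (h : W ≠ ⊥) : IsPGroup 2 (cw L W) := by
  obtain ⟨⟨v, hv⟩, h0⟩ := (AddSubgroup.ne_bot_iff_exists_ne_zero).1 h
  exact (H.stab v fun e => h0 (Subtype.ext e)).to_le fun g hg => hg v hv

theorem fx_ne_top {t : L} (h : t ≠ 1) : fx V t ≠ ⊤ := by
  exact fun e => h (H.faith t fun v => (e ▸ AddSubgroup.mem_top v : v ∈ fx V t))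

theorem fx_ne_bot {t : L} (h : t * t = 1) : fx V t ≠ ⊥ := by
  intro e
  obtain ⟨v, hv⟩ := H.nt
  have h1 := H.nu_mem_fx h v
  rw [e, AddSubgroup.mem_bot, ← H.mem_fx_iff, e, AddSubgroup.mem_bot] at h1
  exact hv h1

/-- A special pair with `k` of odd order moves `a`. -/
theorem sp_conj_ne {a k : L} (h : Sp V a k) (ha : a ≠ 1) (ho : Odd (orderOf k)) (h1 : k ≠ 1) :
    k * a * k⁻¹ ≠ a := by
  intro e
  have h2 := h.nu_conj
  rw [e] at h2
  refine ha (H.nu_eq_zero_iff.1 ?_)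
  ext v
  have h3 : (k * k) • nu V a v = nu V a v := by
    rw [mul_smul]; exact (DFunLike.congr_fun h2 v).symm
  refine H.eq_zero_of_odd ?_ (fun e2 => h1 (Tw.eq_one_of_odd ⟨1, by rwa [pow_one, pow_two]⟩ ho)) h3
  rw [← pow_two]
  exact ho.of_dvd_nat (orderOf_pow_dvd 2)

theorem subgroup (S : Subgroup L) : Hyp S V := by
  refine ⟨H.two, fun g hg => Subtype.ext (H.faith g hg), fun v hv g => ?_, H.nt, fun t ht v hv => ?_⟩
  · obtain ⟨n, hn⟩ := H.tw_of_fix hv (g := ((g : S) : L)) g.2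
    exact ⟨n, Subtype.ext (Subtype.ext hn)⟩
  · exact H.half t ⟨congrArg Subtype.val ht.1, fun e => ht.2 (Subtype.ext e)⟩ v hv

variable [Finite L] [Finite V]

theorem exists_card_eq (W : AddSubgroup V) : ∃ n, Nat.card W = 2 ^ n := by
  haveI : Fact (Nat.Prime 2) := ⟨Nat.prime_two⟩
  exact FpfEnd.exists_card_eq_pow (fun v => by rw [two_smul, H.two]) W

/-- A `2`-group fixes a nonzero vector in every nonzero invariant subgroup. -/
theorem exists_fix {X : Subgroup L} (hX : IsPGroup 2 X) {W : AddSubgroup V} (h0 : W ≠ ⊥)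
    (hW : ∀ x ∈ X, ∀ v ∈ W, x • v ∈ W) : ∃ v ∈ W, v ≠ 0 ∧ ∀ x ∈ X, x • v = v := by
  haveI : Fact (Nat.Prime 2) := ⟨Nat.prime_two⟩
  exact FpfEnd.exists_mem_fix (ρ := op V) (fun v => by rw [two_smul, H.two]) hX hW h0

theorem card_fx_sq {t : L} (h : Iv t) : Nat.card (fx V t) ^ 2 = Nat.card V := by
  have h1 : AddMonoidHom.ker (nu V t : V →+ V) = fx V t := by
    ext v; exact H.mem_fx_iff.symm
  have h2 : AddMonoidHom.range (nu V t : V →+ V) = fx V t := by
    ext v
    exact ⟨fun ⟨u, hu⟩ => hu ▸ H.nu_mem_fx h.1 u, fun hv => H.exists_nu_eq h hv⟩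
  have h3 := card_ker_mul (nu V t)
  rw [h1, h2] at h3
  rw [pow_two, h3]

theorem fx_eq_of_le {s t : L} (hs : Iv s) (ht : Iv t) (h : fx V s ≤ fx V t) :
    fx V s = fx V t := by
  refine AddSubgroup.eq_of_le_of_card_ge h (le_of_eq ?_)
  exact Nat.pow_left_injective two_ne_zero ((H.card_fx_sq ht).trans (H.card_fx_sq hs).symm)

/-- Every cyclic `2`-group acts freely. -/
theorem nu_pow_ne_zero {g : L} {i : ℕ} (h : Iv (g ^ 2 ^ i)) : nu V g ^ (2 ^ (i + 1) - 1) ≠ 0 := by
  intro e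
  have hp : 0 < 2 ^ i := Nat.two_pow_pos i
  obtain ⟨m, hm⟩ : ∃ m, 2 ^ i = m + 1 := ⟨2 ^ i - 1, by omega⟩
  have e2 : 2 ^ (i + 1) - 1 = 2 ^ i + m := by rw [pow_succ]; omega
  rw [e2] at e
  -- `range N^m ≤ N (range N^m)`
  have h1 : ∀ v, ∃ u, (nu V g ^ m) v = nu V g ((nu V g ^ m) u) := fun v => by
    obtain ⟨u, hu⟩ := H.exists_nu_eq h (v := (nu V g ^ m) v) (by
      rw [H.mem_fx_iff, ← H.nu_pow]
      rw [pow_add] at e
      exact DFunLike.congr_fun e v)
    refine ⟨u, ?_⟩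
    rw [← hu, ← H.nu_pow, hm, pow_succ']
    rfl
  have h2 : ∀ n v, ∃ u, (nu V g ^ m) v = (nu V g ^ n) ((nu V g ^ m) u) := fun n => by
    induction n with
    | zero => exact fun v => ⟨v, rfl⟩
    | succ n ih =>
      intro v
      obtain ⟨u, hu⟩ := ih v
      obtain ⟨w, hw⟩ := h1 u
      exact ⟨w, by rw [hu, hw, pow_succ]; rfl⟩
  refine h.2 (H.nu_eq_zero_iff.1 ?_)
  rw [← H.nu_pow, hm, pow_succ']
  ext v
  obtain ⟨u, hu⟩ := h2 (2 ^ i) v
  have h3 : (nu V g ^ m) v = 0 := by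
    rw [hu]
    rw [pow_add] at e
    exact DFunLike.congr_fun e u
  change nu V g ((nu V g ^ m) v) = 0
  rw [h3, map_zero]

/-- The pointwise stabilizer of an axis consists of involutions with that axis. -/
theorem iv_of_mem_cw {t s : L} (ht : Iv t) (hs : s ∈ cw L (fx V t)) (h1 : s ≠ 1) :
    Iv s ∧ fx V s = fx V t := by
  obtain ⟨v₀, hv₀, h0⟩ : ∃ v ∈ fx V t, v ≠ 0 := by
    obtain ⟨⟨v, hv⟩, h0⟩ := (AddSubgroup.ne_bot_iff_exists_ne_zero).1 (H.fx_ne_bot ht.1)
    exact ⟨v, hv, fun e => h0 (Subtype.ext e)⟩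
  obtain ⟨i, hi⟩ := (H.tw_of_fix h0 (hs v₀ hv₀)).exists_iv h1
  have h2 : fx V t = fx V (s ^ 2 ^ i) :=
    H.fx_eq_of_le ht hi fun v hv => (cw L (fx V t)).pow_mem hs _ v hv
  have h3 : i = 0 := by
    by_contra hi0
    have hp : 2 ≤ 2 ^ i := Nat.succ_le_of_lt (Nat.one_lt_two_pow hi0)
    apply H.nu_pow_ne_zero hi
    obtain ⟨m, hm⟩ : ∃ m, 2 ^ (i + 1) - 1 = m + 1 + 2 ^ i := ⟨2 ^ i - 2, by rw [pow_succ]; omega⟩
    rw [hm, pow_add, pow_succ, H.nu_pow]
    ext v
    have h4 : nu V s (nu V (s ^ 2 ^ i) v) = 0 :=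
      H.mem_fx_iff.1 (hs _ (h2 ▸ H.nu_mem_fx hi.1 v))
    change (nu V s ^ m) (nu V s (nu V (s ^ 2 ^ i) v)) = 0
    rw [h4, map_zero]
  rw [h3, pow_zero, pow_one] at hi h2
  exact ⟨hi, h2.symm⟩

theorem mul_self_of_mem_cw {t s : L} (ht : Iv t) (hs : s ∈ cw L (fx V t)) : s * s = 1 := by
  by_cases h1 : s = 1
  · rw [h1, mul_one]
  · exact (H.iv_of_mem_cw ht hs h1).1.1

theorem nu_mem_of_mem_cw {t s : L} (ht : Iv t) (hs : s ∈ cw L (fx V t)) (v : V) :
    nu V s v ∈ fx V t := by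
  by_cases h1 : s = 1
  · rw [h1, H.nu_one]; exact (fx V t).zero_mem
  · obtain ⟨h2, h3⟩ := H.iv_of_mem_cw ht hs h1
    exact h3 ▸ H.nu_mem_fx h2.1 v

theorem nu_mul_nu_of_mem_cw {t s s' : L} (ht : Iv t) (hs : s ∈ cw L (fx V t))
    (hs' : s' ∈ cw L (fx V t)) : nu V s * nu V s' = 0 := by
  ext v
  exact H.mem_fx_iff.1 (hs _ (H.nu_mem_of_mem_cw ht hs' v))

theorem nu_mul_of_mem_cw {t s s' : L} (ht : Iv t) (hs : s ∈ cw L (fx V t))
    (hs' : s' ∈ cw L (fx V t)) : nu V (s * s') = nu V s + nu V s' := by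
  rw [H.nu_mul, H.nu_mul_nu_of_mem_cw ht hs hs', zero_add]

theorem commute_of_mem_cw {t s s' : L} (ht : Iv t) (hs : s ∈ cw L (fx V t))
    (hs' : s' ∈ cw L (fx V t)) : Commute s s' := by
  exact H.nu_inj (by rw [H.nu_mul_of_mem_cw ht hs hs', H.nu_mul_of_mem_cw ht hs' hs, add_comm])

theorem mem_cw_of_nu_mul {t s : L} (ht : Iv t) (h : nu V s * nu V t = 0) :
    s ∈ cw L (fx V t) := by
  intro v hv
  obtain ⟨u, rfl⟩ := H.exists_nu_eq ht hv
  exact H.mem_fx_iff.2 (DFunLike.congr_fun h u)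

theorem eq_one_of_mem_cw {s t g : L} (hs : Iv s) (ht : Iv t) (hne : fx V s ≠ fx V t)
    (h1 : g ∈ cw L (fx V s)) (h2 : g ∈ cw L (fx V t)) : g = 1 := by
  by_contra h
  exact hne ((H.iv_of_mem_cw hs h1 h).2.symm.trans (H.iv_of_mem_cw ht h2 h).2)

/-- Two axes with trivial intersection span `V`. -/
theorem exists_add_eq {s t : L} (hs : Iv s) (ht : Iv t) (h : fx V s ⊓ fx V t = ⊥) (v : V) :
    ∃ w ∈ fx V s, ∃ w' ∈ fx V t, w + w' = v := by
  let f : fx V s × fx V t → V := fun x => x.1 + x.2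
  have hf : Function.Injective f := by
    rintro ⟨a, b⟩ ⟨c, d⟩ e
    have e' : (a : V) + b = c + d := e
    have e1 : (a : V) - c = d - b := by rw [sub_eq_sub_iff_add_eq_add, e', add_comm]
    have h1 : (a : V) - c ∈ fx V s ⊓ fx V t :=
      ⟨(fx V s).sub_mem a.2 c.2, e1 ▸ (fx V t).sub_mem d.2 b.2⟩
    rw [h, AddSubgroup.mem_bot] at h1
    have h2 : (d : V) - b = 0 := e1 ▸ h1
    rw [sub_eq_zero] at h1 h2
    exact Prod.ext (Subtype.ext h1) (Subtype.ext h2.symm)
  have hc : Nat.card (fx V s × fx V t) = Nat.card V := by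
    have h1 : Nat.card (fx V s) = Nat.card (fx V t) :=
      Nat.pow_left_injective two_ne_zero ((H.card_fx_sq hs).trans (H.card_fx_sq ht).symm)
    rw [Nat.card_prod, h1, ← pow_two, H.card_fx_sq ht]
  obtain ⟨⟨a, b⟩, e⟩ := (hf.bijective_of_nat_card_le hc.ge).2 v
  exact ⟨a, a.2, b, b.2, e⟩

/-- A nontrivial `2`-element moves much. -/
theorem card_le_range_sq {c : L} (h : Tw c) (h1 : c ≠ 1) :
    Nat.card V ≤ Nat.card (AddMonoidHom.range (nu V c : V →+ V)) ^ 2 := by
  obtain ⟨i, hi⟩ := h.exists_iv h1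
  rw [← H.card_fx_sq hi]
  refine Nat.pow_le_pow_left (AddSubgroup.card_le_of_le fun v hv => ?_) 2
  obtain ⟨u, rfl⟩ := H.exists_nu_eq hi hv
  obtain ⟨m, hm⟩ : ∃ m, 2 ^ i = m + 1 := ⟨2 ^ i - 1, by have := Nat.two_pow_pos i; omega⟩
  exact ⟨(nu V c ^ m) u, by rw [← H.nu_pow, hm, pow_succ']; rfl⟩

end Hyp

/-- If `O₂(L) = 1`, every involution inverts an element of odd order (Baer–Suzuki), so it acts
freely. -/
theorem Hyp.of_core [Finite L] [Finite V] (two : ∀ v : V, v + v = 0)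
    (faith : ∀ g : L, (∀ v : V, g • v = v) → g = 1)
    (stab : ∀ v : V, v ≠ 0 → IsPGroup 2 (stabilizer L v)) (nt : ∃ v : V, v ≠ 0)
    (core : pCore 2 L = ⊥) : Hyp L V := by
  haveI : Fact (Nat.Prime 2) := ⟨Nat.prime_two⟩
  refine ⟨two, faith, stab, nt, fun t ht v hv => ?_⟩
  -- some conjugate `s` of `t` has no common fixed vector with `t`
  obtain ⟨g, hg⟩ : ∃ g : L, ∀ w : V, t • w = w → (g * t * g⁻¹) • w = w → w = 0 := by
    by_contra hc
    push Not at hc
    refine ht.2 (mem_bot.1 (core ▸ mem_pCore_of_forall_conj (p := 2) fun g => ?_))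
    obtain ⟨w, h1, h2, h0⟩ := hc g
    exact ⟨stabilizer L w, stab w h0, h1, h2⟩
  have hk : AddMonoidHom.ker (nu V t : V →+ V) = fx V t := by
    ext w
    change t • w + w = 0 ↔ t • w = w
    constructor
    · intro h
      rw [eq_neg_of_add_eq_zero_left h, neg_eq_of_add_eq_zero_left (two w)]
    · intro h
      rw [h, two]
  have hr : AddMonoidHom.range (nu V t : V →+ V) ≤ fx V t := by
    rintro _ ⟨u, rfl⟩
    change t • (t • u + u) = t • u + u
    rw [smul_add, ← mul_smul, ht.1, one_smul, add_comm]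
  have h3 := card_ker_mul (nu V t)
  rw [hk] at h3
  let f : fx V t × fx V t → V := fun x => x.1 + g • (x.2 : V)
  have hf : Function.Injective f := by
    rintro ⟨a, b⟩ ⟨c, d⟩ e
    have e' : (a : V) + g • (b : V) = c + g • (d : V) := e
    have e1 : (a : V) - c = g • ((d : V) - b) := by
      rw [smul_sub, sub_eq_sub_iff_add_eq_add, e', add_comm]
    have h1 : (a : V) - c = 0 := hg _ ((fx V t).sub_mem a.2 c.2) (by
      rw [e1, mul_smul, mul_smul, inv_smul_smul, mem_fx.1 ((fx V t).sub_mem d.2 b.2)])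
    have h2 : (d : V) - b = 0 := by rwa [h1, eq_comm, smul_eq_zero_iff_eq] at e1
    rw [sub_eq_zero] at h1 h2
    exact Prod.ext (Subtype.ext h1) (Subtype.ext h2.symm)
  have h4 := Nat.card_le_card_of_injective f hf
  rw [Nat.card_prod, ← h3] at h4
  have h5 := AddSubgroup.eq_of_le_of_card_ge hr (Nat.le_of_mul_le_mul_left h4 Nat.card_pos)
  have h6 : v ∈ AddMonoidHom.range (nu V t : V →+ V) := h5 ▸ hv
  exact h6

end Cfsg.Gag2

set_option linter.all false in
theorem Cfsg.Rz.Gag2_Defs_0 : True := by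
  have := @_root_.Cfsg.Gag2.Tw.eq_def.{0}
  have := @_root_.Cfsg.Gag2.Tw.eq_1.{0}
  have := @_root_.Cfsg.Gag2.Tw.fun_cases
  have := @_root_.Cfsg.Gag2.tr.eq_def.{0, 0}
  have := @_root_.Cfsg.Gag2.tr.eq_1.{0, 0}
  have := @_root_.Cfsg.Gag2.tr.fun_cases
  have := @_root_.Cfsg.Gag2.NA4.eq_def.{0}
  have := @_root_.Cfsg.Gag2.NA4.eq_1.{0}
  have := @_root_.Cfsg.Gag2.NA4.fun_cases
  have := @_root_.Cfsg.Gag2.nu.eq_def.{0, 0}
  have := @_root_.Cfsg.Gag2.nu.eq_1.{0, 0}
  have := @_root_.Cfsg.Gag2.nu.fun_cases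
  have := @_root_.Cfsg.Gag2.op.eq_def.{0, 0}
  have := @_root_.Cfsg.Gag2.op.eq_1.{0, 0}
  have := @_root_.Cfsg.Gag2.op.fun_cases
  have := @_root_.Cfsg.Gag2.Sp.eq_def.{0, 0}
  have := @_root_.Cfsg.Gag2.Sp.eq_1.{0, 0}
  have := @_root_.Cfsg.Gag2.Sp.fun_cases
  have := @_root_.Cfsg.Gag2.cw.eq_def.{0, 0}
  have := @_root_.Cfsg.Gag2.cw.eq_1.{0, 0}
  have := @_root_.Cfsg.Gag2.cw.fun_cases
  have := @_root_.Cfsg.Gag2.fx.eq_def.{0, 0}
  have := @_root_.Cfsg.Gag2.fx.eq_1.{0, 0}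
  have := @_root_.Cfsg.Gag2.fx.fun_cases
  have := @_root_.Cfsg.Gag2.Iv.eq_def.{0}
  have := @_root_.Cfsg.Gag2.Iv.eq_1.{0}
  have := @_root_.Cfsg.Gag2.Iv.fun_cases
  have := @_root_.Cfsg.Gag2.Hyp.mk.congr_simp.{0, 0}
  trivial
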