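import Cfsg.Agent.Gag2.Defs

/-!
# Elation geometry: a class of involutions with disjoint axes
-/

set_option autoImplicit false
set_option linter.unusedSectionVars false

namespace Cfsg.Gag2

open Subgroup MulAction
open scoped Pointwise

universe u v

/-- A normal set of involutions whose axes meet trivially. -/
structure EG {L : Type u} [Group L] (V : Type v) [AddCommGroup V] [DistribMulAction L V]
    (T : Set L) : Prop where
  iv : ∀ t ∈ T, Iv t
  conj : ∀ t ∈ T, ∀ g : L, g * t * g⁻¹ ∈ T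
  ti : ∀ s ∈ T, ∀ t ∈ T, ∀ v : V, v ≠ 0 → s • v = v → t • v = v → fx V s = fx V t
  full : ∀ t ∈ T, ∀ s ∈ cw L (fx V t), s ≠ 1 → s ∈ T

/-- The axes. -/
def Ax {L : Type u} [Group L] (V : Type v) [AddCommGroup V] [DistribMulAction L V] (T : Set L) :
    Set (AddSubgroup V) := fx V '' T

/-- The members of `T` mapping `W₁` to `W₂`. -/
def Sw {L : Type u} [Group L] {V : Type v} [AddCommGroup V] [DistribMulAction L V] (T : Set L)
    (W₁ W₂ : AddSubgroup V) : Set L := {j | j ∈ T ∧ j • W₁ = W₂}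

/-- The elation group of each axis is transitive on the other axes. -/
def Reg {L : Type u} [Group L] (V : Type v) [AddCommGroup V] [DistribMulAction L V] (T : Set L) :
    Prop :=
  ∀ W₁ ∈ Ax V T, ∀ W₂ ∈ Ax V T, ∀ W₃ ∈ Ax V T, W₂ ≠ W₁ → W₃ ≠ W₁ → ∃ a ∈ cw L W₁, a • W₂ = W₃

section dihedral

variable {L : Type u} [Group L] {s t : L}

theorem conj_pow_inv_left (is : Iv s) (it : Iv t) (m : ℕ) :
    s * (s * t) ^ m * s⁻¹ = ((s * t) ^ m)⁻¹ := by
  rw [← conj_pow, ← inv_pow, mul_inv_rev, is.inv_eq, it.inv_eq, ← mul_assoc, is.1, one_mul]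

theorem conj_pow_inv_right (is : Iv s) (it : Iv t) (m : ℕ) :
    t * (s * t) ^ m * t⁻¹ = ((s * t) ^ m)⁻¹ := by
  rw [← conj_pow, ← inv_pow, mul_inv_rev, is.inv_eq, it.inv_eq, mul_assoc, mul_assoc, it.1, mul_one]

theorem inv_pow_mul_left (is : Iv s) (it : Iv t) (m : ℕ) :
    ((s * t) ^ m)⁻¹ * s = s * (s * t) ^ m := by
  rw [← conj_pow_inv_left is it, inv_mul_cancel_right]

theorem inv_pow_mul_right (is : Iv s) (it : Iv t) (m : ℕ) :
    ((s * t) ^ m)⁻¹ * t = t * (s * t) ^ m := by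
  rw [← conj_pow_inv_right is it, inv_mul_cancel_right]

/-- Reflections are conjugate to `s` or to `t`. -/
theorem refl_mem {T : Set L} (is : Iv s) (it : Iv t) (hs : s ∈ T) (ht : t ∈ T)
    (hc : ∀ t ∈ T, ∀ g : L, g * t * g⁻¹ ∈ T) (m : ℕ) : s * (s * t) ^ m ∈ T := by
  obtain ⟨n, rfl | rfl⟩ := Nat.even_or_odd' m
  · have := hc s hs ((s * t) ^ n)⁻¹
    rwa [inv_pow_mul_left is it, inv_inv, mul_assoc, ← pow_add, ← two_mul] at this
  · have := hc t ht ((s * t) ^ n)⁻¹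
    rwa [inv_pow_mul_right is it, inv_inv, mul_assoc, ← pow_add, ← two_mul,
      show t * (s * t) ^ (2 * n) = s * (s * t) ^ (2 * n + 1) by
        rw [pow_succ', ← mul_assoc, ← mul_assoc, is.1, one_mul]] at this

theorem conj_eq (is : Iv s) (it : Iv t) {m : ℕ} (hm : orderOf (s * t) = 2 * m + 1) :
    (s * t) ^ m * s * ((s * t) ^ m)⁻¹ = t := by
  have h1 : (s * t) ^ m * ((s * t) ^ m * (s * t)) = 1 := by
    rw [← pow_succ, ← pow_add, show m + (m + 1) = 2 * m + 1 by omega, ← hm, pow_orderOf_eq_one]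
  rw [mul_assoc, ← conj_pow_inv_left is it, ← mul_assoc s, ← mul_assoc s, is.1, one_mul, is.inv_eq]
  calc (s * t) ^ m * ((s * t) ^ m * s) = (s * t) ^ m * ((s * t) ^ m * (s * t)) * t := by
        rw [mul_assoc, mul_assoc, mul_assoc, it.1, mul_one]
    _ = t := by rw [h1, one_mul]

theorem swap_eq (is : Iv s) (it : Iv t) {m : ℕ} (hm : orderOf (s * t) = 2 * m + 1) :
    s * (s * t) ^ (m + 1) * s * (s * (s * t) ^ (m + 1))⁻¹ = t := by
  have h1 : (s * t) ^ (m + 1) = ((s * t) ^ m)⁻¹ := by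
    refine eq_inv_of_mul_eq_one_right ?_
    rw [← pow_add, show m + (m + 1) = 2 * m + 1 by omega, ← hm, pow_orderOf_eq_one]
  have h2 : s * ((s * t) ^ m)⁻¹ = (s * t) ^ m * s := by
    rw [← conj_pow_inv_left is it, ← mul_assoc s, ← mul_assoc s, is.1, one_mul, is.inv_eq]
  rw [h1, h2, mul_inv_rev, mul_assoc _ s s, is.1, mul_one, is.inv_eq, ← mul_assoc]
  exact conj_eq is it hm

end dihedral

variable {L : Type u} [Group L] [Finite L] {V : Type v} [AddCommGroup V] [Finite V]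
  [DistribMulAction L V] {T : Set L}

namespace EG

variable (H : Hyp L V) (E : EG V T)
include H E

theorem smul_mem_Ax {W : AddSubgroup V} (hW : W ∈ Ax V T) (g : L) : g • W ∈ Ax V T := by
  obtain ⟨t, ht, rfl⟩ := hW
  exact ⟨_, E.conj t ht g, (smul_fx g t).symm⟩

theorem ne_bot {W : AddSubgroup V} (hW : W ∈ Ax V T) : W ≠ ⊥ := by
  obtain ⟨t, ht, rfl⟩ := hW
  exact H.fx_ne_bot (E.iv t ht).1

theorem inf_eq_bot {W₁ W₂ : AddSubgroup V} (h1 : W₁ ∈ Ax V T) (h2 : W₂ ∈ Ax V T) (h : W₁ ≠ W₂) :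
    W₁ ⊓ W₂ = ⊥ := by
  obtain ⟨s, hs, rfl⟩ := h1
  obtain ⟨t, ht, rfl⟩ := h2
  rw [eq_bot_iff]
  intro v hv
  by_contra h0
  exact h (E.ti s hs t ht v h0 hv.1 hv.2)

theorem exists_add_eq {W₁ W₂ : AddSubgroup V} (h1 : W₁ ∈ Ax V T) (h2 : W₂ ∈ Ax V T)
    (h : W₁ ≠ W₂) (v : V) : ∃ w ∈ W₁, ∃ w' ∈ W₂, w + w' = v := by
  have h3 := E.inf_eq_bot H h1 h2 h
  obtain ⟨s, hs, rfl⟩ := h1
  obtain ⟨t, ht, rfl⟩ := h2
  exact H.exists_add_eq (E.iv s hs) (E.iv t ht) h3 v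

theorem mem_of_mem_cw {W : AddSubgroup V} (hW : W ∈ Ax V T) {a : L} (ha : a ∈ cw L W)
    (h1 : a ≠ 1) : a ∈ T ∧ fx V a = W := by
  obtain ⟨t, ht, rfl⟩ := hW
  exact ⟨E.full t ht a ha h1, (H.iv_of_mem_cw (E.iv t ht) ha h1).2⟩

theorem mul_self_of_mem_cw {W : AddSubgroup V} (hW : W ∈ Ax V T) {a : L} (ha : a ∈ cw L W) :
    a * a = 1 := by
  obtain ⟨t, ht, rfl⟩ := hW
  exact H.mul_self_of_mem_cw (E.iv t ht) ha

theorem exists_card_cw {W : AddSubgroup V} (hW : W ∈ Ax V T) :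
    ∃ e, 0 < e ∧ Nat.card (cw L W) = 2 ^ e := by
  have : Fact (Nat.Prime 2) := ⟨Nat.prime_two⟩
  obtain ⟨e, he⟩ := (H.isPGroup_cw (E.ne_bot H hW)).exists_card_eq
  refine ⟨e, Nat.pos_of_ne_zero fun h0 => ?_, he⟩
  rw [h0, pow_zero, card_eq_one] at he
  obtain ⟨t, ht, rfl⟩ := hW
  exact (E.iv t ht).2 (mem_bot.1 (he ▸ self_mem_cw t))

/-- A member of `T` fixes only its own axis (it fixes a nonzero vector of a fixed axis). -/
theorem eq_of_smul {t : L} (ht : t ∈ T) {W : AddSubgroup V} (hW : W ∈ Ax V T) (h : t • W = W) :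
    W = fx V t := by
  have hX : IsPGroup 2 (zpowers t) :=
    (H.isPGroup_cw (H.fx_ne_bot (E.iv t ht).1)).to_le (zpowers_le.2 (self_mem_cw t))
  obtain ⟨v, hv, h0, hf⟩ := H.exists_fix hX (E.ne_bot H hW) (fun x hx v hv =>
    smul_mem_of_smul_eq (mem_stabilizer_iff.1 (zpowers_le.2 (mem_stabilizer_iff.2 h) hx)) hv)
  obtain ⟨s, hs, rfl⟩ := hW
  exact E.ti s hs t ht v h0 hv (hf t (mem_zpowers t))

theorem eq_one_of_smul {W₁ W₂ : AddSubgroup V} (h1 : W₁ ∈ Ax V T) (h2 : W₂ ∈ Ax V T)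
    (h : W₁ ≠ W₂) {a : L} (ha : a ∈ cw L W₁) (e : a • W₂ = W₂) : a = 1 := by
  by_contra a1
  obtain ⟨h3, h4⟩ := E.mem_of_mem_cw H h1 ha a1
  exact h (h4.symm.trans (E.eq_of_smul H h3 h2 e).symm)

/-- Otherwise the central involution `z = (s t) ^ m` of the dihedral group has `s z` conjugate to `s`
or to `t`, so `s z ∈ T` commutes with `s`, `z ∈ cw (fx s)`; likewise `z ∈ cw (fx t)`. -/
theorem odd_mul {s t : L} (hs : s ∈ T) (ht : t ∈ T) (h : fx V s ≠ fx V t) :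
    Odd (orderOf (s * t)) := by
  have is := E.iv s hs
  have it := E.iv t ht
  by_contra ho
  obtain ⟨m, hm⟩ := Nat.not_odd_iff_even.1 ho
  have hm0 : 0 < m := by have := orderOf_pos (s * t); omega
  have hz1 : (s * t) ^ m ≠ 1 := pow_ne_one_of_lt_orderOf hm0.ne' (by omega)
  have hz2 : (s * t) ^ m * (s * t) ^ m = 1 := by rw [← pow_add, ← hm, pow_orderOf_eq_one]
  have hinv : ((s * t) ^ m)⁻¹ = (s * t) ^ m := inv_eq_of_mul_eq_one_right hz2
  -- a member of `T` of the form `u z` commuting with `u`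
  have key : ∀ u ∈ T, u * (s * t) ^ m ∈ T → u * (s * t) ^ m * u⁻¹ = ((s * t) ^ m)⁻¹ →
      (s * t) ^ m ∈ cw L (fx V u) := fun u hu huz hc => by
    rw [hinv] at hc
    have hc' : Commute (u * (s * t) ^ m) u := by
      change u * (s * t) ^ m * u = u * (u * (s * t) ^ m)
      rw [mul_assoc, ← mul_inv_eq_iff_eq_mul.1 hc]
    have h1 := E.eq_of_smul H huz ⟨u, hu, rfl⟩ (smul_fx_of_commute hc')
    have h2 : u * (s * t) ^ m ∈ cw L (fx V u) := h1 ▸ self_mem_cw _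
    exact (mul_mem_cancel_left (self_mem_cw u)).1 h2
  have hsT := refl_mem is it hs ht E.conj
  refine hz1 (H.eq_one_of_mem_cw is it h (key s hs (hsT m) (conj_pow_inv_left is it m))
    (key t ht ?_ (conj_pow_inv_right is it m)))
  obtain ⟨n, rfl⟩ : ∃ n, m = n + 1 := ⟨m - 1, by omega⟩
  have := hsT (n + 2)
  rwa [show s * (s * t) ^ (n + 2) = t * (s * t) ^ (n + 1) by
    rw [pow_succ' _ (n + 1), ← mul_assoc, ← mul_assoc, is.1, one_mul]] at this

/-- `j = (s t) ^ m s` with `2 m + 1 = orderOf (s t)`-type exponent; `j` is conjugate to `s`. -/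
theorem exists_swap {s t : L} (hs : s ∈ T) (ht : t ∈ T) (h : fx V s ≠ fx V t) :
    ∃ j ∈ T, j ∈ closure ({s, t} : Set L) ∧ j * s * j⁻¹ = t := by
  have is := E.iv s hs
  have it := E.iv t ht
  obtain ⟨m, hm⟩ := E.odd_mul H hs ht h
  have h1 : s ∈ closure ({s, t} : Set L) := subset_closure (by simp)
  have h2 : t ∈ closure ({s, t} : Set L) := subset_closure (by simp)
  refine ⟨s * (s * t) ^ (m + 1), refl_mem is it hs ht E.conj _,
    mul_mem h1 (pow_mem (mul_mem h1 h2) _), swap_eq is it hm⟩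

theorem sw_nonempty {W₁ W₂ : AddSubgroup V} (h1 : W₁ ∈ Ax V T) (h2 : W₂ ∈ Ax V T)
    (h : W₁ ≠ W₂) : (Sw T W₁ W₂).Nonempty := by
  obtain ⟨s, hs, rfl⟩ := h1
  obtain ⟨t, ht, rfl⟩ := h2
  obtain ⟨j, hj, -, e⟩ := E.exists_swap H hs ht h
  exact ⟨j, hj, by rw [smul_fx, e]⟩

theorem sw_symm {W₁ W₂ : AddSubgroup V} {j : L} (hj : j ∈ Sw T W₁ W₂) : j ∈ Sw T W₂ W₁ := by
  refine ⟨hj.1, ?_⟩
  rw [← hj.2, ← mul_smul, (E.iv j hj.1).1, one_smul]

theorem card_cw_eq {W₁ W₂ : AddSubgroup V} (h1 : W₁ ∈ Ax V T) (h2 : W₂ ∈ Ax V T) :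
    Nat.card (cw L W₁) = Nat.card (cw L W₂) := by
  by_cases h : W₁ = W₂
  · rw [h]
  · obtain ⟨j, -, e⟩ := E.sw_nonempty H h1 h2 h
    rw [← e, card_cw_smul]

/-- Two swapping involutions have a product of odd order (equal axes force `j = j'`). -/
theorem odd_mul_sw {W₁ W₂ : AddSubgroup V} (h1 : W₁ ∈ Ax V T) (h2 : W₂ ∈ Ax V T) (h : W₁ ≠ W₂)
    {j j' : L} (hj : j ∈ Sw T W₁ W₂) (hj' : j' ∈ Sw T W₁ W₂) : Odd (orderOf (j * j')) := by
  by_cases e : fx V j = fx V j'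
  · have h3 : j * j' ∈ cw L (fx V j) := mul_mem (self_mem_cw j) (e ▸ self_mem_cw j')
    have h4 : fx V j ≠ W₁ := fun e' => h (by
      rw [← hj.2, ← e', smul_eq_of_mem_cw (self_mem_cw j)])
    rw [E.eq_one_of_smul H ⟨j, hj.1, rfl⟩ h1 h4 h3 (by rw [mul_smul, hj'.2, (E.sw_symm H hj).2]),
      orderOf_one]
    exact odd_one
  · exact E.odd_mul H hj.1 hj'.1 e

/-- With `j₀ ∈ ⟨a, j a j⟩` from `exists_swap`, `j j₀` centralizes `a`, `j a j`, hence `j₀`; so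
`(j j₀)² = 1` and `j j₀` has odd order; the same for `j'`. -/
theorem sw_inj {W₁ W₂ : AddSubgroup V} (h1 : W₁ ∈ Ax V T) (h2 : W₂ ∈ Ax V T) (h : W₁ ≠ W₂)
    {j j' : L} (hj : j ∈ Sw T W₁ W₂) (hj' : j' ∈ Sw T W₁ W₂) {a : L} (ha : a ∈ cw L W₁)
    (a1 : a ≠ 1) (e : j * a * j⁻¹ = j' * a * j'⁻¹) : j = j' := by
  obtain ⟨haT, hfa⟩ := E.mem_of_mem_cw H h1 ha a1
  have hbT := E.conj a haT j
  have hfb : fx V (j * a * j⁻¹) = W₂ := by rw [← smul_fx, hfa, hj.2]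
  obtain ⟨j₀, hj₀, hcl, e₀⟩ := E.exists_swap H haT hbT (by rw [hfa, hfb]; exact h)
  have hj₀' : j₀ ∈ Sw T W₁ W₂ := ⟨hj₀, by rw [← hfa, smul_fx, e₀, hfb]⟩
  have i₀ := E.iv j₀ hj₀
  have key : ∀ i ∈ Sw T W₁ W₂, i * a * i⁻¹ = j * a * j⁻¹ → i = j₀ := fun i hi ei => by
    have ii := E.iv i hi.1
    have c1 : Commute (i * j₀) a := by
      have : i * j₀ * a * (i * j₀)⁻¹ = a := by
        rw [show i * j₀ * a * (i * j₀)⁻¹ = i * (j₀ * a * j₀⁻¹) * i⁻¹ by group, e₀, ← ei,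
          show i * (i * a * i⁻¹) * i⁻¹ = (i * i) * a * (i * i)⁻¹ by group, ii.1]
        group
      exact mul_inv_eq_iff_eq_mul.1 this
    have c2 : Commute (i * j₀) (j * a * j⁻¹) := by
      have : i * j₀ * (j * a * j⁻¹) * (i * j₀)⁻¹ = j * a * j⁻¹ := by
        conv_lhs => rw [← e₀]
        rw [show i * j₀ * (j₀ * a * j₀⁻¹) * (i * j₀)⁻¹ = i * ((j₀ * j₀) * a * (j₀ * j₀)⁻¹) * i⁻¹ by
          group, i₀.1, ← ei]
        group
      exact mul_inv_eq_iff_eq_mul.1 this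
    have c3 : Commute (i * j₀) j₀ := by
      have : closure ({a, j * a * j⁻¹} : Set L) ≤ centralizer {i * j₀} := by
        rw [closure_le]
        rintro x (rfl | rfl)
        · exact mem_centralizer_singleton_iff.2 c1.eq.symm
        · exact mem_centralizer_singleton_iff.2 c2.eq.symm
      exact (mem_centralizer_singleton_iff.1 (this hcl)).symm
    have h3 : (i * j₀) ^ 2 ^ 1 = 1 := by
      rw [pow_one, pow_two, ← mul_assoc, mul_assoc i j₀ i]
      have : j₀ * i = i * j₀ := by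
        have h4 := c3.eq
        rw [mul_assoc, i₀.1, mul_one] at h4
        conv_rhs => rw [h4]
        rw [mul_assoc, mul_assoc, i₀.1, mul_one]
      rw [this, ← mul_assoc, ii.1, one_mul, i₀.1]
    have h5 := Tw.eq_one_of_odd ⟨1, h3⟩ (E.odd_mul_sw H h1 h2 h hi hj₀')
    rw [eq_inv_of_mul_eq_one_left h5, i₀.inv_eq]
  rw [key j hj rfl, key j' hj' e.symm]

/-- `j ↦ j a j⁻¹` is a bijection onto the nonidentity elements of `cw W₂`. -/
theorem card_sw {W₁ W₂ : AddSubgroup V} (h1 : W₁ ∈ Ax V T) (h2 : W₂ ∈ Ax V T) (h : W₁ ≠ W₂) :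
    Nat.card (Sw T W₁ W₂) + 1 = Nat.card (cw L W₁) := by
  obtain ⟨a, haT, hfa⟩ := id h1
  have ia := E.iv a haT
  have ha : a ∈ cw L W₁ := hfa ▸ self_mem_cw a
  let f : Option (Sw T W₁ W₂) → cw L W₂ := fun o => match o with
    | none => 1
    | some j => ⟨j * a * (j : L)⁻¹, by
        have := conj_mem_cw (g := (j : L)) ha
        rwa [j.2.2] at this⟩
  have hf : Function.Bijective f := by
    constructor
    · rintro (_ | j) (_ | j') e
      · rfl
      · exact absurd (congrArg Subtype.val e).symm (ia.conj j').2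
      · exact absurd (congrArg Subtype.val e) (ia.conj j).2
      · exact congrArg some (Subtype.ext
          (E.sw_inj H h1 h2 h j.2 j'.2 ha ia.2 (congrArg Subtype.val e)))
    · rintro ⟨b, hb⟩
      by_cases b1 : b = 1
      · exact ⟨none, Subtype.ext b1.symm⟩
      · obtain ⟨hbT, hfb⟩ := E.mem_of_mem_cw H h2 hb b1
        obtain ⟨j, hj, -, e⟩ := E.exists_swap H haT hbT (by rw [hfa, hfb]; exact h)
        exact ⟨some ⟨j, hj, by rw [← hfa, smul_fx, e, hfb]⟩, Subtype.ext e⟩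
  rw [E.card_cw_eq H h1 h2, ← Nat.card_eq_of_bijective f hf, Finite.card_option]

/-- The stabilizer `D` of `W₁` and `W₂` is transitive on `Sw T W₁ W₂` by conjugation (odd dihedral
groups), so `|cw W₁| - 1` divides `|D|`; Cauchy. -/
theorem exists_orderOf_stab {W₁ W₂ : AddSubgroup V} (h1 : W₁ ∈ Ax V T) (h2 : W₂ ∈ Ax V T)
    (h : W₁ ≠ W₂) {r : ℕ} (hr : r.Prime) (hd : r ∣ Nat.card (cw L W₁) - 1) :
    ∃ g : L, orderOf g = r ∧ g • W₁ = W₁ ∧ g • W₂ = W₂ := by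
  have : Fact r.Prime := ⟨hr⟩
  obtain ⟨j, hj⟩ := E.sw_nonempty H h1 h2 h
  let D : Subgroup L := stabilizer L W₁ ⊓ stabilizer L W₂
  let C : Subgroup L := centralizer {j}
  -- the `D`-class of `j` is `Sw`
  have hcard : Nat.card (Sw T W₁ W₂) = C.relIndex D := by
    letI : MulAction D L := MulAction.compHom L ((MulAut.conj (G := L)).comp D.subtype)
    have h3 : orbit D j = Sw T W₁ W₂ := by
      ext i
      constructor
      · rintro ⟨d, rfl⟩
        refine ⟨E.conj j hj.1 d, ?_⟩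
        change ((d : L) * j * (d : L)⁻¹) • W₁ = W₂
        rw [mul_smul, mul_smul, mem_stabilizer_iff.1 (D.inv_mem d.2).1, hj.2,
          mem_stabilizer_iff.1 d.2.2]
      · intro hi
        obtain ⟨m, hm⟩ := E.odd_mul_sw H h1 h2 h hj hi
        have hd : j * i ∈ D := mem_inf.2
          ⟨by rw [mem_stabilizer_iff, mul_smul, hi.2, (E.sw_symm H hj).2],
          by rw [mem_stabilizer_iff, mul_smul, (E.sw_symm H hi).2, hj.2]⟩
        refine ⟨⟨(j * i) ^ m, pow_mem hd _⟩, ?_⟩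
        exact conj_eq (E.iv j hj.1) (E.iv i hi.1) hm
    have h4 : stabilizer D j = C.subgroupOf D := by
      ext d
      rw [mem_stabilizer_iff, mem_subgroupOf, mem_centralizer_singleton_iff]
      exact mul_inv_eq_iff_eq_mul
    rw [← h3, Nat.card_coe_set_eq, ← index_stabilizer, h4]
    rfl
  have h5 : r ∣ Nat.card D := by
    rw [← E.card_sw H h1 h2 h, Nat.add_sub_cancel, hcard] at hd
    exact hd.trans (relIndex_dvd_card C D)
  obtain ⟨g, hg⟩ := exists_prime_orderOf_dvd_card' r h5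
  exact ⟨g, by rw [← hg, orderOf_coe], g.2.1, g.2.2⟩

/-- Semiregularity and counting at one axis, then conjugation. -/
theorem reg_of_card {W : AddSubgroup V} (hW : W ∈ Ax V T)
    (h : Nat.card (Ax V T) = Nat.card (cw L W) + 1) : Reg V T := by
  have key : ∀ W₂ ∈ Ax V T, ∀ W₃ ∈ Ax V T, W₂ ≠ W → W₃ ≠ W → ∃ a ∈ cw L W, a • W₂ = W₃ := by
    intro W₂ h2 W₃ h3 n2 n3
    have : Finite (Ax V T) := Set.Finite.image _ (Set.toFinite T)
    let f : Option (cw L W) → Ax V T := fun o => match o with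
      | none => ⟨W, hW⟩
      | some a => ⟨(a : L) • W₂, E.smul_mem_Ax H h2 a⟩
    have hne : ∀ a : cw L W, (a : L) • W₂ ≠ W := fun a e => n2 (by
      rw [smul_eq_iff_eq_inv_smul, smul_eq_of_mem_cw ((cw L W).inv_mem a.2)] at e
      exact e)
    have hf : Function.Injective f := by
      rintro (_ | a) (_ | a') e
      · rfl
      · exact absurd (congrArg Subtype.val e).symm (hne a')
      · exact absurd (congrArg Subtype.val e) (hne a)
      · have e' : (a : L) • W₂ = (a' : L) • W₂ := congrArg Subtype.val e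
        have := E.eq_one_of_smul H hW h2 n2.symm (mul_mem (inv_mem a'.2) a.2)
          (by rw [mul_smul, e', inv_smul_smul])
        exact congrArg some (Subtype.ext (inv_mul_eq_one.1 this).symm)
    obtain ⟨o, e⟩ := (hf.bijective_of_nat_card_le (by rw [h, Finite.card_option])).2 ⟨W₃, h3⟩
    rcases o with _ | a
    · exact absurd (congrArg Subtype.val e).symm n3
    · exact ⟨a, a.2, congrArg Subtype.val e⟩
  intro W₁ h1 W₂ h2 W₃ h3 n2 n3
  by_cases e : W₁ = W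
  · subst e
    exact key W₂ h2 W₃ h3 n2 n3
  · obtain ⟨j, -, ej⟩ := E.sw_nonempty H h1 hW e
    obtain ⟨a, ha, ea⟩ := key (j • W₂) (E.smul_mem_Ax H h2 j) (j • W₃) (E.smul_mem_Ax H h3 j)
      (fun e' => n2 (smul_left_cancel j (e'.trans ej.symm)))
      (fun e' => n3 (smul_left_cancel j (e'.trans ej.symm)))
    refine ⟨j⁻¹ * a * j, mem_cw_smul.1 (ej ▸ ha), ?_⟩
    rw [mul_smul, mul_smul, ea, inv_smul_smul]

/-- Take a third axis `W₃ = a • W₂` (`1 ≠ a ∈ cw W₁`; `W₃ ≠ W₁, W₂`) and `b ∈ cw W₂` with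
`b • W₁ = W₃`.  Both `a b a` and `b a b` have axis `W₃` and map `W₁` to `W₂`. -/
theorem exists_braid (R : Reg V T) {W₁ W₂ : AddSubgroup V} (h1 : W₁ ∈ Ax V T)
    (h2 : W₂ ∈ Ax V T) (h : W₁ ≠ W₂) {a : L} (ha : a ∈ cw L W₁) (a1 : a ≠ 1) :
    ∃ b ∈ cw L W₂, b ≠ 1 ∧ a * b * a = b * a * b := by
  obtain ⟨haT, hfa⟩ := E.mem_of_mem_cw H h1 ha a1
  have ia := E.iv a haT
  have h3 := E.smul_mem_Ax H h2 a
  have n2 : a • W₂ ≠ W₂ := fun e => a1 (E.eq_one_of_smul H h1 h2 h ha e)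
  have a₁ : a • W₁ = W₁ := smul_eq_of_mem_cw ha
  have n1 : a • W₂ ≠ W₁ := fun e => h (smul_left_cancel a (a₁.trans e.symm))
  obtain ⟨b, hb, eb⟩ := R W₂ h2 W₁ h1 _ h3 h n2
  have b1 : b ≠ 1 := fun e => n1 (by rw [← eb, e, one_smul])
  have bb := E.mul_self_of_mem_cw H h2 hb
  have b₂ : b • W₂ = W₂ := smul_eq_of_mem_cw hb
  have bi : b⁻¹ = b := inv_eq_of_mul_eq_one_right bb
  have m1 : a * b * a ∈ cw L (a • W₂) := by
    have := conj_mem_cw (g := a) hb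
    rwa [ia.inv_eq] at this
  have m2 : b * a * b ∈ cw L (a • W₂) := by
    have := conj_mem_cw (g := b) ha
    rwa [bi, eb] at this
  refine ⟨b, hb, b1, ?_⟩
  have := E.eq_one_of_smul H h3 h1 n1 (mul_mem (inv_mem m1) m2) (by
    rw [mul_smul, inv_smul_eq_iff, mul_smul, mul_smul, mul_smul, mul_smul, a₁, eb, ← mul_smul a a,
      ia.1, one_smul, b₂])
  exact inv_mul_eq_one.1 this

end EG

end Cfsg.Gag2

set_option linter.all false in
theorem Cfsg.Rz.Gag2_Elat_0 : True := by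
  have := @_root_.Cfsg.Gag2.Reg.eq_def.{0, 0}
  have := @_root_.Cfsg.Gag2.Reg.eq_1.{0, 0}
  have := @_root_.Cfsg.Gag2.Reg.fun_cases
  have := @_root_.Cfsg.Gag2.Ax.eq_def.{0, 0}
  have := @_root_.Cfsg.Gag2.Ax.eq_1.{0, 0}
  have := @_root_.Cfsg.Gag2.Ax.fun_cases
  have := @_root_.Cfsg.Gag2.EG.mk.congr_simp.{0, 0}
  have := @_root_.Cfsg.Gag2.Sw.eq_def.{0, 0}
  have := @_root_.Cfsg.Gag2.Sw.eq_1.{0, 0}
  have := @_root_.Cfsg.Gag2.Sw.fun_cases
  trivial
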