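import Cfsg.Agent.Gag2.Defs
import Cfsg.Agent.Grp.FreeCyc
import Mathlib.GroupTheory.SpecificGroups.ZGroup

/-!
# Subgroups of odd order are Z-groups
-/

set_option autoImplicit false
set_option linter.unusedSectionVars false

namespace Cfsg.Gag2

open Subgroup MulAction
open scoped Pointwise

universe u v

/-- A Z-group generated by elements that centralize the commutator subgroup is cyclic
(`G'` is central, so `G` is nilpotent; Mathlib: nilpotent Z-groups are cyclic). -/
theorem isCyclic_of_gen_centralizes {G : Type u} [Group G] [Finite G] [IsZGroup G] {X : Set G}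
    (hX : closure X = ⊤) (h : ∀ x ∈ X, ∀ c ∈ commutator G, Commute x c) : IsCyclic G := by
  have h1 : commutator G ≤ center G := fun c hc => by
    rw [mem_center_iff]
    intro g
    have : closure X ≤ centralizer {c} := (closure_le _).2 fun x hx =>
      mem_centralizer_singleton_iff.2 (h x hx c hc).eq
    exact mem_centralizer_singleton_iff.1 (this (hX ▸ mem_top g))
  have : Group.IsNilpotent G :=
    Subgroup.isNilpotent_of_ker_le_center (Abelianization.of (G := G))
      (by rwa [Abelianization.ker_of])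
  infer_instance

/-- In a group `Γ`, let `K` be a Z-subgroup of odd order generated by elements inverted by `j`.
Then `K` is cyclic.  (`K'` is cyclic, `Aut K'` is abelian, so `x` and `j x j⁻¹ = x⁻¹` induce the
same automorphism of `K'`; odd order.) -/
theorem isCyclic_of_inverted {Γ : Type u} [Group Γ] [Finite Γ] {X : Set Γ} {j : Γ}
    [IsZGroup (closure X)] (ho : Odd (Nat.card (closure X))) (h : ∀ x ∈ X, j * x * j⁻¹ = x⁻¹) :
    IsCyclic (closure X) := by
  have hj : ∀ g ∈ closure X, j * g * j⁻¹ ∈ closure X := fun g hg => by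
    induction hg using closure_induction with
    | mem x hx => rw [h x hx]; exact inv_mem (subset_closure hx)
    | one => simp
    | mul a b _ _ ha hb =>
      rw [show j * (a * b) * j⁻¹ = j * a * j⁻¹ * (j * b * j⁻¹) by group]
      exact mul_mem ha hb
    | inv a _ ha =>
      rw [show j * a⁻¹ * j⁻¹ = (j * a * j⁻¹)⁻¹ by group]
      exact inv_mem ha
  let φ : closure X →* closure X :=
    { toFun := fun g => ⟨j * g * j⁻¹, hj g g.2⟩
      map_one' := Subtype.ext (by simp)
      map_mul' := fun a b => Subtype.ext (by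
        change j * ((a : Γ) * b) * j⁻¹ = j * a * j⁻¹ * (j * b * j⁻¹)
        group) }
  have hφ : Function.Injective φ := fun a b e => Subtype.ext (by
    have : j * (a : Γ) * j⁻¹ = j * b * j⁻¹ := congrArg Subtype.val e
    simpa using this)
  refine isCyclic_of_gen_centralizes (X := Subtype.val ⁻¹' X) (closure_preimage_eq_top X) ?_
  intro x hx c hc
  have hcyc := IsZGroup.isCyclic_commutator (closure X)
  obtain ⟨⟨c₀, hc₀⟩, hgen⟩ := hcyc.exists_generator
  have hpow : ∀ d ∈ commutator (closure X), ∃ n : ℤ, d = c₀ ^ n := fun d hd => by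
    obtain ⟨n, hn⟩ := hgen ⟨d, hd⟩
    exact ⟨n, (congrArg Subtype.val hn).symm⟩
  have hφc : φ c₀ ∈ commutator (closure X) := by
    have := map_commutator (⊤ : Subgroup (closure X)) ⊤ φ
    have h2 : φ c₀ ∈ (commutator (closure X)).map φ := mem_map_of_mem φ hc₀
    rw [_root_.commutator_def, this] at h2
    exact commutator_mono le_top le_top h2
  obtain ⟨m, hm⟩ := hpow _ hφc
  obtain ⟨n, hn⟩ := hpow _ ((commutator_normal ⊤ ⊤).conj_mem c₀ hc₀ x)
  have hx' : φ x = x⁻¹ := Subtype.ext (h x hx)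
  -- `x⁻¹ (φ c₀) x = (φ c₀) ^ n = x (φ c₀) x⁻¹`
  have e1 : x⁻¹ * φ c₀ * x = φ c₀ ^ n := by
    rw [← map_zpow, ← hn, map_mul, map_mul, map_inv, hx', inv_inv]
  have e2 : x * φ c₀ * x⁻¹ = φ c₀ ^ n := by
    rw [hm, ← conj_zpow, hn, ← zpow_mul, ← zpow_mul, mul_comm]
  have e3 : Commute (x ^ 2) (φ c₀) := by
    change x ^ 2 * φ c₀ = φ c₀ * x ^ 2
    calc x ^ 2 * φ c₀ = x * (x * φ c₀ * x⁻¹) * x := by rw [pow_two]; group
      _ = x * (x⁻¹ * φ c₀ * x) * x := by rw [e1, e2]
      _ = φ c₀ * x ^ 2 := by rw [pow_two]; group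
  have e4 : Commute x (φ c₀) := by
    obtain ⟨k, hk⟩ := ho
    have : x = (x ^ 2) ^ (k + 1) := by
      rw [← pow_mul, show 2 * (k + 1) = 2 * k + 1 + 1 by ring, ← hk, pow_succ, pow_card_eq_one',
        one_mul]
    rw [this]
    exact e3.pow_left _
  have e5 : Commute x c₀ := by
    have : φ (x⁻¹ * c₀) = φ (c₀ * x⁻¹) := by
      rw [map_mul, map_mul, map_inv, hx', inv_inv, e4.eq]
    have h3 : Commute x⁻¹ c₀ := hφ this
    simpa using h3.inv_left
  obtain ⟨i, rfl⟩ := hpow c hc
  exact e5.zpow_right i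

theorem mem_zpowers_of_isCyclic {Γ : Type u} [Group Γ] [Finite Γ] {R : Subgroup Γ}
    (hc : IsCyclic R) {a b : Γ} (ha : a ∈ R) (hb : b ∈ R) (h : orderOf b ∣ orderOf a) :
    b ∈ zpowers a := by
  classical
  have := Fintype.ofFinite R
  have h1 : (⟨b, hb⟩ : R) ∈ zpowers (⟨a, ha⟩ : R) := by
    have h2 := IsCyclic.card_pow_eq_one_le (α := R) (orderOf_pos a)
    have h3 : (Finset.univ.filter fun x : R => x ∈ zpowers (⟨a, ha⟩ : R)) =
        Finset.univ.filter fun x : R => x ^ orderOf a = 1 := by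
      refine Finset.eq_of_subset_of_card_le (fun x hx => ?_) (h2.trans (le_of_eq ?_))
      · rw [Finset.mem_filter] at hx ⊢
        refine ⟨hx.1, orderOf_dvd_iff_pow_eq_one.1 ?_⟩
        have := orderOf_dvd_of_mem_zpowers hx.2
        rwa [← orderOf_coe (⟨a, ha⟩ : R)] at this
      · rw [← Fintype.card_subtype, ← Nat.card_eq_fintype_card]
        exact ((Nat.card_zpowers (⟨a, ha⟩ : R)).trans (orderOf_coe _).symm).symm
    have h4 : (⟨b, hb⟩ : R) ∈ Finset.univ.filter fun x : R => x ^ orderOf a = 1 :=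
      Finset.mem_filter.2 ⟨Finset.mem_univ _, Subtype.ext (orderOf_dvd_iff_pow_eq_one.1 h)⟩
    rw [← h3] at h4
    exact (Finset.mem_filter.1 h4).2
  obtain ⟨n, hn⟩ := h1
  exact ⟨n, congrArg Subtype.val hn⟩

variable {L : Type u} [Group L] [Finite L] {V : Type v} [AddCommGroup V] [Finite V]
  [DistribMulAction L V]

theorem smul_eq_of_maps {g : L} {J : AddSubgroup V} (h : ∀ v ∈ J, g • v ∈ J) : g • J = J := by
  refine AddSubgroup.eq_of_le_of_card_ge (fun v hv => ?_) ?_
  · have := h _ (mem_smul_iff.1 hv)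
    rwa [smul_inv_smul] at this
  · refine Nat.card_le_card_of_injective
      (fun v : J => (⟨g • (v : V), AddSubgroup.smul_mem_pointwise_smul _ _ _ v.2⟩ : ↥(g • J)))
      fun a b e => Subtype.ext (smul_left_cancel g (congrArg Subtype.val e))

namespace Hyp

variable (H : Hyp L V)
include H

/-- `FreeCyc.isCyclic_of_free` for `Multiplicative V`. -/
theorem isCyclic_of_isPGroup {r : ℕ} (hr : r.Prime) (h2 : r ≠ 2) {R : Subgroup L}
    (hR : IsPGroup r R) : IsCyclic R := by
  have : Nontrivial (Multiplicative V) := by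
    obtain ⟨v, hv⟩ := H.nt
    exact ⟨⟨Multiplicative.ofAdd v, 1, hv⟩⟩
  let φ : R →* MulAut (Multiplicative V) :=
    { toFun := fun g => AddEquiv.toMultiplicative (DistribMulAction.toAddEquiv V (g : L))
      map_one' := by
        ext v
        exact one_smul L v.toAdd
      map_mul' := fun a b => by
        ext v
        exact mul_smul (a : L) (b : L) v.toAdd }
  refine FreeCyc.isCyclic_of_free φ (fun x hx v hv => ?_) (Or.inr ⟨r, hr, h2, hR⟩)
  obtain ⟨n, hn⟩ := hR x
  have ho : Odd (orderOf (x : L)) :=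
    ((hr.odd_of_ne_two h2).pow (n := n)).of_dvd_nat
      (orderOf_dvd_of_pow_eq_one (congrArg Subtype.val hn))
  exact H.eq_zero_of_odd ho (fun e => hx (Subtype.ext e)) (v := v.toAdd) hv

theorem isZGroup {K : Subgroup L} (ho : Odd (Nat.card K)) : IsZGroup K := by
  refine ⟨fun p hp P => ?_⟩
  have : Fact p.Prime := ⟨hp⟩
  by_cases h2 : p = 2
  · subst h2
    obtain ⟨n, hn⟩ := P.isPGroup'.exists_card_eq
    have h1 : Nat.card P = 1 := by
      have h3 : Odd (Nat.card P) := ho.of_dvd_nat (card_subgroup_dvd_card (P : Subgroup K))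
      rcases n with _ | n
      · simpa using hn
      · exact absurd h3 (by
          have h4 : Nat.card P = 2 ^ (n + 1) := hn
          rw [h4, Nat.not_odd_iff_even, pow_succ]
          exact even_two.mul_left _)
    have : Subsingleton P := (Nat.card_eq_one_iff_unique.1 h1).1
    infer_instance
  · have h3 := H.isCyclic_of_isPGroup hp h2 (P.isPGroup'.map K.subtype)
    exact isCyclic_of_surjective
      (((P : Subgroup K).equivMapOfInjective K.subtype K.subtype_injective).symm)
      (MulEquiv.surjective _)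

/-- Subgroups of odd prime order of `X` are conjugate in `X`. -/
theorem exists_conj_mem_zpowers {r : ℕ} (hr : r.Prime) (h2 : r ≠ 2) {X : Subgroup L} {k k' : L}
    (hk : orderOf k = r) (hk' : orderOf k' = r) (h1 : k ∈ X) (h1' : k' ∈ X) :
    ∃ x ∈ X, x * k' * x⁻¹ ∈ zpowers k := by
  have : Fact r.Prime := ⟨hr⟩
  have hp : ∀ {g : L} (hg : g ∈ X), orderOf g = r → IsPGroup r (zpowers (⟨g, hg⟩ : X)) :=
    fun {g} hg ho => IsPGroup.of_card (n := 1) (by
      rw [Nat.card_zpowers, pow_one, ← ho, ← orderOf_coe])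
  obtain ⟨P, hP⟩ := (hp h1 hk).exists_le_sylow
  obtain ⟨P', hP'⟩ := (hp h1' hk').exists_le_sylow
  obtain ⟨x, rfl⟩ := MulAction.exists_smul_eq X P' P
  refine ⟨x, x.2, ?_⟩
  let R : Subgroup L := ((x • P' : Sylow r X) : Subgroup X).map X.subtype
  have hc : IsCyclic R := H.isCyclic_of_isPGroup hr h2 ((x • P').isPGroup'.map X.subtype)
  have m1 : k ∈ R := mem_map_of_mem X.subtype (hP (mem_zpowers _))
  have m2 : (x : L) * k' * (x : L)⁻¹ ∈ R :=
    mem_map_of_mem X.subtype (x := x * ⟨k', h1'⟩ * x⁻¹)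
      (smul_mem_pointwise_smul _ (MulAut.conj x) _ (hP' (mem_zpowers _)))
  have o2 : orderOf ((x : L) * k' * (x : L)⁻¹) = r := by
    rw [← hk']
    exact (MulAut.conj (x : L)).orderOf_eq k'
  exact mem_zpowers_of_isCyclic hc m1 m2 (o2.trans hk.symm).dvd

/-- If `k`, `k'` of odd prime order `r` preserve `J` and commute on `J`, then on `J` the element
`k'` acts as a power `k ^ i`, `r ∤ i` when `J ≠ ⊥` (apply `exists_conj_mem_zpowers` in
`closure {k, k'}`, all of whose elements commute with `k` on `J`). -/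
theorem exists_pow_eq_on {r : ℕ} (hr : r.Prime) (h2 : r ≠ 2) {k k' : L}
    (hk : orderOf k = r) (hk' : orderOf k' = r) {J : AddSubgroup V}
    (hJ : ∀ v ∈ J, k • v ∈ J) (hJ' : ∀ v ∈ J, k' • v ∈ J)
    (hc : ∀ v ∈ J, k • k' • v = k' • k • v) :
    ∃ i : ℕ, ¬ r ∣ i ∧ ∀ v ∈ J, k' • v = k ^ i • v := by
  have m1 : k ∈ closure ({k, k'} : Set L) := subset_closure (by simp)
  have m2 : k' ∈ closure ({k, k'} : Set L) := subset_closure (by simp)
  obtain ⟨x, hx, e⟩ := H.exists_conj_mem_zpowers hr h2 hk hk' m1 m2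
  have hJ1 : k • J = J := smul_eq_of_maps hJ
  have hJ2 : k' • J = J := smul_eq_of_maps hJ'
  have key : ∀ g ∈ closure ({k, k'} : Set L), g • J = J ∧ ∀ v ∈ J, g • k' • v = k' • g • v := by
    intro g hg
    induction hg using closure_induction with
    | mem g hg =>
      rcases hg with rfl | rfl
      · exact ⟨hJ1, hc⟩
      · exact ⟨hJ2, fun _ _ => rfl⟩
    | one => simp
    | mul a b _ _ ha hb =>
      refine ⟨by rw [mul_smul, hb.1, ha.1], fun v hv => ?_⟩
      rw [mul_smul, mul_smul, hb.2 v hv, ha.2 _ (smul_mem_of_smul_eq hb.1 hv)]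
    | inv a _ ha =>
      have h3 : a⁻¹ • J = J := by rw [inv_smul_eq_iff, ha.1]
      refine ⟨h3, fun v hv => ?_⟩
      rw [inv_smul_eq_iff, ha.2 _ (smul_mem_of_smul_eq h3 hv), smul_inv_smul]
  obtain ⟨i, hi⟩ := (mem_powers_iff_mem_zpowers.2 e : _ ∈ Submonoid.powers k)
  have hi' : k ^ i = x * k' * x⁻¹ := hi
  refine ⟨i, fun hd => ?_, fun v hv => ?_⟩
  · rw [← hk, orderOf_dvd_iff_pow_eq_one, hi', mul_inv_eq_one, mul_eq_left] at hd
    rw [hd, orderOf_one] at hk'
    exact hr.one_lt.ne hk'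
  · rw [hi', mul_smul, mul_smul,
      (key x hx).2 _ (smul_mem_of_smul_eq (key _ (inv_mem hx)).1 hv), smul_inv_smul]

end Hyp

end Cfsg.Gag2
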