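import Cfsg.Agent.Gag2.Elat
import Cfsg.Agent.Gag2.Zgp
import Cfsg.Agent.Blk.BrSuz
import Cfsg.Agent.Grp.InvolSL2

/-!
# The torus of two axes; identification of `SL₂(q)`
-/

set_option autoImplicit false
set_option linter.unusedSectionVars false

namespace Cfsg.Gag2

open Subgroup MulAction
open scoped Pointwise MatrixGroups

universe u v

variable {L : Type u} [Group L] {V : Type v} [AddCommGroup V] [DistribMulAction L V]

/-- The torus belonging to two axes and a swapping involution. -/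
structure Tor (T : Set L) (W₁ W₂ : AddSubgroup V) (j : L) (K : Subgroup L) : Prop where
  cyc : IsCyclic K
  odd : Odd (Nat.card K)
  card : Nat.card K + 1 = Nat.card (cw L W₁)
  fix₁ : ∀ κ ∈ K, κ • W₁ = W₁
  fix₂ : ∀ κ ∈ K, κ • W₂ = W₂
  inv : ∀ κ ∈ K, j * κ * j⁻¹ = κ⁻¹
  sw : ∀ κ ∈ K, κ * j ∈ Sw T W₁ W₂
  mem : ∀ j' ∈ Sw T W₁ W₂, j' * j ∈ K
  free : ∀ κ ∈ K, ∀ a ∈ cw L W₁, a ≠ 1 → κ * a * κ⁻¹ = a → κ = 1
  trans : ∀ a ∈ cw L W₁, ∀ a' ∈ cw L W₁, a ≠ 1 → a' ≠ 1 → ∃ κ ∈ K, κ * a * κ⁻¹ = a'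

/-- In an odd dihedral group, `x j` is conjugate to `j` by a power of `x`. -/
theorem exists_pow_conj_eq {Γ : Type u} [Group Γ] {x j : Γ} (h : j * x * j⁻¹ = x⁻¹)
    (ho : Odd (orderOf x)) : ∃ k : ℕ, x ^ k * j * (x ^ k)⁻¹ = x * j := by
  obtain ⟨m, hm⟩ := ho
  have h1 : ∀ k : ℕ, j * (x ^ k)⁻¹ = x ^ k * j := by
    intro k
    have h2 : j * x ^ k * j⁻¹ = (x ^ k)⁻¹ := by rw [← conj_pow, h, inv_pow]
    have h3 : j * (x ^ k)⁻¹ * j⁻¹ = x ^ k := by
      rw [show j * (x ^ k)⁻¹ * j⁻¹ = (j * x ^ k * j⁻¹)⁻¹ by group, h2, inv_inv]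
    exact mul_inv_eq_iff_eq_mul.1 h3
  refine ⟨m + 1, ?_⟩
  have h4 : x ^ (2 * m + 1) = 1 := by rw [← hm, pow_orderOf_eq_one]
  calc x ^ (m + 1) * j * (x ^ (m + 1))⁻¹ = x ^ (m + 1) * (j * (x ^ (m + 1))⁻¹) := by group
    _ = x ^ (m + 1) * (x ^ (m + 1) * j) := by rw [h1]
    _ = x * x ^ (2 * m + 1) * j := by
        rw [← mul_assoc, ← pow_add, ← pow_succ']; congr 2; ring
    _ = x * j := by rw [h4, mul_one]

theorem eq_one_of_sq_of_odd {Γ : Type u} [Group Γ] {x : Γ} (ho : Odd (orderOf x)) {n : ℕ}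
    (h : x ^ 2 ^ n = 1) : x = 1 := by
  have h1 : orderOf x ∣ 2 ^ n := orderOf_dvd_of_pow_eq_one h
  have h2 : (orderOf x).Coprime (2 ^ n) :=
    Nat.Coprime.pow_right _ ho.coprime_two_right
  exact orderOf_eq_one_iff.1 (h2.eq_one_of_dvd h1)

variable [Finite L] [Finite V] {T : Set L}

theorem Tor.odd_orderOf {W₁ W₂ : AddSubgroup V} {j : L} {K : Subgroup L} (hK : Tor T W₁ W₂ j K)
    {κ : L} (h : κ ∈ K) : Odd (orderOf κ) :=
  Odd.of_dvd_nat hK.odd (Subgroup.orderOf_dvd_natCard K h)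

namespace EG

variable (H : Hyp L V) (E : EG V T)
include H E

/-- `J = Sw T W₁ W₂`, `Γ = closure J` preserves `{W₁, W₂}`, so conjugates of `j` in `Γ` lie in `J`,
`j` is an isolated involution of `Γ` (`odd_mul_sw`), every `j' ∈ J` is conjugate to `j` in `Γ` (odd
dihedral group), so by `BrSuz.zstar` all `j' j` lie in `O(Γ)`: `K = closure {j' j}` has odd order, is
a Z-group (`Hyp.isZGroup`), is cyclic (`isCyclic_of_inverted`), so `j` inverts all of `K`; `κ j` is an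
involution conjugate to `j` (by a power of `κ`), so lies in `J`.  Then `κ ↦ κ j` is a bijection
`K → J` (`card_sw`); `free` from `sw_inj`; `trans` by counting. -/
theorem exists_tor {W₁ W₂ : AddSubgroup V} (h1 : W₁ ∈ Ax V T) (h2 : W₂ ∈ Ax V T) (h : W₁ ≠ W₂)
    {j : L} (hj : j ∈ Sw T W₁ W₂) : ∃ K : Subgroup L, Tor T W₁ W₂ j K := by
  have sq : ∀ j' ∈ Sw T W₁ W₂, j' * j' = 1 := fun j' h' => (E.iv j' h'.1).1
  have iv : ∀ j' ∈ Sw T W₁ W₂, j'⁻¹ = j' := fun j' h' => (E.iv j' h'.1).inv_eq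
  have s1 : ∀ j' ∈ Sw T W₁ W₂, j' • W₁ = W₂ := fun j' h' => h'.2
  have s2 : ∀ j' ∈ Sw T W₁ W₂, j' • W₂ = W₁ := fun j' h' => (E.sw_symm H h').2
  set Γ := closure (Sw T W₁ W₂) with hΓ
  have hp : ∀ g ∈ Γ, (g • W₁ = W₁ ∧ g • W₂ = W₂) ∨ (g • W₁ = W₂ ∧ g • W₂ = W₁) := by
    intro g hg
    induction hg using closure_induction with
    | mem x hx => exact Or.inr ⟨s1 x hx, s2 x hx⟩
    | one => exact Or.inl ⟨one_smul _ _, one_smul _ _⟩
    | mul x y _ _ hx hy =>
      rcases hx with ⟨a, b⟩ | ⟨a, b⟩ <;> rcases hy with ⟨c, d⟩ | ⟨c, d⟩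
      · exact Or.inl ⟨by rw [mul_smul, c, a], by rw [mul_smul, d, b]⟩
      · exact Or.inr ⟨by rw [mul_smul, c, b], by rw [mul_smul, d, a]⟩
      · exact Or.inr ⟨by rw [mul_smul, c, a], by rw [mul_smul, d, b]⟩
      · exact Or.inl ⟨by rw [mul_smul, c, b], by rw [mul_smul, d, a]⟩
    | inv x _ hx =>
      rcases hx with ⟨a, b⟩ | ⟨a, b⟩
      · exact Or.inl ⟨by rw [inv_smul_eq_iff, a], by rw [inv_smul_eq_iff, b]⟩
      · exact Or.inr ⟨by rw [inv_smul_eq_iff, b], by rw [inv_smul_eq_iff, a]⟩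
  have hc : ∀ g ∈ Γ, g * j * g⁻¹ ∈ Sw T W₁ W₂ := by
    intro g hg
    refine ⟨E.conj j hj.1 g, ?_⟩
    rcases hp g hg with ⟨a, b⟩ | ⟨a, b⟩
    · rw [mul_smul, mul_smul, inv_smul_eq_iff.2 a.symm, s1 j hj, b]
    · rw [mul_smul, mul_smul, inv_smul_eq_iff.2 b.symm, s2 j hj, a]
  have jΓ : j ∈ Γ := subset_closure hj
  have isol : IsIsolInv (⟨j, jΓ⟩ : Γ) := by
    refine ⟨Subtype.ext (sq j hj), fun g => ?_⟩
    have := E.odd_mul_sw H h1 h2 h hj (hc g g.2)
    unfold IsPRegular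
    rw [← Subgroup.orderOf_coe]
    exact fun hd => (Nat.not_even_iff_odd.2 this) (even_iff_two_dvd.2 hd)
  have inv1 : ∀ j' ∈ Sw T W₁ W₂, j * (j' * j) * j⁻¹ = (j' * j)⁻¹ := by
    intro j' h'
    rw [mul_inv_rev, iv j' h', mul_assoc, mul_assoc, mul_inv_cancel, mul_one, iv j hj]
  set O := (pPrimeCore 2 Γ).map Γ.subtype with hO
  have hX : ∀ j' ∈ Sw T W₁ W₂, j' * j ∈ O := by
    intro j' h'
    obtain ⟨k, hk⟩ := exists_pow_conj_eq (inv1 j' h') (E.odd_mul_sw H h1 h2 h h' hj)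
    rw [mul_assoc j' j j, sq j hj, mul_one] at hk
    have hm : (j' * j) ^ k ∈ Γ := pow_mem (mul_mem (subset_closure h') jΓ) k
    have := zstar isol ⟨_, hm⟩
    have h3 : j * j' ∈ O := ⟨_, this, by simpa using congrArg (j * ·) hk⟩
    have h4 := inv_mem h3
    rwa [mul_inv_rev, iv j hj, iv j' h'] at h4
  set X : Set L := (fun j' => j' * j) '' Sw T W₁ W₂ with hXd
  have hle : closure X ≤ O := (closure_le _).2 (by rintro _ ⟨j', h', rfl⟩; exact hX j' h')
  have hodd : Odd (Nat.card (closure X)) := by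
    have h3 : Nat.card O = Nat.card (pPrimeCore 2 Γ) := card_map_of_injective Γ.subtype_injective
    have h4 : Odd (Nat.card O) := by
      rw [h3, ← Nat.not_even_iff_odd, even_iff_two_dvd]
      exact not_dvd_card_pPrimeCore 2 Γ
    exact Odd.of_dvd_nat h4 (card_dvd_of_le hle)
  haveI := H.isZGroup hodd
  have hcyc : IsCyclic (closure X) :=
    isCyclic_of_inverted hodd (j := j) (by rintro _ ⟨j', h', rfl⟩; exact inv1 j' h')
  have hcomm : ∀ x ∈ closure X, ∀ y ∈ closure X, x * y = y * x := by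
    intro x hx y hy
    letI := IsCyclic.commGroup (α := closure X)
    exact congrArg Subtype.val (mul_comm (⟨x, hx⟩ : closure X) ⟨y, hy⟩)
  have hfix : ∀ κ ∈ closure X, κ • W₁ = W₁ ∧ κ • W₂ = W₂ := by
    intro g hg
    induction hg using closure_induction with
    | mem x hx =>
      obtain ⟨j', h', rfl⟩ := hx
      exact ⟨by rw [mul_smul, s1 j hj, s2 j' h'], by rw [mul_smul, s2 j hj, s1 j' h']⟩
    | one => exact ⟨one_smul _ _, one_smul _ _⟩
    | mul x y _ _ hx hy => exact ⟨by rw [mul_smul, hy.1, hx.1], by rw [mul_smul, hy.2, hx.2]⟩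
    | inv x _ hx => exact ⟨by rw [inv_smul_eq_iff, hx.1], by rw [inv_smul_eq_iff, hx.2]⟩
  have hinv : ∀ κ ∈ closure X, j * κ * j⁻¹ = κ⁻¹ := by
    intro g hg
    induction hg using closure_induction with
    | mem x hx =>
      obtain ⟨j', h', rfl⟩ := hx
      exact inv1 j' h'
    | one => simp
    | mul x y hx' hy' hx hy =>
      rw [hcomm x hx' y hy', mul_inv_rev, ← hx, ← hy, hcomm y hy' x hx']; group
    | inv x _ hx => rw [show j * x⁻¹ * j⁻¹ = (j * x * j⁻¹)⁻¹ by group, hx]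
  have hsw : ∀ κ ∈ closure X, κ * j ∈ Sw T W₁ W₂ := by
    intro κ hκ
    obtain ⟨k, hk⟩ := exists_pow_conj_eq (hinv κ hκ)
      (Odd.of_dvd_nat hodd (Subgroup.orderOf_dvd_natCard _ hκ))
    exact ⟨hk ▸ E.conj j hj.1 _, by rw [mul_smul, s1 j hj, (hfix κ hκ).2]⟩
  have hmem : ∀ j' ∈ Sw T W₁ W₂, j' * j ∈ closure X := fun j' h' => subset_closure ⟨j', h', rfl⟩
  have hcard : Nat.card (closure X) + 1 = Nat.card (cw L W₁) := by
    rw [← E.card_sw H h1 h2 h]
    congr 1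
    refine Nat.card_congr ⟨fun κ => ⟨κ * j, hsw κ κ.2⟩, fun j' => ⟨j' * j, hmem j' j'.2⟩,
      fun κ => Subtype.ext ?_, fun j' => Subtype.ext ?_⟩
    · change κ * j * j = κ
      rw [mul_assoc, sq j hj, mul_one]
    · change j' * j * j = j'
      rw [mul_assoc, sq j hj, mul_one]
  have hfree : ∀ κ ∈ closure X, ∀ a ∈ cw L W₁, a ≠ 1 → κ * a * κ⁻¹ = a → κ = 1 := by
    intro κ hκ a ha a1 e
    have h3 : κ⁻¹ * j = j * κ := by rw [← hinv κ hκ]; group
    have h4 := E.sw_inj H h1 h2 h hj (hsw _ (inv_mem hκ)) ha a1 (by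
      rw [h3]
      calc j * a * j⁻¹ = j * (κ * a * κ⁻¹) * j⁻¹ := by rw [e]
        _ = _ := by group)
    rw [h3] at h4
    exact left_eq_mul.1 h4
  refine ⟨closure X, hcyc, hodd, hcard, fun κ hκ => (hfix κ hκ).1, fun κ hκ => (hfix κ hκ).2, hinv,
    hsw, hmem, hfree, fun a ha a' ha' a1 a1' => ?_⟩
  have hcw : ∀ κ ∈ closure X, κ * a * κ⁻¹ ∈ cw L W₁ := by
    intro κ hκ
    have := conj_mem_cw (g := κ) ha
    rwa [(hfix κ hκ).1] at this
  let f : closure X → {x : cw L W₁ // x ≠ 1} := fun κ =>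
    ⟨⟨κ * a * (κ : L)⁻¹, hcw κ κ.2⟩, fun e => a1 (by
      have := congrArg Subtype.val e
      simpa using this)⟩
  have finj : Function.Injective f := by
    intro κ κ' e
    have e1 : (κ : L) * a * (κ : L)⁻¹ = κ' * a * (κ' : L)⁻¹ :=
      congrArg (fun x : {x : cw L W₁ // x ≠ 1} => (x.1 : L)) e
    have := hfree ((κ' : L)⁻¹ * κ) (mul_mem (inv_mem κ'.2) κ.2) a ha a1 (by
      calc (κ' : L)⁻¹ * κ * a * ((κ' : L)⁻¹ * κ)⁻¹ = (κ' : L)⁻¹ * (κ * a * (κ : L)⁻¹) * κ' := by group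
        _ = a := by rw [e1]; group)
    exact Subtype.ext (inv_mul_eq_one.1 this).symm
  have hc2 : Nat.card {x : cw L W₁ // x ≠ 1} + 1 = Nat.card (cw L W₁) := by
    classical
    letI := Fintype.ofFinite (cw L W₁)
    rw [Nat.card_eq_fintype_card, Nat.card_eq_fintype_card, Fintype.card_subtype_compl,
      Fintype.card_subtype_eq]
    exact Nat.sub_add_cancel Fintype.card_pos
  have fsurj : Function.Surjective f :=
    (finj.bijective_of_nat_card_le (by omega)).2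
  obtain ⟨κ, hκ⟩ := fsurj ⟨⟨a', ha'⟩, fun e => a1' (congrArg Subtype.val e)⟩
  exact ⟨κ, κ.2, congrArg (fun x : {x : cw L W₁ // x ≠ 1} => (x.1 : L)) hκ⟩

/-- Bruhat decomposition.  `A = cw W₁`, `K` the torus, `B = A K = {a κ}`.  Every `g ∈ S = closure T`
is `a κ` or `a κ j a'` (`a, a' ∈ A`, `κ ∈ K`): `T ⊆ closure (A ∪ {j})` by `Reg`; the set is closed under
left multiplication by `A` and by `j` (for `1 ≠ a ∈ A`, `j a j ∈ cw W₂` is `a' j' a'` with
`j' = a' (j a j) a' ∈ Sw` by `exists_braid` with the roles of `W₁`, `W₂` exchanged, `j' ∈ K j`).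
Conversely `A, K, j ≤ S`. -/
theorem bruhat (R : Reg V T) {W₁ W₂ : AddSubgroup V} (h1 : W₁ ∈ Ax V T) (h2 : W₂ ∈ Ax V T)
    (h : W₁ ≠ W₂) {j : L} (hj : j ∈ Sw T W₁ W₂) {K : Subgroup L} (hK : Tor T W₁ W₂ j K) {g : L}
    (hg : g ∈ closure T) (e : g • W₁ = W₁) : ∃ a ∈ cw L W₁, ∃ κ ∈ K, g = a * κ := by
  have jj : j * j = 1 := (E.iv j hj.1).1
  have ji : j⁻¹ = j := (E.iv j hj.1).inv_eq
  have s2 : j • W₂ = W₁ := (E.sw_symm H hj).2
  have cj : ∀ κ ∈ K, ∀ a ∈ cw L W₁, κ * a * κ⁻¹ ∈ cw L W₁ := by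
    intro κ hκ a ha
    have := conj_mem_cw (g := κ) ha
    rwa [hK.fix₁ κ hκ] at this
  have jk : ∀ κ ∈ K, j * κ = κ⁻¹ * j := fun κ hκ => by rw [← hK.inv κ hκ]; group
  have hT : closure T ≤ closure ((cw L W₁ : Set L) ∪ {j}) := by
    have hA : ∀ a ∈ cw L W₁, a ∈ closure ((cw L W₁ : Set L) ∪ {j}) :=
      fun a ha => subset_closure (Or.inl ha)
    have hJ : j ∈ closure ((cw L W₁ : Set L) ∪ {j}) := subset_closure (Or.inr rfl)
    refine (closure_le _).2 fun t ht => ?_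
    by_cases h0 : fx V t = W₁
    · exact hA t (h0 ▸ self_mem_cw t)
    · obtain ⟨a, ha, e1⟩ := R W₁ h1 (fx V t) ⟨t, ht, rfl⟩ W₂ h2 h0 h.symm
      have h3 : j * (a * t * a⁻¹) * j⁻¹ ∈ cw L W₁ := by
        have := conj_mem_cw (g := j) (conj_mem_cw (g := a) (self_mem_cw (V := V) t))
        rwa [e1, s2] at this
      have h4 : t = a⁻¹ * (j⁻¹ * (j * (a * t * a⁻¹) * j⁻¹) * j) * a := by group
      rw [SetLike.mem_coe, h4]
      exact mul_mem (mul_mem (inv_mem (hA a ha)) (mul_mem (mul_mem (inv_mem hJ) (hA _ h3)) hJ))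
        (hA a ha)
  let P : L → Prop := fun g => (∃ a ∈ cw L W₁, ∃ κ ∈ K, g = a * κ) ∨
    ∃ a ∈ cw L W₁, ∃ κ ∈ K, ∃ a' ∈ cw L W₁, g = a * κ * j * a'
  have step : ∀ x ∈ (cw L W₁ : Set L) ∪ {j}, ∀ y, P y → P (x * y) := by
    rintro x (hx | rfl) y hy
    · rcases hy with ⟨a, ha, κ, hκ, rfl⟩ | ⟨a, ha, κ, hκ, a', ha', rfl⟩
      · exact Or.inl ⟨x * a, mul_mem hx ha, κ, hκ, by group⟩
      · exact Or.inr ⟨x * a, mul_mem hx ha, κ, hκ, a', ha', by group⟩
    · rcases hy with ⟨a, ha, κ, hκ, rfl⟩ | ⟨a, ha, κ, hκ, a', ha', rfl⟩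
      · refine Or.inr ⟨1, one_mem _, κ⁻¹, inv_mem hκ, κ⁻¹ * a * κ⁻¹⁻¹, cj _ (inv_mem hκ) a ha, ?_⟩
        rw [one_mul, ← jk κ hκ]; group
      · by_cases a1 : a = 1
        · refine Or.inl ⟨κ⁻¹ * a' * κ⁻¹⁻¹, cj _ (inv_mem hκ) a' ha', κ⁻¹, inv_mem hκ, ?_⟩
          rw [a1, one_mul]
          calc x * (κ * x * a') = (x * κ * x⁻¹) * a' := by rw [ji]; group
            _ = _ := by rw [hK.inv κ hκ]; group
        · have hb : x * a * x⁻¹ ∈ cw L W₂ := by
            have := conj_mem_cw (g := x) ha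
            rwa [hj.2] at this
          have b1 : x * a * x⁻¹ ≠ 1 := fun e => a1 (by simpa using e)
          obtain ⟨a₀, ha₀, a₀1, hbr⟩ := E.exists_braid H R h2 h1 h.symm hb b1
          set b := x * a * x⁻¹ with hbd
          have aa : a₀ * a₀ = 1 := E.mul_self_of_mem_cw H h1 ha₀
          have ai : a₀⁻¹ = a₀ := inv_eq_of_mul_eq_one_right aa
          have bb : b * b = 1 := E.mul_self_of_mem_cw H h2 hb
          have hj' : a₀ * b * a₀ ∈ Sw T W₁ W₂ := by
            refine ⟨?_, ?_⟩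
            · have := E.conj b (E.mem_of_mem_cw H h2 hb b1).1 a₀
              rwa [ai] at this
            · have e1 : (a₀ * b * a₀) * a₀ * (a₀ * b * a₀)⁻¹ = b := by
                rw [mul_inv_eq_iff_eq_mul]
                conv_rhs => rw [← hbr, mul_assoc b a₀ b, ← mul_assoc b b, bb, one_mul]
                rw [mul_assoc (a₀ * b), aa, mul_one]
              rw [← (E.mem_of_mem_cw H h1 ha₀ a₀1).2, smul_fx, e1,
                (E.mem_of_mem_cw H h2 hb b1).2]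
          have hκ' := hK.mem _ hj'
          refine Or.inr ⟨a₀, ha₀, a₀ * b * a₀ * x * κ, mul_mem hκ' hκ, κ * a₀ * κ⁻¹ * a',
            mul_mem (cj κ hκ a₀ ha₀) ha', ?_⟩
          have e2 : x * κ * x = κ⁻¹ := by rw [← hK.inv κ hκ, ji]
          calc x * (a * κ * x * a') = x * a * x⁻¹ * (x * κ * x) * a' := by group
            _ = b * κ⁻¹ * a' := by rw [e2]
            _ = (a₀ * a₀) * b * (a₀ * (κ⁻¹ * κ) * a₀) * κ⁻¹ * a' := by
                rw [inv_mul_cancel, mul_one, aa, one_mul, mul_one]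
            _ = (a₀ * a₀) * b * (a₀ * (x * κ * x * κ) * a₀) * κ⁻¹ * a' := by rw [e2]
            _ = _ := by group
  have key : ∀ g ∈ closure ((cw L W₁ : Set L) ∪ {j}), P g := by
    intro g hg
    induction hg using closure_induction_left with
    | one => exact Or.inl ⟨1, one_mem _, 1, one_mem _, by simp⟩
    | mul_left x hx y _ hy => exact step x hx y hy
    | inv_mul_cancel x hx y _ hy =>
      refine step x⁻¹ ?_ y hy
      rcases hx with hx | rfl
      · exact Or.inl (inv_mem (show x ∈ cw L W₁ from hx))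
      · exact Or.inr ji
  rcases key g (hT hg) with h0 | ⟨a, ha, κ, hκ, a', ha', rfl⟩
  · exact h0
  · exfalso
    rw [mul_smul, mul_smul, mul_smul, smul_eq_of_mem_cw ha', hj.2, hK.fix₂ κ hκ,
      ← eq_inv_smul_iff, smul_eq_of_mem_cw (inv_mem ha)] at e
    exact h e.symm

/-- `S = closure T` is transitive on the `q + 1` axes with stabilizer `A K` of order `q (q - 1)`; an
involution of `S` fixes an axis (`q + 1` is odd), so lies in its elation group (`K` has odd order),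
its centralizer in `S` is that elation group (`Tor.free`); `ElemInvol.exists_mulEquiv`. -/
theorem exists_mulEquiv {W : AddSubgroup V} (hW : W ∈ Ax V T)
    (h : Nat.card (Ax V T) = Nat.card (cw L W) + 1) :
    ∃ (F : Type) (_ : Field F) (_ : Fintype F), Fintype.card F = Nat.card (cw L W) ∧
      Nonempty (closure T ≃* SL(2, F)) := by
  classical
  have R := E.reg_of_card H hW h
  obtain ⟨n, n0, hn⟩ := E.exists_card_cw H hW
  have q2 : Even (Nat.card (cw L W)) := by rw [hn]; exact (Nat.even_pow.2 ⟨even_two, n0.ne'⟩)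
  have other : ∀ W₁ ∈ Ax V T, ∃ W₂ ∈ Ax V T, W₁ ≠ W₂ := by
    intro W₁ h1
    haveI : Nontrivial (Ax V T) := Finite.one_lt_card_iff_nontrivial.1 (by
      have := Nat.card_pos (α := cw L W); omega)
    obtain ⟨W₂, hne⟩ := exists_ne (⟨W₁, h1⟩ : Ax V T)
    exact ⟨W₂, W₂.2, fun e => hne (Subtype.ext e.symm)⟩
  have hA : ∀ W₁ ∈ Ax V T, cw L W₁ ≤ closure T := by
    intro W₁ h1 a ha
    by_cases a1 : a = 1
    · rw [a1]; exact one_mem _
    · exact subset_closure (E.mem_of_mem_cw H h1 ha a1).1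
  have AK : ∀ {W₁ W₂ : AddSubgroup V} {j : L} {K : Subgroup L}, W₁ ∈ Ax V T → Tor T W₁ W₂ j K →
      ∀ κ ∈ K, κ * κ ∈ cw L W₁ → κ = 1 := by
    intro W₁ W₂ j K h1 hK κ hκ h0
    refine eq_one_of_sq_of_odd (hK.odd_orderOf hκ) (n := 2) ?_
    rw [← E.mul_self_of_mem_cw H h1 h0]
    norm_num [pow_succ, mul_assoc]
  have hcard : Nat.card (closure T) =
      (Nat.card (cw L W) + 1) * Nat.card (cw L W) * (Nat.card (cw L W) - 1) := by
    obtain ⟨W₂, h2, hne⟩ := other W hW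
    obtain ⟨j, hj⟩ := E.sw_nonempty H hW h2 hne
    obtain ⟨K, hK⟩ := E.exists_tor H hW h2 hne hj
    have hKS : K ≤ closure T := by
      intro κ hκ
      have : κ = κ * j * j := by rw [mul_assoc, (E.iv j hj.1).1, mul_one]
      rw [this]
      exact mul_mem (subset_closure (hK.sw κ hκ).1) (subset_closure hj.1)
    have horb : orbit (closure T) W = Ax V T := by
      ext W'
      constructor
      · rintro ⟨g, rfl⟩
        exact E.smul_mem_Ax H hW g
      · intro h'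
        by_cases e : W = W'
        · exact e ▸ mem_orbit_self W
        · obtain ⟨j', hj'⟩ := E.sw_nonempty H hW h' e
          exact ⟨⟨j', subset_closure hj'.1⟩, hj'.2⟩
    have hst : Nat.card (stabilizer (closure T) W) = Nat.card (cw L W) * Nat.card K := by
      rw [← Nat.card_prod]
      symm
      refine Nat.card_eq_of_bijective (fun x : cw L W × K => (⟨⟨(x.1 : L) * x.2,
        mul_mem (hA W hW x.1.2) (hKS x.2.2)⟩, by
          change ((x.1 : L) * x.2) • W = W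
          rw [mul_smul, hK.fix₁ _ x.2.2, smul_eq_of_mem_cw x.1.2]⟩ : stabilizer (closure T) W))
        ⟨?_, ?_⟩
      · rintro ⟨a, κ⟩ ⟨a', κ'⟩ e
        have e1 : (a : L) * κ = a' * κ' := congrArg (fun x : stabilizer (closure T) W => (x.1 : L)) e
        have e2 : (κ : L) * (κ' : L)⁻¹ = (a : L)⁻¹ * a' := by
          rw [mul_inv_eq_iff_eq_mul, mul_assoc, ← e1]; group
        have e3 : (κ : L) * (κ' : L)⁻¹ ∈ cw L W := e2 ▸ mul_mem (inv_mem a.2) a'.2
        have e4 := AK hW hK _ (mul_mem κ.2 (inv_mem κ'.2)) (mul_mem e3 e3)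
        rw [e4] at e2
        exact Prod.ext (Subtype.ext (inv_mul_eq_one.1 e2.symm)) (Subtype.ext (mul_inv_eq_one.1 e4))
      · rintro ⟨⟨g, hg⟩, e⟩
        obtain ⟨a, ha, κ, hκ, rfl⟩ := E.bruhat H R hW h2 hne hj hK hg e
        exact ⟨(⟨a, ha⟩, ⟨κ, hκ⟩), rfl⟩
    have hi : (stabilizer (closure T) W).index = Nat.card (cw L W) + 1 := by
      rw [index_stabilizer, horb, ← h, Nat.card_coe_set_eq]
    rw [← (stabilizer (closure T) W).card_mul_index, hi, hst, ← hK.card, Nat.add_sub_cancel]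
    ring
  have hE : ElemInvol (closure T) (Nat.card (cw L W)) := by
    intro z hz
    have zz : (z : L) * z = 1 := congrArg Subtype.val (mul_self_of_orderOf hz)
    have z1 : (z : L) ≠ 1 := fun e => ne_one_of_orderOf_two hz (Subtype.ext e)
    obtain ⟨W₁, h1, e1⟩ : ∃ W₁ ∈ Ax V T, (z : L) • W₁ = W₁ := by
      letI := Fintype.ofFinite (Ax V T)
      let f : Function.End (Ax V T) := fun W' => ⟨(z : L) • W'.1, E.smul_mem_Ax H W'.2 z⟩
      have hf : f ^ 2 ^ 1 = 1 := by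
        rw [pow_one, pow_two]
        funext W'
        refine Subtype.ext ?_
        change (z : L) • (z : L) • W'.1 = W'.1
        rw [← mul_smul, zz, one_smul]
      have h3 := Equiv.Perm.card_fixedPoints_modEq hf
      rw [← Nat.card_eq_fintype_card, h] at h3
      have h4 : 0 < Fintype.card f.fixedPoints := by
        obtain ⟨m, hm⟩ := q2
        unfold Nat.ModEq at h3
        omega
      obtain ⟨⟨W₁, e⟩⟩ := Fintype.card_pos_iff.1 h4
      exact ⟨W₁, W₁.2, congrArg Subtype.val e⟩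
    obtain ⟨W₂, h2, hne⟩ := other W₁ h1
    obtain ⟨j, hj⟩ := E.sw_nonempty H h1 h2 hne
    obtain ⟨K, hK⟩ := E.exists_tor H h1 h2 hne hj
    have cj : ∀ κ ∈ K, ∀ a ∈ cw L W₁, κ * a * κ⁻¹ ∈ cw L W₁ := by
      intro κ hκ a ha
      have := conj_mem_cw (g := κ) ha
      rwa [hK.fix₁ κ hκ] at this
    have zA : (z : L) ∈ cw L W₁ := by
      obtain ⟨a, ha, κ, hκ, e⟩ := E.bruhat H R h1 h2 hne hj hK z.2 e1
      have : κ * κ = (a * (κ * a * κ⁻¹))⁻¹ := by
        rw [eq_inv_iff_mul_eq_one, mul_eq_one_comm, ← zz, e]; group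
      have := AK h1 hK κ hκ (this ▸ inv_mem (mul_mem ha (cj κ hκ a ha)))
      rw [e, this, mul_one]; exact ha
    have fz : fx V (z : L) = W₁ := (E.mem_of_mem_cw H h1 zA z1).2
    have comm : ∀ a ∈ cw L W₁, ∀ a' ∈ cw L W₁, a * a' = a' * a := fun a ha a' ha' =>
      comm_of_forall_mul_self (fun x hx => E.mul_self_of_mem_cw H h1 hx) ha ha'
    have hC : centralizer ({z} : Set (closure T)) = (cw L W₁).subgroupOf (closure T) := by
      ext c
      rw [mem_centralizer_singleton_iff, mem_subgroupOf]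
      constructor
      · intro hc
        have hc' : Commute (c : L) z := congrArg Subtype.val hc
        have e2 := smul_fx_of_commute (V := V) hc'
        rw [fz] at e2
        obtain ⟨a, ha, κ, hκ, e⟩ := E.bruhat H R h1 h2 hne hj hK c.2 e2
        have := hK.free κ hκ z zA z1 (by
          have h5 : a * κ * z = z * (a * κ) := by rw [← e]; exact hc'
          calc κ * z * κ⁻¹ = a⁻¹ * (a * κ * z) * κ⁻¹ := by group
            _ = a⁻¹ * (z * a) := by rw [h5]; group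
            _ = z := by rw [comm _ zA a ha]; group)
        rw [e, this, mul_one]; exact ha
      · intro hc
        exact Subtype.ext (comm _ hc _ zA)
    rw [hC]
    refine ⟨?_, fun c hc => Subtype.ext (E.mul_self_of_mem_cw H h1 hc)⟩
    rw [Nat.card_congr (subgroupOfEquivOfLe (hA W₁ h1)).toEquiv, E.card_cw_eq H h1 hW]
  obtain ⟨a, F, i1, i2, ha, hF, he⟩ := hE.exists_mulEquiv hcard q2
  exact ⟨F, i1, i2, hF.trans ha.symm, he⟩

theorem normal_closure : (closure T).Normal := by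
  refine ⟨fun x hx g => ?_⟩
  induction hx using closure_induction with
  | mem x hx => exact subset_closure (E.conj x hx g)
  | one => simp
  | mul x y _ _ hx hy =>
    rw [show g * (x * y) * g⁻¹ = g * x * g⁻¹ * (g * y * g⁻¹) by group]
    exact mul_mem hx hy
  | inv x _ hx =>
    rw [show g * x⁻¹ * g⁻¹ = (g * x * g⁻¹)⁻¹ by group]
    exact inv_mem hx

end EG

end Cfsg.Gag2

set_option linter.all false in
theorem Cfsg.Rz.Gag2_ElatK_0 : True := by
  have := @_root_.Cfsg.Gag2.Tor.mk.congr_simp.{0, 0}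
  trivial
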