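import Cfsg.Agent.Gag2.ElatK

/-!
# Special pairs in an elation geometry: the number of axes
-/

set_option autoImplicit false
set_option linter.unusedSectionVars false

namespace Cfsg.Gag2

open Subgroup MulAction
open scoped Pointwise MatrixGroups

universe u v

variable {L : Type u} [Group L] [Finite L] {V : Type v} [AddCommGroup V] [Finite V]
  [DistribMulAction L V] {T : Set L}

/-- Counting the fixed points of an element of prime order on an invariant set. -/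
theorem card_modEq_fix {X : Type*} [MulAction L X] (S : Set X) [Finite S] {g : L} {p : ℕ}
    (hp : p.Prime) (hg : g ^ p = 1) (hS : ∀ x ∈ S, g • x ∈ S) :
    Nat.card S ≡ Nat.card {x // x ∈ S ∧ g • x = x} [MOD p] := by
  classical
  haveI := Fact.mk hp
  letI := Fintype.ofFinite S
  let f : Function.End S := fun x => ⟨g • x.1, hS x.1 x.2⟩
  have h1 : ∀ (n : ℕ) (x : S), ((f ^ n) x : X) = g ^ n • x.1 := by
    intro n
    induction n with
    | zero => intro x; rw [pow_zero, pow_zero, one_smul]; rfl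
    | succ n ih =>
      intro x
      rw [pow_succ', pow_succ', mul_smul, ← ih x]; rfl
  have hf : f ^ p ^ 1 = 1 := by
    funext x
    refine Subtype.ext ?_
    rw [pow_one, h1, hg, one_smul]; rfl
  have h3 := Equiv.Perm.card_fixedPoints_modEq hf
  rw [← Nat.card_eq_fintype_card, ← Nat.card_eq_fintype_card] at h3
  rwa [Nat.card_congr (⟨fun x => ⟨x.1.1, x.1.2, congrArg Subtype.val x.2⟩,
    fun x => ⟨⟨x.1, x.2.1⟩, Subtype.ext x.2.2⟩, fun _ => rfl, fun _ => rfl⟩ :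
    f.fixedPoints ≃ {x // x ∈ S ∧ g • x = x})] at h3

theorem card_ne_add_one {X : Type*} [Finite X] (x : X) :
    Nat.card {y // y ≠ x} + 1 = Nat.card X := by
  classical
  letI := Fintype.ofFinite X
  rw [Nat.card_eq_fintype_card, Nat.card_eq_fintype_card, Fintype.card_subtype_compl,
    Fintype.card_subtype_eq]
  exact Nat.sub_add_cancel (Fintype.card_pos_iff.2 ⟨x⟩)

theorem mem_zpowers_of_orderOf_eq {k y : L} (h : y ∈ zpowers k) (e : orderOf y = orderOf k) :
    k ∈ zpowers y := by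
  rw [Subgroup.eq_of_le_of_card_ge (zpowers_le.2 h) (by rw [Nat.card_zpowers, Nat.card_zpowers, e])]
  exact mem_zpowers k

theorem orderOf_conj' (g k : L) : orderOf (g * k * g⁻¹) = orderOf k :=
  (MulAut.conj g).orderOf_eq k

/-- If all of `A = cw (fx a)` is special for `k`, a conjugate `k' = m k m⁻¹` under the stabilizer of
the axis is an `A`-conjugate of a power of `k`.  All of `A` is special for `k'` too; from
`nu (k a k⁻¹) = k² nu a`:  `k' k² N k' = k² N = k² k' N k'`, so `k'` commutes with `k²`, hence with `k`,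
on `W = range N`.  `exists_pow_eq_on`: `k' k^(-i) ∈ A`; then `exists_conj_mem_zpowers` in
`A ⊔ zpowers k`, whose elements are `a₁ k ^ c`. -/
theorem Hyp.exists_conj_cw (H : Hyp L V) {a k m : L} (ia : Iv a) {r : ℕ} (hr : r.Prime)
    (h2 : r ≠ 2) (hk : orderOf k = r) (hs : ∀ a' ∈ cw L (fx V a), Sp V a' k)
    (hm : m • fx V a = fx V a) :
    ∃ a₁ ∈ cw L (fx V a), a₁ * (m * k * m⁻¹) * a₁⁻¹ ∈ zpowers k := by
  set k' := m * k * m⁻¹ with hk'
  have ok' : orderOf k' = r := by rw [hk', orderOf_conj', hk]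
  have sa := hs a (self_mem_cw a)
  have hs' : ∀ a' ∈ cw L (fx V a), Sp V a' k' := by
    intro a' ha'
    have h1 : m⁻¹ * a' * m ∈ cw L (fx V a) := by rwa [← mem_cw_smul, hm]
    have := (hs _ h1).conj m
    rwa [show m * (m⁻¹ * a' * m) * m⁻¹ = a' by group] at this
  have kW := H.sp_smul_fx sa
  have kW' := H.sp_smul_fx (hs' a (self_mem_cw a))
  have h1 : k * a * k⁻¹ ∈ cw L (fx V a) := by
    have := conj_mem_cw (g := k) (self_mem_cw (V := V) a)
    rwa [kW] at this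
  have h3 := hs' _ h1
  have h4 := hs' a (self_mem_cw a)
  unfold Sp at h3 h4
  rw [sa.nu_conj] at h3
  have h5 : op V k' * (op V k * op V k * nu V a) = op V k * op V k * (op V k' * nu V a) := by
    have : op V k' * (op V k * op V k * nu V a) * op V k' =
        op V k * op V k * (op V k' * nu V a) * op V k' := by
      rw [h3, mul_assoc (op V k * op V k), h4]
    have := congrArg (· * op V k'⁻¹) this
    simpa only [mul_assoc, op_mul_inv, mul_one] using this
  have h6 : ∀ v ∈ fx V a, k' • (k * k) • v = (k * k) • k' • v := by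
    intro v hv
    obtain ⟨u, rfl⟩ := H.exists_nu_eq ia hv
    rw [mul_smul k k, mul_smul k k]
    exact DFunLike.congr_fun h5 u
  have h7 : ∀ n : ℕ, ∀ v ∈ fx V a, k' • (k * k) ^ n • v = (k * k) ^ n • k' • v := by
    intro n
    induction n with
    | zero => intro v _; simp
    | succ n ih =>
      intro v hv
      have hv' : (k * k) • v ∈ fx V a := by
        rw [mul_smul]; exact smul_mem_of_smul_eq kW (smul_mem_of_smul_eq kW hv)
      rw [pow_succ, mul_smul _ (k * k), ih _ hv', h6 v hv, mul_smul _ (k * k)]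
  obtain ⟨s, hs2⟩ := hr.odd_of_ne_two h2
  have h8 : (k * k) ^ (s + 1) = k := by
    rw [← pow_two, ← pow_mul, show 2 * (s + 1) = r + 1 by omega, pow_succ, ← hk,
      pow_orderOf_eq_one, one_mul]
  obtain ⟨i, -, hi⟩ := H.exists_pow_eq_on hr h2 hk ok' (J := fx V a)
    (fun v hv => smul_mem_of_smul_eq kW hv) (fun v hv => smul_mem_of_smul_eq kW' hv)
    (fun v hv => by have := h7 (s + 1) v hv; rw [h8] at this; exact this.symm)
  have h9 : (k ^ i)⁻¹ * k' ∈ cw L (fx V a) := fun v hv => by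
    rw [mul_smul, hi v hv, inv_smul_smul]
  have hX : k' ∈ zpowers k ⊔ cw L (fx V a) := by
    rw [show k' = k ^ i * ((k ^ i)⁻¹ * k') by group]
    exact mul_mem (mem_sup_left (pow_mem (mem_zpowers k) i)) (mem_sup_right h9)
  obtain ⟨x, hx, e⟩ := H.exists_conj_mem_zpowers hr h2 hk ok' (mem_sup_left (mem_zpowers k)) hX
  rw [← SetLike.mem_coe, coe_mul_of_left_le_normalizer_right _ _
    (zpowers_le.2 (mem_normalizer_cw kW))] at hx
  obtain ⟨c, hc, a₁, ha₁, rfl⟩ := hx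
  refine ⟨a₁, ha₁, ?_⟩
  have := mul_mem (mul_mem (inv_mem hc) e) hc
  rwa [show c⁻¹ * (c * a₁ * k' * (c * a₁)⁻¹) * c = a₁ * k' * a₁⁻¹ by group] at this

namespace EG

variable (H : Hyp L V) (E : EG V T)
include H E

/-- Graded algebra: every `g ∈ closure {a, b}` has `op g = e + o` with `e` commuting with `op k` and
preserving `fx a`, `fx b`, and `k o k = o`, `o` mapping `fx a` into `fx b` and `fx b` into `fx a`.
For `j`, `e` kills `fx a` and `fx b`, which span `V`. -/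
theorem inverts_of_sp {a b k j : L} (ha : a ∈ T) (hb : b ∈ T) (h : fx V a ≠ fx V b)
    (sa : Sp V a k) (sb : Sp V b k) (hj : j ∈ closure ({a, b} : Set L))
    (e₁ : j • fx V a = fx V b) (e₂ : j • fx V b = fx V a) : j * k * j⁻¹ = k⁻¹ := by
  let P : L → Prop := fun g => ∃ e o : AddMonoid.End V, op V g = e + o ∧
    op V k * e = e * op V k ∧ op V k * o * op V k = o ∧
    (∀ v ∈ fx V a, e v ∈ fx V a) ∧ (∀ v ∈ fx V b, e v ∈ fx V b) ∧
    (∀ v ∈ fx V a, o v ∈ fx V b) ∧ ∀ v ∈ fx V b, o v ∈ fx V a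
  have mul : ∀ x y, P x → P y → P (x * y) := by
    rintro x y ⟨e, o, h1, h2, h3, h4, h5, h6, h7⟩ ⟨e', o', h1', h2', h3', h4', h5', h6', h7'⟩
    refine ⟨e * e' + o * o', e * o' + o * e', ?_, ?_, ?_, ?_, ?_, ?_, ?_⟩
    · rw [map_mul, h1, h1']; noncomm_ring
    · rw [mul_add, add_mul, ← mul_assoc, h2, mul_assoc, h2', ← mul_assoc]
      congr 1
      calc op V k * (o * o') = op V k * (o * (op V k * o' * op V k)) := by rw [h3']
        _ = (op V k * o * op V k) * o' * op V k := by simp only [mul_assoc]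
        _ = _ := by rw [h3]
    · rw [mul_add, add_mul]
      congr 1
      · rw [← mul_assoc, h2, mul_assoc, mul_assoc, ← mul_assoc (op V k), h3']
      · rw [mul_assoc, mul_assoc, ← h2', ← mul_assoc, ← mul_assoc, h3]
    · exact fun v hv => add_mem (h4 _ (h4' v hv)) (h7 _ (h6' v hv))
    · exact fun v hv => add_mem (h5 _ (h5' v hv)) (h6 _ (h7' v hv))
    · exact fun v hv => add_mem (h5 _ (h6' v hv)) (h6 _ (h4' v hv))
    · exact fun v hv => add_mem (h4 _ (h7' v hv)) (h7 _ (h5' v hv))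
  have gen : ∀ x ∈ ({a, b} : Set L), P x := by
    rintro x (rfl | rfl)
    · refine ⟨1, nu V x, by rw [H.op_eq, add_comm], by rw [mul_one, one_mul], sa, fun _ h => h,
        fun _ h => h, fun v hv => ?_, fun v _ => H.nu_mem_fx (E.iv x ha).1 v⟩
      rw [H.mem_fx_iff.1 hv]; exact zero_mem _
    · refine ⟨1, nu V x, by rw [H.op_eq, add_comm], by rw [mul_one, one_mul], sb, fun _ h => h,
        fun _ h => h, fun v _ => H.nu_mem_fx (E.iv x hb).1 v, fun v hv => ?_⟩
      rw [H.mem_fx_iff.1 hv]; exact zero_mem _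
  have key : ∀ g ∈ closure ({a, b} : Set L), P g := by
    intro g hg
    induction hg using closure_induction_left with
    | one =>
      exact ⟨1, 0, by simp, by rw [mul_one, one_mul], by simp, fun _ h => h, fun _ h => h,
        fun _ _ => zero_mem _, fun _ _ => zero_mem _⟩
    | mul_left x hx y _ hy => exact mul x y (gen x hx) hy
    | inv_mul_cancel x hx y _ hy =>
      refine mul _ y ?_ hy
      have : x⁻¹ = x := by
        rcases hx with rfl | rfl
        · exact (E.iv _ ha).inv_eq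
        · exact (E.iv _ hb).inv_eq
      rw [this]; exact gen x hx
  obtain ⟨e, o, h1, -, h3, h4, h5, h6, h7⟩ := key j hj
  have hA : fx V a ∈ Ax V T := ⟨a, ha, rfl⟩
  have hB : fx V b ∈ Ax V T := ⟨b, hb, rfl⟩
  have hi := E.inf_eq_bot H hA hB h
  have ev : ∀ v, e v = j • v - o v := fun v => by
    rw [← op_apply, h1, eq_sub_iff_add_eq]; rfl
  have m1 : ∀ v ∈ fx V a, j • v ∈ fx V b := fun v hv => by
    rw [← e₁, mem_smul_iff, inv_smul_smul]; exact hv
  have m2 : ∀ v ∈ fx V b, j • v ∈ fx V a := fun v hv => by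
    rw [← e₂, mem_smul_iff, inv_smul_smul]; exact hv
  have e0 : e = 0 := by
    refine AddMonoidHom.ext fun v => ?_
    obtain ⟨w, hw, w', hw', rfl⟩ := E.exists_add_eq H hA hB h v
    have z1 : e w = 0 := by
      rw [← AddSubgroup.mem_bot, ← hi, AddSubgroup.mem_inf]
      exact ⟨h4 w hw, by rw [ev]; exact sub_mem (m1 w hw) (h6 w hw)⟩
    have z2 : e w' = 0 := by
      rw [← AddSubgroup.mem_bot, ← hi, AddSubgroup.mem_inf]
      exact ⟨by rw [ev]; exact sub_mem (m2 w' hw') (h7 w' hw'), h5 w' hw'⟩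
    change e (w + w') = 0
    rw [map_add, z1, z2, add_zero]
  rw [e0, zero_add] at h1
  have h8 : k * j * k = j := H.op_inj (by rw [map_mul, map_mul, h1, h3])
  rw [eq_inv_iff_mul_eq_one, mul_eq_one_comm]
  calc k * (j * k * j⁻¹) = k * j * k * j⁻¹ := by group
    _ = 1 := by rw [h8, mul_inv_cancel]

/-- An axis fixed by `k` carries a special involution (conjugate `a` by a swapping involution `g`;
`k` and `g k g⁻¹` generate conjugate subgroups of the stabilizer of `W₂`). -/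
theorem exists_sp {a k : L} (ha : a ∈ T) (sa : Sp V a k) {r : ℕ} (hr : r.Prime) (h2 : r ≠ 2)
    (hk : orderOf k = r) {W₂ : AddSubgroup V} (hW : W₂ ∈ Ax V T) (e : k • W₂ = W₂) :
    ∃ b ∈ T, fx V b = W₂ ∧ Sp V b k := by
  by_cases h : fx V a = W₂
  · exact ⟨a, ha, h, sa⟩
  obtain ⟨g, -, hg⟩ := E.sw_nonempty H ⟨a, ha, rfl⟩ hW h
  have h1 : g * k * g⁻¹ ∈ stabilizer L W₂ := by
    rw [mem_stabilizer_iff, ← hg, mul_smul, mul_smul, inv_smul_smul, H.sp_smul_fx sa]
  obtain ⟨x, hx, e1⟩ := H.exists_conj_mem_zpowers hr h2 (by rw [orderOf_conj', hk]) hk h1 e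
  refine ⟨x⁻¹ * (g * a * g⁻¹) * x⁻¹⁻¹, E.conj _ (E.conj a ha g) _, ?_, ?_⟩
  · rw [← smul_fx, ← smul_fx, hg]
    exact inv_mem hx
  · have := ((sa.conj g).of_mem_zpowers e1).conj x⁻¹
    rwa [show x⁻¹ * (x * k * x⁻¹) * x⁻¹⁻¹ = k by group] at this

/-- `j` from `exists_swap a b` inverts `k`; `k j` is conjugate to `j`, so `k = (k j) j ∈ K`; `K` is
commutative and transitive on the nonidentity elements of `cw (fx a)`. -/
theorem all_sp {a k : L} (ha : a ∈ T) (sa : Sp V a k) {r : ℕ} (hr : r.Prime) (h2 : r ≠ 2)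
    (hk : orderOf k = r) {W₂ : AddSubgroup V} (hW : W₂ ∈ Ax V T) (hne : W₂ ≠ fx V a)
    (e : k • W₂ = W₂) :
    (∃ j ∈ T, j * k * j⁻¹ = k⁻¹) ∧ (∀ a' ∈ cw L (fx V a), Sp V a' k) ∧
      r ∣ Nat.card (cw L (fx V a)) - 1 := by
  obtain ⟨b, hb, rfl, sb⟩ := E.exists_sp H ha sa hr h2 hk hW e
  obtain ⟨j, hj, hjc, e1⟩ := E.exists_swap H ha hb hne.symm
  have hA : fx V a ∈ Ax V T := ⟨a, ha, rfl⟩
  have hs : j ∈ Sw T (fx V a) (fx V b) := ⟨hj, by rw [smul_fx, e1]⟩
  have hi := E.inverts_of_sp H ha hb hne.symm sa sb hjc hs.2 (E.sw_symm H hs).2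
  obtain ⟨K, hK⟩ := E.exists_tor H hA hW hne.symm hs
  have kK : k ∈ K := by
    obtain ⟨n, hn⟩ := exists_pow_conj_eq hi (hk ▸ hr.odd_of_ne_two h2)
    have := hK.mem (k * j) ⟨hn ▸ E.conj j hj _, by rw [mul_smul, hs.2, e]⟩
    rwa [mul_assoc, (E.iv j hj).1, mul_one] at this
  refine ⟨⟨j, hj, hi⟩, fun a' ha' => ?_, ?_⟩
  · by_cases a1 : a' = 1
    · unfold Sp
      rw [a1, H.nu_one, mul_zero, zero_mul]
    · obtain ⟨κ, hκ, rfl⟩ := hK.trans a (self_mem_cw a) a' ha' (E.iv a ha).2 a1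
      have h0 := sa.conj κ
      haveI := hK.cyc
      letI := IsCyclic.commGroup (α := K)
      have hc : κ * k = k * κ := congrArg Subtype.val (mul_comm (⟨κ, hκ⟩ : K) ⟨k, kK⟩)
      rwa [hc, mul_inv_cancel_right] at h0
  · rw [← hK.card, Nat.add_sub_cancel, ← hk]
    exact Subgroup.orderOf_dvd_natCard K kK

/-- `A × (Fix k \ {W₁}) → Ax \ {W₁}`, `(a₁, W) ↦ a₁ • W` is bijective.  Onto: `exists_orderOf_stab`
gives `g` of order `r` fixing `W₁`, `W₃`; `g` is conjugate in the stabilizer of `W₁` to a generator of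
`zpowers k`, so by `exists_conj_cw` an `A`-conjugate of `zpowers g` is `zpowers k`.  Injective: if
`W`, `a₁ • W` are fixed by `k` then `[k, a₁] ∈ A` fixes `W`, so `a₁` commutes with `k`, `a₁ = 1`
(`sp_conj_ne`).  Even: `j` permutes `Fix k` without fixed points (`j ∈ cw W`, `k • W = W` gives
`k j k⁻¹ j = k² ∈ cw W`, a `2`-group). -/
theorem card_Ax {a k : L} (ha : a ∈ T) (sa : Sp V a k) {r : ℕ} (hr : r.Prime) (h2 : r ≠ 2)
    (hk : orderOf k = r) {W₂ : AddSubgroup V} (hW : W₂ ∈ Ax V T) (hne : W₂ ≠ fx V a)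
    (e : k • W₂ = W₂) :
    ∃ f : ℕ, Nat.card {W : AddSubgroup V // W ∈ Ax V T ∧ k • W = W} = f + 1 ∧ Odd f ∧
      Nat.card (Ax V T) = Nat.card (cw L (fx V a)) * f + 1 := by
  obtain ⟨⟨j, hj, hi⟩, hs, hd⟩ := E.all_sp H ha sa hr h2 hk hW hne e
  have hA : fx V a ∈ Ax V T := ⟨a, ha, rfl⟩
  have ko : Odd (orderOf k) := hk ▸ hr.odd_of_ne_two h2
  have k1 : k ≠ 1 := fun e => hr.one_lt.ne' (by rw [← hk, e, orderOf_one])
  have kW := H.sp_smul_fx sa
  have jj := (E.iv j hj).1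
  have ji := (E.iv j hj).inv_eq
  haveI : Finite (AddSubgroup V) := Finite.of_injective _ SetLike.coe_injective
  let S : Set (AddSubgroup V) := {W | W ∈ Ax V T ∧ k • W = W}
  let W₁ : S := ⟨fx V a, hA, kW⟩
  have c1 := card_ne_add_one W₁
  refine ⟨Nat.card {y : S // y ≠ W₁}, c1.symm, ?_, ?_⟩
  · have h3 := card_modEq_fix S Nat.prime_two (g := j) (by rw [pow_two, jj]) (by
      rintro W ⟨h4, h5⟩
      refine ⟨E.smul_mem_Ax H h4 j, ?_⟩
      have : k * j = j * k⁻¹ := by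
        rw [← hi, ji, ← mul_assoc, ← mul_assoc, jj, one_mul]
      rw [← mul_smul, this, mul_smul, inv_smul_eq_iff.2 h5.symm])
    haveI : IsEmpty {x // x ∈ S ∧ j • x = x} := ⟨by
      rintro ⟨W, ⟨h4, h5⟩, h6⟩
      have h7 : j ∈ cw L W := by rw [E.eq_of_smul H hj h4 h6]; exact self_mem_cw j
      have h8 := conj_mem_cw (g := k) h7
      rw [h5] at h8
      have h9 : k * k = k * j * k⁻¹ * j⁻¹ := by
        rw [mul_assoc k, mul_assoc k, show j * k⁻¹ * j⁻¹ = (j * k * j⁻¹)⁻¹ by group, hi, inv_inv]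
      have := E.mul_self_of_mem_cw H h4 (h9 ▸ mul_mem h8 (inv_mem h7))
      refine k1 (eq_one_of_sq_of_odd ko (n := 2) ?_)
      rw [← this]; norm_num [pow_succ, mul_assoc]⟩
    rw [Nat.card_of_isEmpty (α := {x // x ∈ S ∧ j • x = x}), ← c1] at h3
    rw [Nat.odd_iff]
    unfold Nat.ModEq at h3
    omega
  · rw [← card_ne_add_one (⟨fx V a, hA⟩ : Ax V T), ← Nat.card_prod]
    congr 1
    symm
    refine Nat.card_eq_of_bijective (fun x : cw L (fx V a) × {y : S // y ≠ W₁} =>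
      (⟨⟨(x.1 : L) • x.2.1.1, E.smul_mem_Ax H x.2.1.2.1 _⟩, fun e => x.2.2 (Subtype.ext (by
        have e1 : (x.1 : L) • x.2.1.1 = fx V a := congrArg Subtype.val e
        rw [← eq_inv_smul_iff, smul_eq_of_mem_cw (inv_mem x.1.2)] at e1
        exact e1))⟩ : {y : Ax V T // y ≠ ⟨fx V a, hA⟩})) ⟨?_, ?_⟩
    · rintro ⟨⟨a₁, ha₁⟩, ⟨⟨W, h4, h5⟩, h6⟩⟩ ⟨⟨a₂, ha₂⟩, ⟨⟨W', h4', h5'⟩, h6'⟩⟩ e
      have e1 : a₁ • W = a₂ • W' := congrArg (fun y : {y : Ax V T // y ≠ ⟨fx V a, hA⟩} => y.1.1) e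
      have hc : a₂⁻¹ * a₁ ∈ cw L (fx V a) := mul_mem (inv_mem ha₂) ha₁
      have e2 : (a₂⁻¹ * a₁) • W = W' := by rw [mul_smul, e1, inv_smul_smul]
      set c := a₂⁻¹ * a₁ with hcd
      have hk' := conj_mem_cw (g := k) hc
      rw [kW] at hk'
      have e3 := E.eq_one_of_smul H hA h4 (fun e => h6 (Subtype.ext e.symm))
        (mul_mem (inv_mem hc) hk') (by
          rw [mul_smul, mul_smul, mul_smul, inv_smul_eq_iff.2 h5.symm, e2, h5', ← e2,
            inv_smul_smul])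
      have c1 : c = 1 := by
        by_contra c1
        exact H.sp_conj_ne (hs c hc) c1 ko k1 (inv_mul_eq_one.1 e3).symm
      rw [c1, one_smul] at e2
      obtain rfl : a₂ = a₁ := inv_mul_eq_one.1 c1
      subst e2
      rfl
    · rintro ⟨⟨W₃, h3⟩, hne3⟩
      have n3 : fx V a ≠ W₃ := fun e => hne3 (Subtype.ext e.symm)
      obtain ⟨g, og, g1, g3⟩ := E.exists_orderOf_stab H hA h3 n3 hr hd
      obtain ⟨x, hx, e1⟩ := H.exists_conj_mem_zpowers hr h2 og hk (X := stabilizer L (fx V a)) g1 kW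
      obtain ⟨a₁, ha₁, e2⟩ := H.exists_conj_cw (E.iv a ha) hr h2 hk hs hx
      have e3 := mem_zpowers_of_orderOf_eq e2 (by rw [orderOf_conj', orderOf_conj'])
      have e4 : x * k * x⁻¹ ∈ stabilizer L W₃ := zpowers_le.2 (show g ∈ stabilizer L W₃ from g3) e1
      have e5 : k ∈ stabilizer L (a₁ • W₃) := zpowers_le.2 (show _ ∈ stabilizer L (a₁ • W₃) by
        rw [mem_stabilizer_iff, mul_smul, mul_smul _ (x * k * x⁻¹), inv_smul_smul,
          mem_stabilizer_iff.1 e4]) e3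
      refine ⟨(⟨a₁⁻¹, inv_mem ha₁⟩, ⟨⟨a₁ • W₃, E.smul_mem_Ax H h3 _, e5⟩, fun e => n3 ?_⟩),
        Subtype.ext (Subtype.ext (inv_smul_smul a₁ W₃))⟩
      have e6 : a₁ • W₃ = fx V a := congrArg Subtype.val e
      rw [← eq_inv_smul_iff, smul_eq_of_mem_cw (inv_mem ha₁)] at e6
      exact e6.symm

end EG

/-- **Translation plane.**  `T = {s | Iv s ∧ ∃ g, fx s = g • fx a}` is an elation geometry; the axes
cover `V` (`cw (fx a)` lies in the Sylow subgroup `stabilizer v₀`, `v₀ ∈ fx a`; all stabilizers are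
conjugate), so there are `q + 1` axes, `q = |fx a| = 2 ^ m`, `|V| = q²`; `k` acts freely on the nonzero
vectors of `fx a`, so `q ≡ 1 (mod r)` and `k` fixes a second axis; `card_Ax` gives `q = α f` with `f`
odd, `f = 1`; `α ≥ 4` as `r ∣ α - 1`, `α = 2 ^ e`, `e > 0`. -/
theorem Hyp.exists_sl2 (H : Hyp L V) (hS : ∀ v : V, v ≠ 0 → ¬ 2 ∣ (stabilizer L v).index)
    {a k : L} (ia : Iv a) (sa : Sp V a k) {r : ℕ} (hr : r.Prime) (h2 : r ≠ 2)
    (hk : orderOf k = r)
    (hw : ∀ (g : L) (v : V), v ≠ 0 → v ∈ fx V a → v ∈ g • fx V a → g • fx V a = fx V a) :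
    ∃ (S : Subgroup L) (F : Type) (_ : Field F) (_ : Fintype F), S.Normal ∧ 3 < Fintype.card F ∧
      Nonempty (S ≃* SL(2, F)) := by
  classical
  let T : Set L := {s | Iv s ∧ ∃ g : L, fx V s = g • fx V a}
  have E : EG V T := by
    refine ⟨fun t ht => ht.1, ?_, ?_, ?_⟩
    · rintro t ⟨h1, g, e⟩ g'
      exact ⟨h1.conj g', g' * g, by rw [← smul_fx, e, mul_smul]⟩
    · rintro s ⟨-, g, e⟩ t ⟨-, g', e'⟩ v v0 hs ht
      rw [← mem_fx, e] at hs
      rw [← mem_fx, e'] at ht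
      have := hw (g⁻¹ * g') (g⁻¹ • v) ((smul_ne_zero_iff_ne _).2 v0) (mem_smul_iff.1 hs) (by
        rw [mul_smul, mem_smul_iff, inv_inv, smul_inv_smul]; exact ht)
      rw [mul_smul, inv_smul_eq_iff] at this
      rw [e, e', this]
    · rintro t ⟨h1, g, e⟩ s hs s1
      obtain ⟨h3, h4⟩ := H.iv_of_mem_cw h1 hs s1
      exact ⟨h3, g, h4.trans e⟩
  have ha : a ∈ T := ⟨ia, 1, (one_smul _ _).symm⟩
  have hA : fx V a ∈ Ax V T := ⟨a, ha, rfl⟩
  haveI : Finite (AddSubgroup V) := Finite.of_injective _ SetLike.coe_injective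
  have cov : ∀ v : V, v ≠ 0 → ∃ W ∈ Ax V T, v ∈ W := by
    intro v v0
    have hz : IsPGroup 2 (zpowers a) := IsPGroup.of_card (n := 1) (by
      rw [Nat.card_zpowers, orderOf_two_of_mul_self ia.1 ia.2, pow_one])
    obtain ⟨Q, hQ⟩ := hz.exists_le_sylow
    obtain ⟨g, hg⟩ := MulAction.exists_smul_eq L Q ((H.stab v v0).toSylow (hS v v0))
    have h1 : g * a * g⁻¹ ∈ stabilizer L v := by
      have : g * a * g⁻¹ ∈ ((g • Q : Sylow 2 L) : Subgroup L) :=
        ⟨a, hQ (mem_zpowers a), rfl⟩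
      rwa [hg] at this
    exact ⟨_, ⟨_, E.conj a ha g, rfl⟩, h1⟩
  set q := Nat.card (fx V a) with hq
  have cW : ∀ W ∈ Ax V T, Nat.card W = q := by
    rintro _ ⟨t, ht, rfl⟩
    have := (H.card_fx_sq (E.iv t ht)).trans (H.card_fx_sq ia).symm
    exact Nat.pow_left_injective two_ne_zero this
  have q1 : 1 < q := (AddSubgroup.one_lt_card_iff_ne_bot _).2 (H.fx_ne_bot ia.1)
  have cA : Nat.card (Ax V T) = q + 1 := by
    letI := Fintype.ofFinite (Ax V T)
    have h1 : Nat.card (Σ W : Ax V T, {v : W.1 // v ≠ 0}) = Nat.card {v : V // v ≠ 0} := by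
      refine Nat.card_eq_of_bijective (fun x => ⟨x.2.1.1, fun e => x.2.2 (Subtype.ext e)⟩) ⟨?_, ?_⟩
      · rintro ⟨⟨W, hW⟩, ⟨v, hv⟩, v0⟩ ⟨⟨W', hW'⟩, ⟨v', hv'⟩, v0'⟩ e
        obtain rfl : v = v' := congrArg Subtype.val e
        obtain rfl : W = W' := by
          by_contra hne
          have : v ∈ W ⊓ W' := ⟨hv, hv'⟩
          rw [E.inf_eq_bot H hW hW' hne, AddSubgroup.mem_bot] at this
          exact v0 (Subtype.ext this)
        rfl
      · rintro ⟨v, v0⟩
        obtain ⟨W, hW, hv⟩ := cov v v0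
        exact ⟨⟨⟨W, hW⟩, ⟨v, hv⟩, fun e => v0 (congrArg Subtype.val e)⟩, rfl⟩
    have h3 : ∀ W : Ax V T, Nat.card {v : W.1 // v ≠ 0} = q - 1 := fun W => by
      rw [← cW W W.2, ← card_ne_add_one (0 : W.1), Nat.add_sub_cancel]
    rw [Nat.card_sigma, Finset.sum_congr rfl fun W _ => h3 W, Finset.sum_const, Finset.card_univ,
      ← Nat.card_eq_fintype_card, smul_eq_mul] at h1
    have h4 := card_ne_add_one (0 : V)
    rw [← h1, ← H.card_fx_sq ia, ← hq] at h4
    obtain ⟨n, hn⟩ : ∃ n, q = n + 1 := ⟨q - 1, by omega⟩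
    rw [hn, Nat.add_sub_cancel] at h4
    refine Nat.eq_of_mul_eq_mul_right (show 0 < n by omega) ?_
    rw [hn]; nlinarith
  have kr : k ^ r = 1 := by rw [← hk, pow_orderOf_eq_one]
  have k1 : k ≠ 1 := fun e => hr.one_lt.ne' (by rw [← hk, e, orderOf_one])
  have r3 : 3 ≤ r := by have := hr.two_le; omega
  have kW := H.sp_smul_fx sa
  have qr : q ≡ 1 [MOD r] := by
    have h0 := card_modEq_fix (fx V a : Set V) hr kr fun v hv => smul_mem_of_smul_eq kW hv
    haveI : Unique {x // x ∈ (fx V a : Set V) ∧ k • x = x} :=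
      ⟨⟨⟨0, zero_mem _, smul_zero k⟩⟩, fun x => Subtype.ext
        (H.eq_zero_of_odd (hk ▸ hr.odd_of_ne_two h2) k1 x.2.2)⟩
    rwa [Nat.card_unique (α := {x // x ∈ (fx V a : Set V) ∧ k • x = x})] at h0
  obtain ⟨W₂, hW₂, hne, e⟩ : ∃ W₂ ∈ Ax V T, W₂ ≠ fx V a ∧ k • W₂ = W₂ := by
    by_contra hn
    push Not at hn
    have h0 := card_modEq_fix (Ax V T) hr kr fun W hW => E.smul_mem_Ax H hW k
    haveI : Unique {x // x ∈ Ax V T ∧ k • x = x} :=
      ⟨⟨⟨fx V a, hA, kW⟩⟩, fun x => Subtype.ext (by_contra fun hne => hn _ x.2.1 hne x.2.2)⟩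
    rw [Nat.card_unique (α := {x // x ∈ Ax V T ∧ k • x = x}), cA] at h0
    have h3 : 1 + 1 ≡ 1 [MOD r] := (qr.symm.add_right 1).trans h0
    have := (Nat.modEq_iff_dvd' (by omega)).1 h3.symm
    exact absurd (Nat.le_of_dvd (by omega) this) (by omega)
  obtain ⟨f, -, of, hf⟩ := E.card_Ax H ha sa hr h2 hk hW₂ hne e
  obtain ⟨m, hm⟩ := H.exists_card_eq (fx V a)
  have f1 : f = 1 := by
    have h1 : f ∣ 2 ^ m := by
      rw [← hm, ← hq]; exact Dvd.intro_left _ (by omega : Nat.card (cw L (fx V a)) * f = q)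
    exact (Nat.Coprime.pow_right _ of.coprime_two_right).eq_one_of_dvd h1
  rw [f1, mul_one] at hf
  obtain ⟨F, i1, i2, hF, he⟩ := E.exists_mulEquiv H hA hf
  refine ⟨_, F, i1, i2, E.normal_closure H, ?_, he⟩
  have := Nat.le_of_dvd (by omega) (E.all_sp H ha sa hr h2 hk hW₂ hne e).2.2
  omega

end Cfsg.Gag2
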