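import Cfsg.Agent.Gag2.Defs

/-!
# Lemmas A and B, traces in groups generated by two elements of order three
-/

set_option autoImplicit false
set_option linter.unusedSectionVars false

namespace Cfsg.Gag2

open Subgroup MulAction
open scoped Pointwise

universe u v

variable {L : Type u} [Group L] [Finite L] {V : Type v} [AddCommGroup V] [Finite V]
  [DistribMulAction L V]

namespace Hyp

variable (H : Hyp L V)
include H

theorem even_smul (n : ℤ) (x : AddMonoid.End V) (hn : Even n) : n • x = 0 := by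
  obtain ⟨m, rfl⟩ := hn
  rw [add_smul, H.add_self]

theorem tr_sq (g : L) : tr V (g * g) = tr V g * tr V g := by
  have hev := H.even_smul
  have h1 := op_mul_inv (V := V) g
  have h2 := op_inv_mul (V := V) g
  simp only [tr, mul_inv_rev, map_mul]
  linear_combination (norm := (noncomm_ring; simp (disch := decide) only [hev, add_zero])) -h1 - h2

theorem tr_pow_two (g : L) (i : ℕ) : tr V (g ^ 2 ^ i) = tr V g ^ 2 ^ i := by
  induction i with
  | zero => simp
  | succ i ih => rw [pow_succ, pow_mul, pow_mul, pow_two, pow_two, H.tr_sq, ih]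

theorem op_sq (g : L) : op V g * op V g = tr V g * op V g + 1 := by
  have hev := H.even_smul
  have h2 := op_inv_mul (V := V) g
  simp only [tr]
  linear_combination (norm := (noncomm_ring; simp (disch := decide) only [hev, add_zero])) -h2

theorem nu_sq (g : L) : nu V (g * g) = tr V g * op V g := by
  have h2 := op_inv_mul (V := V) g
  simp only [tr, nu, map_mul]
  linear_combination (norm := noncomm_ring) -h2

theorem tr_eq_zero {t : L} (h : t * t = 1) : tr V t = 0 := by
  rw [tr, inv_eq_of_mul_eq_one_right h, H.add_self]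

omit H in
theorem commute_tr_op (g : L) : Commute (tr V g) (op V g) := by
  have h1 := op_mul_inv (V := V) g
  have h2 := op_inv_mul (V := V) g
  simp only [Commute, SemiconjBy, tr]
  linear_combination (norm := noncomm_ring) h2 - h1

/-- `y² + y + 1 = 0` (`FpfEnd.sum_pow_eq_zero`). -/
theorem tr_of_three {y : L} (hy : orderOf y = 3) : tr V y = 1 := by
  have h3 : y * y * y = 1 := by
    have := pow_orderOf_eq_one y
    rwa [hy, pow_succ, pow_two] at this
  have hy1 : y ≠ 1 := by
    rintro rfl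
    simp at hy
  have hinv : y⁻¹ = y * y := inv_eq_of_mul_eq_one_right (by rw [← mul_assoc, h3])
  ext v
  have hw : y • ((y * y) • v + y • v + v) = (y * y) • v + y • v + v := by
    rw [smul_add, smul_add, ← mul_smul, ← mul_smul, ← mul_assoc, h3, one_smul]
    abel
  have h0 := H.eq_zero_of_odd (by rw [hy]; decide) hy1 hw
  rw [H.add_eq_zero_iff] at h0
  change y • v + y⁻¹ • v = v
  rw [hinv, add_comm, h0]

/-- The trace of an element of odd order is injective (`tr k = k⁻¹ (1 + k²)`). -/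
theorem tr_inj {k : L} (ho : Odd (orderOf k)) (h1 : k ≠ 1) {v : V} (h : tr V k v = 0) : v = 0 := by
  rw [tr_apply, H.add_eq_zero_iff] at h
  have h2 : (k ^ 2) • v = v := by
    rw [pow_two, mul_smul, h, smul_inv_smul]
  have hc : Nat.Coprime (orderOf k) 2 := Nat.coprime_two_right.2 ho
  have ho2 : orderOf (k ^ 2) = orderOf k := hc.orderOf_pow
  refine H.eq_zero_of_odd (by rwa [ho2]) ?_ h2
  intro e
  rw [e, orderOf_one] at ho2
  exact h1 (orderOf_eq_one_iff.1 ho2.symm)

/-- **Lemma A.**  Put `K = op k`, `K' = op k'`, `μ = tr k = tr k'` (commutes with `K`, `K'`),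
`d = K + K'`, `s = d * d`, `h = k⁻¹ k'`, `X = op h = 1 + K⁻¹ d`, `h' = k h k⁻¹`.  Ring identities:
`s = K K' + K' K + μ d = tr h` commutes with `K`, `K'`;  `d K + K⁻¹ d = s`;
`op h + op h' = s + μ d`;  `X ^ 2 ^ i = s ^ (2 ^ i - 1) X + a_i` with `a_i` commuting with `K`.
Suppose `h * h ≠ 1`, `z = h ^ 2 ^ i` an involution, `i ≥ 1`, `p = 2 ^ i`, `N = nu h`,
`s = X⁻¹ N²` (`tr_eq`), `s ^ p = 0`, `z' = k z k⁻¹`.  `nu z = X ^ (p/2) s ^ (p/2)`, the same for `z'`,
so `nu z' * nu z = 0`, `z' ∈ cw (fx z)`, `nu (z z') = nu z + nu z' = s ^ (p-1) μ d =: D`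
`= unit * μ * N ^ (2p - 1)`, `D N = 0`.  If `z z' ≠ 1` then `fx (z z') = fx z` contains `range N`, so
`N ^ (p+1) = 0`, `D = 0`, `z z' = 1`.  So `D = 0`, `N ^ (2p - 1) = 0` (`tr_inj`), against
`nu_pow_ne_zero`.  So `h * h = 1`, `s = 0`, `d K = K⁻¹ d`, `K (nu h) K = d K = K⁻¹ d = nu h`. -/
theorem lemA {k k' : L} (ho : Odd (orderOf k)) (h1 : k ≠ 1) (ht : tr V k = tr V k')
    (h : Tw (k⁻¹ * k')) : (k⁻¹ * k') * (k⁻¹ * k') = 1 ∧ Sp V (k⁻¹ * k') k := by
  have hev := H.even_smul
  set g := k⁻¹ * k' with hg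
  set K := op V k with hK
  set Ki := op V k⁻¹ with hKi
  set K' := op V k' with hK'
  set Ki' := op V k'⁻¹ with hKi'
  have e1 : K * Ki = 1 := op_mul_inv k
  have e2 : Ki * K = 1 := op_inv_mul k
  have e3 : K' * Ki' = 1 := op_mul_inv k'
  have e4 : Ki' * K' = 1 := op_inv_mul k'
  have em : K + Ki = K' + Ki' := ht
  obtain ⟨m, hm⟩ : ∃ m, m = K + Ki := ⟨_, rfl⟩
  obtain ⟨d, hd⟩ : ∃ d, d = K + K' := ⟨_, rfl⟩
  have hKi2 : Ki = m + K := by
    linear_combination (norm := (noncomm_ring; simp (disch := decide) only [hev, add_zero])) -hm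
  have hKi2' : Ki' = m + K' := by
    linear_combination (norm := (noncomm_ring; simp (disch := decide) only [hev, add_zero])) -hm - em
  have hK2 : K' = K + d := by
    linear_combination (norm := (noncomm_ring; simp (disch := decide) only [hev, add_zero])) -hd
  have mK : m * K = K * m := by
    rw [hm]; linear_combination (norm := noncomm_ring) e2 - e1
  have mK' : m * K' = K' * m := by
    rw [hm, em]; linear_combination (norm := noncomm_ring) e4 - e3
  have md : m * d = d * m := by
    rw [hd]; linear_combination (norm := noncomm_ring) mK + mK'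
  have KK : K * K = m * K + 1 := by
    rw [hm]; linear_combination (norm := (noncomm_ring; simp (disch := decide) only [hev, add_zero])) -e2
  have KK' : K' * K' = m * K' + 1 := by
    rw [hm, em]; linear_combination (norm := (noncomm_ring; simp (disch := decide) only [hev, add_zero])) -e4
  have hX : op V g = Ki * K' := by rw [hg, map_mul]
  have hXi : op V g⁻¹ = Ki' * K := by rw [hg, mul_inv_rev, inv_inv, map_mul]
  have hN : nu V g = Ki * d := by
    rw [nu, hX, hd]; linear_combination (norm := noncomm_ring) -e2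
  have hs : tr V g = d * d := by
    rw [tr, hX, hXi, hKi2, hKi2', hd]
    linear_combination (norm := (noncomm_ring; simp (disch := decide) only [hev, add_zero])) -KK - KK'
  have hKd : K * d = d * K + d * d + m * d := by
    rw [hd]
    linear_combination (norm := (noncomm_ring; simp (disch := decide) only [hev, add_zero])) -KK - KK'
  have sK : Commute (tr V g) K := by
    rw [hs]
    change d * d * K = K * (d * d)
    linear_combination (norm := (noncomm_ring; simp (disch := decide) only [hev, add_zero])) -(hKd * d) - d * hKd + md * d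
  have key : g * g = 1 := by
    by_contra hne
    have hg1 : g ≠ 1 := by
      rintro e
      exact hne (by rw [e, one_mul])
    obtain ⟨i, hi⟩ := h.exists_iv hg1
    obtain _ | j := i
    · exact hne (by simpa using hi.1)
    set s := tr V g with hsdef
    set g' := k * g * k⁻¹ with hg'
    have hs' : tr V g' = s := by
      rw [hg', tr_conj, ← hK, ← hKi, ← hsdef, ← sK.eq, mul_assoc, e1, mul_one]
    have sX : Commute s (op V g) := commute_tr_op g
    have sX' : Commute s (op V g') := hs' ▸ commute_tr_op g'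
    have hsum : ∀ n : ℕ, op V (g ^ 2 ^ n) + op V (g' ^ 2 ^ n) =
        s ^ (2 ^ n - 1) * (op V g + op V g') := by
      intro n
      induction n with
      | zero => simp
      | succ n ih =>
        have hn : 2 ^ (n + 1) - 1 = 2 ^ n + (2 ^ n - 1) := by
          have := Nat.one_le_two_pow (n := n)
          omega
        rw [hn, pow_add s, mul_assoc, ← ih, pow_succ, pow_mul, pow_mul, pow_two, pow_two, map_mul,
          map_mul, H.op_sq, H.op_sq, H.tr_pow_two, H.tr_pow_two, hs', ← hsdef]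
        linear_combination (norm := (noncomm_ring; simp (disch := decide) only [hev, add_zero]))
    have hXX : op V g + op V g' = s + m * d := by
      have a1 : op V g = Ki * d + 1 := by rw [H.op_eq, hN]
      have a2 : op V g' = d * Ki + 1 := by
        rw [H.op_eq, hg', nu_conj, hN, ← hK, ← hKi, ← mul_assoc, e1, one_mul]
      rw [a1, a2, hs, hKi2]
      linear_combination (norm := (noncomm_ring; simp (disch := decide) only [hev, add_zero])) hKd - md
    set z := g ^ 2 ^ (j + 1) with hz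
    set z' := g' ^ 2 ^ (j + 1) with hz'
    have hsp : s ^ 2 ^ (j + 1) = 0 := by
      rw [hsdef, ← H.tr_pow_two, H.tr_eq_zero hi.1]
    have nz : nu V z = s ^ 2 ^ j * op V (g ^ 2 ^ j) := by
      rw [hz, pow_succ, pow_mul, pow_two, H.nu_sq, H.tr_pow_two]
    have nz' : nu V z' = s ^ 2 ^ j * op V (g' ^ 2 ^ j) := by
      rw [hz', pow_succ, pow_mul, pow_two, H.nu_sq, H.tr_pow_two, hs']
    have hzz : nu V z' * nu V z = 0 := by
      have c : Commute (s ^ 2 ^ j) (op V (g' ^ 2 ^ j)) := by
        rw [map_pow]; exact sX'.pow_pow _ _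
      rw [nz, nz', c.eq, mul_assoc, ← mul_assoc (s ^ 2 ^ j), ← pow_add, ← two_mul, ← pow_succ',
        hsp, zero_mul, mul_zero]
    have hmem : z' ∈ cw L (fx V z) := H.mem_cw_of_nu_mul hi hzz
    obtain ⟨p, hp⟩ : ∃ p, 2 ^ (j + 1) = p + 2 := ⟨2 ^ (j + 1) - 2, by
      have := Nat.one_le_two_pow (n := j)
      rw [pow_succ]; omega⟩
    have ms : Commute s m := by
      rw [hs]; exact (Commute.mul_left md.symm md.symm)
    have XN : Commute (op V g⁻¹) (nu V g) :=
      Commute.add_right ((Commute.refl g).inv_left.map (op V)) (Commute.one_right _)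
    have hD : nu V (z * z') = m * (K * (op V g⁻¹ ^ (p + 1) * nu V g ^ (2 * p + 3))) := by
      have a1 : nu V (z * z') = op V z + op V z' := by
        rw [H.nu_mul_of_mem_cw hi (self_mem_cw z) hmem, nu, nu]
        linear_combination (norm := (noncomm_ring; simp (disch := decide) only [hev, add_zero]))
      have a2 : d = K * nu V g := by rw [hN, ← mul_assoc, e1, one_mul]
      have a3 : s ^ (p + 1) = op V g⁻¹ ^ (p + 1) * nu V g ^ (2 * p + 2) := by
        rw [hsdef, H.tr_eq, (XN.mul_right XN).mul_pow, ← pow_two, ← pow_mul]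
        rfl
      rw [a1, hsum, hXX, hp, show p + 2 - 1 = p + 1 from rfl, mul_add, ← pow_succ, ← hp, hsp,
        zero_add, ← mul_assoc, (ms.pow_left _).eq, a2, mul_assoc, ← mul_assoc _ K,
        (sK.pow_left _).eq, mul_assoc, a3, mul_assoc, ← pow_succ]
    have hN2 : nu V g ^ (2 * p + 4) = 0 := by
      have : 2 * p + 4 = 2 ^ (j + 1 + 1) := by rw [pow_succ, hp]; ring
      rw [this, H.nu_pow, pow_succ, pow_mul, pow_two, hi.1, H.nu_one]
    have hD0 : nu V (z * z') = 0 := by
      by_cases h1z : z * z' = 1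
      · rw [h1z, H.nu_one]
      · have hfx := (H.iv_of_mem_cw hi ((cw L (fx V z)).mul_mem (self_mem_cw z) hmem) h1z).2
        have hDN : nu V (z * z') * nu V g = 0 := by
          rw [hD, mul_assoc, mul_assoc, mul_assoc, ← pow_succ, hN2]
          simp
        have hNp : nu V g ^ (p + 3) = 0 := by
          ext v
          have a1 : nu V g v ∈ fx V (z * z') := by
            rw [H.mem_fx_iff]
            exact DFunLike.congr_fun hDN v
          rw [hfx, H.mem_fx_iff, hz, ← H.nu_pow, hp] at a1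
          rw [pow_succ]
          exact a1
        rw [hD, show 2 * p + 3 = p + (p + 3) by ring, pow_add (nu V g), hNp]
        simp
    apply H.nu_pow_ne_zero hi
    have : 2 ^ (j + 1 + 1) - 1 = 2 * p + 3 := by rw [pow_succ, hp]; omega
    rw [this]
    ext v
    have a1 : tr V k ((K * (op V g⁻¹ ^ (p + 1) * nu V g ^ (2 * p + 3))) v) = 0 := by
      have := DFunLike.congr_fun (hD.symm.trans hD0) v
      rw [hm] at this
      exact this
    have a2 := H.tr_inj ho h1 a1
    rw [← map_pow] at a2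
    change k • (g⁻¹ ^ (p + 1)) • (nu V g ^ (2 * p + 3)) v = 0 at a2
    rw [smul_eq_zero_iff_eq, smul_eq_zero_iff_eq] at a2
    exact a2
  refine ⟨key, ?_⟩
  have hs0 : d * d = 0 := by rw [← hs, H.tr_eq_zero key]
  change K * nu V g * K = nu V g
  rw [hN, ← mul_assoc, e1, one_mul, hKi2]
  linear_combination (norm := (noncomm_ring; simp (disch := decide) only [hev, add_zero])) -hKd - hs0

/-- **Lemma B.**  If `g = 1` trivial.  `x = a g`; `h₀ = y⁻¹ (x y x⁻¹) ∈ X`, by `lemA` `h₀² = 1` and
`Sp h₀ y`; with `h = y⁻¹ h₀ y` or `y h₀ y⁻¹` (use `nu (y h y⁻¹) = y² nu h`, `1 + y + y² = 0`) one has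
`h y h⁻¹ = x y x⁻¹`, so `c = h⁻¹ x ∈ X` commutes with `y`, `x = h c`.  The map
`ℓ φ = φ + y φ + φ y` fixes operators commuting with `y` and kills those with `y φ = φ y⁻¹`;
`op x = 1 + N_a N_g + N_a + N_g = op c + N_h op c`, so `op c = 1 + N_a N_g`.  `range (N_a N_g)` is the
image of `fx g` under `N_a`, whose kernel meets `fx g` nontrivially (`exists_fix` for `X`), so it has
fewer than `|fx g|` elements; `card_le_range_sq` gives `c = 1`, `N_a N_g = 0`; symmetric via
`mem_cw_of_nu_mul`, `iv_of_mem_cw`. -/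
theorem lemB {y a g : L} (hy : orderOf y = 3) {X : Subgroup L} (hX : IsPGroup 2 X)
    (hn : y ∈ normalizer (X : Set L)) (ha : a ∈ X) (hg : g ∈ X) (ia : Iv a) (ig : g * g = 1)
    (sa : Sp V a y) (sg : Sp V g y) : g ∈ cw L (fx V a) := by
  have hev := H.even_smul
  by_cases hg1 : g = 1
  · rw [hg1]; exact (cw L _).one_mem
  have igv : Iv g := ⟨ig, hg1⟩
  have hy1 : y ≠ 1 := by
    rintro rfl
    simp at hy
  have hyo : Odd (orderOf y) := by rw [hy]; decide
  have hconj : ∀ t ∈ X, y⁻¹ * t * y ∈ X := by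
    intro t ht
    have := (mem_normalizer_iff''.1 hn t).1 ht
    exact this
  have hx : a * g ∈ X := X.mul_mem ha hg
  set x := a * g with hxdef
  have hh0 : y⁻¹ * (x * y * x⁻¹) ∈ X := by
    have := X.mul_mem (hconj x hx) (X.inv_mem hx)
    simpa only [mul_assoc] using this
  have hord : orderOf (x * y * x⁻¹) = 3 := by
    rw [← hy]; exact (MulAut.conj x).orderOf_eq y
  obtain ⟨i0, s0⟩ := H.lemA hyo hy1 ((H.tr_of_three hy).trans (H.tr_of_three hord).symm)
    (tw_of_mem hX hh0)
  set h0 := y⁻¹ * (x * y * x⁻¹) with hh0def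
  set h := y⁻¹ * h0 * y⁻¹⁻¹ with hh
  have hhX : h ∈ X := by rw [hh, inv_inv]; exact hconj h0 hh0
  have sh : Sp V h y := by
    have : Sp V h y⁻¹⁻¹ := s0.inv.conj_self.inv
    rwa [inv_inv] at this
  have ih : h * h = 1 := by
    rw [hh]
    calc y⁻¹ * h0 * y⁻¹⁻¹ * (y⁻¹ * h0 * y⁻¹⁻¹) = y⁻¹ * (h0 * h0) * y := by group
      _ = 1 := by rw [i0]; group
  set Y := op V y with hY
  set Yi := op V y⁻¹ with hYi
  have e1 : Y * Yi = 1 := op_mul_inv y
  have e2 : Yi * Y = 1 := op_inv_mul y
  have et : Y + Yi = 1 := H.tr_of_three hy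
  have nh : nu V h = Y * nu V h0 := by
    rw [hh, s0.inv.nu_conj, ← hYi]
    congr 1
    linear_combination (norm := (noncomm_ring; simp (disch := decide) only [hev, add_zero])) Yi * et - e2 - et
  have hyh : h * y * h⁻¹ = x * y * x⁻¹ := by
    have a0 : x * y * x⁻¹ = y * h0 := by rw [hh0def]; group
    apply H.op_inj
    rw [a0, inv_eq_of_mul_eq_one_right ih, map_mul _ (h * y), map_mul _ h, map_mul _ y, H.op_eq h,
      H.op_eq h0, ← hY]
    have a1 : Y * nu V h = nu V h * Yi := sh.mul_nu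
    have a2 : nu V h * nu V h = 0 := H.nu_mul_self ih
    linear_combination (norm := noncomm_ring) nu V h * a1 + a2 * Yi + a1 + nu V h * et + nh
  set c := h⁻¹ * x with hc
  have hcX : c ∈ X := X.mul_mem (X.inv_mem hhX) hx
  have cy : c * y = y * c := by
    rw [hc]
    calc h⁻¹ * x * y = h⁻¹ * (x * y * x⁻¹) * x := by group
      _ = y * (h⁻¹ * x) := by rw [← hyh]; group
  have nc : nu V c = nu V a * nu V g := by
    have a0 : op V a * op V g = op V h * op V c := by
      rw [← map_mul, ← map_mul, hc, ← hxdef, mul_inv_cancel_left]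
    have a1 : op V c * Y = Y * op V c := by rw [hY, ← map_mul, ← map_mul, cy]
    have a1' : op V c * Yi = Yi * op V c := (Commute.inv_right cy).map (op V)
    rw [H.op_eq a, H.op_eq g, H.op_eq h] at a0
    have b1 : Y * nu V a = nu V a * Yi := sa.mul_nu
    have b2 : Y * nu V g = nu V g * Yi := sg.mul_nu
    have b2' : nu V g * Y = Yi * nu V g := sg.nu_mul
    have b3 : Y * nu V h = nu V h * Yi := sh.mul_nu
    rw [nu]
    set C := op V c
    set A := nu V a
    set G := nu V g
    set N := nu V h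
    linear_combination (norm := (noncomm_ring; simp (disch := decide) only [hev, add_zero])) -(a0 + Y * a0 + a0 * Y) + b1 * G + A * b2' + b1 + b2
      + A * et + G * et + a1 + b3 * C + N * a1' + N * C * et
  have hc1 : c = 1 := by
    by_contra hc1
    have hle := H.card_le_range_sq (tw_of_mem hX hcX) hc1
    obtain ⟨v, -, hv0, hv⟩ := H.exists_fix hX (W := ⊤) (by
      obtain ⟨v, hv⟩ := H.nt
      exact (AddSubgroup.ne_bot_iff_exists_ne_zero.2 ⟨⟨v, trivial⟩, fun e => hv (congrArg Subtype.val e)⟩))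
      (fun _ _ _ _ => trivial)
    let f : fx V g →+ V := (nu V a : V →+ V).comp (fx V g).subtype
    have hr : AddMonoidHom.range (nu V c : V →+ V) ≤ f.range := by
      rintro _ ⟨u, rfl⟩
      refine ⟨⟨nu V g u, H.nu_mem_fx ig u⟩, ?_⟩
      rw [nc]; rfl
    have hker : f.ker ≠ ⊥ := by
      refine AddSubgroup.ne_bot_iff_exists_ne_zero.2 ⟨⟨⟨v, hv g hg⟩, ?_⟩, fun e => hv0 ?_⟩
      · exact (H.mem_fx_iff).1 (hv a ha)
      · exact congrArg (fun t => t.1.1) e
    have h2 : 1 < Nat.card f.ker := (AddSubgroup.one_lt_card_iff_ne_bot _).2 hker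
    have h3 : Nat.card f.ker * Nat.card f.range = Nat.card (fx V g) := by
      rw [← AddSubgroup.index_ker, AddSubgroup.card_mul_index]
    have h4 := AddSubgroup.card_le_of_le hr
    have h5 := H.card_fx_sq igv
    have h6 : 0 < Nat.card f.range := Nat.card_pos
    have h7 : Nat.card f.range < Nat.card (fx V g) := by nlinarith
    have h8 : Nat.card (AddMonoidHom.range (nu V c : V →+ V)) ^ 2 < Nat.card (fx V g) ^ 2 :=
      Nat.pow_lt_pow_left (lt_of_le_of_lt h4 h7) (by norm_num)
    omega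
  rw [hc1, H.nu_one] at nc
  have hag := H.mem_cw_of_nu_mul igv nc.symm
  rw [(H.iv_of_mem_cw igv hag ia.2).2]
  exact self_mem_cw g

/-- Traces in `⟨y, y'⟩` are central.  `Y = op y`, `Y' = op y'`, `Y² = Y + 1`, `Y'² = Y' + 1`,
`s = (Y + Y')² = Y Y' + Y' Y + Y + Y'` commutes with `Y`, `Y'`.  Induction on `g`: there are
`a₀ … a₃` commuting with `Y`, `Y'` with `op g = a₀ + a₁ Y + a₂ Y' + a₃ Y Y'` and
`op g⁻¹ = a₀ + a₁ (Y+1) + a₂ (Y'+1) + a₃ (Y'+1) (Y+1)`; then `tr g = a₁ + a₂ + a₃ (s + 1)`.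
(Right multiplication by `y`: `(a₁ + a₂ s + a₃, a₀ + a₁ + a₂ + a₃ (1 + s), a₂ + a₃, a₂)`; by `y'`:
`(a₂, a₃, a₀ + a₂, a₁ + a₃)`; `y⁻¹ = y²`.) -/
theorem commute_tr {y y' : L} (hy : orderOf y = 3) (hy' : orderOf y' = 3) {g x : L}
    (hg : g ∈ closure ({y, y'} : Set L)) (hx : x ∈ closure ({y, y'} : Set L)) :
    Commute (tr V g) (op V x) := by
  have hev := H.even_smul
  have sq : ∀ {t : L}, orderOf t = 3 → t⁻¹ = t * t ∧ op V t⁻¹ = op V t + 1 ∧
      op V t * op V t = op V t + 1 := by
    intro t ht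
    have h3 : t * t * t = 1 := by
      have := pow_orderOf_eq_one t
      rwa [ht, pow_succ, pow_two] at this
    have hinv : t⁻¹ = t * t := inv_eq_of_mul_eq_one_right (by rw [← mul_assoc, h3])
    have et : op V t + op V t⁻¹ = 1 := H.tr_of_three ht
    have a : op V t⁻¹ = op V t + 1 := by linear_combination (norm := (noncomm_ring; simp (disch := decide) only [hev, add_zero])) et
    exact ⟨hinv, a, by rw [← a, hinv, map_mul]⟩
  obtain ⟨i1, j1, k1⟩ := sq hy
  obtain ⟨i2, j2, k2⟩ := sq hy'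
  set Y := op V y with hY
  set Y' := op V y' with hY'
  let Z : Subring (AddMonoid.End V) := Subring.centralizer {Y, Y'}
  have memZ : ∀ {a}, a ∈ Z ↔ Y * a = a * Y ∧ Y' * a = a * Y' := by
    intro a
    simp [Z, Subring.mem_centralizer_iff]
  obtain ⟨s, hs⟩ : ∃ s, s = Y * Y' + Y' * Y + Y + Y' := ⟨_, rfl⟩
  have sY : Y * s = s * Y := by
    rw [hs]; linear_combination (norm := (noncomm_ring; simp (disch := decide) only [hev, add_zero])) k1 * Y' - Y' * k1
  have sY' : Y' * s = s * Y' := by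
    rw [hs]; linear_combination (norm := (noncomm_ring; simp (disch := decide) only [hev, add_zero])) k2 * Y - Y * k2
  have sZ : s ∈ Z := memZ.2 ⟨sY, sY'⟩
  let P : L → Prop := fun g => ∃ a₀ ∈ Z, ∃ a₁ ∈ Z, ∃ a₂ ∈ Z, ∃ a₃ ∈ Z,
    op V g = a₀ + a₁ * Y + a₂ * Y' + a₃ * (Y * Y') ∧
    op V g⁻¹ = a₀ + a₁ * (Y + 1) + a₂ * (Y' + 1) + a₃ * ((Y' + 1) * (Y + 1))
  have u1 : Y' * Y = s + Y * Y' + Y + Y' := by
    rw [hs]; linear_combination (norm := (noncomm_ring; simp (disch := decide) only [hev, add_zero]))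
  have u2 : Y * Y' * Y = s * Y + Y' + Y + 1 := by
    linear_combination (norm := (noncomm_ring; simp (disch := decide) only [hev, add_zero])) Y * u1 + sY + k1 * Y' + k1
  have step1 : ∀ g, P g → P (g * y) := by
    rintro g ⟨a₀, m₀, a₁, m₁, a₂, m₂, a₃, m₃, p, q⟩
    refine ⟨a₁ + a₂ * s + a₃, ?_, a₀ + a₁ + a₂ + a₃ * (1 + s), ?_, a₂ + a₃, ?_, a₂, m₂, ?_, ?_⟩
    · exact Z.add_mem (Z.add_mem m₁ (Z.mul_mem m₂ sZ)) m₃
    · exact Z.add_mem (Z.add_mem (Z.add_mem m₀ m₁) m₂) (Z.mul_mem m₃ (Z.add_mem Z.one_mem sZ))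
    · exact Z.add_mem m₂ m₃
    · rw [map_mul, p, ← hY]
      linear_combination (norm := noncomm_ring) a₁ * k1 + a₂ * u1 + a₃ * u2
    · rw [mul_inv_rev, map_mul, q, j1]
      have c₀ := (memZ.1 m₀).1
      have c₁ := (memZ.1 m₁).1
      have c₂ := (memZ.1 m₂).1
      have c₃ := (memZ.1 m₃).1
      linear_combination (norm := (noncomm_ring; simp (disch := decide) only [hev, add_zero])) c₀ + c₁ * (Y + 1) + c₂ * (Y' + 1)
        + c₃ * ((Y' + 1) * (Y + 1)) + a₁ * k1 + a₂ * u1 + a₃ * u2 + a₃ * k1 + a₃ * u1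
  have step2 : ∀ g, P g → P (g * y') := by
    rintro g ⟨a₀, m₀, a₁, m₁, a₂, m₂, a₃, m₃, p, q⟩
    refine ⟨a₂, m₂, a₃, m₃, a₀ + a₂, Z.add_mem m₀ m₂, a₁ + a₃, Z.add_mem m₁ m₃, ?_, ?_⟩
    · rw [map_mul, p, ← hY']
      linear_combination (norm := noncomm_ring) a₂ * k2 + a₃ * Y * k2
    · rw [mul_inv_rev, map_mul, q, j2]
      have c₀ := (memZ.1 m₀).2
      have c₁ := (memZ.1 m₁).2
      have c₂ := (memZ.1 m₂).2
      have c₃ := (memZ.1 m₃).2
      linear_combination (norm := (noncomm_ring; simp (disch := decide) only [hev, add_zero])) c₀ + c₁ * (Y + 1) + c₂ * (Y' + 1)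
        + c₃ * ((Y' + 1) * (Y + 1)) + a₂ * k2 + a₃ * k2 * (Y + 1)
  have hP : P g := by
    induction hg using closure_induction_right with
    | one =>
      refine ⟨1, Z.one_mem, 0, Z.zero_mem, 0, Z.zero_mem, 0, Z.zero_mem, ?_, ?_⟩ <;> simp
    | mul_right g _ t ht ih =>
      rcases ht with rfl | rfl
      · exact step1 g ih
      · exact step2 g ih
    | mul_inv_cancel g _ t ht ih =>
      rcases ht with rfl | rfl
      · rw [i1, ← mul_assoc]; exact step1 _ (step1 g ih)
      · rw [i2, ← mul_assoc]; exact step2 _ (step2 g ih)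
  have hZ : tr V g ∈ Z := by
    obtain ⟨a₀, m₀, a₁, m₁, a₂, m₂, a₃, m₃, p, q⟩ := hP
    have : tr V g = a₁ + a₂ + a₃ * (s + 1) := by
      rw [tr, p, q, hs]
      linear_combination (norm := (noncomm_ring; simp (disch := decide) only [hev, add_zero]))
    rw [this]
    exact Z.add_mem (Z.add_mem m₁ m₂) (Z.mul_mem m₃ (Z.add_mem sZ Z.one_mem))
  obtain ⟨z1, z2⟩ := memZ.1 hZ
  induction hx using closure_induction with
  | mem t ht =>
    rcases ht with rfl | rfl
    · exact z1.symm
    · exact z2.symm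
  | one => rw [map_one]; exact Commute.one_right _
  | mul s t _ _ hs ht => rw [map_mul]; exact hs.mul_right ht
  | inv t _ ht =>
    have a1 := op_mul_inv (V := V) t
    have a2 := op_inv_mul (V := V) t
    have a3 : tr V g * op V t = op V t * tr V g := ht
    change tr V g * op V t⁻¹ = op V t⁻¹ * tr V g
    linear_combination (norm := noncomm_ring) op V t⁻¹ * tr V g * a1 - a2 * (tr V g * op V t⁻¹)
      - op V t⁻¹ * a3 * op V t⁻¹

/-- If some element of order three acts nontrivially on a `2`-group, there is a special pair. -/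
theorem exists_sp_of_not_na4 (h : ¬ NA4 L) : ∃ a y : L, orderOf y = 3 ∧ Iv a ∧ Sp V a y := by
  unfold NA4 at h
  push Not at h
  obtain ⟨y, hy, X, hX, hn, x, hx, hc⟩ := h
  have hy1 : y ≠ 1 := by
    rintro rfl
    simp at hy
  have hyo : Odd (orderOf y) := by rw [hy]; decide
  have hh0 : y⁻¹ * (x * y * x⁻¹) ∈ X := by
    have := X.mul_mem ((mem_normalizer_iff''.1 hn x).1 hx) (X.inv_mem hx)
    simpa only [mul_assoc] using this
  have hord : orderOf (x * y * x⁻¹) = 3 := by
    rw [← hy]; exact (MulAut.conj x).orderOf_eq y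
  obtain ⟨i0, s0⟩ := H.lemA hyo hy1 ((H.tr_of_three hy).trans (H.tr_of_three hord).symm)
    (tw_of_mem hX hh0)
  refine ⟨_, y, hy, ⟨i0, fun e => hc ?_⟩, s0⟩
  change y * x = x * y
  calc y * x = y * (y⁻¹ * (x * y * x⁻¹)) * x := by rw [e, mul_one]
    _ = x * y := by group

end Hyp

end Cfsg.Gag2
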