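import Cfsg.Agent.Gag2.QuadA
import Cfsg.Agent.Grp.Transfer

/-!
# Two elements of order three: reduction to the irreducible case
-/

set_option autoImplicit false
set_option linter.unusedSectionVars false

namespace Cfsg.Gag2

open Subgroup MulAction
open scoped Pointwise

universe u v

variable {G : Type u} [Group G] [Finite G] {V : Type v} [AddCommGroup V] [Finite V]
  [DistribMulAction G V]

theorem NA4.subgroup (h4 : NA4 G) (S : Subgroup G) : NA4 S := fun y hy X hX hn x hx => by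
  have := h4 y (by rwa [Subgroup.orderOf_coe]) (X.map S.subtype) (hX.map _)
    (mem_normalizer_of_forall_conj_mem (by
      rintro _ ⟨u, hu, rfl⟩
      exact ⟨_, conj_mem_of_mem_normalizer hn hu, rfl⟩)) x ⟨x, hx, rfl⟩
  exact Subtype.ext this

theorem NA4.le_center (h4 : NA4 G) {y y' : G} (o₁ : orderOf y = 3) (o₂ : orderOf y' = 3)
    (gen : closure ({y, y'} : Set G) = ⊤) {N : Subgroup G} [N.Normal] (hN : IsPGroup 2 N) :
    N ≤ center G := fun x hx => by
  have : closure ({y, y'} : Set G) ≤ centralizer {x} := by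
    rw [closure_le]
    rintro _ (rfl | rfl)
    · exact mem_centralizer_singleton_iff.2 (h4 _ o₁ N hN (by simp [normalizer_eq_top]) x hx)
    · exact mem_centralizer_singleton_iff.2 (h4 _ o₂ N hN (by simp [normalizer_eq_top]) x hx)
  exact mem_center_iff.2 fun g => mem_centralizer_singleton_iff.1 (this (gen ▸ mem_top g))

theorem normal_cw {W : AddSubgroup V} (h : ∀ g : G, ∀ v ∈ W, g • v ∈ W) : (cw G W).Normal :=
  ⟨fun x hx g v hv => by rw [mul_smul, mul_smul, hx _ (h _ v hv), smul_inv_smul]⟩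

namespace Hyp

variable (H : Hyp G V)
include H

theorem exists_min_inv : ∃ W : AddSubgroup V, W ≠ ⊥ ∧ (∀ g : G, ∀ v ∈ W, g • v ∈ W) ∧
    ∀ U ≤ W, (∀ g : G, ∀ v ∈ U, g • v ∈ U) → U = ⊥ ∨ U = W := by
  obtain ⟨v, hv⟩ := H.nt
  obtain ⟨W, ⟨h1, h2⟩, h3⟩ := exists_minimal_of_wellFoundedLT
    (fun W : AddSubgroup V => W ≠ ⊥ ∧ ∀ g : G, ∀ v ∈ W, g • v ∈ W)
    ⟨⊤, fun e => hv (AddSubgroup.mem_bot.1 (e ▸ AddSubgroup.mem_top v)), fun _ _ _ => trivial⟩
  refine ⟨W, h1, h2, fun U hU h4 => ?_⟩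
  by_cases h0 : U = ⊥
  · exact Or.inl h0
  · exact Or.inr (le_antisymm hU (h3 ⟨h0, h4⟩ hU))

/-- `O₂(⟨y, y'⟩) = 1`.  By `NA4` every normal `2`-subgroup is central.  Let `V₁` be a minimal nonzero
invariant subgroup; for a `2`-element `x`, `tr x` is central and kills a nonzero vector of `V₁`, so
kills `V₁`, so `x * x ∈ cw V₁`, a normal `2`-subgroup, is central.  `op (x * x) = tr x * op x + 1`, so
`tr x * op x` is central; if `tr x ≠ 0`, `U = range (tr x)` is invariant and `x` commutes with `G` on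
`U`, so `cw U ⊔ zpowers x` is a normal `2`-subgroup and `x` is central.  So each `2`-element is
central or an involution, a Sylow `2`-subgroup `P` is abelian, `P ≤ G'` (`G / G'` has exponent `3`),
and `inf_commutator_inf_center_le` gives `P ⊓ Z(G) = ⊥`. -/
theorem pCore_eq_bot (h4 : NA4 G) {y y' : G} (o₁ : orderOf y = 3) (o₂ : orderOf y' = 3)
    (gen : closure ({y, y'} : Set G) = ⊤) : pCore 2 G = ⊥ := by
  haveI : Fact (Nat.Prime 2) := ⟨Nat.prime_two⟩
  obtain ⟨W, h0, hW, hmin⟩ := H.exists_min_inv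
  have ct : ∀ (g x : G) (v : V), tr V g (x • v) = x • tr V g v := fun g x v =>
    DFunLike.congr_fun (H.commute_tr o₁ o₂ (gen ▸ mem_top g) (gen ▸ mem_top x)).eq v
  have h1 : ∀ x : G, Tw x → x * x ∈ center G := fun x hx => by
    haveI := normal_cw hW
    refine h4.le_center o₁ o₂ gen (H.isPGroup_cw h0) fun v hv => ?_
    obtain ⟨n, hn⟩ := hx
    obtain ⟨u, hu, hu0, hux⟩ := H.exists_fix (X := zpowers x)
      (IsPGroup.of_card_dvd_pow (by rw [Nat.card_zpowers]; exact orderOf_dvd_of_pow_eq_one hn))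
      h0 fun g _ => hW g
    rcases hmin (W ⊓ AddMonoidHom.ker (tr V x : V →+ V)) inf_le_left (fun g v hv =>
      ⟨hW g v hv.1, by
        change tr V x (g • v) = 0
        rw [ct, show tr V x v = 0 from hv.2, smul_zero]⟩) with h | h
    · refine absurd (AddSubgroup.mem_bot.1 (h ▸ ⟨hu, ?_⟩)) hu0
      change x • u + x⁻¹ • u = 0
      rw [hux _ (mem_zpowers x), hux _ (inv_mem (mem_zpowers x)), H.two]
    · have h2 : x • v + x⁻¹ • v = 0 := (h.ge hv).2
      rw [mul_smul, H.add_eq_zero_iff.1 h2, smul_inv_smul]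
  have h2 : ∀ x : G, Tw x → x ∈ center G ∨ x * x = 1 := fun x hx => by
    have e : ∀ v : V, x • tr V x v = (x * x) • v + v := fun v => by
      rw [tr_apply, smul_add, smul_inv_smul, mul_smul]
    by_cases hU : AddMonoidHom.range (tr V x : V →+ V) = ⊥
    · refine Or.inr (H.faith _ fun v => ?_)
      have : tr V x v = 0 := AddSubgroup.mem_bot.1 (hU ▸ ⟨v, rfl⟩)
      rw [← H.add_eq_zero_iff, ← e, this, smul_zero]
    · left
      have hUi : ∀ g : G, ∀ v ∈ AddMonoidHom.range (tr V x : V →+ V),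
          g • v ∈ AddMonoidHom.range (tr V x : V →+ V) := by
        rintro g _ ⟨u, rfl⟩
        exact ⟨g • u, ct x g u⟩
      haveI := normal_cw hUi
      have hc : ∀ g : G, g * x * g⁻¹ * x⁻¹ ∈ cw G (AddMonoidHom.range (tr V x : V →+ V)) := by
        rintro g _ ⟨u, rfl⟩
        change _ • tr V x u = tr V x u
        rw [mul_smul, mul_smul, mul_smul, ← ct, ← ct, e, smul_add, ← mul_smul g (x * x),
          mem_center_iff.1 (h1 x hx) g, mul_smul (x * x) g, smul_inv_smul, ← e, ct, smul_inv_smul]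
      obtain ⟨n, hn⟩ := hx
      have hz : IsPGroup 2 (zpowers x) :=
        IsPGroup.of_card_dvd_pow (by rw [Nat.card_zpowers]; exact orderOf_dvd_of_pow_eq_one hn)
      haveI : (zpowers x ⊔ cw G (AddMonoidHom.range (tr V x : V →+ V))).Normal := by
        refine ⟨fun u hu g => ?_⟩
        have : (zpowers x ⊔ cw G (AddMonoidHom.range (tr V x : V →+ V))).map
            (MulAut.conj g).toMonoidHom ≤
            zpowers x ⊔ cw G (AddMonoidHom.range (tr V x : V →+ V)) := by
          rw [Subgroup.map_sup, MonoidHom.map_zpowers]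
          refine sup_le (zpowers_le.2 ?_) (map_conj_le_iff.2 fun c hc' =>
            mem_sup_right (Normal.conj_mem inferInstance c hc' g))
          have := mul_mem (mem_sup_right (hc g) : _ ∈ zpowers x ⊔ _) (mem_sup_left (mem_zpowers x))
          rwa [inv_mul_cancel_right] at this
        exact this ⟨u, hu, rfl⟩
      exact h4.le_center o₁ o₂ gen (hz.to_sup_of_normal_right (H.isPGroup_cw hU))
        (mem_sup_left (mem_zpowers x))
  obtain ⟨P⟩ : Nonempty (Sylow 2 G) := inferInstance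
  haveI : IsMulCommutative (P : Subgroup G) := ⟨⟨fun a b => Subtype.ext (by
    change (a : G) * b = b * a
    rcases h2 a (tw_of_mem P.isPGroup' a.2) with ha | ha
    · exact (mem_center_iff.1 ha _).symm
    rcases h2 b (tw_of_mem P.isPGroup' b.2) with hb | hb
    · exact mem_center_iff.1 hb _
    rcases h2 _ (tw_of_mem P.isPGroup' (mul_mem a.2 b.2)) with hc | hc
    · have := mem_center_iff.1 hc a
      rw [← mul_assoc, ha, one_mul] at this
      calc (a : G) * b = a * (a * b * a) := by rw [← this]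
        _ = _ := by rw [← mul_assoc, ← mul_assoc, ha, one_mul]
    · rw [eq_inv_of_mul_eq_one_left hc, mul_inv_rev, inv_eq_of_mul_eq_one_left ha,
        inv_eq_of_mul_eq_one_left hb])⟩⟩
  have h3 : ∀ g : G, Abelianization.of g ^ 3 = 1 := fun g => by
    have hg : g ∈ closure ({y, y'} : Set G) := gen ▸ mem_top g
    induction hg using closure_induction with
    | mem u hu =>
      rcases hu with rfl | rfl
      · rw [← map_pow, ← o₁, pow_orderOf_eq_one, map_one]
      · rw [← map_pow, ← o₂, pow_orderOf_eq_one, map_one]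
    | one => simp
    | mul u w _ _ hu hw => rw [map_mul, mul_pow, hu, hw, one_mul]
    | inv u _ hu => rw [map_inv, inv_pow, hu, inv_one]
  rw [eq_bot_iff, ← commutator_inf_sylow_inf_center P]
  refine le_inf (le_inf (fun g hg => ?_) (pCore_le_sylow P))
    (h4.le_center o₁ o₂ gen (isPGroup_pCore 2 G))
  obtain ⟨n, hn⟩ := tw_of_mem (isPGroup_pCore 2 G) hg
  rw [← Abelianization.ker_of, MonoidHom.mem_ker]
  exact Tw.eq_one_of_odd ⟨n, by rw [← map_pow, hn, map_one]⟩
    ((show Odd 3 by decide).of_dvd_nat (orderOf_dvd_of_pow_eq_one (h3 g)))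

theorem exists_triple_gen (h4 : NA4 G) {y y' : G} (o₁ : orderOf y = 3) (o₂ : orderOf y' = 3)
    (ne : y' ∉ zpowers y) (gen : closure ({y, y'} : Set G) = ⊤) :
    ∃ (a b k : G) (e : ℕ), Iv a ∧ Iv b ∧ a ≠ b ∧ a * b * a = b * a * b ∧ (orderOf k).Prime ∧
      orderOf k ≠ 2 ∧ Odd e ∧ k ^ 2 ^ e = k ∧ Sp V a k ∧ Sp V b k := by
  obtain ⟨W, h0, hW, hmin⟩ := H.exists_min_inv
  have core := H.pCore_eq_bot h4 o₁ o₂ gen
  letI : DistribMulAction G W :=
    { smul := fun g v => ⟨g • (v : V), hW g v v.2⟩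
      one_smul := fun v => Subtype.ext (one_smul G (v : V))
      mul_smul := fun a b v => Subtype.ext (mul_smul a b (v : V))
      smul_zero := fun a => Subtype.ext (smul_zero a)
      smul_add := fun a v w => Subtype.ext (smul_add a (v : V) w) }
  have hs : ∀ (g : G) (v : W), ((g • v : W) : V) = g • (v : V) := fun _ _ => rfl
  haveI := normal_cw hW
  have H₁ : Hyp G W := Hyp.of_core (fun v => Subtype.ext (H.two v))
    (fun g hg => mem_bot.1 (core ▸ le_pCore (H.isPGroup_cw h0)
      fun v hv => congrArg Subtype.val (hg ⟨v, hv⟩)))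
    (fun v hv => (H.stab v fun e => hv (Subtype.ext e)).to_le fun g hg => congrArg Subtype.val hg)
    (AddSubgroup.ne_bot_iff_exists_ne_zero.1 h0) core
  have Q : Qd G W y y' := ⟨o₁, o₂, gen, ne, fun U hU => by
    rcases hmin (U.map W.subtype) (AddSubgroup.map_subtype_le U) (by
      rintro g _ ⟨u, hu, rfl⟩
      exact ⟨_, hU g u hu, rfl⟩) with h | h
    · exact Or.inl ((AddSubgroup.map_eq_bot_iff_of_injective U W.subtype_injective).1 h)
    · refine Or.inr (eq_top_iff.2 fun v _ => ?_)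
      obtain ⟨u, hu, e⟩ : (v : V) ∈ U.map W.subtype := h.symm ▸ v.2
      exact (Subtype.ext e : u = v) ▸ hu⟩
  obtain ⟨a, b, k, x, x', e, ia, ib, hne, hb, hr, h2, he, hk, ea, eb⟩ := Q.exists_triple H₁ h4
  have ho := hr.odd_of_ne_two h2
  have h1 : k ≠ 1 := fun e => hr.ne_one (by rw [e, orderOf_one])
  have ht : ∀ u : G, tr V k = tr V (u * k * u⁻¹) := fun u => by
    rw [tr_conj, ← (H.commute_tr o₁ o₂ (gen ▸ mem_top k) (gen ▸ mem_top u)).eq, mul_assoc,
      op_mul_inv, mul_one]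
  exact ⟨a, b, k, e, ia, ib, hne, hb, hr, h2, he, hk, ea ▸ (H.lemA ho h1 (ht x) (ea ▸ ia.tw)).2,
    eb ▸ (H.lemA ho h1 (ht x') (eb ▸ ib.tw)).2⟩

/-- In `G₀ = closure {y, y'}` (`Hyp.subgroup`, `NA4` is inherited) take a minimal nonzero invariant
`V₁`, with the action `DistribMulAction.compHom V₁ (FpfEnd.restr ..)`; it is faithful by
`pCore_eq_bot`, `Hyp.of_core` and `Qd.exists_triple` apply; `lemA` (with `tr (x k x⁻¹) = tr k` from
`commute_tr`, `tr_conj`) gives the special pairs on `V`. -/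
theorem exists_triple (h4 : NA4 G) {y y' : G} (o₁ : orderOf y = 3) (o₂ : orderOf y' = 3)
    (ne : y' ∉ zpowers y) :
    ∃ (a b k : G) (e : ℕ), Iv a ∧ Iv b ∧ a ≠ b ∧ a * b * a = b * a * b ∧ (orderOf k).Prime ∧
      orderOf k ≠ 2 ∧ Odd e ∧ k ^ 2 ^ e = k ∧ Sp V a k ∧ Sp V b k := by
  have m₁ : y ∈ closure ({y, y'} : Set G) := subset_closure (Or.inl rfl)
  have m₂ : y' ∈ closure ({y, y'} : Set G) := subset_closure (Or.inr rfl)
  obtain ⟨a, b, k, e, ia, ib, hne, hb, hr, h2, he, hk, sa, sb⟩ :=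
    (H.subgroup (closure {y, y'})).exists_triple_gen (h4.subgroup _) (y := ⟨y, m₁⟩)
      (y' := ⟨y', m₂⟩) (by rwa [Subgroup.orderOf_mk]) (by rwa [Subgroup.orderOf_mk])
      (fun ⟨n, hn⟩ => ne ⟨n, congrArg Subtype.val hn⟩) (by
        rw [← closure_closure_coe_preimage]
        congr 1
        ext u
        simp [Subtype.ext_iff])
  exact ⟨a, b, k, e, ⟨congrArg Subtype.val ia.1, fun e => ia.2 (Subtype.ext e)⟩,
    ⟨congrArg Subtype.val ib.1, fun e => ib.2 (Subtype.ext e)⟩, fun e => hne (Subtype.ext e),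
    congrArg Subtype.val hb, by rwa [Subgroup.orderOf_coe], by rwa [Subgroup.orderOf_coe], he,
    congrArg Subtype.val hk, sa, sb⟩

end Hyp

end Cfsg.Gag2
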