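import Cfsg.Agent.Gag2.Weak2
import Cfsg.Agent.Gag2.QuadB

/-!
# `p = 2`: a normal subgroup `SL₂(q)`
-/

set_option autoImplicit false
set_option linter.unusedSectionVars false

namespace Cfsg.Gag2

open Subgroup MulAction
open scoped Pointwise MatrixGroups

universe u v

variable {L : Type u} [Group L] [Finite L] {V : Type v} [AddCommGroup V] [Finite V]
  [DistribMulAction L V]

/-- Two different subgroups of order three give `SL₂(q)`. -/
theorem Hyp.exists_sl2_of_three (H : Hyp L V)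
    (hS : ∀ v : V, v ≠ 0 → ¬ 2 ∣ (stabilizer L v).index) {y y' : L} (o₁ : orderOf y = 3)
    (o₂ : orderOf y' = 3) (ne : y' ∉ zpowers y) :
    ∃ (S : Subgroup L) (F : Type) (_ : Field F) (_ : Fintype F), S.Normal ∧ 3 < Fintype.card F ∧
      Nonempty (S ≃* SL(2, F)) := by
  by_cases h4 : NA4 L
  · obtain ⟨a, c, k, e, ia, ic, hne, hb, hr, h2, he, hk, sa, sc⟩ := H.exists_triple h4 o₁ o₂ ne
    refine H.exists_sl2 hS ia sa hr h2 rfl fun g v h0 hv hv' => ?_
    by_contra hg
    obtain ⟨b, k', Q, -, C⟩ := H.exists_cfg ia sa hr h2 rfl h0 hv hv' hg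
    exact H.not_cfg h4 C ic hne hb sc he hk
  · obtain ⟨a, k, hk, ia, sa⟩ := H.exists_sp_of_not_na4 h4
    refine H.exists_sl2 hS ia sa Nat.prime_three (by decide) hk fun g v h0 hv hv' => ?_
    by_contra hg
    obtain ⟨b, k', Q, hk', C⟩ := H.exists_cfg ia sa Nat.prime_three (by decide) hk h0 hv hv' hg
    exact H.not_cfg_three hk hk' C

end Cfsg.Gag2
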