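import Cfsg.Agent.Gag2.PPlane
import Cfsg.Agent.Grp.InvolSL2
import Cfsg.Agent.Grp.Nilpotent
import Cfsg.Agent.Grp.Residual

/-!
# The covering count

`X` acts faithfully on `W`, every non-zero vector is fixed by an involution.  `c = a b`.
`|W| ≥ u³` (`card_mul_le` for `fx a`, `fx b`); `u` is a power of 2, so `3 ∣ u² - 1`.

* Shape of `S`: `S = {1,a,b,c}` or: `c ∈ Z(S)` (a central involution of `S` lies in `C_S(a)` and is
  not `a`, `b`), `E = {x ∈ S | fx c ≤ fx x}` has index 2 (`hE`, `a ∉ E`), no element of `E` squares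
  to `c` (`ker ν = ker ν²` gives `ν = 0`), `C_E(a) = ⟨c⟩`; `B = {x ∈ E | [x,a] ∈ ⟨c⟩}` has order
  `≤ 4`, exponent 2; if `E ≠ B` take `x ∈ E \ B` with `[x,a] ∈ B`: `x⁻¹ a x = a b'` has square
  `[a,b'] = c`.  So `E = {1,c,d,cd}`, `S = E ∪ a E` dihedral of order 8, `d a d = b`.
* `X` has a normal 2-complement `O` (`hasNormalPComplement_of_forall_isPElt`: a `q`-element, `q ≥ 5`,
  normalising a subgroup of order `≤ 8` which is not `2³` centralises it); `O` is cyclic.
  For an involution `s ∈ S`, `I s = {o ∈ O | s o s = o⁻¹}`; the `O`-conjugates of `s` are the `s o`,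
  `o ∈ I s`.  If `I s ≠ 1` then `fx s ⊓ fx (s o) = 0`, `|W| ≥ |fx s|²`.
* `S = {1,a,b,c}`: every `o ∈ I a` has `o² = (o · b o b)(o · (b o b)⁻¹)`, a product of an element
  centralised by `b` and one centralised by `c`, so `o^(u²-1) = 1`, `|I a| ∣ u² - 1`,
  `3 |I a| ≤ u² - 1`; the same for `b`, `c`; `|W| - 1 ≤ (|I a| + |I b| + |I c|)(u² - 1)`: false.
* `S = D₈`: `c = [a,d]` centralises `O` (cyclic), is central in `X`; `E = C_X(fx c)` is normal and
  centralises `O`.  Involutions: `c, d, cd, a o, b o` (`o ∈ I a`).  `r = |I a| ≤ u + 1` (the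
  `fx (a o) ⊓ fx c` have order `u` and meet in `0`), `f = |fx d| = |fx (cd)| ≤ |W|/u`
  (`fx d ⊓ fx a ≤ fx a ⊓ fx b`), `fx c ≤ fx d`: `|W| ≤ 2 f + 2 r (u² - u)`; false for
  `r = 1, |W| ≥ u³` and for `r ≤ u + 1, |W| = u⁴` (`card_le_sq`).
-/

set_option autoImplicit false
set_option linter.unusedSectionVars false

namespace Cfsg.GagP

open Subgroup MulAction

section group
variable {X : Type*} [Group X] [Finite X]

theorem npc_of_small {S : Subgroup X} (hS : IsPGroup 2 S) (hSi : ¬ 2 ∣ S.index)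
    (h3 : ¬ 3 ∣ Nat.card X) (h8 : Nat.card S ≤ 8)
    (hc : Nat.card S = 8 → ∃ c ∈ S, c ≠ 1 ∧ ∀ x ∈ normalizer (S : Set X), x * c * x⁻¹ = c) :
    HasNormalPComplement 2 X := by
  refine hasNormalPComplement_of_forall_isPElt fun Q hQ _ q hq hq2 x hx ⟨k, hk⟩ => ?_
  have hxq : IsPGroup q (zpowers x) := IsPGroup.of_card (by rw [Nat.card_zpowers, hk])
  by_cases hx1 : x = 1
  · rw [hx1]; exact one_mem _
  have hq3 : q ≠ 3 := by
    rintro rfl
    refine h3 (dvd_trans ?_ (orderOf_dvd_natCard x))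
    rw [hk]
    exact dvd_pow_self 3 fun e => hx1 (orderOf_eq_one_iff.1 (by rw [hk, e, pow_zero]))
  obtain ⟨g, -, hg⟩ := exists_map_conj_le_of_not_dvd_relIndex (H := ⊤) hS
    (by rwa [relIndex_top_right]) hQ le_top
  have hi : Function.Injective (MulAut.conj g).toMonoidHom := (MulAut.conj g).injective
  have hQ8 : Nat.card Q ≤ Nat.card S := by
    rw [← card_map_of_injective hi]; exact card_le_of_le hg
  let _ : MulAction (zpowers x) Q := MulAction.compHom Q
    ((normalizerMonoidHom Q).comp (inclusion (zpowers_le.2 hx)))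
  have hm := hxq.card_modEq_card_fixedPoints Q
  have e : Nat.card (fixedPoints (zpowers x) Q) = Nat.card (Q ⊓ centralizer {x} : Subgroup X) := by
    refine Nat.card_congr ⟨fun y => ⟨y.1.1, y.1.2, mem_centralizer_singleton_iff.2 ?_⟩,
      fun y => ⟨⟨y.1, y.2.1⟩, fun z => Subtype.ext ?_⟩, fun _ => rfl, fun _ => rfl⟩
    · have : x * y.1.1 * x⁻¹ = y.1.1 := congrArg Subtype.val (y.2 ⟨x, mem_zpowers x⟩)
      exact (mul_inv_eq_iff_eq_mul.1 this).symm
    · change z.1 * y.1 * z.1⁻¹ = y.1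
      obtain ⟨_, n, rfl⟩ := z
      have : Commute y.1 x := mem_centralizer_singleton_iff.1 y.2.2
      rw [mul_inv_eq_iff_eq_mul]
      exact (this.zpow_right n).symm
  rw [e] at hm
  by_contra hn
  have hlt : Q ⊓ centralizer {x} < Q := lt_of_le_of_ne inf_le_left fun e => hn fun y hy =>
    mem_centralizer_singleton_iff.1 (e.ge hy).2
  have h1 := card_lt_of_lt hlt
  obtain ⟨i, hi'⟩ := IsPGroup.iff_card.1 hQ
  obtain ⟨j, hj⟩ := IsPGroup.iff_card.1 (hQ.to_inf_left (K := centralizer {x}))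
  have hd := (Nat.modEq_iff_dvd' h1.le).1 hm.symm
  have hi3 : i ≤ 3 := by
    by_contra h
    have : 2 ^ 4 ≤ 2 ^ i := Nat.pow_le_pow_right (by decide) (by omega)
    omega
  have hji : j < i := by
    rw [hi', hj] at h1
    exact (Nat.pow_lt_pow_iff_right (by decide)).1 h1
  have hq5 : 5 ≤ q := hq.out.five_le_of_ne_two_of_ne_three hq2 hq3
  have h7 : i = 3 ∧ j = 0 := by
    rw [hi', hj] at hd
    have := Nat.le_of_dvd (by rw [← hi', ← hj]; omega) hd
    have hq6 : q ≠ 6 := by rintro rfl; exact absurd hq.out (by decide)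
    interval_cases i <;> interval_cases j <;> simp at this hd ⊢ <;>
      first | omega | (interval_cases q <;> omega)
  obtain ⟨rfl, rfl⟩ := h7
  have e8 : Q.map (MulAut.conj g).toMonoidHom = S :=
    eq_of_le_of_card_ge hg (by rw [card_map_of_injective hi]; omega)
  obtain ⟨c, hcS, hc1, hc⟩ := hc (by omega)
  have := hc (g * x * g⁻¹) (by
    rw [← e8, ← map_equiv_normalizer_eq]; exact ⟨x, hx, rfl⟩)
  rw [← e8] at hcS
  obtain ⟨y, hy, rfl⟩ := hcS
  have hy' : y ∈ Q ⊓ centralizer {x} := ⟨hy, mem_centralizer_singleton_iff.2 (by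
    have e : g * (x * y * x⁻¹) * g⁻¹ = g * y * g⁻¹ := by
      refine Eq.trans ?_ this
      simp [mul_assoc]
    exact (mul_inv_eq_iff_eq_mul.1 (by simpa using e)).symm)⟩
  rw [card_eq_one.1 (hj.trans (pow_zero 2))] at hy'
  exact hc1 (by rw [mem_bot.1 hy', map_one])

omit [Finite X] in
theorem conj_comm_of_cyclic {O : Subgroup X} [hn : O.Normal] (hc : IsCyclic O) (g h : X) {o : X}
    (ho : o ∈ O) : g * h * o * (g * h)⁻¹ = h * g * o * (h * g)⁻¹ := by
  obtain ⟨z, hz⟩ := hc.exists_generator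
  obtain ⟨i, hi⟩ := hz ⟨_, hn.conj_mem _ z.2 g⟩
  obtain ⟨j, hj⟩ := hz ⟨_, hn.conj_mem _ z.2 h⟩
  obtain ⟨k, hk⟩ := hz ⟨o, ho⟩
  have hi' : g * z * g⁻¹ = (z : X) ^ i := (congrArg Subtype.val hi).symm
  have hj' : h * z * h⁻¹ = (z : X) ^ j := (congrArg Subtype.val hj).symm
  have hk' : o = (z : X) ^ k := (congrArg Subtype.val hk).symm
  have e : ∀ a b : X, a * b * z * (a * b)⁻¹ = a * (b * z * b⁻¹) * a⁻¹ := fun a b => by group
  rw [hk', ← conj_zpow, ← conj_zpow, e, e, hi', hj', ← conj_zpow, ← conj_zpow, hi', hj',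
    ← zpow_mul, ← zpow_mul, ← zpow_mul, ← zpow_mul, mul_comm i, mul_comm j]
  congr 1
  ring

/-- the elements of a cyclic subgroup inverted by `s` -/
def invS (O : Subgroup X) (hc : IsCyclic O) (s : X) : Subgroup X where
  carrier := {o | o ∈ O ∧ s * o * s⁻¹ = o⁻¹}
  one_mem' := ⟨one_mem _, by simp⟩
  inv_mem' := fun h => ⟨inv_mem h.1, by rw [← conj_inv, h.2]⟩
  mul_mem' := fun {a b} ha hb => ⟨mul_mem ha.1 hb.1, by
    have : a * b = b * a := congrArg Subtype.val
      (hc.isMulCommutative.is_comm.comm (⟨a, ha.1⟩ : O) ⟨b, hb.1⟩)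
    rw [← conj_mul, ha.2, hb.2, ← mul_inv_rev, this]⟩

theorem exists_conj_of_inv {s o : X} (hs : s * s = 1) (ho : Odd (orderOf o))
    (h : s * o * s⁻¹ = o⁻¹) : ∃ r ∈ zpowers o, s * o = r * s * r⁻¹ := by
  obtain ⟨k, hk⟩ := ho
  refine ⟨o ^ k, pow_mem (mem_zpowers o) k, ?_⟩
  have e1 : s * o ^ k * s⁻¹ = (o ^ k)⁻¹ := by rw [← conj_pow, h, inv_pow]
  have e2 : o ^ k * o ^ k * o = 1 := by rw [← pow_add, ← pow_succ, ← two_mul, ← hk, pow_orderOf_eq_one]
  have e3 : s⁻¹ = s := inv_eq_of_mul_eq_one_right hs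
  rw [e3] at e1
  have e4 : o ^ k * s = s * (o ^ k)⁻¹ := by rw [← e1, ← mul_assoc, ← mul_assoc, hs, one_mul]
  rw [e4, mul_assoc, ← mul_inv_rev, inv_eq_of_mul_eq_one_right e2]

theorem exists_eq_mul {S O : Subgroup X} [hn : O.Normal] (hc : IsCyclic O) (hS : IsPGroup 2 S)
    (hSi : ¬ 2 ∣ S.index) (hO : O ⊔ S = ⊤) {j : X} (hj : j * j = 1) (hj1 : j ≠ 1) :
    ∃ s ∈ S, s * s = 1 ∧ s ≠ 1 ∧ ∃ o ∈ invS O hc s, j = s * o := by
  obtain ⟨g, -, hg⟩ := exists_map_conj_le_of_not_dvd_relIndex (H := ⊤) hS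
    (by rwa [relIndex_top_right]) (Q := zpowers j) (IsPGroup.of_card (n := 1) (by
      rw [Nat.card_zpowers, orderOf_eq_prime (by rwa [sq]) hj1, pow_one])) le_top
  have h1 : g * j * g⁻¹ ∈ S := hg ⟨j, mem_zpowers j, rfl⟩
  have : g⁻¹ ∈ ((O ⊔ S : Subgroup X) : Set X) := by rw [hO]; trivial
  rw [normal_mul] at this
  obtain ⟨o, ho, t, ht, e⟩ := this
  have e' : g = t⁻¹ * o⁻¹ := by rw [← mul_inv_rev, show o * t = g⁻¹ from e, inv_inv]
  have e2 : t * (g * j * g⁻¹) * t⁻¹ = o⁻¹ * j * o := by rw [e']; group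
  have hs : o⁻¹ * j * o * (o⁻¹ * j * o) = 1 := by
    calc _ = o⁻¹ * (j * j) * o := by group
      _ = 1 := by rw [hj]; group
  refine ⟨o⁻¹ * j * o, e2 ▸ mul_mem (mul_mem ht h1) (inv_mem ht), hs, fun h => hj1 (by
    have := congrArg (fun z => o * z * o⁻¹) h
    simp only [mul_assoc, mul_inv_cancel_left, mul_inv_cancel, mul_one] at this
    exact this), (o⁻¹ * j * o)⁻¹ * j, ⟨?_, ?_⟩, by group⟩
  · have := mul_mem (inv_mem ho) (hn.conj_mem _ ho j⁻¹)
    simpa [mul_assoc] using this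
  · have e3 : j⁻¹ = j := inv_eq_of_mul_eq_one_right hj
    rw [mul_inv_cancel_left, mul_inv_rev (o⁻¹ * j * o)⁻¹, inv_inv, inv_eq_of_mul_eq_one_right hs, e3]

end group

section count
variable {W : Type*} [AddCommGroup W] [Finite W]

theorem card_le_cover {ι : Type*} [Finite ι] (A : ι → AddSubgroup W) (B : Set W) {m : ℕ}
    (h : ∀ w, w ∈ B ∨ ∃ i, w ∈ A i) (hm : ∀ i, ((A i : Set W) \ B).ncard ≤ m) :
    Nat.card W ≤ B.ncard + Nat.card ι * m := by
  classical
  let _ := Fintype.ofFinite ι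
  have e : (Set.univ : Set W) = B ∪ ⋃ i, ((A i : Set W) \ B) := by
    refine (Set.eq_univ_of_forall fun w => ?_).symm
    by_cases hw : w ∈ B
    · exact Or.inl hw
    · obtain ⟨i, hi⟩ := (h w).resolve_left hw
      exact Or.inr (Set.mem_iUnion.2 ⟨i, hi, hw⟩)
  rw [← Set.ncard_univ, e]
  refine (Set.ncard_union_le _ _).trans (Nat.add_le_add_left ?_ _)
  refine (Set.ncard_iUnion_le_of_fintype _).trans ?_
  rw [Nat.card_eq_fintype_card, ← Finset.card_univ, ← smul_eq_mul, ← Finset.sum_const]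
  exact Finset.sum_le_sum fun i _ => hm i

theorem ncard_diff_le {A C : AddSubgroup W} {B : Set W} (h1 : C ≤ A) (h : (C : Set W) ⊆ B) :
    ((A : Set W) \ B).ncard ≤ Nat.card A - Nat.card C := by
  refine (Set.ncard_le_ncard (Set.sdiff_subset_sdiff_right h)).trans ?_
  rw [Set.ncard_sdiff h1]
  exact le_rfl

theorem card_mul_le_of_disj {ι : Type*} [Finite ι] (A : ι → AddSubgroup W) {C : AddSubgroup W}
    {u : ℕ} (hA : ∀ i, A i ≤ C) (hu : ∀ i, Nat.card (A i) = u)
    (hd : ∀ i j, i ≠ j → A i ⊓ A j = ⊥) : Nat.card ι * (u - 1) ≤ Nat.card C - 1 := by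
  classical
  have e : ∀ D : AddSubgroup W, Nat.card ((D : Set W) \ {0} : Set W) = Nat.card D - 1 := fun D => by
    rw [Nat.card_coe_set_eq, Set.ncard_sdiff_singleton_of_mem D.zero_mem]; rfl
  rw [← e C]
  let f : (Σ i, ((A i : Set W) \ {0} : Set W)) → ((C : Set W) \ {0} : Set W) :=
    fun x => ⟨x.2.1, hA _ x.2.2.1, x.2.2.2⟩
  have hf : Function.Injective f := by
    rintro ⟨i, x⟩ ⟨j, y⟩ h
    have h' : x.1 = y.1 := congrArg Subtype.val h
    by_cases hij : i = j
    · subst hij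
      rw [Subtype.ext h']
    · have : x.1 ∈ A i ⊓ A j := ⟨x.2.1, h' ▸ y.2.1⟩
      rw [hd i j hij] at this
      exact absurd this x.2.2
  let _ := Fintype.ofFinite ι
  have := Nat.card_le_card_of_injective f hf
  rwa [Nat.card_sigma, Finset.sum_congr rfl fun i _ => (e (A i)).trans (by rw [hu]),
    Finset.sum_const, smul_eq_mul, Finset.card_univ, ← Nat.card_eq_fintype_card] at this

end count

variable {X W : Type*} [Group X] [Finite X] [AddCommGroup W] [Finite W] [DistribMulAction X W]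
  [FaithfulSMul X W]

omit [FaithfulSMul X W] in
theorem fx_eq_bot (hst : ∀ w : W, w ≠ 0 → IsPGroup 2 (stabilizer X w)) {o : X}
    (ho : Odd (orderOf o)) (h1 : o ≠ 1) : fx W o = ⊥ := by
  rw [eq_bot_iff]
  intro w hw
  by_contra h0
  obtain ⟨k, hk⟩ := exists_pow_of_mem (hst w h0) hw
  exact h1 (orderOf_eq_one_iff.1 ((Nat.Coprime.pow_right k (Nat.coprime_two_right.2 ho)).eq_one_of_dvd
    (orderOf_dvd_of_pow_eq_one hk)))

omit [FaithfulSMul X W] in
theorem pow_eq_one_of_commute (hst : ∀ w : W, w ≠ 0 → IsPGroup 2 (stabilizer X w)) {o t : X}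
    (ho : Odd (orderOf o)) (h : Commute t o) : o ^ (Nat.card (fx W t) - 1) = 1 := by
  rw [← orderOf_dvd_iff_pow_eq_one, ← Nat.card_zpowers]
  have := card_dvd_of_free_on (A := zpowers o) ((fx W t : Set W) \ {0})
    (fun a x hx => ⟨smul_mem_fx (by obtain ⟨_, n, rfl⟩ := a; exact h.zpow_right n) hx.1,
      fun e => hx.2 (by simpa [smul_eq_zero_iff_eq] using e)⟩)
    (fun a x hx e => by
      by_contra h1
      have := fx_eq_bot hst (ho.of_dvd_nat (orderOf_dvd_of_mem_zpowers a.2))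
        (fun e => h1 (Subtype.ext e))
      exact hx.2 (AddSubgroup.mem_bot.1 (this ▸ (e : x ∈ fx W (a : X)))))
  rwa [Nat.card_coe_set_eq, Set.ncard_sdiff_singleton_of_mem (fx W t).zero_mem] at this

omit [FaithfulSMul X W] [Finite X] [Finite W] in
theorem card_inf_conj (g a c : X) :
    Nat.card (fx W (g * a * g⁻¹) ⊓ fx W (g * c * g⁻¹) : AddSubgroup W) =
      Nat.card (fx W a ⊓ fx W c : AddSubgroup W) := by
  refine (Nat.card_congr (Equiv.subtypeEquiv (MulAction.toPerm g) fun v => ?_)).symm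
  exact (and_congr mem_fx_conj mem_fx_conj).symm

omit [FaithfulSMul X W] [Finite X] [Finite W] in
theorem fx_inf_le (a b : X) : fx W a ⊓ fx W (a * b) ≤ fx W b := fun w hw => by
  have h1 : a • w = w := hw.1
  have h2 : (a * b) • w = w := hw.2
  rw [mul_smul, ← h1, smul_left_cancel_iff, h1] at h2
  exact h2

omit [FaithfulSMul X W] [Finite X] [Finite W] in
theorem fx_inf_le_mul (a b : X) : fx W a ⊓ fx W b ≤ fx W (a * b) := fun w hw => by
  rw [mem_fx, mul_smul, show b • w = w from hw.2]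
  exact hw.1

section odd
variable (hst : ∀ w : W, w ≠ 0 → IsPGroup 2 (stabilizer X w)) {O : Subgroup X} [hn : O.Normal]
  (hc : IsCyclic O) (ho : Odd (Nat.card O))
include hst ho
omit [FaithfulSMul X W]

omit hst hn in
theorem odd_of_mem {o : X} (h : o ∈ O) : Odd (orderOf o) := ho.of_dvd_nat (O.orderOf_dvd_natCard h)

omit hn in
theorem inf_eq_bot_of_ne {s o o' : X} (h : o ∈ O) (h' : o' ∈ O) (hne : o ≠ o') :
    fx W (s * o) ⊓ fx W (s * o') = ⊥ := by
  rw [eq_bot_iff, ← fx_eq_bot hst (odd_of_mem ho (mul_mem (inv_mem h) h'))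
    (fun e => hne (inv_mul_eq_one.1 e))]
  have := fx_inf_le (W := W) (s * o) (o⁻¹ * o')
  rwa [mul_assoc, mul_inv_cancel_left] at this

omit hst hn in
theorem card_fx_mul {s o : X} (hs : s * s = 1) (h : o ∈ invS O hc s) :
    Nat.card (fx W (s * o)) = Nat.card (fx W s) := by
  obtain ⟨r, -, e⟩ := exists_conj_of_inv hs (odd_of_mem ho h.1) h.2
  rw [e, card_fx_conj]

omit hn in
theorem sq_le_card {s : X} (hs : s * s = 1) (h : Nat.card (invS O hc s) ≠ 1) :
    Nat.card (fx W s) ^ 2 ≤ Nat.card W := by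
  obtain ⟨o, ho', h1⟩ := (bot_or_exists_ne_one (invS O hc s)).resolve_left
    fun e => h (card_eq_one.2 e)
  have := card_mul_le (C := ⊤) (le_top (a := fx W (s * 1))) (le_top (a := fx W (s * o)))
  rwa [inf_eq_bot_of_ne hst ho (one_mem _) ho'.1 h1.symm, AddSubgroup.card_bot, mul_one,
    card_fx_mul hc ho hs ho', mul_one, AddSubgroup.card_top, ← sq] at this

theorem card_invS_dvd {s t : X} (ht : t * t = 1) (hst' : s * t = t * s) {n : ℕ}
    (h1 : Nat.card (fx W t) = n) (h2 : Nat.card (fx W (s * t)) = n) :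
    Nat.card (invS O hc s) ∣ n - 1 := by
  have : IsCyclic (invS O hc s) := isCyclic_of_le (H' := O) fun _ h => h.1
  rw [← IsCyclic.exponent_eq_card]
  refine Monoid.exponent_dvd_of_forall_pow_eq_one fun ⟨o, ho1, ho2⟩ => Subtype.ext ?_
  have cm : ∀ {a b : X}, a ∈ O → b ∈ O → a * b = b * a := fun ha hb =>
    congrArg Subtype.val (hc.isMulCommutative.is_comm.comm (⟨_, ha⟩ : O) ⟨_, hb⟩)
  have hp := hn.conj_mem o ho1 t
  set p := t * o * t⁻¹ with hpd
  have e1 : t * p * t⁻¹ = o := by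
    rw [hpd, ← mul_assoc, ← mul_assoc, ht, mul_assoc, mul_assoc, ← mul_inv_rev, ht]; simp
  have e2 : s * p * s⁻¹ = p⁻¹ := by
    calc s * p * s⁻¹ = s * t * o * (s * t)⁻¹ := by rw [hpd]; group
      _ = t * (s * o * s⁻¹) * t⁻¹ := by rw [hst']; group
      _ = p⁻¹ := by rw [ho2, hpd]; group
  have a1 := pow_eq_one_of_commute hst (t := t) (odd_of_mem ho (mul_mem ho1 hp)) (by
    rw [Commute, SemiconjBy, ← mul_inv_eq_iff_eq_mul, ← conj_mul, e1, cm hp ho1])
  have a2 := pow_eq_one_of_commute hst (t := s * t) (odd_of_mem ho (mul_mem ho1 (inv_mem hp))) (by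
    rw [Commute, SemiconjBy, ← mul_inv_eq_iff_eq_mul]
    calc s * t * (o * p⁻¹) * (s * t)⁻¹ = s * (t * o * t⁻¹ * (t * p * t⁻¹)⁻¹) * s⁻¹ := by group
      _ = s * p * s⁻¹ * (s * o * s⁻¹)⁻¹ := by rw [e1, ← hpd]; group
      _ = o * p⁻¹ := by rw [e2, ho2, inv_inv, cm (inv_mem hp) ho1])
  rw [h1] at a1
  rw [h2] at a2
  have e3 : (o * o) ^ (n - 1) = 1 := by
    have : o * o = o * p * (o * p⁻¹) := by rw [mul_assoc, ← mul_assoc p, cm hp ho1]; group
    rw [this, Commute.mul_pow (cm (mul_mem ho1 hp) (mul_mem ho1 (inv_mem hp))), a1, a2, mul_one]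
  rw [← sq, ← pow_mul, ← orderOf_dvd_iff_pow_eq_one] at e3
  exact orderOf_dvd_iff_pow_eq_one.1
    ((Nat.coprime_two_right.2 (odd_of_mem ho ho1)).dvd_of_dvd_mul_left e3)

end odd

theorem not_sq (h2 : ∀ w : W, w + w = 0) {x : X} (h4 : x * x * (x * x) = 1) (h1 : x * x ≠ 1) :
    ¬ fx W (x * x) ≤ fx W x := by
  intro h
  have e : ∀ v : W, -v = v := fun v => neg_eq_of_add_eq_zero_left (h2 v)
  have n2 : ∀ (y : X) (v : W), nu y (nu y v) = nu (y * y) v := fun y v => by
    simp only [nu_apply, mul_smul, sub_eq_add_neg, e, smul_add]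
    rw [add_assoc, ← add_assoc (y • v), h2, zero_add]
  have k : ∀ v : W, nu x (nu x v) = 0 → nu x v = 0 := fun v hv => by
    rw [n2, nu_apply, sub_eq_zero] at hv
    exact sub_eq_zero.2 (h hv)
  refine h1 (eq_of_smul_eq_smul (α := W) fun v => ?_)
  have : nu x (nu x (nu x (nu x v))) = 0 := by
    rw [n2 x (nu x (nu x v)), n2 x v, n2, h4]; simp
  have := k _ (k _ this)
  rwa [n2, nu_apply, sub_eq_zero, ← one_smul X v, ← mul_smul, mul_one] at this

set_option maxHeartbeats 800000 in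
theorem cov (h2 : ∀ w : W, w + w = 0)
    (hst : ∀ w : W, w ≠ 0 → IsPGroup 2 (stabilizer X w) ∧ stabilizer X w ≠ ⊥)
    (hc : OC X) (h3 : ¬ 3 ∣ Nat.card X) {S : Subgroup X} (hS : IsPGroup 2 S) (hSi : ¬ 2 ∣ S.index)
    {a b : X} (ha : a ∈ S) (hb : b ∈ S) (haa : a * a = 1) (hbb : b * b = 1) (hab : a * b = b * a)
    (ha1 : a ≠ 1) (hb1 : b ≠ 1) (hne : a ≠ b)
    (hCa : ∀ x ∈ S, x * a = a * x → x = 1 ∨ x = a ∨ x = b ∨ x = a * b)
    (hCb : ∀ x ∈ S, x * b = b * x → x = 1 ∨ x = a ∨ x = b ∨ x = a * b)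
    {u : ℕ} (hu : 4 ≤ u) (hU : Nat.card (fx W a ⊓ fx W b : AddSubgroup W) = u)
    (hWa : Nat.card (fx W a) = u ^ 2) (hWb : Nat.card (fx W b) = u ^ 2)
    (hWc : Nat.card (fx W (a * b)) = u ^ 2)
    (hE : ∀ x ∈ S, ∀ y ∈ S, x * (a * b) = a * b * x → y * (a * b) = a * b * y →
      ¬ fx W (a * b) ≤ fx W x → ¬ fx W (a * b) ≤ fx W y → fx W (a * b) ≤ fx W (x * y)) :
    False := by
  have hst' : ∀ w : W, w ≠ 0 → IsPGroup 2 (stabilizer X w) := fun w hw => (hst w hw).1
  have ia : a⁻¹ = a := inv_eq_of_mul_eq_one_right haa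
  have ib : b⁻¹ = b := inv_eq_of_mul_eq_one_right hbb
  set c := a * b with hcd
  have hcc : c * c = 1 := by
    rw [hcd, mul_assoc, ← mul_assoc b, ← hab, mul_assoc, hbb, mul_one, haa]
  have hac : a * c = b := by rw [hcd, ← mul_assoc, haa, one_mul]
  have hca : c * a = b := by rw [hab, mul_assoc, haa, mul_one]
  have hbc : b * c = a := by rw [hab, ← mul_assoc, hbb, one_mul]
  have hc1 : c ≠ 1 := fun e => hne (by rw [← hac, e, mul_one])
  have hcS : c ∈ S := mul_mem ha hb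
  have hUc : fx W a ⊓ fx W c = fx W a ⊓ fx W b :=
    le_antisymm (le_inf inf_le_left (fx_inf_le a b)) (le_inf inf_le_left (fx_inf_le_mul a b))
  have hUc' : fx W b ⊓ fx W c = fx W a ⊓ fx W b :=
    le_antisymm (le_inf (hab ▸ fx_inf_le b a) inf_le_left)
      (le_inf inf_le_right (fx_inf_le_mul a b))
  have h3u : u ^ 3 ≤ Nat.card W := by
    have := card_mul_le (C := ⊤) (le_top (a := fx W a)) (le_top (a := fx W b))
    rw [hWa, hWb, hU, AddSubgroup.card_top, show u ^ 2 * u ^ 2 = u ^ 3 * u by ring] at this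
    exact Nat.le_of_mul_le_mul_right this (by omega)
  have hcov : ∀ w : W, w ≠ 0 → ∃ j : X, j * j = 1 ∧ j ≠ 1 ∧ w ∈ fx W j := fun w hw => by
    obtain ⟨x, hx, hx1⟩ := (bot_or_exists_ne_one _).resolve_left (hst w hw).2
    obtain ⟨n, h1, hn⟩ := exists_invol (exists_pow_of_mem (hst w hw).1 hx) hx1
    exact ⟨_, hn, h1, pow_mem hx n⟩
  have fin : HasNormalPComplement 2 X → ∃ (O : Subgroup X) (_ : O.Normal) (hc : IsCyclic O),
      Odd (Nat.card O) ∧ ∀ w : W, w ≠ 0 → ∃ s ∈ S, s * s = 1 ∧ s ≠ 1 ∧ ∃ o ∈ invS O hc s,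
        w ∈ fx W (s * o) := fun h => by
    have ho : Odd (Nat.card (pPrimeCore 2 X)) := by
      rw [← Nat.not_even_iff_odd, even_iff_two_dvd]; exact not_dvd_card_pPrimeCore 2 X
    refine ⟨pPrimeCore 2 X, inferInstance, hc _ ho, ho, fun w hw => ?_⟩
    obtain ⟨j, h1, h2, hj⟩ := hcov w hw
    obtain ⟨s, a1, a2, a3, o, a4, rfl⟩ := exists_eq_mul (hc _ ho) hS hSi
      ((hasNormalPComplement_iff_sup_eq_top (hS.toSylow hSi)).1 h) h1 h2
    exact ⟨s, a1, a2, a3, o, a4, hj⟩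
  have card4 : ∀ x y z t : X, ({x, y, z, t} : Set X).ncard ≤ 4 := fun x y z t =>
    (Set.ncard_insert_le _ _).trans (Nat.succ_le_succ ((Set.ncard_insert_le _ _).trans
      (Nat.succ_le_succ ((Set.ncard_insert_le _ _).trans (by simp)))))
  by_cases hV : ∀ x ∈ S, x = 1 ∨ x = a ∨ x = b ∨ x = c
  · have h4 : Nat.card S ≤ 4 := (Set.ncard_le_ncard (s := (S : Set X)) (t := {1, a, b, c}) hV).trans (card4 _ _ _ _)
    obtain ⟨O, hn, hcy, ho, hw⟩ := fin (npc_of_small hS hSi h3 (by omega) (by omega))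
    obtain ⟨k, hk⟩ := exists_card_eq_two_pow h2 (fx W a ⊓ fx W b)
    have h3d : 3 ∣ u ^ 2 - 1 := by
      rw [← hU, hk, ← pow_mul, mul_comm, pow_mul]
      exact Nat.sub_one_dvd_pow_sub_one 4 k
    have bd : ∀ s t : X, t * t = 1 → s * t = t * s → Nat.card (fx W t) = u ^ 2 →
        Nat.card (fx W (s * t)) = u ^ 2 → 3 * Nat.card (invS O hcy s) ≤ u ^ 2 - 1 :=
      fun s t h1 h2 h4 h5 => Nat.le_of_dvd (by
        have : 1 < u ^ 2 := by nlinarith
        omega) (Nat.Coprime.mul_dvd_of_dvd_of_dvd ((Nat.Prime.coprime_iff_not_dvd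
          Nat.prime_three).2 fun h => h3 (h.trans (card_subgroup_dvd_card _))) h3d
          (card_invS_dvd hst' hcy ho h1 h2 h4 h5))
    have b1 := bd a b hbb hab hWb hWc
    have b2 := bd b a haa hab.symm hWa (hab ▸ hWc)
    have b3 := bd c a haa (by rw [hca, hac]) hWa (by rw [hca, hWb])
    have cv := card_le_cover (ι := invS O hcy a ⊕ invS O hcy b ⊕ invS O hcy c)
      (Sum.elim (fun o => fx W (a * o)) (Sum.elim (fun o => fx W (b * o)) fun o => fx W (c * o)))
      {0} (m := u ^ 2 - 1) (fun w => by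
        by_cases h0 : w = 0
        · exact Or.inl h0
        obtain ⟨s, hs, -, s1, o, ho', h⟩ := hw w h0
        rcases hV s hs with rfl | rfl | rfl | rfl
        · exact absurd rfl s1
        · exact Or.inr ⟨.inl ⟨o, ho'⟩, h⟩
        · exact Or.inr ⟨.inr (.inl ⟨o, ho'⟩), h⟩
        · exact Or.inr ⟨.inr (.inr ⟨o, ho'⟩), h⟩) (by
        rintro (o | o | o) <;> refine (ncard_diff_le bot_le (by simp)).trans ?_
        · rw [AddSubgroup.card_bot]
          exact Nat.sub_le_sub_right ((card_fx_mul hcy ho haa o.2).trans hWa).le 1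
        · rw [AddSubgroup.card_bot]
          exact Nat.sub_le_sub_right ((card_fx_mul hcy ho hbb o.2).trans hWb).le 1
        · rw [AddSubgroup.card_bot]
          exact Nat.sub_le_sub_right ((card_fx_mul hcy ho hcc o.2).trans hWc).le 1)
    rw [Set.ncard_singleton, Nat.card_sum, Nat.card_sum] at cv
    obtain ⟨m, hm⟩ : ∃ m, u ^ 2 = m + 1 := ⟨u ^ 2 - 1, by
      have : 1 < u ^ 2 := by nlinarith
      omega⟩
    rw [hm, Nat.add_sub_cancel] at cv b1 b2 b3
    have big : (u ^ 2) ^ 2 ≤ Nat.card W → False := fun h => by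
      rw [hm] at h
      nlinarith
    by_cases e1 : Nat.card (invS O hcy a) = 1
    · by_cases e2 : Nat.card (invS O hcy b) = 1
      · by_cases e3 : Nat.card (invS O hcy c) = 1
        · rw [e1, e2, e3] at cv
          nlinarith
        · exact big (hWc ▸ sq_le_card hst' hcy ho hcc e3)
      · exact big (hWb ▸ sq_le_card hst' hcy ho hbb e2)
    · exact big (hWa ▸ sq_le_card hst' hcy ho haa e1)
  push Not at hV
  obtain ⟨x₀, x₀S, x₀1, x₀a, x₀b, x₀c⟩ := hV
  have nc : ∀ {y : X}, (∀ x ∈ S, x * y = y * x → x = 1 ∨ x = a ∨ x = b ∨ x = c) →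
      x₀ * y ≠ y * x₀ := fun h e => by
    rcases h x₀ x₀S e with h | h | h | h <;> contradiction
  have hz : ∀ x ∈ S, x * c = c * x := by
    have : Nontrivial S := ⟨⟨a, ha⟩, 1, fun e => ha1 (congrArg Subtype.val e)⟩
    have := hS.center_nontrivial
    obtain ⟨⟨z, hz⟩, z1⟩ := exists_ne (1 : center S)
    have hz' : ∀ x ∈ S, x * z = z * x := fun x hx =>
      congrArg Subtype.val (mem_center_iff.1 hz ⟨x, hx⟩)
    rcases hCa z z.2 (hz' a ha).symm with h | h | h | h
    · exact absurd (Subtype.ext (Subtype.ext h)) z1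
    · exact absurd (h ▸ hz' x₀ x₀S) (nc hCa)
    · exact absurd (h ▸ hz' x₀ x₀S) (nc hCb)
    · exact h ▸ hz'
  have hE' : ∀ x ∈ S, ∀ y ∈ S, ¬ fx W c ≤ fx W x → ¬ fx W c ≤ fx W y → fx W c ≤ fx W (x * y) :=
    fun x hx y hy => hE x hx y hy (hz x hx) (hz y hy)
  have huu : u < u ^ 2 := by nlinarith
  have aE : ¬ fx W c ≤ fx W a := fun h => by
    rw [← hUc, inf_eq_right.2 h] at hU
    omega
  have bE : ¬ fx W c ≤ fx W b := fun h => by
    rw [← hUc', inf_eq_right.2 h] at hU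
    omega
  have sqE : ∀ x : X, x * x = c → ¬ fx W c ≤ fx W x := fun x e =>
    e ▸ not_sq h2 (by rw [e, hcc]) (by rw [e]; exact hc1)
  have cb : ∀ x ∈ S, x * a * x⁻¹ = b → x * b * x⁻¹ = a := fun x hx e => by
    rw [← hac, ← conj_mul, e, hz x hx, mul_inv_cancel_right, hbc]
  have ca : ∀ x ∈ S, x * a * x⁻¹ = a → x * b * x⁻¹ = b := fun x hx e => by
    rw [← hac, ← conj_mul, e, hz x hx, mul_inv_cancel_right]
  let R : Subgroup X :=
    { carrier := {x | x ∈ S ∧ (x * a * x⁻¹ = a ∨ x * a * x⁻¹ = b)}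
      one_mem' := ⟨one_mem _, Or.inl (by simp)⟩
      mul_mem' := fun {x y} hx hy => ⟨mul_mem hx.1 hy.1, by
        have : x * y * a * (x * y)⁻¹ = x * (y * a * y⁻¹) * x⁻¹ := by group
        rw [this]
        rcases hy.2 with h | h <;> rw [h]
        · exact hx.2
        · rcases hx.2 with h' | h'
          · exact Or.inr (ca x hx.1 h')
          · exact Or.inl (cb x hx.1 h')⟩
      inv_mem' := fun {x} hx => ⟨inv_mem hx.1, by
        rcases hx.2 with h | h
        · exact Or.inl (by nth_rw 1 [← h]; group)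
        · exact Or.inr (by rw [← cb x hx.1 h]; nth_rw 2 [← h]; nth_rw 1 [← h]; group)⟩ }
  have hR : ∀ x ∈ S, x * a * x⁻¹ = a ∨ x * a * x⁻¹ = b := by
    by_contra hn
    have hlt : R < S := lt_of_le_of_ne (fun _ h => h.1) fun e => hn fun x hx => (e.ge hx).2
    obtain ⟨x, ⟨xS, xN⟩, xR⟩ := SetLike.exists_of_lt (lt_inf_normalizer_of_isPGroup hS hlt)
    have hy := (mem_normalizer_iff.1 xN a).1 ⟨ha, Or.inl (by group)⟩
    set y := x * a * x⁻¹ with hyd
    have yy : y * y = 1 := by rw [hyd, conj_mul, haa]; simp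
    have yE : ¬ fx W c ≤ fx W y := fun h => aE fun w hw =>
      mem_fx_conj.1 (h (smul_mem_fx (hz x xS).symm hw))
    rcases hy.2 with h | h
    · rcases hCa y hy.1 (mul_inv_eq_iff_eq_mul.1 h) with h | h | h | h
      · exact yE (h ▸ fun w _ => one_smul _ w)
      · exact xR ⟨xS, Or.inl h⟩
      · exact xR ⟨xS, Or.inr h⟩
      · exact yE (h ▸ le_rfl)
    · refine sqE (y * a) ?_ (hE' y hy.1 a ha yE aE)
      rw [inv_eq_of_mul_eq_one_right yy] at h
      rw [← mul_assoc, h, hab]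
  obtain ⟨d, dS, dE, da⟩ : ∃ d ∈ S, fx W c ≤ fx W d ∧ d * a * d⁻¹ = b := by
    have e := (hR x₀ x₀S).resolve_left fun h => nc hCa (mul_inv_eq_iff_eq_mul.1 h)
    by_cases h : fx W c ≤ fx W x₀
    · exact ⟨x₀, x₀S, h, e⟩
    · exact ⟨x₀ * a, mul_mem x₀S ha, hE' _ x₀S _ ha h aE, by rw [← e]; group⟩
  have db := cb d dS da
  have dd : d * d = 1 := by
    have dE2 : fx W c ≤ fx W (d * d) := (le_inf dE dE).trans (fx_inf_le_mul d d)
    rcases hCa (d * d) (mul_mem dS dS) (by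
      rw [← mul_inv_eq_iff_eq_mul]; nth_rw 2 [← db]; rw [← da]; group) with h | h | h | h
    · exact h
    · exact absurd (h ▸ dE2) aE
    · exact absurd (h ▸ dE2) bE
    · exact absurd dE (sqE d h)
  have id : d⁻¹ = d := inv_eq_of_mul_eq_one_right dd
  have sa : d * a * (d * a) = c := by rw [← mul_assoc, hab, ← da, id]
  have sb : d * b * (d * b) = c := by rw [← mul_assoc, hcd, ← db, id]
  have sc : d * c * (d * c) = 1 := by
    rw [mul_assoc, ← mul_assoc c, ← hz d dS, mul_assoc, hcc, mul_one, dd]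
  have hV : ∀ x ∈ S, (x = 1 ∨ x = a ∨ x = b ∨ x = c) ∨
      (x = d ∨ x = d * a ∨ x = d * b ∨ x = d * c) := fun x hx => by
    rcases hR x hx with h | h
    · exact Or.inl (hCa x hx (mul_inv_eq_iff_eq_mul.1 h))
    · have := hCa (d⁻¹ * x) (mul_mem (inv_mem dS) hx) (by
        rw [← mul_inv_eq_iff_eq_mul]
        calc _ = d⁻¹ * (x * a * x⁻¹) * d := by group
          _ = a := by rw [h, ← da]; group)
      simp only [inv_mul_eq_iff_eq_mul, mul_one] at this
      exact Or.inr this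
  have h8 : Nat.card S ≤ 8 :=
    (Set.ncard_le_ncard (s := (S : Set X)) (t := {1, a, b, c} ∪ {d, d * a, d * b, d * c}) hV).trans
      ((Set.ncard_union_le _ _).trans (Nat.add_le_add (card4 _ _ _ _) (card4 _ _ _ _)))
  have hsq : ∀ x ∈ S, x * x = 1 ∨ x * x = c := fun x hx => by
    rcases hV x hx with (h | h | h | h) | (h | h | h | h) <;> rw [h]
    exacts [.inl (one_mul 1), .inl haa, .inl hbb, .inl hcc, .inl dd, .inr sa, .inr sb, .inl sc]
  obtain ⟨O, hn, hcy, ho, hw⟩ := fin (npc_of_small hS hSi h3 h8 fun _ => ⟨c, hcS, hc1,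
    fun x hx => by
      have := hsq _ ((mem_normalizer_iff.1 hx (d * a)).1 (mul_mem dS ha))
      rw [conj_mul, sa] at this
      exact this.resolve_left fun e => hc1 (by simpa using e)⟩)
  have cO : ∀ o ∈ O, c * o = o * c := fun o h => by
    have := conj_comm_of_cyclic hcy d a (hn.conj_mem o h (d * a))
    rw [← mul_inv_eq_iff_eq_mul, ← sa]
    calc _ = d * a * (d * a * o * (d * a)⁻¹) * (d * a)⁻¹ := by group
      _ = a * d * (d * a * o * (d * a)⁻¹) * (a * d)⁻¹ := this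
      _ = a * (d * d) * a * o * (a * (d * d) * a)⁻¹ := by group
      _ = o := by rw [dd, mul_one, haa]; simp
  have EO : ∀ s ∈ S, fx W c ≤ fx W s → ∀ o ∈ invS O hcy s, o = 1 := fun s hs h o ho' => by
    by_contra h1
    have h4 : o * s * o⁻¹ * s⁻¹ = o * o := by
      rw [mul_assoc o, mul_assoc o, ← conj_inv, ho'.2, inv_inv]
    have h5 : fx W c ≤ fx W (o * o) := fun w hw => by
      have a1 : s⁻¹ • w = w := inv_smul_eq_iff.2 (h hw).symm
      have a2 : s • o⁻¹ • w = o⁻¹ • w := h (smul_mem_fx (cO _ (inv_mem ho'.1)) hw)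
      rw [← h4, mem_fx, mul_smul, mul_smul, mul_smul, a1, a2, smul_inv_smul]
    rw [fx_eq_bot hst' (odd_of_mem ho (mul_mem ho'.1 ho'.1)) (fun e => h1 ?_), le_bot_iff] at h5
    · rw [h5, AddSubgroup.card_bot] at hWc
      omega
    · exact orderOf_eq_one_iff.1 ((Nat.coprime_two_right.2 (odd_of_mem ho ho'.1)).eq_one_of_dvd
        (orderOf_dvd_of_pow_eq_one (by rwa [sq])))
  have dcE : fx W c ≤ fx W (d * c) := (le_inf dE le_rfl).trans (fx_inf_le_mul d c)
  have cI : ∀ s : X, s * s = 1 → Nat.card (fx W s ⊓ fx W c : AddSubgroup W) = u →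
      ∀ o ∈ invS O hcy s, Nat.card (fx W (s * o) ⊓ fx W c : AddSubgroup W) = u :=
    fun s hs h o ho' => by
      obtain ⟨r, hr, e⟩ := exists_conj_of_inv hs (odd_of_mem ho ho'.1) ho'.2
      have : r * c * r⁻¹ = c := by
        rw [← cO r (zpowers_le.2 ho'.1 hr), mul_inv_cancel_right]
      rw [e, ← h, ← card_inf_conj r s c, this]
  have bd : ∀ s : X, s * s = 1 → Nat.card (fx W s ⊓ fx W c : AddSubgroup W) = u →
      Nat.card (invS O hcy s) ≤ u + 1 := fun s hs h => by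
    have := card_mul_le_of_disj (fun o : invS O hcy s => fx W (s * o) ⊓ fx W c) (C := fx W c)
      (fun _ => inf_le_right) (fun o => cI s hs h o o.2) fun o o' hne => by
        rw [eq_bot_iff, ← inf_eq_bot_of_ne hst' ho o.2.1 o'.2.1 fun e => hne (Subtype.ext e)]
        exact inf_le_inf inf_le_left inf_le_left
    rw [hWc, show u ^ 2 - 1 = (u + 1) * (u - 1) by rw [← Nat.sq_sub_sq, one_pow]] at this
    exact Nat.le_of_mul_le_mul_right this (by omega)
  have ua : Nat.card (fx W a ⊓ fx W c : AddSubgroup W) = u := by rw [hUc, hU]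
  have ub : Nat.card (fx W b ⊓ fx W c : AddSubgroup W) = u := by rw [hUc', hU]
  have cv := card_le_cover (ι := invS O hcy a ⊕ invS O hcy b)
    (Sum.elim (fun o => fx W (a * o)) fun o => fx W (b * o))
    ((fx W d : Set W) ∪ fx W (d * c)) (m := u ^ 2 - u) (fun w => by
      by_cases h0 : w = 0
      · exact Or.inl (Or.inl (h0 ▸ (fx W d).zero_mem))
      obtain ⟨s, hs, ss, s1, o, ho', h⟩ := hw w h0
      rcases hV s hs with (rfl | rfl | rfl | rfl) | (rfl | rfl | rfl | rfl)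
      · exact absurd rfl s1
      · exact Or.inr ⟨.inl ⟨o, ho'⟩, h⟩
      · exact Or.inr ⟨.inr ⟨o, ho'⟩, h⟩
      · rw [EO _ hs le_rfl o ho', mul_one] at h
        exact Or.inl (Or.inl (dE h))
      · rw [EO _ hs dE o ho', mul_one] at h
        exact Or.inl (Or.inl h)
      · exact absurd (sa.symm.trans ss) hc1
      · exact absurd (sb.symm.trans ss) hc1
      · rw [EO _ hs dcE o ho', mul_one] at h
        exact Or.inl (Or.inr h)) (by
      rintro (o | o)
      · refine (ncard_diff_le (inf_le_left (b := fx W c)) fun w hw => Or.inl (dE hw.2)).trans ?_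
        erw [card_fx_mul hcy ho haa o.2, hWa, cI a haa ua o o.2]
      · refine (ncard_diff_le (inf_le_left (b := fx W c)) fun w hw => Or.inl (dE hw.2)).trans ?_
        erw [card_fx_mul hcy ho hbb o.2, hWb, cI b hbb ub o o.2])
  have fb : ∀ e : X, e * a * e⁻¹ = b → u * Nat.card (fx W e) ≤ Nat.card W := fun e he => by
    have h1 := card_mul_le (C := ⊤) (le_top (a := fx W a)) (le_top (a := fx W e))
    have h4 : fx W a ⊓ fx W e ≤ fx W a ⊓ fx W b := fun w hw => ⟨hw.1, by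
      have := mem_fx_conj (g := e).2 hw.1
      rwa [he, show e • w = w from hw.2] at this⟩
    have h5 := AddSubgroup.card_le_of_le h4
    rw [hWa, AddSubgroup.card_top] at h1
    rw [hU] at h5
    have := h1.trans (Nat.mul_le_mul_left _ h5)
    rw [sq, mul_assoc, mul_comm (Nat.card W)] at this
    exact Nat.le_of_mul_le_mul_left this (by omega)
  have f1 := fb d da
  have f2 := fb (d * c) (by
    rw [← da]
    calc _ = d * (c * a * c⁻¹) * d⁻¹ := by group
      _ = _ := by rw [← hz a ha, mul_inv_cancel_right])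
  have f3 : ((fx W d : Set W) ∪ fx W (d * c)).ncard ≤ Nat.card (fx W d) + Nat.card (fx W (d * c)) :=
    Set.ncard_union_le _ _
  rw [Nat.card_sum] at cv
  have b1 := bd a haa ua
  have b2 := bd b hbb ub
  obtain ⟨m, hm⟩ : ∃ m, u ^ 2 = m + u := ⟨u ^ 2 - u, by omega⟩
  rw [hm, Nat.add_sub_cancel] at cv
  have t1 : 4 * (Nat.card (fx W d) + Nat.card (fx W (d * c))) ≤ 2 * Nat.card W := by nlinarith
  have big : (u ^ 2) ^ 2 ≤ Nat.card W → False := fun h => by
    have : (Nat.card (invS O hcy a) + Nat.card (invS O hcy b)) * m ≤ (u + 1 + (u + 1)) * m :=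
      Nat.mul_le_mul_right _ (by omega)
    have h6 : 4 * (u * u ^ 2) ≤ (u ^ 2) ^ 2 := by nlinarith
    nlinarith
  by_cases e1 : Nat.card (invS O hcy a) = 1
  · by_cases e2 : Nat.card (invS O hcy b) = 1
    · rw [e1, e2] at cv
      nlinarith
    · exact big (hWb ▸ sq_le_card hst' hcy ho hbb e2)
  · exact big (hWa ▸ sq_le_card hst' hcy ho haa e1)

end Cfsg.GagP

set_option linter.all false in
theorem Cfsg.Rz.Gag2_PCov_0 : True := by
  have := @_root_.Cfsg.GagP.invS.eq_def.{0}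
  have := @_root_.Cfsg.GagP.invS.eq_1.{0}
  have := @_root_.Cfsg.GagP.invS.fun_cases
  trivial
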