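import Cfsg.Agent.Grp.Transfer
import Mathlib.GroupTheory.SchurZassenhaus
import Mathlib.Algebra.Group.Action.End
import Mathlib.Algebra.GroupWithZero.Action.End

/-!
# Groups acting on elementary abelian 2-groups: fixed spaces and restriction
-/

set_option autoImplicit false
set_option linter.unusedSectionVars false
set_option linter.unusedVariables false

namespace Cfsg.GagP

open Subgroup MulAction

section
variable {G : Type*} [Group G] (V : Type*) [AddCommGroup V] [DistribMulAction G V]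

/-- fixed space of an element -/
def fx (g : G) : AddSubgroup V where
  carrier := {v | g • v = v}
  add_mem' := fun {a b} ha hb => by
    simp only [Set.mem_ofPred_eq] at *
    rw [smul_add, ha, hb]
  zero_mem' := smul_zero g
  neg_mem' := fun {a} ha => by
    simp only [Set.mem_ofPred_eq] at *
    rw [smul_neg, ha]

/-- fixed space of a subgroup -/
def fxS (A : Subgroup G) : AddSubgroup V where
  carrier := {v | ∀ a ∈ A, a • v = v}
  add_mem' := fun {a b} ha hb x hx => by rw [smul_add, ha x hx, hb x hx]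
  zero_mem' := fun x _ => smul_zero x
  neg_mem' := fun {a} ha x hx => by rw [smul_neg, ha x hx]

variable {V}

@[simp] theorem mem_fx {g : G} {v : V} : v ∈ fx V g ↔ g • v = v := Iff.rfl

theorem mem_fxS {A : Subgroup G} {v : V} : v ∈ fxS V A ↔ ∀ a ∈ A, a • v = v := Iff.rfl

theorem mem_fxS' {A : Subgroup G} {v : V} : v ∈ fxS V A ↔ A ≤ stabilizer G v := Iff.rfl

theorem fxS_anti {A B : Subgroup G} (h : A ≤ B) : fxS V B ≤ fxS V A :=
  fun _ hv a ha => hv a (h ha)

theorem smul_mem_fxS {A : Subgroup G} {g : G} (hg : g ∈ normalizer (A : Set G)) {v : V}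
    (hv : v ∈ fxS V A) : g • v ∈ fxS V A := fun a ha => by
  have : g⁻¹ * a * g ∈ A := by
    have := (mem_normalizer_iff''.1 hg a).1 ha
    exact this
  have e := hv _ this
  rw [mul_smul, mul_smul, inv_smul_eq_iff] at e
  exact e

theorem smul_mem_fx {a g : G} (h : Commute a g) {v : V} (hv : v ∈ fx V a) : g • v ∈ fx V a := by
  rw [mem_fx] at *
  rw [← mul_smul, h.eq, mul_smul, hv]

theorem mem_fx_conj {a g : G} {v : V} : g • v ∈ fx V (g * a * g⁻¹) ↔ v ∈ fx V a := by
  simp only [mem_fx, mul_smul, inv_smul_smul, smul_left_cancel_iff]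

theorem card_fx_conj (a g : G) : Nat.card (fx V (g * a * g⁻¹)) = Nat.card (fx V a) := by
  refine (Nat.card_congr (Equiv.subtypeEquiv (MulAction.toPerm g) fun v => ?_)).symm
  exact mem_fx_conj.symm

theorem mem_stabilizer_smul {g x : G} {v : V} :
    x ∈ stabilizer G (g • v) ↔ g⁻¹ * x * g ∈ stabilizer G v := by
  simp only [mem_stabilizer_iff, mul_smul, inv_smul_eq_iff]

/-- `|A| |B| ≤ |C| |A ⊓ B|` -/
theorem card_mul_le [Finite V] {A B C : AddSubgroup V} (hA : A ≤ C) (hB : B ≤ C) :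
    Nat.card A * Nat.card B ≤ Nat.card C * Nat.card (A ⊓ B : AddSubgroup V) := by
  have h1 := AddSubgroup.relIndex_sup_right (H := A) (K := B)
  have h2 := AddSubgroup.card_mul_index (B.addSubgroupOf (A ⊔ B))
  have h3 := AddSubgroup.card_mul_index (B.addSubgroupOf A)
  have e2 : Nat.card (B.addSubgroupOf (A ⊔ B)) = Nat.card B :=
    Nat.card_congr (AddSubgroup.addSubgroupOfEquivOfLe le_sup_right).toEquiv
  have e3 : Nat.card (B.addSubgroupOf A) = Nat.card (A ⊓ B : AddSubgroup V) := by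
    rw [← AddSubgroup.inf_addSubgroupOf_right, inf_comm]
    exact Nat.card_congr (AddSubgroup.addSubgroupOfEquivOfLe inf_le_left).toEquiv
  have h4 : Nat.card (A ⊔ B : AddSubgroup V) ≤ Nat.card C :=
    AddSubgroup.card_le_of_le (sup_le hA hB)
  unfold AddSubgroup.relIndex at h1
  rw [e2, h1] at h2
  rw [e3] at h3
  calc Nat.card A * Nat.card B
      = Nat.card (A ⊔ B : AddSubgroup V) * Nat.card (A ⊓ B : AddSubgroup V) := by
        rw [← h2, ← h3]; ring
    _ ≤ _ := Nat.mul_le_mul_right _ h4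

/-- the map `v ↦ g v - v` -/
def nu (g : G) : V →+ V := DistribSMul.toAddMonoidHom V g - AddMonoidHom.id V

@[simp] theorem nu_apply (g : G) (v : V) : nu g v = g • v - v := rfl

theorem card_map_nu [Finite V] (g : G) (W : AddSubgroup V) :
    Nat.card W = Nat.card (W ⊓ fx V g : AddSubgroup V) * Nat.card (W.map (nu g)) := by
  have h := AddSubgroup.card_mul_index ((nu g).domRestrict W).ker
  rw [AddSubgroup.index_ker, AddMonoidHom.domRestrict_range] at h
  rw [← h]
  congr 1
  refine Nat.card_congr ⟨fun x => ⟨x.1.1, x.1.2, ?_⟩, fun x => ⟨⟨x.1, x.2.1⟩, ?_⟩, fun _ => rfl,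
    fun _ => rfl⟩
  · have := x.2
    rw [AddMonoidHom.mem_ker, AddMonoidHom.domRestrict_apply, nu_apply, sub_eq_zero] at this
    exact this
  · rw [AddMonoidHom.mem_ker, AddMonoidHom.domRestrict_apply, nu_apply, sub_eq_zero]
    exact x.2.2

theorem map_nu_le (h2 : ∀ v : V, v + v = 0) {g : G} (hg : g * g = 1) {W : AddSubgroup V}
    (hW : ∀ w ∈ W, g • w ∈ W) : W.map (nu g) ≤ W ⊓ fx V g := by
  rintro _ ⟨w, hw, rfl⟩
  refine ⟨W.sub_mem (hW w hw) hw, ?_⟩
  have e : ∀ v : V, -v = v := fun v => neg_eq_of_add_eq_zero_left (h2 v)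
  change g • (g • w - w) = g • w - w
  rw [smul_sub, ← mul_smul, hg, one_smul, ← e (w - g • w), neg_sub]

theorem card_le_sq [Finite V] (h2 : ∀ v : V, v + v = 0) {g : G} (hg : g * g = 1)
    {W : AddSubgroup V} (hW : ∀ w ∈ W, g • w ∈ W) :
    Nat.card W ≤ Nat.card (W ⊓ fx V g : AddSubgroup V) ^ 2 := by
  rw [card_map_nu g W, sq]
  exact Nat.mul_le_mul_left _ (AddSubgroup.card_le_of_le (map_nu_le h2 hg hW))

theorem exists_card_eq_two_pow [Finite V] (h2 : ∀ v : V, v + v = 0) (W : AddSubgroup V) :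
    ∃ k, Nat.card W = 2 ^ k := by
  have : IsPGroup 2 (Multiplicative W) := fun x => ⟨1, by
    apply Multiplicative.toAdd.injective
    apply Subtype.ext
    have := h2 ((Multiplicative.toAdd x : W) : V)
    simpa [two_nsmul] using this⟩
  exact IsPGroup.iff_card (G := Multiplicative W).1 this

/-- a 2-subgroup fixes a non-zero vector of a non-zero invariant subgroup -/
theorem exists_fix [Finite G] [Finite V] (h2 : ∀ v : V, v + v = 0) {A : Subgroup G}
    (hA : IsPGroup 2 A) {W : AddSubgroup V} (hW : ∀ a ∈ A, ∀ w ∈ W, a • w ∈ W) (h0 : W ≠ ⊥) :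
    ∃ w ∈ W, w ≠ 0 ∧ A ≤ stabilizer G w := by
  let S : SubMulAction A V := ⟨W, fun a {x} hx => hW a a.2 x hx⟩
  obtain ⟨k, hk⟩ := exists_card_eq_two_pow h2 W
  have hk0 : k ≠ 0 := by
    rintro rfl
    exact h0 (AddSubgroup.eq_bot_of_card_eq W (by simpa using hk))
  have hd : 2 ∣ Nat.card S := by
    have : Nat.card S = Nat.card W := rfl
    rw [this, hk]
    exact dvd_pow_self 2 hk0
  obtain ⟨b, hb, hne⟩ := hA.exists_fixed_point_of_prime_dvd_card_of_fixed_point S hd
    (a := ⟨0, W.zero_mem⟩) (fun a => Subtype.ext (smul_zero a))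
  refine ⟨b.1, b.2, fun e => hne (Subtype.ext e.symm), fun a ha => ?_⟩
  exact congrArg Subtype.val (hb ⟨a, ha⟩)

/-- the action of `N` on an invariant subgroup `W` -/
def res (N : Subgroup G) (W : AddSubgroup V) (h : ∀ n ∈ N, ∀ w ∈ W, n • w ∈ W) :
    N →* Equiv.Perm W where
  toFun n :=
    { toFun := fun w => ⟨(n : G) • (w : V), h n n.2 w w.2⟩
      invFun := fun w => ⟨(n : G)⁻¹ • (w : V), h _ (N.inv_mem n.2) w w.2⟩
      left_inv := fun w => Subtype.ext (inv_smul_smul _ _)
      right_inv := fun w => Subtype.ext (smul_inv_smul _ _) }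
  map_one' := Equiv.ext fun w => Subtype.ext (one_smul _ _)
  map_mul' := fun a b => Equiv.ext fun w => Subtype.ext (mul_smul _ _ _)

/-- the image group -/
def Im (N : Subgroup G) (W : AddSubgroup V) (h : ∀ n ∈ N, ∀ w ∈ W, n • w ∈ W) : Type _ :=
  (res N W h).range

instance (N : Subgroup G) (W : AddSubgroup V) (h : ∀ n ∈ N, ∀ w ∈ W, n • w ∈ W) :
    Group (Im N W h) := inferInstanceAs (Group (res N W h).range)

instance (N : Subgroup G) (W : AddSubgroup V) (h : ∀ n ∈ N, ∀ w ∈ W, n • w ∈ W) :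
    DistribMulAction (Im N W h) W where
  smul x w := (show (res N W h).range from x).1 w
  one_smul _ := rfl
  mul_smul _ _ _ := rfl
  smul_zero x := by
    obtain ⟨_, n, rfl⟩ := x
    exact Subtype.ext (smul_zero (n : G))
  smul_add x a b := by
    obtain ⟨_, n, rfl⟩ := x
    exact Subtype.ext (smul_add (n : G) (a : V) b)

/-- the projection onto the image group -/
def pr (N : Subgroup G) (W : AddSubgroup V) (h : ∀ n ∈ N, ∀ w ∈ W, n • w ∈ W) :
    N →* Im N W h := (res N W h).rangeRestrict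

variable {N : Subgroup G} {W : AddSubgroup V} {h : ∀ n ∈ N, ∀ w ∈ W, n • w ∈ W}

theorem pr_surj : Function.Surjective (pr N W h) := MonoidHom.rangeRestrict_surjective _

@[simp] theorem coe_pr_smul (n : N) (w : W) : ((pr N W h n • w : W) : V) = (n : G) • (w : V) := rfl

theorem pr_smul_eq_iff {n : N} {w : W} : pr N W h n • w = w ↔ (n : G) • (w : V) = w :=
  Subtype.ext_iff

theorem pr_eq_one_iff {n : N} : pr N W h n = 1 ↔ ∀ w ∈ W, (n : G) • w = w := by
  constructor
  · intro e w hw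
    have : pr N W h n • (⟨w, hw⟩ : W) = ⟨w, hw⟩ := by rw [e, one_smul]
    exact pr_smul_eq_iff.1 this
  · intro e
    exact Subtype.ext (Equiv.ext fun w => Subtype.ext (e w w.2))

instance : FaithfulSMul (Im N W h) W :=
  ⟨fun {a b} e => Subtype.ext (Equiv.ext e)⟩

instance [Finite G] : Finite (Im N W h) := Finite.of_surjective _ pr_surj

theorem stabilizer_Im (w : W) :
    stabilizer (Im N W h) w = ((stabilizer G (w : V)).subgroupOf N).map (pr N W h) := by
  ext x
  obtain ⟨n, rfl⟩ := pr_surj x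
  constructor
  · intro e
    exact ⟨n, pr_smul_eq_iff.1 e, rfl⟩
  · rintro ⟨m, hm, e⟩
    rw [← e]
    exact pr_smul_eq_iff.2 hm

theorem index_stabilizer_Im (w : W) :
    (stabilizer (Im N W h) w).index = (stabilizer G (w : V)).relIndex N := by
  have : (stabilizer G (w : V)).subgroupOf N = (stabilizer (Im N W h) w).comap (pr N W h) := by
    ext n
    exact pr_smul_eq_iff.symm
  rw [relIndex, this, index_comap_of_surjective _ pr_surj]

theorem card_Im_dvd [Finite G] : Nat.card (Im N W h) ∣ Nat.card G :=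
  (card_dvd_of_surjective _ pr_surj).trans (card_subgroup_dvd_card N)

theorem card_fx_Im (n : N) :
    Nat.card (fx W (pr N W h n)) = Nat.card (W ⊓ fx V (n : G) : AddSubgroup V) :=
  Nat.card_congr ⟨fun x => ⟨x.1.1, x.1.2, pr_smul_eq_iff.1 x.2⟩,
    fun x => ⟨⟨x.1, x.2.1⟩, pr_smul_eq_iff.2 x.2.2⟩, fun _ => rfl, fun _ => rfl⟩

end

/-- all subgroups of odd order are cyclic -/
def OC (G : Type*) [Group G] : Prop := ∀ H : Subgroup G, Odd (Nat.card H) → IsCyclic H

theorem OC.subgroup {G : Type*} [Group G] (h : OC G) (N : Subgroup G) : OC N := fun H hH => by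
  have e := H.equivMapOfInjective N.subtype N.subtype_injective
  have := h (H.map N.subtype) (by rwa [← Nat.card_congr e.toEquiv])
  exact isCyclic_of_surjective e.symm e.symm.surjective

theorem OC.of_surjective {G X : Type*} [Group G] [Finite G] [Group X] (h : OC G) (f : G →* X)
    (hf : Function.Surjective f) (hk : IsPGroup 2 f.ker) : OC X := fun H hH => by
  let H' := H.comap f
  let φ : H' →* H := (f.domRestrict H').codRestrict H fun x => x.2
  have hφ : Function.Surjective φ := fun y => by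
    obtain ⟨x, hx⟩ := hf y
    exact ⟨⟨x, by change f x ∈ H; rw [hx]; exact y.2⟩, Subtype.ext hx⟩
  have hk' : IsPGroup 2 φ.ker := by
    refine hk.of_injective ((H'.subtype.domRestrict φ.ker).codRestrict f.ker fun x => ?_) ?_
    · exact congrArg Subtype.val x.2
    · intro a b e
      exact Subtype.ext (Subtype.ext (congrArg (fun z : f.ker => (z : G)) e))
  have hi : φ.ker.index = Nat.card H := by
    rw [index_ker, MonoidHom.range_eq_top.2 hφ, Subgroup.card_top]
  obtain ⟨k, hk2⟩ := IsPGroup.iff_card.1 hk'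
  obtain ⟨K, hK⟩ := exists_right_complement'_of_coprime (N := φ.ker)
    (by rw [hi, hk2]; exact Nat.Coprime.pow_left _ (Nat.coprime_two_left.2 hH))
  have hc : IsCyclic K := h.subgroup H' K (by rwa [hK.symm.index_eq_card.symm, hi])
  refine isCyclic_of_surjective (φ.domRestrict K) fun y => ?_
  obtain ⟨x, rfl⟩ := hφ y
  obtain ⟨⟨a, b⟩, rfl⟩ := hK.2 x
  refine ⟨b, ?_⟩
  have : φ a = 1 := a.2
  simp [this]

end Cfsg.GagP

set_option linter.all false in
theorem Cfsg.Rz.Gag2_PDefs_0 : True := by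
  have := @_root_.Cfsg.GagP.fx.eq_def.{0, 0}
  have := @_root_.Cfsg.GagP.fx.eq_1.{0, 0}
  have := @_root_.Cfsg.GagP.fx.fun_cases
  have := @_root_.Cfsg.GagP.pr.eq_def.{0, 0}
  have := @_root_.Cfsg.GagP.pr.eq_1.{0, 0}
  have := @_root_.Cfsg.GagP.pr.fun_cases
  have := @_root_.Cfsg.GagP.fxS.eq_def.{0, 0}
  have := @_root_.Cfsg.GagP.fxS.eq_1.{0, 0}
  have := @_root_.Cfsg.GagP.fxS.fun_cases
  have := @_root_.Cfsg.GagP.instDistribMulActionImSubtypeMemAddSubgroup.eq_def.{0, 0}
  have := @_root_.Cfsg.GagP.instDistribMulActionImSubtypeMemAddSubgroup.eq_1.{0, 0}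
  have := @_root_.Cfsg.GagP.instDistribMulActionImSubtypeMemAddSubgroup.fun_cases
  have := @_root_.Cfsg.GagP.Im.congr_simp.{0, 0}
  have := @_root_.Cfsg.GagP.Im.eq_def.{0, 0}
  have := @_root_.Cfsg.GagP.Im.eq_1.{0, 0}
  have := @_root_.Cfsg.GagP.Im.fun_cases
  have := @_root_.Cfsg.GagP.res.congr_simp.{0, 0}
  have := @_root_.Cfsg.GagP.res.eq_def.{0, 0}
  have := @_root_.Cfsg.GagP.res.eq_1.{0, 0}
  have := @_root_.Cfsg.GagP.res.fun_cases
  have := @_root_.Cfsg.GagP.nu.eq_def.{0, 0}
  have := @_root_.Cfsg.GagP.nu.eq_1.{0, 0}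
  have := @_root_.Cfsg.GagP.nu.fun_cases
  have := @_root_.Cfsg.GagP.instGroupIm.eq_def.{0, 0}
  have := @_root_.Cfsg.GagP.instGroupIm.eq_1.{0, 0}
  have := @_root_.Cfsg.GagP.instGroupIm.fun_cases
  have := @_root_.Cfsg.GagP.OC.eq_def.{0}
  have := @_root_.Cfsg.GagP.OC.eq_1.{0}
  have := @_root_.Cfsg.GagP.OC.fun_cases
  trivial
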