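import Cfsg.Agent.Gag2.PPlane
import Cfsg.Agent.Grp.Nilpotent
import Cfsg.Agent.Grp.Residual

/-!
# Lines: maximal intersections of point stabilisers
-/

set_option autoImplicit false
set_option linter.unusedSectionVars false

namespace Cfsg.GagP

open Subgroup MulAction
open scoped Pointwise

variable {L V : Type*} [Group L] [Finite L] [AddCommGroup V] [Finite V] [DistribMulAction L V]

local notation "N(" D ")" => normalizer ((D : Subgroup L) : Set L)
local notation "St" => stabilizer L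

/-- a maximal intersection of two different point stabilisers -/
structure IsLine (V : Type*) [AddCommGroup V] [DistribMulAction L V] (D : Subgroup L) : Prop where
  two : ∃ v w : V, v ≠ 0 ∧ w ≠ 0 ∧ D ≤ St v ∧ D ≤ St w ∧ St v ≠ St w
  max : ∀ v w : V, v ≠ 0 → w ≠ 0 → D ≤ St v → D ≤ St w → St v ≠ St w → St v ⊓ St w = D

omit [Finite L] [Finite V] in
theorem le_stab_smul {D : Subgroup L} {n : L} (hn : n ∈ N(D)) {v : V} (h : D ≤ St v) :
    D ≤ St (n • v) := smul_mem_fxS (V := V) hn h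

omit [Finite L] [Finite V] in
theorem stab_smul_inj {g : L} {v w : V} (h : St (g • v) = St (g • w)) : St v = St w := by
  ext x
  have := SetLike.ext_iff.1 h (g * x * g⁻¹)
  simpa [mul_smul] using this

omit [Finite L] [Finite V] in
theorem conj_mem_stab (g : L) {x : L} {v : V} (h : x ∈ St v) : g * x * g⁻¹ ∈ St (g • v) := by
  simpa [mul_smul] using h

omit [Finite L] [Finite V] in
theorem smul_ne_zero' (g : L) {v : V} (h : v ≠ 0) : g • v ≠ 0 := by
  rwa [Ne, smul_eq_zero_iff_eq]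

namespace Syl2

variable (hS : Syl2 L V) (h2 : ∀ v : V, v + v = 0)
include hS h2

theorem exists_le {v : V} (hv : v ≠ 0) {R : Subgroup L} (hR : IsPGroup 2 R) :
    ∃ w : V, w ≠ 0 ∧ R ≤ St w := by
  have : Nontrivial V := ⟨v, 0, hv⟩
  obtain ⟨w, -, h0, h⟩ := exists_fix h2 hR (W := (⊤ : AddSubgroup V)) (fun _ _ _ _ => trivial)
    top_ne_bot
  exact ⟨w, h0, h⟩

theorem odd_relIndex {v : V} (hv : v ≠ 0) {M : Subgroup L}
    (h : ∀ w : V, w ≠ 0 → St v ⊓ M ≤ St w → St w = St v) : ¬ 2 ∣ (St v).relIndex M := by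
  obtain ⟨R, hR, h1, h3, h4⟩ := exists_sylow_le_of_le (p := 2) ((hS v hv).1.to_inf_left (K := M))
    inf_le_right
  obtain ⟨w, hw, hle⟩ := hS.exists_le h2 hv hR
  rw [h w hw (h1.trans hle)] at hle
  rwa [le_antisymm (le_inf hle h3) h1, inf_relIndex_right] at h4

omit h2 in
theorem lt_of_ne {v w : V} (hv : v ≠ 0) (hw : w ≠ 0) (h : St v ≠ St w) {D : Subgroup L}
    (h1 : D ≤ St v) (h1' : D ≤ St w) : D < St v :=
  lt_of_le_of_ne h1 fun e => h (hS.stab_eq hv hw (e ▸ h1')).symm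

theorem isLine_of_max {v w : V} (hv : v ≠ 0) (hw : w ≠ 0) (hne : St v ≠ St w)
    (hm : ∀ x : V, x ≠ 0 → St v ≠ St x → St v ⊓ St w ≤ St x → St v ⊓ St x ≤ St v ⊓ St w) :
    IsLine V (St v ⊓ St w) := by
  set D := St v ⊓ St w with hD
  have key : ∀ x : V, x ≠ 0 → D ≤ St x → ¬ St v ⊓ St x ≤ D → St x = St v := fun x hx h1 h3 => by
    by_contra e
    exact h3 (hm x hx (Ne.symm e) h1)
  have hlt : D < St v ⊓ N(D) :=
    lt_inf_normalizer_of_isPGroup (hS v hv).1 (hS.lt_of_ne hv hw hne inf_le_left inf_le_right)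
  have hodd : ¬ 2 ∣ (St v).relIndex N(D) := hS.odd_relIndex h2 hv fun x hx h =>
    key x hx (hlt.le.trans h) fun h' => hlt.not_ge ((le_inf inf_le_left h).trans h')
  have conj : ∀ x : V, x ≠ 0 → D ≤ St x → ∃ n ∈ N(D), St (n • x) = St v := by
    intro x hx hle
    by_cases e : St x = St v
    · exact ⟨1, one_mem _, by rw [one_smul, e]⟩
    have hlt' : D < St x ⊓ N(D) := lt_inf_normalizer_of_isPGroup (hS x hx).1
      (hS.lt_of_ne hx hv e hle inf_le_left)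
    obtain ⟨n, hn, hle'⟩ := exists_map_conj_le_of_not_dvd_relIndex (hS v hv).1 hodd
      ((hS x hx).1.to_inf_left (K := N(D))) inf_le_right
    refine ⟨n, hn, key _ (smul_ne_zero' n hx) (le_stab_smul hn hle) fun h => ?_⟩
    obtain ⟨y, hy, hyD⟩ := SetLike.exists_of_lt hlt'
    exact hyD ((mem_normalizer_iff.1 hn y).2 (h ⟨hle' ⟨y, hy, rfl⟩, conj_mem_stab n hy.1⟩))
  refine ⟨⟨v, w, hv, hw, inf_le_left, inf_le_right, hne⟩, fun a b ha hb h1 h3 hab => ?_⟩
  obtain ⟨n, hn, e⟩ := conj a ha h1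
  refine le_antisymm (fun y hy => ?_) (le_inf h1 h3)
  exact (mem_normalizer_iff.1 hn y).2 (hm (n • b) (smul_ne_zero' n hb)
    (fun e' => hab (stab_smul_inj (e.trans e'))) (le_stab_smul hn h3)
      ⟨e ▸ conj_mem_stab n hy.1, conj_mem_stab n hy.2⟩)

theorem exists_line {v w : V} (hv : v ≠ 0) (hw : w ≠ 0) (hne : St v ≠ St w) :
    ∃ D, IsLine V D ∧ St v ⊓ St w ≤ D ∧ D ≤ St v := by
  obtain ⟨D, ⟨x, hx, hx', hle, rfl⟩, hm⟩ := Set.Finite.exists_maximal
    (s := {D : Subgroup L | ∃ x : V, x ≠ 0 ∧ St v ≠ St x ∧ St v ⊓ St w ≤ St x ∧ D = St v ⊓ St x})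
    (Set.toFinite _) ⟨_, w, hw, hne, inf_le_right, rfl⟩
  refine ⟨_, hS.isLine_of_max h2 hv hx hx' fun y hy hy' h => ?_, le_inf inf_le_left hle,
    inf_le_left⟩
  exact hm ⟨y, hy, hy', (le_inf inf_le_left hle).trans h, rfl⟩ (le_inf inf_le_left h)

end Syl2

namespace IsLine

variable {D : Subgroup L} (hD : IsLine V D)
include hD

omit [Finite L] [Finite V] in
theorem conj (g : L) : IsLine V (D.map (MulAut.conj g).toMonoidHom) := by
  have e : ∀ v : V, St (g • v) = (St v).map (MulAut.conj g).toMonoidHom := fun v =>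
    stabilizer_smul_eq_stabilizer_map_conj g v
  have hi : Function.Injective (MulAut.conj g).toMonoidHom := (MulAut.conj g).injective
  obtain ⟨v, w, hv, hw, h1, h3, hne⟩ := hD.two
  refine ⟨⟨g • v, g • w, smul_ne_zero' g hv, smul_ne_zero' g hw, e v ▸ map_mono h1,
    e w ▸ map_mono h3, fun h => hne (stab_smul_inj h)⟩, fun a b ha hb h1 h3 hab => ?_⟩
  obtain ⟨a, rfl⟩ := MulAction.surjective g a
  obtain ⟨b, rfl⟩ := MulAction.surjective g b
  simp only [e, map_le_map_iff_of_injective hi] at h1 h3 hab ⊢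
  rw [← map_inf _ _ _ hi, hD.max a b (fun h => ha (by simp [h])) (fun h => hb (by simp [h])) h1 h3
    fun h => hab (by rw [h])]

omit [Finite L] [Finite V] in
theorem exists_ne (v : V) : ∃ w : V, w ≠ 0 ∧ D ≤ St w ∧ St v ≠ St w := by
  obtain ⟨a, b, ha, hb, h1, h3, hne⟩ := hD.two
  by_cases e : St v = St a
  · exact ⟨b, hb, h3, e ▸ hne⟩
  · exact ⟨a, ha, h1, e⟩

omit [Finite L] [Finite V] in
/-- an element of a point outside a line of it fixes only that point -/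
theorem stab_eq {v w : V} (hv : v ≠ 0) (hw : w ≠ 0) (h1 : D ≤ St v) (h3 : D ≤ St w) {x : L}
    (hx : x ∈ St v) (hx' : x ∈ St w) (hxD : x ∉ D) : St w = St v := by
  by_contra e
  exact hxD (hD.max v w hv hw h1 h3 (Ne.symm e) ▸ ⟨hx, hx'⟩)

omit [Finite L] [Finite V] in
theorem mem_of_fix {x : L} (hx : ∀ w ∈ fxS V D, x • w = w) : x ∈ D := by
  obtain ⟨a, b, ha, hb, h1, h3, hne⟩ := hD.two
  exact hD.max a b ha hb h1 h3 hne ▸ ⟨hx a h1, hx b h3⟩

omit [Finite L] [Finite V] in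
theorem eq_of_le {D' : Subgroup L} (hD' : IsLine V D') (h : D ≤ D') : D = D' := by
  obtain ⟨a, b, ha, hb, h1, h3, hne⟩ := hD'.two
  rw [← hD.max a b ha hb (h.trans h1) (h.trans h3) hne, hD'.max a b ha hb h1 h3 hne]

variable (hS : Syl2 L V) (h2 : ∀ v : V, v + v = 0)
include hS

theorem lt {v : V} (hv : v ≠ 0) (h : D ≤ St v) : D < St v ⊓ N(D) := by
  obtain ⟨w, hw, h1, hne⟩ := hD.exists_ne v
  exact lt_inf_normalizer_of_isPGroup (hS v hv).1 (hS.lt_of_ne hv hw hne h h1)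

theorem isPGroup : IsPGroup 2 D := by
  obtain ⟨a, -, ha, -, h1, -⟩ := hD.two
  exact (hS a ha).1.to_le h1

include h2

theorem odd_relIndex {v : V} (hv : v ≠ 0) (h : D ≤ St v) : ¬ 2 ∣ (St v).relIndex N(D) := by
  obtain ⟨x, hx, hxD⟩ := SetLike.exists_of_lt (hD.lt hS hv h)
  exact hS.odd_relIndex h2 hv fun w hw hle =>
    hD.stab_eq hv hw h ((hD.lt hS hv h).le.trans hle) hx.1 (hle hx) hxD

theorem facts (hc : OC L) (h3 : ¬ 3 ∣ Nat.card L) {v : V} (hv : v ≠ 0) (h : D ≤ St v) :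
    (∀ x ∈ St v ⊓ N(D), ∀ y ∈ St v ⊓ N(D), x ∉ D → y ∉ D → x * y ∈ D) ∧
      Nat.card (fxS V D) = Nat.card (fxS V (St v)) ^ 2 ∧ 4 ≤ Nat.card (fxS V (St v)) := by
  have hi : ∀ n ∈ N(D), ∀ w ∈ fxS V D, n • w ∈ fxS V D := fun n hn w hw => smul_mem_fxS hn hw
  have hk : ∀ n : N(D), pr N(D) (fxS V D) hi n = 1 ↔ (n : L) ∈ D := fun n =>
    pr_eq_one_iff.trans ⟨hD.mem_of_fix, fun hn w hw => hw n hn⟩
  have hst : ∀ (w : fxS V D) (n : N(D)), pr N(D) (fxS V D) hi n ∈ stabilizer _ w ↔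
      (n : L) ∈ St (w : V) := fun w n => pr_smul_eq_iff
  have hS' : Syl2 (Im N(D) (fxS V D) hi) (fxS V D) := fun w hw => by
    have hw' : (w : V) ≠ 0 := fun e => hw (Subtype.ext e)
    rw [index_stabilizer_Im, stabilizer_Im]
    exact ⟨(hS w hw').1.comap_subtype.map _, hD.odd_relIndex hS h2 hw' w.2⟩
  have hc' : OC (Im N(D) (fxS V D) hi) := (hc.subgroup _).of_surjective _ pr_surj (by
    have : (pr N(D) (fxS V D) hi).ker = D.subgroupOf N(D) := by
      ext n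
      exact hk n
    rw [this]
    exact (hD.isPGroup hS).comap_subtype)
  obtain ⟨x, hx, hxD⟩ := SetLike.exists_of_lt (hD.lt hS hv h)
  obtain ⟨a1, a2, a3⟩ := plane (fun w => Subtype.ext (h2 w)) hS' hc'
    (fun h => h3 (h.trans card_Im_dvd)) (fun a b ha hb hab => by
      rw [eq_bot_iff]
      intro g hg
      obtain ⟨n, rfl⟩ := pr_surj g
      refine (hk n).2 ((hD.max a b (fun e => ha (Subtype.ext e)) (fun e => hb (Subtype.ext e))
        a.2 b.2 (fun e => hab ?_)).le ⟨(hst a n).1 hg.1, (hst b n).1 hg.2⟩)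
      rw [stabilizer_Im, stabilizer_Im, e])
    (v := ⟨v, h⟩) (fun e => hv (congrArg Subtype.val e)) (fun e => by
      have : pr N(D) (fxS V D) hi ⟨x, hx.2⟩ ∈ stabilizer _ (⟨v, h⟩ : fxS V D) := (hst _ _).2 hx.1
      rw [e] at this
      exact hxD ((hk _).1 this))
  have e : Nat.card (fxS (fxS V D) (stabilizer (Im N(D) (fxS V D) hi) (⟨v, h⟩ : fxS V D))) =
      Nat.card (fxS V (St v)) := by
    refine Nat.card_congr ⟨fun w => ⟨w.1.1, ?_⟩, fun w => ⟨⟨w.1, fxS_anti h w.2⟩, ?_⟩,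
      fun _ => rfl, fun _ => rfl⟩
    · by_cases h0 : w.1.1 = 0
      · rw [h0]; exact AddSubgroup.zero_mem _
      · exact (hD.stab_eq hv h0 h w.1.2 hx.1
          ((hst w.1 ⟨x, hx.2⟩).1 (w.2 _ ((hst _ _).2 hx.1))) hxD).ge
    · intro g hg
      obtain ⟨n, rfl⟩ := pr_surj g
      exact (hst _ n).2 (w.2 n ((hst _ n).1 hg))
  rw [e] at a2 a3
  refine ⟨fun x hx y hy hxD hyD => ?_, a2, a3⟩
  obtain ⟨z, -, hz⟩ := (Nat.card_eq_two_iff' (1 : stabilizer _ (⟨v, h⟩ : fxS V D))).1 a1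
  have e1 := hz ⟨pr N(D) (fxS V D) hi ⟨x, hx.2⟩⁻¹, inv_mem ((hst _ _).2 hx.1)⟩
    fun e => hxD (by simpa using (hk _).1 (congrArg Subtype.val e))
  have e2 := hz ⟨pr N(D) (fxS V D) hi ⟨y, hy.2⟩, (hst _ _).2 hy.1⟩
    fun e => hyD ((hk _).1 (congrArg Subtype.val e))
  have e3 := congrArg Subtype.val (e1.trans e2.symm)
  refine (hk (⟨x, hx.2⟩ * ⟨y, hy.2⟩)).1 ?_
  rw [map_mul, ← (show _ = pr N(D) (fxS V D) hi ⟨y, hy.2⟩ from e3), ← map_mul, mul_inv_cancel,
    map_one]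

end IsLine

end Cfsg.GagP

set_option linter.all false in
theorem Cfsg.Rz.Gag2_PLine_0 : True := by
  have := @_root_.Cfsg.GagP.IsLine.mk.congr_simp.{0, 0}
  trivial
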