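import Cfsg.Agent.Gag2.PDefs
import Cfsg.Agent.Gag2.Zgp
import Cfsg.Agent.Grp.Transfer
import Cfsg.Agent.Grp.FreeCyc
import Cfsg.Agent.Grp.FpfEnd
import Mathlib.GroupTheory.SpecificGroups.ZGroup

/-!
# Odd subgroups of a perfect group whose odd elements act fixed-point-freely are cyclic

(a) Sylow `r`-subgroups, `r` odd, are cyclic (`isCyclic_of_free`).
(b) `y` of odd prime order `r`, `g₀` of odd prime order `q` normalising `⟨y⟩` commute
    (`fix_of_frobenius`).
(c) `y` of odd prime order `r`, `g` a `q`-element (`q` odd) normalising `⟨y⟩`: they commute.  For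
    `q ≠ r`: `g ∈ Q` Sylow (cyclic), `g₀ ∈ ⟨g⟩` of order `q`, `N = N(⟨g₀⟩) ≥ N(Q)`.  `C(g₀)` has a
    normal `q`-complement `M ∋ y` (Burnside: a `q'`-element normalising the cyclic `Q` and fixing
    `g₀` centralises `Q`), `M ⊴ N`.  `L` perfect: some `q'`-element `n ∈ N(Q)` does not centralise
    `Q`, so `[Q, n] = Q`, `Q ≤ N'`.  Frattini for a Sylow `r`-subgroup `R ∋ y` of `M`:
    `N = M N_N(R)`, `N_N(R) ≤ N(⟨y⟩)`, `N_N(R)' ≤ C(y)`, so `|Q|` divides `|C(y)|` and
    `N(⟨y⟩)/C(y)` is a `q'`-group.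
(d) An odd subgroup `H` is a Z-group; `H'` is cyclic of order prime to `|H : H'|`; by (c) `H`
    centralises the elements of prime order of `H'`, so (coprime action) `H'`; so `H` is nilpotent
    and cyclic.  (Or: Burnside gives a normal `r`-complement for every `r`.)
-/

set_option autoImplicit false
set_option linter.unusedSectionVars false

namespace Cfsg.GagP

open Subgroup MulAction
open scoped commutatorElement

theorem mem_commutator_of_pow {G : Type*} [Group G] [Finite G] {q n : ℕ} (hq : q.Prime)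
    (h : ¬ q ∣ (commutator G).index) {g : G} (hg : g ^ q ^ n = 1) : g ∈ commutator G := by
  rw [← QuotientGroup.eq_one_iff, ← orderOf_eq_one_iff]
  refine (((hq.coprime_iff_not_dvd.2 h).pow_left n).coprime_dvd_left ?_).eq_one_of_dvd
    (orderOf_dvd_natCard _)
  exact orderOf_dvd_of_pow_eq_one (by rw [← QuotientGroup.mk_pow, hg, QuotientGroup.mk_one])

section abstract

variable {L : Type*} [Group L] [Finite L]
  (cyc : ∀ (r : ℕ) (R : Subgroup L), r.Prime → r ≠ 2 → IsPGroup r R → IsCyclic R)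
include cyc

theorem isCyclic_sylow {r : ℕ} (hr : r.Prime) (h2 : r ≠ 2) {X : Subgroup L} (P : Sylow r X) :
    IsCyclic P :=
  have := cyc r _ hr h2 (P.isPGroup'.map X.subtype)
  isCyclic_of_surjective
    (((P : Subgroup X).equivMapOfInjective X.subtype X.subtype_injective).symm)
    (MulEquiv.surjective _)

theorem exists_conj_mem_zpowers' {r : ℕ} (hr : r.Prime) (h2 : r ≠ 2) {X : Subgroup L} {k k' : L}
    (hk : orderOf k = r) (hk' : orderOf k' = r) (h1 : k ∈ X) (h1' : k' ∈ X) :
    ∃ x ∈ X, x * k' * x⁻¹ ∈ zpowers k := by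
  have : Fact r.Prime := ⟨hr⟩
  have hp : ∀ {g : L} (hg : g ∈ X), orderOf g = r → IsPGroup r (zpowers (⟨g, hg⟩ : X)) :=
    fun {g} hg ho => IsPGroup.of_card (n := 1) (by
      rw [Nat.card_zpowers, pow_one, ← ho, ← orderOf_coe])
  obtain ⟨P, hP⟩ := (hp h1 hk).exists_le_sylow
  obtain ⟨P', hP'⟩ := (hp h1' hk').exists_le_sylow
  obtain ⟨x, rfl⟩ := MulAction.exists_smul_eq X P' P
  refine ⟨x, x.2, ?_⟩
  have hc := cyc r _ hr h2 ((x • P').isPGroup'.map X.subtype)
  have m2 : (x : L) * k' * (x : L)⁻¹ ∈ ((x • P' : Sylow r X) : Subgroup X).map X.subtype :=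
    mem_map_of_mem X.subtype (x := x * ⟨k', h1'⟩ * x⁻¹)
      (smul_mem_pointwise_smul _ (MulAut.conj x) _ (hP' (mem_zpowers _)))
  have o2 : orderOf ((x : L) * k' * (x : L)⁻¹) = r := by
    rw [← hk']
    exact (MulAut.conj (x : L)).orderOf_eq k'
  exact Gag2.mem_zpowers_of_isCyclic hc (mem_map_of_mem X.subtype (hP (mem_zpowers _))) m2
    (o2.trans hk.symm).dvd

theorem commute_of_normalizes (hp : commutator L = ⊤)
    (pq : ∀ a b : L, (orderOf a).Prime → (orderOf b).Prime → orderOf a ≠ 2 → orderOf b ≠ 2 →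
      orderOf a ≠ orderOf b → a * b * a⁻¹ ∈ zpowers b → Commute a b)
    {q n : ℕ} (hq : q.Prime) (q2 : q ≠ 2) {g y : L} (hg : g ^ q ^ n = 1) (hy : (orderOf y).Prime)
    (y2 : orderOf y ≠ 2) (h : g * y * g⁻¹ ∈ zpowers y) : Commute g y := by
  haveI : Fact q.Prime := ⟨hq⟩
  have nz : ∀ {a b : L}, a * b * a⁻¹ ∈ zpowers b → a ∈ normalizer ((zpowers b : Subgroup L) : Set L) :=
    fun {a b} e => mem_normalizer_of_map_conj_le (by
      rw [MonoidHom.map_zpowers]; exact zpowers_le.2 e)
  have hgp : IsPGroup q (zpowers g) :=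
    IsPGroup.of_card_dvd_pow (by rw [Nat.card_zpowers]; exact orderOf_dvd_of_pow_eq_one hg)
  by_cases e : orderOf y = q
  · have hyp : IsPGroup q (zpowers y) :=
      IsPGroup.of_card (n := 1) (by rw [Nat.card_zpowers, pow_one, e])
    have := cyc q _ hq q2 (hgp.to_sup_of_normal_right' hyp (zpowers_le.2 (nz h)))
    exact congrArg Subtype.val (mul_comm' (⟨g, mem_sup_left (mem_zpowers g)⟩ :
      (zpowers g ⊔ zpowers y : Subgroup L)) ⟨y, mem_sup_right (mem_zpowers y)⟩)
  by_cases g1 : g = 1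
  · rw [g1]; exact Commute.one_left y
  obtain ⟨⟨z, hz⟩, oz⟩ := exists_prime_orderOf_dvd_card' (G := zpowers g) q
    (hgp.card_eq_or_dvd.resolve_left fun e1 => g1 (zpowers_eq_bot.1 (card_eq_one.1 e1)))
  rw [orderOf_mk] at oz
  have zM : z ∈ normalizer ((zpowers y : Subgroup L) : Set L) := zpowers_le.2 (nz h) hz
  have zy : Commute z y := pq z y (oz ▸ hq) hy (oz ▸ q2) y2 (fun e1 => e (e1 ▸ oz))
    (conj_mem_of_mem_normalizer zM (mem_zpowers y))
  have z1 : z ≠ 1 := fun e1 => hq.ne_one (by rw [← oz, e1, orderOf_one])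
  obtain ⟨S, hS⟩ := hgp.exists_le_sylow
  haveI := cyc q S hq q2 S.isPGroup'
  obtain ⟨m, hm, hmz⟩ : ∃ m ∈ normalizer ((S : Subgroup L) : Set L), m * z ≠ z * m := by
    by_contra hc
    push Not at hc
    exact z1 (mem_bot.1 (commutator_inf_sylow_inf_centralizer_normalizer S ▸
      ⟨⟨hp ▸ mem_top z, hS hz⟩, hc⟩))
  have om : orderOf (m * z * m⁻¹) = q := oz ▸ (MulAut.conj m).orderOf_eq z
  have z2 : z ∈ zpowers (m * z * m⁻¹) := Gag2.mem_zpowers_of_isCyclic inferInstance
    (conj_mem_of_mem_normalizer hm (hS hz)) (hS hz) (oz.trans om.symm).dvd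
  have z3 : m * z * m⁻¹ ∈ zpowers z := Gag2.mem_zpowers_of_isCyclic inferInstance (hS hz)
    (conj_mem_of_mem_normalizer hm (hS hz)) (om.trans oz.symm).dvd
  obtain ⟨c, hc, hcy⟩ := exists_conj_mem_zpowers' cyc hy y2 (X := centralizer {z}) rfl
    ((MulAut.conj m).orderOf_eq y) (mem_centralizer_singleton_iff.2 zy.symm) (by
      obtain ⟨i, hi⟩ := z2
      have : Commute (m * y * m⁻¹) (m * z * m⁻¹) := zy.symm.map (MulAut.conj m)
      exact mem_centralizer_singleton_iff.2 (hi ▸ this.zpow_right i))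
  have cM : c * m ∈ normalizer ((zpowers y : Subgroup L) : Set L) := nz (by
    convert hcy using 1
    simp [mul_assoc])
  set M := normalizer ((zpowers y : Subgroup L) : Set L) with hM
  have e1 : c * m * z * (c * m)⁻¹ = m * z * m⁻¹ := by
    obtain ⟨i, hi⟩ := z3
    have : Commute c (z ^ i) := Commute.zpow_right (mem_centralizer_singleton_iff.1 hc) i
    have hi' : z ^ i = m * z * m⁻¹ := hi
    calc _ = c * (m * z * m⁻¹) * c⁻¹ := by group
      _ = _ := by rw [← hi', this.eq, mul_inv_cancel_right]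
  have w1 : q ∣ Nat.card (commutator M) := by
    have h1 : ⁅(⟨_, cM⟩ : M), ⟨z, zM⟩⁆ ∈ commutator M :=
      commutator_mem_commutator (mem_top _) (mem_top _)
    refine Dvd.dvd.trans ?_ (orderOf_dvd_natCard (⟨_, h1⟩ : commutator M))
    rw [orderOf_mk, ← orderOf_coe]
    change q ∣ orderOf (c * m * z * (c * m)⁻¹ * z⁻¹)
    rw [e1]
    rcases (Nat.dvd_prime hq).1 (oz ▸ orderOf_dvd_of_mem_zpowers
      (mul_mem z3 (inv_mem (mem_zpowers z)))) with h3 | h3
    · rw [orderOf_eq_one_iff, mul_inv_eq_one, mul_inv_eq_iff_eq_mul] at h3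
      exact absurd h3 hmz
    · exact h3.symm.dvd
  obtain ⟨P⟩ : Nonempty (Sylow q M) := inferInstance
  haveI := isCyclic_sylow cyc hq q2 P
  have w2 := mem_commutator_of_pow (g := (⟨g, nz h⟩ : M)) hq
    (P.not_dvd_card_commutator_or_not_dvd_index_commutator.resolve_left (not_not.2 w1))
    (Subtype.ext hg)
  have w3 : commutator M ≤ (centralizer {y}).subgroupOf M := by
    rw [_root_.commutator_def, commutator_le]
    rintro ⟨a, ha⟩ - ⟨b, hb⟩ -
    obtain ⟨i, hi⟩ := conj_mem_of_mem_normalizer (inv_mem ha) (mem_zpowers y)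
    obtain ⟨j, hj⟩ := conj_mem_of_mem_normalizer (inv_mem hb) (mem_zpowers y)
    have hi' : y ^ i = a⁻¹ * y * a⁻¹⁻¹ := hi
    have hj' : y ^ j = b⁻¹ * y * b⁻¹⁻¹ := hj
    have e2 : a⁻¹ * (b⁻¹ * y * b⁻¹⁻¹) * a⁻¹⁻¹ = b⁻¹ * (a⁻¹ * y * a⁻¹⁻¹) * b⁻¹⁻¹ := by
      rw [← hj', ← hi', ← conj_zpow, ← conj_zpow, ← hj', ← hi', ← zpow_mul, ← zpow_mul, mul_comm]
    rw [mem_subgroupOf, mem_centralizer_singleton_iff]
    change a * b * a⁻¹ * b⁻¹ * y = y * (a * b * a⁻¹ * b⁻¹)
    calc _ = a * b * (a⁻¹ * (b⁻¹ * y * b⁻¹⁻¹) * a⁻¹⁻¹) * a⁻¹ * b⁻¹ := by group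
      _ = _ := by rw [e2]; group
  exact mem_centralizer_singleton_iff.1 (w3 w2)

theorem oc_of_cyc (hp : commutator L = ⊤)
    (pq : ∀ a b : L, (orderOf a).Prime → (orderOf b).Prime → orderOf a ≠ 2 → orderOf b ≠ 2 →
      orderOf a ≠ orderOf b → a * b * a⁻¹ ∈ zpowers b → Commute a b) : OC L := fun K ho => by
  have odd : ∀ g : K, Odd (orderOf g) := fun g => ho.of_dvd_nat (orderOf_dvd_natCard g)
  have two : ∀ (g : K) (n : ℕ), g ^ 2 ^ n = 1 → g = 1 := fun g n e =>
    Gag2.Tw.eq_one_of_odd ⟨n, e⟩ (odd g)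
  haveI : IsZGroup K := ⟨fun p hp P => by
    by_cases h2 : p = 2
    · subst h2
      have : Subsingleton P := ⟨fun a b => by
        obtain ⟨n, hn⟩ := P.isPGroup' a
        obtain ⟨m, hm⟩ := P.isPGroup' b
        exact Subtype.ext ((two _ n (congrArg Subtype.val hn)).trans
          (two _ m (congrArg Subtype.val hm)).symm)⟩
      infer_instance
    · exact isCyclic_sylow cyc hp h2 P⟩
  haveI := IsZGroup.isCyclic_commutator K
  have key : centralizer ((commutator K : Subgroup K) : Set K) = ⊤ := by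
    refine eq_top_of_forall_exists_sylow_le fun q hq => ⟨default, ?_⟩
    set Q : Sylow q K := default
    by_cases hd : q ∣ Nat.card (commutator K)
    · intro g hg c hc
      obtain ⟨n, hn⟩ := Q.isPGroup' ⟨g, hg⟩
      have := mem_commutator_of_pow hq.out
        (Q.not_dvd_card_commutator_or_not_dvd_index_commutator.resolve_left (not_not.2 hd))
        (congrArg Subtype.val hn)
      exact congrArg Subtype.val (mul_comm' (⟨c, hc⟩ : commutator K) ⟨g, this⟩)
    · rw [le_centralizer_iff, ← commutator_eq_bot_iff_le_centralizer]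
      by_contra hne
      obtain ⟨n, hn⟩ := Q.isPGroup'.exists_card_eq
      have h1 := inf_centralizer_inf_commutator_eq_bot (A := (Q : Subgroup K)) (N := commutator K)
        (by simp [normalizer_eq_top]) (hn ▸ ((hq.out.coprime_iff_not_dvd.2 hd).symm.pow_right n))
      obtain ⟨r, hr, hr'⟩ := Nat.exists_prime_and_dvd
        (n := Nat.card (⁅commutator K, (Q : Subgroup K)⁆ : Subgroup K))
        fun e => hne (card_eq_one.1 e)
      haveI : Fact r.Prime := ⟨hr⟩
      obtain ⟨⟨y, hy⟩, oy⟩ := exists_prime_orderOf_dvd_card' r hr'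
      rw [orderOf_mk] at oy
      have hy' : y ∈ commutator K := commutator_le_left _ _ hy
      have h2 : y ∈ centralizer ((Q : Subgroup K) : Set K) := fun g hg => by
        obtain ⟨m, hm⟩ := Q.isPGroup' ⟨g, hg⟩
        have hm' : g ^ q ^ m = 1 := congrArg Subtype.val hm
        by_cases q2 : q = 2
        · rw [two g m (q2 ▸ hm'), one_mul, mul_one]
        obtain ⟨i, hi⟩ := Gag2.mem_zpowers_of_isCyclic inferInstance hy'
          (Normal.conj_mem inferInstance y hy' g) ((MulAut.conj g).orderOf_eq y).dvd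
        exact Subtype.ext (commute_of_normalizes cyc hp pq hq.out q2 (g := g) (y := y)
          (congrArg Subtype.val hm') (by rw [orderOf_coe, oy]; exact hr)
          (fun e => by
            have := odd y
            rw [← orderOf_coe, e] at this
            exact absurd this (by decide)) ⟨i, congrArg Subtype.val hi⟩)
      have h3 : y = 1 := mem_bot.1 (h1 ▸ ⟨h2, hy⟩)
      exact hr.ne_one (by rw [← oy, h3, orderOf_one])
  exact Gag2.isCyclic_of_gen_centralizes closure_univ fun x _ c hc =>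
    ((key ▸ mem_top x : x ∈ centralizer _) c hc).symm

end abstract

theorem oc_of_perfect {L V : Type*} [Group L] [Finite L] [AddCommGroup V] [Finite V]
    [Nontrivial V] [DistribMulAction L V] (h2 : ∀ v : V, v + v = 0)
    (hst : ∀ v : V, v ≠ 0 → IsPGroup 2 (stabilizer L v)) (hp : commutator L = ⊤) : OC L := by
  have fpf : ∀ g : L, Odd (orderOf g) → g ≠ 1 → ∀ v : V, g • v = v → v = 0 := fun g ho h1 v hv => by
    by_contra h0
    exact h1 ((Gag2.tw_of_mem (hst v h0) hv).eq_one_of_odd ho)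
  refine oc_of_cyc (fun r R hr r2 hR => ?_) hp fun a b ha hb a2 b2 hab h => ?_
  · let φ : R →* MulAut (Multiplicative V) :=
      { toFun := fun g => AddEquiv.toMultiplicative (DistribMulAction.toAddEquiv V (g : L))
        map_one' := by
          ext v
          exact one_smul L v.toAdd
        map_mul' := fun a b => by
          ext v
          exact mul_smul (a : L) (b : L) v.toAdd }
    refine FreeCyc.isCyclic_of_free φ (fun x hx v hv => ?_) (Or.inr ⟨r, hr, r2, hR⟩)
    obtain ⟨n, hn⟩ := hR x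
    exact fpf x (((hr.odd_of_ne_two r2).pow (n := n)).of_dvd_nat
      (orderOf_dvd_of_pow_eq_one (congrArg Subtype.val hn))) (fun e => hx (Subtype.ext e))
      v.toAdd hv
  · by_contra hne
    have hn : a ∈ normalizer ((zpowers b : Subgroup L) : Set L) :=
      mem_normalizer_of_map_conj_le (by rw [MonoidHom.map_zpowers]; exact zpowers_le.2 h)
    let φ : zpowers b →* zpowers b :=
      { toFun := fun s => ⟨a * s * a⁻¹, conj_mem_of_mem_normalizer hn s.2⟩
        map_one' := Subtype.ext (by simp)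
        map_mul' := fun s t => Subtype.ext (by simp [mul_assoc]) }
    have hφ : ∀ (j : ℕ) (s : zpowers b), ((φ^[j] s : zpowers b) : L) = a ^ j * s * (a ^ j)⁻¹ :=
      fun j s => by
        induction j with
        | zero => simp
        | succ j ih =>
          rw [Function.iterate_succ_apply']
          change a * (φ^[j] s : zpowers b) * a⁻¹ = _
          rw [ih, pow_succ']
          group
    have b1 : b ≠ 1 := fun e => hb.ne_one (by rw [e, orderOf_one])
    obtain ⟨v, hv⟩ := exists_ne (0 : V)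
    have key := FpfEnd.fix_of_frobenius ((Gag2.op V).comp (zpowers b).subtype) φ
      (t := Gag2.op V a) ha.pos (by rw [← map_pow, pow_orderOf_eq_one, map_one])
      (fpf a (ha.odd_of_ne_two a2) fun e => ha.ne_one (by rw [e, orderOf_one]))
      (fun s => by
        change Gag2.op V a * Gag2.op V (s : L) = Gag2.op V (a * s * a⁻¹) * Gag2.op V a
        rw [← map_mul, ← map_mul, inv_mul_cancel_right])
      (fun j j0 hj s e => by
        by_contra s1
        have e1 : Commute (a ^ j) (s : L) := by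
          have := congrArg Subtype.val e
          rwa [hφ, mul_inv_eq_iff_eq_mul] at this
        obtain ⟨m, hm⟩ := exists_pow_eq_self_of_coprime (x := a) (n := j)
          ((Nat.coprime_of_lt_prime j0.ne' hj ha).symm)
        have os : orderOf (s : L) = orderOf b :=
          ((Nat.dvd_prime hb).1 (orderOf_dvd_of_mem_zpowers s.2)).resolve_left
            fun e => s1 (Subtype.ext (orderOf_eq_one_iff.1 e))
        obtain ⟨i, hi⟩ := Gag2.mem_zpowers_of_isCyclic (R := zpowers b) inferInstance s.2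
          (mem_zpowers b) os.symm.dvd
        exact hne (hm ▸ hi ▸ (e1.pow_left m).zpow_right i))
      ⟨b, mem_zpowers b⟩ v
    obtain ⟨m, hm⟩ := hb.odd_of_ne_two b2
    have h3 : ∀ w : V, (2 * m + 1) • w = w := fun w => by
      rw [add_smul, one_smul, mul_smul, two_smul, h2, zero_add]
    rw [Nat.card_zpowers, hm, h3, h3] at key
    exact hv (fpf b ⟨m, hm⟩ b1 v key)

end Cfsg.GagP
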