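import Cfsg.Agent.Gag2.PLine
import Cfsg.Agent.Gag2.PCov
import Cfsg.Agent.Gag2.POdd

/-!
# `p = 2`, `3 ∤ |L|` is impossible
-/

set_option autoImplicit false
set_option linter.unusedSectionVars false

namespace Cfsg.GagP

open Subgroup MulAction
open scoped Pointwise

variable {L V : Type*} [Group L] [Finite L] [AddCommGroup V] [Finite V] [DistribMulAction L V]

local notation "N(" D ")" => normalizer ((D : Subgroup L) : Set L)
local notation "St" => stabilizer L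

theorem two_lines (hS : Syl2 L V) (h2 : ∀ v : V, v + v = 0) (hc : OC L) (h3 : ¬ 3 ∣ Nat.card L)
    {v : V} (hv : v ≠ 0) {D₁ D₂ : Subgroup L} (l₁ : IsLine V D₁) (l₂ : IsLine V D₂)
    (h₁ : D₁ ≤ St v) (h₂ : D₂ ≤ St v) (hQ : St v ⊓ N(D₁) = St v ⊓ N(D₂)) : D₁ = D₂ := by
  by_contra hne
  obtain ⟨a, a₁, a₂⟩ : ∃ a ∈ D₁, a ∉ D₂ := by
    by_contra h
    push Not at h
    exact hne (l₁.eq_of_le l₂ h)
  obtain ⟨b, b₂, b₁⟩ : ∃ b ∈ D₂, b ∉ D₁ := by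
    by_contra h
    push Not at h
    exact hne (l₂.eq_of_le l₁ h).symm
  obtain ⟨i₁, c₁, hu⟩ := l₁.facts hS h2 hc h3 hv h₁
  obtain ⟨i₂, c₂, -⟩ := l₂.facts hS h2 hc h3 hv h₂
  rw [← hQ] at i₂
  set Q := St v ⊓ N(D₁) with hQd
  set u := Nat.card (fxS V (St v)) with hud
  have q₁ : D₁ ≤ Q := (l₁.lt hS hv h₁).le
  have q₂ : D₂ ≤ Q := hQ ▸ (l₂.lt hS hv h₂).le
  set D := D₁ ⊓ D₂ with hD
  have hQN : Q ≤ N(D) := (le_inf inf_le_right (hQ.le.trans inf_le_right)).trans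
    (inf_normalizer_le_normalizer_inf)
  have hi : ∀ n ∈ N(D), ∀ w ∈ fxS V D, n • w ∈ fxS V D := fun n hn w hw => smul_mem_fxS hn hw
  set π := pr N(D) (fxS V D) hi with hπ
  have hk : ∀ n : N(D), π n = 1 ↔ (n : L) ∈ D := fun n =>
    pr_eq_one_iff.trans ⟨fun h => ⟨l₁.mem_of_fix fun w hw => h w (fxS_anti inf_le_left hw),
      l₂.mem_of_fix fun w hw => h w (fxS_anti inf_le_right hw)⟩, fun hn w hw => hw n hn⟩
  have hk' : ∀ n m : N(D), π n = π m ↔ (n : L) * (m : L)⁻¹ ∈ D := fun n m => by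
    rw [← mul_inv_eq_one, ← map_inv, ← map_mul, hk]; rfl
  have hst : ∀ (w : fxS V D) (n : N(D)), π n ∈ stabilizer _ w ↔ (n : L) ∈ St (w : V) :=
    fun w n => pr_smul_eq_iff
  have aQ := q₁ a₁
  have bQ := q₂ b₂
  let a' : N(D) := ⟨a, hQN aQ⟩
  let b' : N(D) := ⟨b, hQN bQ⟩
  have ab₁ : a * b ∉ D₁ := fun h => b₁ ((D₁.mul_mem_cancel_left a₁).1 h)
  have ab₂ : a * b ∉ D₂ := fun h => a₂ ((D₂.mul_mem_cancel_right b₂).1 h)
  have cls : ∀ n : N(D), (n : L) ∈ Q → π n = 1 ∨ π n = π a' ∨ π n = π b' ∨ π n = π a' * π b' := by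
    intro n hn
    rw [← map_mul, hk, hk', hk', hk']
    by_cases n₁ : (n : L) ∈ D₁ <;> by_cases n₂ : (n : L) ∈ D₂
    · exact Or.inl ⟨n₁, n₂⟩
    · exact Or.inr (Or.inl ⟨D₁.mul_mem n₁ (D₁.inv_mem a₁),
        i₂ _ hn _ (inv_mem aQ) n₂ (by simpa using a₂)⟩)
    · exact Or.inr (Or.inr (Or.inl ⟨i₁ _ hn _ (inv_mem bQ) n₁ (by simpa using b₁),
        D₂.mul_mem n₂ (D₂.inv_mem b₂)⟩))
    · exact Or.inr (Or.inr (Or.inr
        ⟨i₁ _ hn _ (inv_mem (mul_mem aQ bQ)) n₁ (fun h => ab₁ (inv_mem_iff.1 h)),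
        i₂ _ hn _ (inv_mem (mul_mem aQ bQ)) n₂ (fun h => ab₂ (inv_mem_iff.1 h))⟩))
  have haa : π a' * π a' = 1 := by
    rw [← map_mul, hk]
    exact ⟨mul_mem a₁ a₁, i₂ _ aQ _ aQ a₂ a₂⟩
  have hbb : π b' * π b' = 1 := by
    rw [← map_mul, hk]
    exact ⟨i₁ _ bQ _ bQ b₁ b₁, mul_mem b₂ b₂⟩
  have hab : π a' * π b' = π b' * π a' := by
    rw [← map_mul, ← map_mul, hk']
    exact ⟨i₁ _ (mul_mem aQ bQ) _ (inv_mem (mul_mem bQ aQ)) ab₁
        fun h => b₁ ((D₁.mul_mem_cancel_right a₁).1 (inv_mem_iff.1 h)),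
      i₂ _ (mul_mem aQ bQ) _ (inv_mem (mul_mem bQ aQ)) ab₂
        fun h => a₂ ((D₂.mul_mem_cancel_left b₂).1 (inv_mem_iff.1 h))⟩
  have hnorm : ∀ {E : Subgroup L} {e : L}, D ≤ E → (∀ d ∈ E, d ∈ D ∨ d * e⁻¹ ∈ D) → e ∈ E →
      ∀ (he : e ∈ N(D)) (n : N(D)), π n * π ⟨e, he⟩ = π ⟨e, he⟩ * π n → (n : L) ∈ N(E) := by
    intro E e hDE hE heE he n hn
    rw [← map_mul, ← map_mul, hk'] at hn
    refine mem_normalizer_fintype fun d hd => ?_
    rcases hE d hd with h | h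
    · exact hDE ((mem_normalizer_iff.1 n.2 d).1 h)
    · have := mul_mem (hDE ((mem_normalizer_iff.1 n.2 _).1 h)) (mul_mem (hDE hn) heE)
      simpa [mul_assoc] using this
  have g₁ : ∀ d ∈ D₁, d ∈ D ∨ d * a⁻¹ ∈ D := fun d hd => by
    by_cases h : d ∈ D₂
    · exact Or.inl ⟨hd, h⟩
    · exact Or.inr ⟨D₁.mul_mem hd (D₁.inv_mem a₁), i₂ _ (q₁ hd) _ (inv_mem aQ) h (by simpa using a₂)⟩
  have g₂ : ∀ d ∈ D₂, d ∈ D ∨ d * b⁻¹ ∈ D := fun d hd => by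
    by_cases h : d ∈ D₁
    · exact Or.inl ⟨h, hd⟩
    · exact Or.inr ⟨i₁ _ (q₂ hd) _ (inv_mem bQ) h (by simpa using b₁), D₂.mul_mem hd (D₂.inv_mem b₂)⟩
  have hfx : ∀ {E : Subgroup L} {e : L}, D ≤ E → (∀ d ∈ E, d ∈ D ∨ d * e⁻¹ ∈ D) → e ∈ E →
      fxS V D ⊓ fx V e = fxS V E := by
    intro E e hDE hE heE
    refine le_antisymm (fun w hw d hd => ?_) fun w hw => ⟨fxS_anti hDE hw, hw e heE⟩
    rcases hE d hd with h | h
    · exact hw.1 d h
    · have := hw.1 _ h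
      rwa [mul_smul, inv_smul_eq_iff.2 (show w = e • w from hw.2.symm)] at this
  have f₁ := hfx inf_le_left g₁ a₁
  have f₂ := hfx inf_le_right g₂ b₂
  have hv' : v ∈ fxS V D := inf_le_left.trans h₁
  have hpt : ∀ w : V, w ≠ 0 → D₁ ≤ St w → b ∈ St w → St w = St v := fun w hw h hb =>
    l₁.stab_eq hv hw h₁ h (h₂ b₂) hb b₁
  have h2' : ∀ w : fxS V D, w + w = 0 := fun w => Subtype.ext (h2 w)
  have hU : Nat.card (fx (fxS V D) (π a') ⊓ fx (fxS V D) (π b') : AddSubgroup _) = u := by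
    refine Nat.card_congr ⟨fun w => ⟨w.1.1, ?_⟩, fun w => ⟨⟨w.1, fxS_anti (inf_le_left.trans h₁) w.2⟩,
      (hst _ a').2 (w.2 a (h₁ a₁)), (hst _ b').2 (w.2 b (h₂ b₂))⟩, fun _ => rfl, fun _ => rfl⟩
    by_cases h0 : w.1.1 = 0
    · rw [h0]; exact AddSubgroup.zero_mem _
    · exact (hpt _ h0 (f₁.le ⟨w.1.2, (hst _ a').1 w.2.1⟩) ((hst _ b').1 w.2.2)).ge
  have hWa : Nat.card (fx (fxS V D) (π a')) = u ^ 2 := by rw [card_fx_Im, f₁, c₁]
  have hWb : Nat.card (fx (fxS V D) (π b')) = u ^ 2 := by rw [card_fx_Im, f₂, c₂]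
  have hcc : π a' * π b' * (π a' * π b') = 1 := by
    rw [mul_assoc, ← mul_assoc (π b'), ← hab, mul_assoc, hbb, mul_one, haa]
  have hc₁ : Nat.card (fxS V D ⊓ fx V (a * b) : AddSubgroup V) =
      Nat.card (fx (fxS V D) (π a' * π b')) := by rw [← map_mul, card_fx_Im]; rfl
  have hle : Nat.card (fx (fxS V D) (π a' * π b')) ≤ u ^ 2 := by
    have := card_le_sq h2' haa (W := fx (fxS V D) (π a' * π b')) fun w hw =>
      smul_mem_fx (by rw [Commute, SemiconjBy, mul_assoc, ← hab]) hw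
    refine this.trans (Nat.pow_le_pow_left (hU ▸ AddSubgroup.card_le_of_le fun w hw => ⟨hw.2, ?_⟩) 2)
    have e : (π a' * π b') • w = w := hw.1
    rwa [hab, mul_smul, show π a' • w = w from hw.2] at e
  obtain ⟨w, hw, hwv⟩ : ∃ w ∈ fxS V D ⊓ fx V (a * b), w ∉ fxS V (St v) := by
    by_contra h
    push Not at h
    have e1 : Nat.card (fx (fxS V D) (π a' * π b')) ≤ u := hc₁ ▸ AddSubgroup.card_le_of_le h
    have e2 := card_le_sq h2' hcc (W := ⊤) fun _ _ => trivial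
    have e3 := card_mul_le (C := ⊤) (le_top (a := fx (fxS V D) (π a')))
      (le_top (a := fx (fxS V D) (π b')))
    rw [top_inf_eq] at e2
    rw [hWa, hWb, hU] at e3
    have e4 := e2.trans (Nat.pow_le_pow_left e1 2)
    have e5 := e3.trans (Nat.mul_le_mul_right u e4)
    have : u ^ 2 ≤ u := Nat.le_of_mul_le_mul_left e5 (by positivity)
    nlinarith
  have hw0 : w ≠ 0 := fun e => hwv (e ▸ AddSubgroup.zero_mem _)
  obtain ⟨D₃, l₃, d₃, h₃⟩ := hS.exists_line h2 hv hw0 fun e => hwv e.le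
  obtain ⟨i₃, c₃, -⟩ := l₃.facts hS h2 hc h3 hv h₃
  have f₃ : fxS V D₃ = fxS V D ⊓ fx V (a * b) :=
    AddSubgroup.eq_of_le_of_card_ge (fun x hx => ⟨fxS_anti ((le_inf hv' hw.1).trans d₃) hx,
      hx _ (d₃ ⟨mul_mem (h₁ a₁) (h₂ b₂), hw.2⟩)⟩) (by rw [c₃, hc₁]; exact hle)
  have m₃ : ∀ x : fxS V D, x ∈ fx (fxS V D) (π a' * π b') ↔ (x : V) ∈ fxS V D₃ := fun x => by
    rw [f₃, ← map_mul]
    exact (hst x _).trans ⟨fun h => ⟨x.2, h⟩, fun h => h.2⟩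
  have e₃ : ∀ n : N(D), fx (fxS V D) (π a' * π b') ≤ fx (fxS V D) (π n) ↔ (n : L) ∈ D₃ :=
    fun n => ⟨fun h => l₃.mem_of_fix fun x hx =>
      (hst ⟨x, (f₃.le hx).1⟩ n).1 (h ((m₃ _).2 hx)), fun h x hx => (hst x n).2 ((m₃ x).1 hx n h)⟩
  have n₃ : ∀ n : N(D), π n * (π a' * π b') = π a' * π b' * π n → (n : L) ∈ N(D₃) := by
    intro n hn
    refine mem_normalizer_fintype fun d hd => l₃.mem_of_fix fun x hx => ?_
    have : (n : L)⁻¹ • x ∈ fxS V D₃ := by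
      have := smul_mem_fx (g := π n⁻¹) (by rw [map_inv]; exact (Commute.symm hn).inv_right)
        ((m₃ ⟨x, (f₃.le hx).1⟩).2 hx)
      exact (m₃ _).1 this
    rw [mul_smul, mul_smul, this d hd, smul_inv_smul]
  refine cov (X := Im N(D) (fxS V D) hi) (W := fxS V D) h2' (fun w hw => ?_) ?_
    (fun h => h3 (h.trans card_Im_dvd)) (S := stabilizer _ (⟨v, hv'⟩ : fxS V D)) ?_ ?_
    ((hst _ a').2 (h₁ a₁)) ((hst _ b').2 (h₂ b₂)) haa hbb hab (fun e => a₂ ((hk _).1 e).2)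
    (fun e => b₁ ((hk _).1 e).1) (fun e => ?_) (fun x hx e => ?_) (fun x hx e => ?_) hu hU hWa hWb
    (by rw [← hc₁, ← f₃, c₃]) fun x hx y hy ex ey nx ny => ?_
  · have hw' : (w : V) ≠ 0 := fun e => hw (Subtype.ext e)
    refine ⟨by rw [stabilizer_Im]; exact (hS w hw').1.comap_subtype.map _, fun e => ?_⟩
    have : D < St (w : V) := lt_of_le_of_ne w.2 fun e' => by
      have := hS.stab_eq hw' hv (e' ▸ hv')
      exact a₂ (show a ∈ D from e' ▸ this ▸ h₁ a₁).2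
    obtain ⟨x, hx, hxD⟩ := SetLike.exists_of_lt (lt_inf_normalizer_of_isPGroup (hS w hw').1 this)
    have := (hst w ⟨x, hx.2⟩).2 hx.1
    rw [e] at this
    exact hxD ((hk _).1 this)
  · refine (hc.subgroup _).of_surjective _ pr_surj ?_
    have : π.ker = D.subgroupOf N(D) := by
      ext n
      exact hk n
    rw [this]
    exact (l₁.isPGroup hS).to_inf_left.comap_subtype
  · rw [stabilizer_Im]; exact (hS v hv).1.comap_subtype.map _
  · rw [index_stabilizer_Im]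
    exact hS.odd_relIndex h2 hv fun w hw h => hpt w hw
      ((le_inf h₁ (q₁.trans hQN)).trans h) (h ⟨h₂ b₂, hQN bQ⟩)
  · exact b₁ (inv_mem_iff.1 ((D₁.mul_mem_cancel_left a₁).1 ((hk' _ _).1 e).1))
  · obtain ⟨n, rfl⟩ := pr_surj x
    exact cls n ⟨(hst _ n).1 hx, hnorm inf_le_left g₁ a₁ _ n e⟩
  · obtain ⟨n, rfl⟩ := pr_surj x
    exact cls n (hQ ▸ ⟨(hst _ n).1 hx, hnorm inf_le_right g₂ b₂ _ n e⟩)
  · obtain ⟨n, rfl⟩ := pr_surj x
    obtain ⟨m, rfl⟩ := pr_surj y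
    exact map_mul π n m ▸ (e₃ (n * m)).2 (i₃ _ ⟨(hst _ n).1 hx, n₃ n ex⟩ _
      ⟨(hst _ m).1 hy, n₃ m ey⟩ (fun h => nx ((e₃ n).2 h)) fun h => ny ((e₃ m).2 h))

theorem special (hS : Syl2 L V) (h2 : ∀ v : V, v + v = 0) (hc : OC L) (h3 : ¬ 3 ∣ Nat.card L)
    {v : V} (hv : v ≠ 0) {D : Subgroup L} (l : IsLine V D) (h : D ≤ St v) : St v ≤ N(D) := by
  by_contra hn
  have hlt : St v ⊓ N(D) < St v := lt_of_le_of_ne inf_le_left fun e => hn (e ▸ inf_le_right)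
  obtain ⟨g, ⟨gv, gn⟩, hg⟩ := SetLike.exists_of_lt (lt_inf_normalizer_of_isPGroup (hS v hv).1 hlt)
  have hi : Function.Injective (MulAut.conj g).toMonoidHom := (MulAut.conj g).injective
  have e1 : (St v).map (MulAut.conj g).toMonoidHom = St v := by
    rw [← stabilizer_smul_eq_stabilizer_map_conj, show g • v = v from gv]
  have e2 : (St v ⊓ N(D)).map (MulAut.conj g).toMonoidHom = St v ⊓ N(D) :=
    mem_normalizer_iff_map_conj_eq.1 gn
  have := two_lines hS h2 hc h3 hv (l.conj g) l (e1 ▸ map_mono h) h (by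
    rw [← e2, map_inf _ _ _ hi, e1, map_equiv_normalizer_eq])
  exact hg ⟨gv, mem_normalizer_iff_map_conj_eq.2 this⟩

end Cfsg.GagP

open Cfsg.GagP Subgroup MulAction in
theorem Cfsg.Gag2.false_of_not_three_dvd {L V : Type*} [Group L] [Finite L] [AddCommGroup V]
    [Finite V] [Nontrivial V] [DistribMulAction L V] [FaithfulSMul L V] (h2 : ∀ v : V, v + v = 0)
    (hS : ∀ v : V, v ≠ 0 → IsPGroup 2 (stabilizer L v) ∧ ¬ 2 ∣ (stabilizer L v).index)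
    [Nontrivial L] (hp : commutator L = ⊤) (h3 : ¬ 3 ∣ Nat.card L) : False := by
  have hc : OC L := oc_of_perfect h2 (fun v hv => (hS v hv).1) hp
  replace hS : Syl2 L V := hS
  obtain ⟨v, hv⟩ := exists_ne (0 : V)
  have h1 : stabilizer L v ≠ ⊥ := fun e => by
    have := (hS v hv).2
    rw [e, index_bot, ← even_iff_two_dvd, Nat.not_even_iff_odd, ← card_top] at this
    have := hc ⊤ this
    have : IsCyclic L := isCyclic_of_surjective _ topEquiv.surjective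
    have h := (commutator_eq_bot_iff (G := L)).2 inferInstance
    rw [hp] at h
    exact top_ne_bot h
  obtain ⟨w, hw, hne⟩ := Syl2.exists_ne h1
  obtain ⟨D, l, -, hD⟩ := hS.exists_line h2 hv hw hne
  have hn := special hS h2 hc h3 hv l hD
  have key : ∀ x ∈ stabilizer L v, x ∈ D ↔ ∃ a b : V, a ≠ 0 ∧ b ≠ 0 ∧ x ∈ stabilizer L a ∧
      x ∈ stabilizer L b ∧ stabilizer L a ≠ stabilizer L b := by
    intro x hx
    constructor
    · intro h
      obtain ⟨a, b, ha, hb, h1, h1', hab⟩ := l.two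
      exact ⟨a, b, ha, hb, h1 h, h1' h, hab⟩
    · rintro ⟨a, b, ha, hb, h1, h1', hab⟩
      obtain ⟨c, hc0, hxc, hvc⟩ : ∃ c : V, c ≠ 0 ∧ x ∈ stabilizer L c ∧
          stabilizer L v ≠ stabilizer L c := by
        by_cases e : stabilizer L v = stabilizer L a
        · exact ⟨b, hb, h1', e ▸ hab⟩
        · exact ⟨a, ha, h1, e⟩
      obtain ⟨D', l', h', hD'⟩ := hS.exists_line h2 hv hc0 hvc
      rw [two_lines hS h2 hc h3 hv l l' hD hD'
        (by rw [inf_eq_left.2 hn, inf_eq_left.2 (special hS h2 hc h3 hv l' hD')])]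
      exact h' ⟨hx, hxc⟩
  have key' : ∀ g : L, ∀ x ∈ stabilizer L v, g * x * g⁻¹ ∈ stabilizer L v → x ∈ D →
      g * x * g⁻¹ ∈ D := by
    intro g x hx hg h
    obtain ⟨a, b, ha, hb, h1, h1', hab⟩ := (key x hx).1 h
    exact (key _ hg).2 ⟨g • a, g • b, smul_ne_zero' g ha, smul_ne_zero' g hb, conj_mem_stab g h1,
      conj_mem_stab g h1', fun e => hab (stab_smul_inj e)⟩
  have hf := commutator_inf_eq_focalSubgroup_of_coprime (H := stabilizer L v)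
    (Sylow.coprime_card_index' (hS.syl hv))
  rw [hp, top_inf_eq] at hf
  refine (l.lt hS hv hD).not_ge (inf_le_left.trans (hf.le.trans (focalSubgroup_le_iff.2 ?_)))
  intro x hx g hg
  by_cases h : x ∈ D
  · exact mul_mem h (inv_mem (key' g x hx hg h))
  · refine (l.facts hS h2 hc h3 hv hD).1 _ ⟨hx, hn hx⟩ _ (inv_mem ⟨hg, hn hg⟩) h fun h' => h ?_
    simpa [mul_assoc] using key' g⁻¹ _ hg (by simpa [mul_assoc] using hx) (inv_mem_iff.1 h')
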