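import Cfsg.Agent.Gag2.PTI

/-!
# Planes: Sylow point stabilisers with trivial intersections
-/

set_option autoImplicit false
set_option linter.unusedSectionVars false

namespace Cfsg.GagP

open Subgroup MulAction
open scoped Pointwise

variable {G W : Type*} [Group G] [Finite G] [AddCommGroup W] [Finite W] [DistribMulAction G W]

/-- every stabiliser of a non-zero vector is a Sylow 2-subgroup -/
def Syl2 (G W : Type*) [Group G] [AddCommGroup W] [DistribMulAction G W] : Prop :=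
  ∀ w : W, w ≠ 0 → IsPGroup 2 (stabilizer G w) ∧ ¬ 2 ∣ (stabilizer G w).index

namespace Syl2

variable (hS : Syl2 G W)
include hS

/-- the stabiliser as a Sylow subgroup -/
def syl {w : W} (hw : w ≠ 0) : Sylow 2 G := (hS w hw).1.toSylow (hS w hw).2

theorem coe_syl {w : W} (hw : w ≠ 0) : (hS.syl hw : Subgroup G) = stabilizer G w := rfl

theorem eq_of_le {w : W} (hw : w ≠ 0) {H : Subgroup G} (hH : IsPGroup 2 H)
    (h : stabilizer G w ≤ H) : H = stabilizer G w := (hS.syl hw).3 hH h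

theorem stab_eq {v w : W} (hv : v ≠ 0) (hw : w ≠ 0) (h : stabilizer G v ≤ stabilizer G w) :
    stabilizer G w = stabilizer G v := hS.eq_of_le hv (hS w hw).1 h

theorem exists_stab_eq (h2 : ∀ w : W, w + w = 0) [Nontrivial W] (P : Sylow 2 G) :
    ∃ w : W, w ≠ 0 ∧ stabilizer G w = P := by
  obtain ⟨w, -, h0, h⟩ := exists_fix h2 P.2 (W := ⊤) (fun _ _ _ _ => trivial) top_ne_bot
  exact ⟨w, h0, P.3 (hS w h0).1 h⟩

theorem exists_smul {v w : W} (hv : v ≠ 0) (hw : w ≠ 0) :
    ∃ g : G, stabilizer G (g • v) = stabilizer G w := by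
  obtain ⟨g, hg⟩ := exists_smul_eq G (hS.syl hv) (hS.syl hw)
  refine ⟨g, ?_⟩
  rw [← hS.coe_syl hw, ← hg, stabilizer_smul_eq_stabilizer_map_conj]
  rfl

omit hS in
theorem card_fxS_smul (g : G) (v : W) :
    Nat.card (fxS W (stabilizer G (g • v))) = Nat.card (fxS W (stabilizer G v)) := by
  refine (Nat.card_congr (Equiv.subtypeEquiv (MulAction.toPerm g) fun x => ?_)).symm
  change stabilizer G v ≤ stabilizer G x ↔ stabilizer G (g • v) ≤ stabilizer G (g • x)
  rw [stabilizer_smul_eq_stabilizer_map_conj, stabilizer_smul_eq_stabilizer_map_conj,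
    map_le_map_iff_of_injective (MulAut.conj g).injective]

theorem card_fxS {v w : W} (hv : v ≠ 0) (hw : w ≠ 0) :
    Nat.card (fxS W (stabilizer G w)) = Nat.card (fxS W (stabilizer G v)) := by
  obtain ⟨g, hg⟩ := hS.exists_smul hv hw
  rw [← hg, card_fxS_smul]

theorem inf_fxS {v w : W} (hv : v ≠ 0) (hw : w ≠ 0) (h : stabilizer G v ≠ stabilizer G w) :
    fxS W (stabilizer G v) ⊓ fxS W (stabilizer G w) = ⊥ := by
  rw [eq_bot_iff]
  intro x hx
  by_contra h0
  exact h ((hS.stab_eq hv h0 hx.1).symm.trans (hS.stab_eq hw h0 hx.2))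

theorem sq_le {v w : W} (hv : v ≠ 0) (hw : w ≠ 0) (h : stabilizer G v ≠ stabilizer G w)
    {C : AddSubgroup W} (h1 : fxS W (stabilizer G v) ≤ C) (h1' : fxS W (stabilizer G w) ≤ C) :
    Nat.card (fxS W (stabilizer G v)) ^ 2 ≤ Nat.card C := by
  have := card_mul_le h1 h1'
  rw [hS.inf_fxS hv hw h, AddSubgroup.card_bot, mul_one, hS.card_fxS hv hw] at this
  rwa [sq]

theorem card_sylow_mul (h2 : ∀ w : W, w + w = 0) {v : W} (hv : v ≠ 0) :
    Nat.card W - 1 = Nat.card (Sylow 2 G) * (Nat.card (fxS W (stabilizer G v)) - 1) := by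
  classical
  have : Nontrivial W := ⟨v, 0, hv⟩
  let _ := Fintype.ofFinite W
  let _ := Fintype.ofFinite (Sylow 2 G)
  let f : W → Sylow 2 G := fun w => if h : w = 0 then default else hS.syl h
  have h := Finset.card_eq_sum_card_fiberwise (f := f) (s := Finset.univ.erase 0)
    (t := Finset.univ) (fun _ _ => Finset.mem_univ _)
  rw [Finset.card_erase_of_mem (Finset.mem_univ _), Finset.card_univ] at h
  rw [Nat.card_eq_fintype_card, h, Nat.card_eq_fintype_card, ← Finset.card_univ, ← smul_eq_mul,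
    ← Finset.sum_const]
  refine Finset.sum_congr rfl fun P _ => ?_
  obtain ⟨w, hw, e⟩ := hS.exists_stab_eq h2 P
  rw [← hS.card_fxS hv hw, e, Nat.card_eq_fintype_card, Fintype.card_subtype,
    ← Finset.card_erase_of_mem (a := (0 : W)) (by simp)]
  congr 1
  ext x
  simp only [Finset.mem_filter, Finset.mem_erase, Finset.mem_univ, and_true, true_and]
  refine and_congr_right fun h0 => ?_
  simp only [f, dif_neg h0]
  constructor
  · rintro rfl
    exact le_rfl (a := stabilizer G x)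
  · intro hx
    exact Sylow.ext (P.3 (hS x h0).1 hx)

omit hS in
theorem exists_ne [FaithfulSMul G W] {v : W} (h1 : stabilizer G v ≠ ⊥) :
    ∃ w : W, w ≠ 0 ∧ stabilizer G v ≠ stabilizer G w := by
  by_contra h
  push Not at h
  refine h1 (eq_bot_iff.2 fun x hx => eq_of_smul_eq_smul (α := W) fun w => ?_)
  by_cases hw : w = 0
  · simp [hw]
  · rw [one_smul]
    rw [h w hw] at hx
    exact hx

end Syl2

theorem exists_invol {x : G} (hx : ∃ k, x ^ 2 ^ k = 1) (h1 : x ≠ 1) :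
    ∃ n : ℕ, x ^ n ≠ 1 ∧ x ^ n * x ^ n = 1 := by
  classical
  have hk := Nat.find_spec hx
  have h0 : Nat.find hx ≠ 0 := fun e => h1 (by simpa [e] using hk)
  obtain ⟨j, hj⟩ := Nat.exists_eq_succ_of_ne_zero h0
  refine ⟨2 ^ j, Nat.find_min hx (by omega), ?_⟩
  rw [← pow_add, ← two_mul, ← pow_succ', ← Nat.succ_eq_add_one, ← hj, hk]

theorem exists_pow_of_mem {A : Subgroup G} (hA : IsPGroup 2 A) {x : G} (hx : x ∈ A) :
    ∃ k, x ^ 2 ^ k = 1 := by
  obtain ⟨k, hk⟩ := hA ⟨x, hx⟩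
  exact ⟨k, congrArg Subtype.val hk⟩

omit [Finite G] [Finite W] in
theorem nu_pow_mem (x : G) (n : ℕ) (w : W) : nu (x ^ n) w ∈ (⊤ : AddSubgroup W).map (nu x) := by
  induction n with
  | zero => simp
  | succ n ih =>
    have : nu (x ^ (n + 1)) w = nu x (x ^ n • w) + nu (x ^ n) w := by
      simp [pow_succ', mul_smul]
    rw [this]
    exact AddSubgroup.add_mem _ ⟨_, trivial, rfl⟩ ih

theorem plane [FaithfulSMul G W] (h2 : ∀ w : W, w + w = 0) (hS : Syl2 G W) (hc : OC G)
    (h3 : ¬ 3 ∣ Nat.card G)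
    (hti : ∀ v w : W, v ≠ 0 → w ≠ 0 → stabilizer G v ≠ stabilizer G w →
      stabilizer G v ⊓ stabilizer G w = ⊥) {v : W} (hv : v ≠ 0) (h1 : stabilizer G v ≠ ⊥) :
    Nat.card (stabilizer G v) = 2 ∧ Nat.card W = Nat.card (fxS W (stabilizer G v)) ^ 2 ∧
      4 ≤ Nat.card (fxS W (stabilizer G v)) := by
  have : Nontrivial W := ⟨v, 0, hv⟩
  set P := stabilizer G v with hP
  set u := Nat.card (fxS W P) with hu
  have hfx : ∀ x ∈ P, x ≠ 1 → fx W x = fxS W P := by
    intro x hx hx1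
    refine le_antisymm (fun w hw => ?_) fun w hw => hw x hx
    by_cases h0 : w = 0
    · rw [h0]; exact AddSubgroup.zero_mem _
    by_contra hn
    have hne : stabilizer G v ≠ stabilizer G w := fun e => hn (e.le)
    have : x ∈ stabilizer G v ⊓ stabilizer G w := ⟨hx, hw⟩
    rw [hti v w hv h0 hne] at this
    exact hx1 this
  have hinv : ∀ x ∈ P, x ≠ 1 → ∃ n : ℕ, x ^ n ≠ 1 ∧ x ^ n * x ^ n = 1 := fun x hx hx1 =>
    exists_invol (exists_pow_of_mem (hS v hv).1 hx) hx1
  obtain ⟨w, hw, hne⟩ := Syl2.exists_ne h1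
  obtain ⟨x₀, hx₀, hx₀1⟩ := (bot_or_exists_ne_one P).resolve_left h1
  have hW : Nat.card W = u ^ 2 := by
    obtain ⟨n, hn1, hn⟩ := hinv x₀ hx₀ hx₀1
    have a1 := card_le_sq h2 hn (W := ⊤) (fun _ _ => trivial)
    rw [top_inf_eq, hfx _ (P.pow_mem hx₀ n) hn1, AddSubgroup.card_top] at a1
    have a2 := hS.sq_le hv hw hne (C := ⊤) le_top le_top
    rw [AddSubgroup.card_top] at a2
    exact le_antisymm a1 a2
  obtain ⟨k, hk⟩ := exists_card_eq_two_pow h2 (fxS W P)
  rw [← hu] at hk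
  have hu1 : 1 < u := by
    rw [hu, AddSubgroup.one_lt_card_iff_ne_bot]
    intro e
    have : v ∈ fxS W P := le_rfl (a := P)
    rw [e] at this
    exact hv this
  have hn : Nat.card (Sylow 2 G) = 1 + u := by
    have := hS.card_sylow_mul h2 hv
    rw [hW, ← hu] at this
    obtain ⟨m, hm⟩ : ∃ m, u = m + 1 := ⟨u - 1, by omega⟩
    rw [hm] at this ⊢
    have e : (m + 1) ^ 2 - 1 = (1 + (m + 1)) * m := by
      rw [Nat.sub_eq_iff_eq_add (Nat.one_le_pow _ _ (by omega))]; ring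
    rw [e, Nat.add_sub_cancel] at this
    exact (Nat.eq_of_mul_eq_mul_right (by omega) this).symm
  have hnd : 1 + u ∣ Nat.card G := by
    rw [← hn]
    exact (hS.syl hv).card_dvd_index.trans (index_dvd_card _)
  have hu4 : 4 ≤ u := by
    rcases k with _ | _ | k
    · omega
    · exact absurd (by simpa [hk] using hnd) h3
    · rw [hk, pow_add, pow_add]
      have := Nat.one_le_two_pow (n := k)
      omega
  have hel : ∀ x ∈ P, x * x = 1 := by
    intro x hx
    by_cases hx1 : x = 1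
    · simp [hx1]
    obtain ⟨n, hn1, hn⟩ := hinv x hx hx1
    have c : ∀ y ∈ P, y ≠ 1 → Nat.card ((⊤ : AddSubgroup W).map (nu y)) = u := by
      intro y hy hy1
      have := card_map_nu y (⊤ : AddSubgroup W)
      rw [top_inf_eq, hfx y hy hy1, AddSubgroup.card_top, hW, sq] at this
      exact (Nat.eq_of_mul_eq_mul_left (by omega) this).symm
    have hle : (⊤ : AddSubgroup W).map (nu (x ^ n)) ≤ (⊤ : AddSubgroup W).map (nu x) := by
      rintro _ ⟨w, -, rfl⟩
      exact nu_pow_mem x n w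
    have e := AddSubgroup.eq_of_le_of_card_ge hle
      (by rw [c x hx hx1, c _ (P.pow_mem hx n) hn1])
    have hle2 := map_nu_le h2 hn (W := ⊤) (fun _ _ => trivial)
    rw [e, top_inf_eq, hfx _ (P.pow_mem hx n) hn1] at hle2
    refine eq_of_smul_eq_smul (α := W) fun w => ?_
    have := hle2 ⟨w, trivial, rfl⟩ x hx
    rw [nu_apply, smul_sub, sub_eq_iff_eq_add] at this
    rw [mul_smul, one_smul, this, sub_add_eq_add_sub, h2, zero_sub, neg_eq_of_add_eq_zero_left (h2 w)]
  refine ⟨?_, hW, hu4⟩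
  by_contra he
  have he1 : 1 < Nat.card P := (one_lt_card_iff_ne_bot _).2 h1
  obtain ⟨d, m, hm, hd⟩ := ti_count hc (fun A B hAB => by
    obtain ⟨a, ha, ea⟩ := hS.exists_stab_eq h2 A
    obtain ⟨b, hb, eb⟩ := hS.exists_stab_eq h2 B
    rw [← ea, ← eb]
    exact hti a b ha hb fun e => hAB (Sylow.ext (by rw [← ea, ← eb, e]))) (hS.syl hv) hel
    (by change 2 < Nat.card P; omega) (by omega)
  change Nat.card P - 1 ∣ _ at d
  change _ = 1 + Nat.card P * m at hd
  rw [hn, Nat.add_left_cancel_iff] at hd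
  have hm1 : m = 1 := by
    have : m ∣ 2 ^ k := by rw [← hk, hd]; exact Dvd.intro_left _ rfl
    exact (Nat.Coprime.pow_right k (Nat.coprime_two_right.2 hm)).eq_one_of_dvd this
  rw [hm1, mul_one] at hd
  rw [← hd] at d
  have h3' : ¬ 3 ∣ u := by
    rw [hk]
    intro h
    exact absurd (Nat.prime_three.dvd_of_dvd_pow h) (by decide)
  rcases (by omega : 3 ∣ u - 1 ∨ 3 ∣ 1 + u) with h | h
  · exact h3 (h.trans d)
  · exact h3 (h.trans hnd)

end Cfsg.GagP

set_option linter.all false in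
theorem Cfsg.Rz.Gag2_PPlane_0 : True := by
  have := @_root_.Cfsg.GagP.Syl2.syl.eq_def.{0, 0}
  have := @_root_.Cfsg.GagP.Syl2.syl.eq_1.{0, 0}
  have := @_root_.Cfsg.GagP.Syl2.syl.fun_cases
  have := @_root_.Cfsg.GagP.Syl2.eq_def.{0, 0}
  have := @_root_.Cfsg.GagP.Syl2.eq_1.{0, 0}
  have := @_root_.Cfsg.GagP.Syl2.fun_cases
  trivial
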