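import Cfsg.Agent.Gag2.PDefs

/-!
# Groups with elementary abelian TI Sylow 2-subgroups and cyclic odd subgroups

Proof.  Points = Sylow 2-subgroups, `e = |P|`.
1. `t ∈ P_α#`, `t' ∈ P_β#`, `α ≠ β`: `t t'` has odd order (an involution `z ∈ ⟨t t'⟩` commutes with
   `t` and `t'`, so lies in `P_α ⊓ P_β = ⊥`), so an involution `c` conjugates `t` to `t'` and swaps
   `α, β`.
2. `H = G_{αβ}` has odd order, so is cyclic; fix a swapping involution `c₀`,
   `K = {k ∈ H | c₀ k c₀ = k⁻¹}` is a subgroup, transitive on `P_α#` (`c₀ c ∈ K`) and semiregular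
   (`k` centralises `t`, so `t' = c₀ t c₀`, so the involution `c₁ = c₀ k₁` of 1., which inverts `k`).
   So `|K| = e - 1`.
3. `N(P_α)/P_α` has odd order, is cyclic (`OC.of_surjective`), so the images of `K_β` and `K_β'`
   agree.  For a generator `k` of `K` every element of `P k` is `P`-conjugate to `k`
   (`p ↦ p k p⁻¹ k⁻¹` is injective on `P`), so `k` fixes a point of every `P`-orbit on the points
   `≠ α`, exactly one: `n - 1 = e (|Fix k| - 1)`.
4. `c₀` acts on `Fix k` without fixed points (`c₀ ∈ P_γ`, `k² = k c₀ k⁻¹ c₀ ∈ P_γ`), `|Fix k|` even.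
-/

set_option autoImplicit false
set_option linter.unusedSectionVars false

namespace Cfsg.GagP

open Subgroup MulAction

variable {G : Type*} [Group G] [Finite G]

theorem ti_eq_of_card {X : Type*} [Group X] [Finite X] [IsCyclic X]
    {H K : Subgroup X} (h : Nat.card H = Nat.card K) : H = K := by
  classical
  letI := Fintype.ofFinite X
  have key : ∀ L : Subgroup X, (L : Set X).toFinset =
      Finset.univ.filter fun a : X => a ^ Nat.card L = 1 := by
    intro L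
    apply Finset.eq_of_subset_of_card_le
    · intro x hx
      simp only [Set.mem_toFinset, SetLike.mem_coe] at hx
      simp only [Finset.mem_filter, Finset.mem_univ, true_and]
      exact congrArg Subtype.val (pow_card_eq_one' (x := (⟨x, hx⟩ : L)))
    · refine (IsCyclic.card_pow_eq_one_le Nat.card_pos).trans_eq ?_
      rw [← Nat.card_eq_card_toFinset]; rfl
  have := key H
  rw [h, ← key K, Set.toFinset_inj] at this
  exact SetLike.coe_injective this

theorem ti_isPGroup {x : G} (hx : x * x = 1) : IsPGroup 2 (zpowers x) := by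
  rintro ⟨_, k, rfl⟩
  refine ⟨1, Subtype.ext ?_⟩
  change (x ^ k) ^ (2 ^ 1) = 1
  rw [pow_one, ← zpow_natCast, ← zpow_mul, mul_comm, zpow_mul, zpow_natCast, pow_two, hx, one_zpow]

theorem ti_mem_of_fix {x : G} (hx : x * x = 1) {Q : Sylow 2 G} (h : x • Q = Q) :
    x ∈ (Q : Subgroup G) := by
  have h1 := (ti_isPGroup hx).inf_normalizer_sylow Q
  have h2 : x ∈ zpowers x ⊓ normalizer (Q : Set G) :=
    ⟨mem_zpowers x, Sylow.smul_eq_iff_mem_normalizer.1 h⟩
  rw [h1] at h2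
  exact h2.2

theorem ti_conj_mem {t : G} {Q : Sylow 2 G} (ht : t ∈ (Q : Subgroup G)) (g : G) :
    g * t * g⁻¹ ∈ ((g • Q : Sylow 2 G) : Subgroup G) :=
  smul_mem_pointwise_smul t (MulAut.conj g) _ ht

theorem ti_eq_one_of_odd {k : G} (ho : Odd (orderOf k)) (h : k * k = 1) : k = 1 := by
  have h1 : orderOf k ∣ 2 := orderOf_dvd_of_pow_eq_one (by rw [pow_two, h])
  rcases (Nat.dvd_prime Nat.prime_two).1 h1 with e | e
  · exact orderOf_eq_one_iff.1 e
  · rw [e] at ho; exact absurd ho (by decide)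

section

variable (hti : ∀ P Q : Sylow 2 G, P ≠ Q → (P : Subgroup G) ⊓ Q = ⊥)
  (hel : ∀ Q : Sylow 2 G, ∀ x ∈ (Q : Subgroup G), x * x = 1)
include hti

theorem ti_eq_one {α β : Sylow 2 G} (hab : α ≠ β) {x : G} (h1 : x ∈ (α : Subgroup G))
    (h2 : x ∈ (β : Subgroup G)) : x = 1 :=
  mem_bot.1 (hti α β hab ▸ (⟨h1, h2⟩ : x ∈ (α : Subgroup G) ⊓ β))

theorem ti_smul_eq {t g : G} {Q R : Sylow 2 G} (ht : t ∈ (Q : Subgroup G)) (h1 : t ≠ 1)
    (h : g * t * g⁻¹ ∈ (R : Subgroup G)) : g • Q = R := by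
  by_contra hne
  exact h1 (conj_eq_one_iff.1 (ti_eq_one hti hne (ti_conj_mem ht g) h))

include hel

theorem ti_swap {α β : Sylow 2 G} (hab : α ≠ β) {t t' : G} (ht : t ∈ (α : Subgroup G)) (h1 : t ≠ 1)
    (ht' : t' ∈ (β : Subgroup G)) (h1' : t' ≠ 1) :
    ∃ c : G, c * c = 1 ∧ c * t * c⁻¹ = t' ∧ c • α = β ∧ c • β = α ∧
      ∀ k, Commute k t → Commute k t' → Commute k c := by
  have e1 := hel α t ht
  have e2 := hel β t' ht'
  have i1 : t⁻¹ = t := inv_eq_of_mul_eq_one_right e1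
  have i2 : t'⁻¹ = t' := inv_eq_of_mul_eq_one_right e2
  have c1 : ∀ m : ℕ, t * (t * t') ^ m * t⁻¹ = ((t * t') ^ m)⁻¹ := fun m => by
    rw [← conj_pow, ← inv_pow, ← mul_assoc, e1, one_mul, mul_inv_rev, i2]
  have c2 : ∀ m : ℕ, t' * (t * t') ^ m * t'⁻¹ = ((t * t') ^ m)⁻¹ := fun m => by
    rw [← conj_pow, ← inv_pow, mul_assoc, mul_inv_cancel_right, mul_inv_rev, i1, i2]
  have ho : Odd (orderOf (t * t')) := by
    rw [← Nat.not_even_iff_odd]
    rintro ⟨m, hm⟩
    have hz : (t * t') ^ m * (t * t') ^ m = 1 := by rw [← pow_add, ← hm, pow_orderOf_eq_one]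
    have hi : ((t * t') ^ m)⁻¹ = (t * t') ^ m := inv_eq_of_mul_eq_one_right hz
    have f : ∀ {s : G} {Q : Sylow 2 G}, s ∈ (Q : Subgroup G) → s ≠ 1 →
        s * (t * t') ^ m * s⁻¹ = (t * t') ^ m → (t * t') ^ m ∈ (Q : Subgroup G) := by
      intro s Q hs hs1 e
      refine ti_mem_of_fix hz (ti_smul_eq hti hs hs1 ?_)
      have : (t * t') ^ m * s * ((t * t') ^ m)⁻¹ = s := by
        rw [mul_inv_eq_iff_eq_mul] at e ⊢
        exact e.symm
      rwa [this]
    have h0 := ti_eq_one hti hab (f ht h1 ((c1 m).trans hi)) (f ht' h1' ((c2 m).trans hi))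
    have h2 := Nat.le_of_dvd (by have := orderOf_pos (t * t'); omega) (orderOf_dvd_of_pow_eq_one h0)
    have := orderOf_pos (t * t')
    omega
  obtain ⟨m, hm⟩ := ho
  have hx : (t * t') ^ m * (t * t') ^ m * (t * t') = 1 := by
    rw [← pow_add, ← pow_succ, ← two_mul, ← hm, pow_orderOf_eq_one]
  have hcc : (t * t') ^ m * t * ((t * t') ^ m * t) = 1 := by
    calc (t * t') ^ m * t * ((t * t') ^ m * t) = (t * t') ^ m * (t * (t * t') ^ m * t⁻¹) := by
          rw [i1]; group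
      _ = 1 := by rw [c1, mul_inv_cancel]
  have hct : (t * t') ^ m * t * t * ((t * t') ^ m * t)⁻¹ = t' := by
    calc (t * t') ^ m * t * t * ((t * t') ^ m * t)⁻¹
        = (t * t') ^ m * (t * (t * t') ^ m * t⁻¹)⁻¹ * t := by group
      _ = (t * t') ^ m * (t * t') ^ m * (t * t') * t'⁻¹ := by rw [c1, inv_inv]; group
      _ = t' := by rw [hx, one_mul, i2]
  have hs := ti_smul_eq hti ht h1 (hct ▸ ht')
  refine ⟨_, hcc, hct, hs, ?_, fun k a b => ((a.mul_right b).pow_right m).mul_right a⟩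
  rw [← hs, ← mul_smul, hcc, one_smul]

theorem ti_exists_K (hc : OC G) {α β : Sylow 2 G} (hab : α ≠ β) {t₀ : G}
    (ht₀ : t₀ ∈ (α : Subgroup G)) (h1 : t₀ ≠ 1) :
    ∃ (K : Subgroup G) (c : G), c * c = 1 ∧ Nat.card K + 1 = Nat.card α ∧
      ∀ k ∈ K, k • α = α ∧ k • β = β ∧ c * k * c⁻¹ = k⁻¹ ∧ Odd (orderOf k) ∧
        ∀ t ∈ (α : Subgroup G), t ≠ 1 → Commute k t → k = 1 := by
  haveI : Fact (Nat.Prime 2) := ⟨Nat.prime_two⟩
  obtain ⟨g, hg⟩ := exists_smul_eq G α β
  obtain ⟨c, c1, -, c3, c4, -⟩ := ti_swap hti hel hab ht₀ h1 (hg ▸ ti_conj_mem ht₀ g)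
    (mt conj_eq_one_iff.1 h1)
  have ci : c⁻¹ = c := inv_eq_of_mul_eq_one_right c1
  let H : Subgroup G := stabilizer G α ⊓ stabilizer G β
  have hH : Odd (Nat.card H) := by
    rw [← Nat.not_even_iff_odd, even_iff_two_dvd]
    intro h2
    obtain ⟨x, hx⟩ := exists_prime_orderOf_dvd_card' (G := H) 2 h2
    have hxx : (x : G) * x = 1 := by
      have := pow_orderOf_eq_one x
      rw [hx, pow_two] at this
      exact congrArg Subtype.val this
    have : x = 1 := Subtype.ext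
      (ti_eq_one hti hab (ti_mem_of_fix hxx x.2.1) (ti_mem_of_fix hxx x.2.2))
    rw [this, orderOf_one] at hx
    omega
  haveI := hc H hH
  have hcomm : ∀ a ∈ H, ∀ b ∈ H, a * b = b * a := fun a ha b hb =>
    congrArg Subtype.val (IsCyclic.commGroup.mul_comm (⟨a, ha⟩ : H) ⟨b, hb⟩)
  have hodd : ∀ a ∈ H, Odd (orderOf a) := fun a ha =>
    hH.of_dvd_nat (orderOf_dvd_natCard H ha)
  let K : Subgroup G :=
    { carrier := {k | k ∈ H ∧ c * k * c⁻¹ = k⁻¹}
      one_mem' := ⟨H.one_mem, by simp⟩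
      mul_mem' := fun {a b} ha hb => ⟨H.mul_mem ha.1 hb.1, by
        rw [← conj_mul, ha.2, hb.2, hcomm a ha.1 b hb.1, mul_inv_rev]⟩
      inv_mem' := fun {a} ha => ⟨H.inv_mem ha.1, by rw [← conj_inv, ha.2]⟩ }
  have hsw : ∀ d : G, d • α = β → d • β = α → c * d ∈ H := fun d d1 d2 =>
    ⟨show (c * d) • α = α by rw [mul_smul, d1, c4], show (c * d) • β = β by rw [mul_smul, d2, c3]⟩
  have hconj : ∀ t ∈ (α : Subgroup G), c * t * c⁻¹ ∈ (β : Subgroup G) := fun t ht =>
    c3 ▸ ti_conj_mem ht c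
  have hreg : ∀ k ∈ K, ∀ t ∈ (α : Subgroup G), t ≠ 1 → Commute k t → k = 1 := by
    intro k hk t ht ht1 hkt
    obtain ⟨d, -, -, d3, d4, d5⟩ := ti_swap hti hel hab ht ht1 (hconj t ht)
      (mt conj_eq_one_iff.1 ht1)
    have hk' : k = c * k⁻¹ * c⁻¹ := by rw [← conj_inv, hk.2, inv_inv]
    have a1 : Commute k (c * t * c⁻¹) := by
      change k * (c * t * c⁻¹) = c * t * c⁻¹ * k
      conv_lhs => rw [hk']
      conv_rhs => rw [hk']
      rw [conj_mul, conj_mul, hkt.inv_left.eq]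
    have a2 := d5 k hkt a1
    have a3 := hcomm _ (hsw d d3 d4) k hk.1
    refine ti_eq_one_of_odd (hodd k hk.1) ?_
    have a4 : c * k = k * c := by
      apply mul_right_cancel (b := d)
      rw [mul_assoc, a2.eq, ← mul_assoc, a3, mul_assoc]
    have a5 := hk.2
    rw [a4, mul_inv_cancel_right] at a5
    nth_rewrite 1 [a5]
    exact inv_mul_cancel k
  refine ⟨K, c, c1, ?_, fun k hk => ⟨hk.1.1, hk.1.2, hk.2, hodd k hk.1, hreg k hk⟩⟩
  let f : K → {u : (α : Subgroup G) // u ≠ 1} := fun k =>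
    ⟨⟨k * t₀ * k⁻¹, by
      have := ti_conj_mem ht₀ (k : G)
      rwa [show (k : G) • α = α from k.2.1.1] at this⟩,
      fun e => h1 (conj_eq_one_iff.1 (congrArg Subtype.val e))⟩
  have hf : Function.Bijective f := by
    constructor
    · intro a b e
      have e' : (a : G) * t₀ * (a : G)⁻¹ = b * t₀ * (b : G)⁻¹ := congrArg (fun x => x.1.1) e
      have := hreg _ (K.mul_mem (K.inv_mem b.2) a.2) t₀ ht₀ h1 (by
        change (b : G)⁻¹ * a * t₀ = t₀ * ((b : G)⁻¹ * a)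
        calc (b : G)⁻¹ * a * t₀ = (b : G)⁻¹ * (a * t₀ * (a : G)⁻¹) * a := by group
          _ = t₀ * ((b : G)⁻¹ * a) := by rw [e']; group)
      exact Subtype.ext (inv_mul_eq_one.1 this).symm
    · rintro ⟨⟨t, ht⟩, ht1⟩
      have ht1' : t ≠ 1 := fun e => ht1 (Subtype.ext e)
      obtain ⟨d, d1, d2, d3, d4, -⟩ := ti_swap hti hel hab ht₀ h1 (hconj t ht)
        (mt conj_eq_one_iff.1 ht1')
      have di : d⁻¹ = d := inv_eq_of_mul_eq_one_right d1
      refine ⟨⟨c * d, hsw d d3 d4, ?_⟩, Subtype.ext (Subtype.ext ?_)⟩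
      · rw [mul_inv_rev, di, ← mul_assoc, c1, one_mul]
      · change c * d * t₀ * (c * d)⁻¹ = t
        calc c * d * t₀ * (c * d)⁻¹ = c * (d * t₀ * d⁻¹) * c⁻¹ := by group
          _ = c * c * t * (c * c)⁻¹ := by rw [d2]; group
          _ = t := by rw [c1]; group
  classical
  rw [Nat.card_eq_of_bijective f hf]
  letI := Fintype.ofFinite (α : Subgroup G)
  simp only [Nat.card_eq_fintype_card, Fintype.card_subtype_compl, Fintype.card_unique]
  have := Fintype.card_pos (α := (α : Subgroup G))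
  omega

end

theorem ti_count (hc : OC G)
    (hti : ∀ P Q : Sylow 2 G, P ≠ Q → (P : Subgroup G) ⊓ Q = ⊥) (P : Sylow 2 G)
    (hel : ∀ x ∈ (P : Subgroup G), x * x = 1) (h4 : 2 < Nat.card P)
    (hn : 1 < Nat.card (Sylow 2 G)) :
    (Nat.card P - 1) ∣ Nat.card G ∧
      ∃ m, Odd m ∧ Nat.card (Sylow 2 G) = 1 + Nat.card P * m := by
  classical
  haveI : Fact (Nat.Prime 2) := ⟨Nat.prime_two⟩
  have hel' : ∀ Q : Sylow 2 G, ∀ x ∈ (Q : Subgroup G), x * x = 1 := by
    intro Q x hx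
    obtain ⟨g, hg⟩ := exists_smul_eq G Q P
    have := hel _ (hg ▸ ti_conj_mem hx g)
    rwa [conj_mul, conj_eq_one_iff] at this
  obtain ⟨⟨t₀, ht₀⟩, h1⟩ : ∃ t : (P : Subgroup G), t ≠ 1 := by
    haveI := Finite.one_lt_card_iff_nontrivial.1 (show 1 < Nat.card P by omega)
    exact exists_ne 1
  have h1' : t₀ ≠ 1 := fun e => h1 (Subtype.ext e)
  obtain ⟨β, hβ⟩ : ∃ β : Sylow 2 G, β ≠ P := by
    haveI := Finite.one_lt_card_iff_nontrivial.1 hn
    exact exists_ne P
  obtain ⟨K, c, c1, cK, hK⟩ := ti_exists_K hti hel' hc hβ.symm ht₀ h1'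
  refine ⟨by rw [← cK, Nat.add_sub_cancel]; exact card_subgroup_dvd_card K, ?_⟩
  obtain ⟨⟨k, hk⟩, k1⟩ : ∃ k : K, k ≠ 1 := by
    haveI := Finite.one_lt_card_iff_nontrivial.1 (show 1 < Nat.card K by omega)
    exact exists_ne 1
  have k1' : k ≠ 1 := fun e => k1 (Subtype.ext e)
  obtain ⟨kP, -, kc, ko, kreg⟩ := hK k hk
  have kreg' : ∀ t ∈ (P : Subgroup G), Commute k t → t = 1 := fun t ht e =>
    by_contra fun h => k1' (kreg t ht h e)
  have kconj : ∀ t ∈ (P : Subgroup G), k * t * k⁻¹ ∈ (P : Subgroup G) := fun t ht => by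
    have := ti_conj_mem ht k
    rwa [kP] at this
  -- the quotient `N(P) / P`
  let N : Subgroup G := normalizer (P : Set G)
  let P' : Subgroup N := (P : Subgroup G).subgroupOf N
  haveI : P'.Normal := normal_in_normalizer
  let π : N →* N ⧸ P' := QuotientGroup.mk' P'
  have hcyc : IsCyclic (N ⧸ P') := by
    have h1 := (hc.subgroup N).of_surjective π (QuotientGroup.mk'_surjective _) (by
      rw [QuotientGroup.ker_mk']
      exact P.isPGroup'.comap_subtype) ⊤ (by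
      rw [card_top, ← index_eq_card, ← Nat.not_even_iff_odd, even_iff_two_dvd]
      exact fun h => P.not_dvd_index (h.trans (relIndex_dvd_index_of_le le_normalizer)))
    exact isCyclic_of_surjective topEquiv topEquiv.surjective
  have himg : ∀ L : Subgroup G, Nat.card L + 1 = Nat.card P → (∀ l ∈ L, l • P = P) →
      (∀ l ∈ L, Odd (orderOf l)) → Nat.card ((L.subgroupOf N).map π) + 1 = Nat.card P := by
    intro L h1 h2 h3
    have hLN : L ≤ N := fun l hl => Sylow.smul_eq_iff_mem_normalizer.1 (h2 l hl)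
    rw [← h1, ← Nat.card_congr (subgroupOfEquivOfLe hLN).toEquiv]
    congr 1
    refine (Nat.card_congr (Equiv.ofBijective (π.subgroupMap (L.subgroupOf N))
      ⟨(injective_iff_map_eq_one _).2 fun x hx => ?_, π.subgroupMap_surjective _⟩)).symm
    have hx' : x.1 ∈ P' := (QuotientGroup.eq_one_iff _).1 (congrArg Subtype.val hx)
    exact Subtype.ext (Subtype.ext (ti_eq_one_of_odd (h3 _ x.2) (hel _ hx')))
  have horb : ∀ γ : Sylow 2 G, γ ≠ P → ∃ q ∈ (P : Subgroup G), k • q⁻¹ • γ = q⁻¹ • γ := by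
    intro γ hγ
    obtain ⟨L, c', -, cL, hL⟩ := ti_exists_K hti hel' hc hγ.symm ht₀ h1'
    have e : (K.subgroupOf N).map π = (L.subgroupOf N).map π := ti_eq_of_card (by
      have a := himg K cK (fun l hl => (hK l hl).1) fun l hl => (hK l hl).2.2.2.1
      have b := himg L cL (fun l hl => (hL l hl).1) fun l hl => (hL l hl).2.2.2.1
      omega)
    have hkN : k ∈ N := Sylow.smul_eq_iff_mem_normalizer.1 kP
    obtain ⟨l, hl, hl'⟩ : π ⟨k, hkN⟩ ∈ (L.subgroupOf N).map π := e ▸ mem_map_of_mem π hk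
    have hp : k⁻¹ * (l : G) ∈ (P : Subgroup G) :=
      (QuotientGroup.eq (s := P') (a := ⟨k, hkN⟩) (b := l)).1 hl'.symm
    let φ : ↥(P : Subgroup G) → ↥(P : Subgroup G) := fun q =>
      ⟨q * (k * (q : G)⁻¹ * k⁻¹), mul_mem q.2 (kconj _ (inv_mem q.2))⟩
    have hφ : Function.Injective φ := fun a b e => by
      have e' : (a : G) * (k * (a : G)⁻¹ * k⁻¹) = b * (k * (b : G)⁻¹ * k⁻¹) :=
        congrArg Subtype.val e
      have := kreg' _ (mul_mem (inv_mem b.2) a.2) (by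
        change k * ((b : G)⁻¹ * a) = (b : G)⁻¹ * a * k
        calc k * ((b : G)⁻¹ * a) = (b : G)⁻¹ * (b * (k * (b : G)⁻¹ * k⁻¹)) * k * a := by group
          _ = (b : G)⁻¹ * a * k := by rw [← e']; group)
      exact Subtype.ext (inv_mul_eq_one.1 this).symm
    obtain ⟨q, hq⟩ := Finite.surjective_of_injective hφ ⟨_, kconj _ hp⟩
    have hq' : (q : G) * (k * (q : G)⁻¹ * k⁻¹) = k * (k⁻¹ * l) * k⁻¹ := congrArg Subtype.val hq
    refine ⟨q, q.2, ?_⟩
    have : k * (q : G)⁻¹ = (q : G)⁻¹ * l := by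
      calc k * (q : G)⁻¹ = (q : G)⁻¹ * (q * (k * (q : G)⁻¹ * k⁻¹)) * k := by group
        _ = (q : G)⁻¹ * l := by rw [hq']; group
    rw [← mul_smul, this, mul_smul, (hL l hl).2.1]
  have hPP : ∀ q ∈ (P : Subgroup G), q • P = P := fun q hq =>
    Sylow.smul_eq_iff_mem_normalizer.2 (le_normalizer hq)
  let Fx := {γ : Sylow 2 G // k • γ = γ}
  let a₀ : Fx := ⟨P, kP⟩
  let ψ : ↥(P : Subgroup G) × {γ : Fx // γ ≠ a₀} → {γ : Sylow 2 G // γ ≠ P} := fun x =>
    ⟨(x.1 : G) • x.2.1.1, fun e => x.2.2 (Subtype.ext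
      (smul_left_cancel _ (e.trans (hPP _ x.1.2).symm)))⟩
  have hψ : Function.Bijective ψ := by
    constructor
    · rintro ⟨a, ⟨γ, hγ⟩, hγ'⟩ ⟨b, ⟨δ, hδ⟩, hδ'⟩ e
      have e' : (a : G) • γ = (b : G) • δ := congrArg Subtype.val e
      have hne : P ≠ γ := fun h => hγ' (Subtype.ext h.symm)
      have hp := mul_mem (inv_mem b.2) a.2
      set p := (b : G)⁻¹ * a with hpdef
      have e1 : p • γ = δ := by rw [hpdef, mul_smul, e', inv_smul_smul]
      have hm : p⁻¹ * (k * p * k⁻¹) ∈ (P : Subgroup G) := mul_mem (inv_mem hp) (kconj p hp)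
      have e2 : (p⁻¹ * (k * p * k⁻¹)) • γ = γ := by
        rw [mul_smul, mul_smul, mul_smul, inv_smul_eq_iff.2 hγ.symm, e1, hδ, ← e1, inv_smul_smul]
      have e3 := ti_eq_one hti hne hm (ti_mem_of_fix (hel _ hm) e2)
      have e4 : p = 1 := kreg' p hp (by
        change k * p = p * k
        calc k * p = p * (p⁻¹ * (k * p * k⁻¹)) * k := by group
          _ = p * k := by rw [e3, mul_one])
      rw [e4, one_smul] at e1
      exact Prod.ext (Subtype.ext (inv_mul_eq_one.1 e4).symm) (Subtype.ext (Subtype.ext e1))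
    · rintro ⟨γ, hγ⟩
      obtain ⟨q, hq, e⟩ := horb γ hγ
      refine ⟨⟨⟨q, hq⟩, ⟨q⁻¹ • γ, e⟩, fun h => hγ ?_⟩, Subtype.ext (smul_inv_smul q γ)⟩
      have : q⁻¹ • γ = P := congrArg Subtype.val h
      rw [← smul_inv_smul q γ, this, hPP q hq]
  have hsub : ∀ {X : Type _} [Finite X] (x : X), Nat.card {y : X // y ≠ x} + 1 = Nat.card X := by
    intro X _ x
    letI := Fintype.ofFinite X
    haveI : Nonempty X := ⟨x⟩
    simp only [Nat.card_eq_fintype_card, Fintype.card_subtype_compl, Fintype.card_unique]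
    have := Fintype.card_pos (α := X)
    omega
  have hcount := Nat.card_eq_of_bijective ψ hψ
  rw [Nat.card_prod] at hcount
  refine ⟨Nat.card {γ : Fx // γ ≠ a₀}, ?_, by rw [← hsub P, ← hcount, add_comm]⟩
  have ci : c⁻¹ = c := inv_eq_of_mul_eq_one_right c1
  let σ : Function.End Fx := fun γ => ⟨c • γ.1, by
    have : k * c = c * k⁻¹ := by
      calc k * c = c * (c⁻¹ * k * c⁻¹⁻¹) * (c⁻¹ * c) := by group
        _ = c * k⁻¹ := by rw [ci, ← kc, ci, c1, mul_one]
    rw [← mul_smul, this, mul_smul, inv_smul_eq_iff.2 γ.2.symm]⟩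
  have hσ : σ ^ 2 ^ 1 = 1 := by
    funext γ
    refine Subtype.ext ?_
    change c • c • γ.1 = γ.1
    rw [← mul_smul, c1, one_smul]
  letI := Fintype.ofFinite Fx
  have hmod := Equiv.Perm.card_fixedPoints_modEq hσ
  have hemp : IsEmpty σ.fixedPoints := ⟨fun ⟨⟨γ, hγ⟩, h⟩ => by
    have h' : c • γ = γ := congrArg Subtype.val h
    have m1 := ti_mem_of_fix c1 h'
    have m2 := ti_conj_mem m1 k
    rw [hγ] at m2
    have m3 : k * k ∈ (γ : Subgroup G) := by
      have := mul_mem m2 m1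
      have e : k * c * k⁻¹ * c = k * k := by
        rw [← kc]
        calc k * c * (c * k * c⁻¹) * c = k * (c * c) * k := by group
          _ = k * k := by rw [c1, mul_one]
      rwa [e] at this
    have ho2 : Odd (orderOf (k * k)) := ko.of_dvd_nat (by
      rw [← pow_two]; exact orderOf_pow_dvd 2)
    exact k1' (ti_eq_one_of_odd ko (ti_eq_one_of_odd ho2 (hel' γ _ m3)))⟩
  rw [Fintype.card_eq_zero (α := σ.fixedPoints), ← Nat.card_eq_fintype_card, ← hsub a₀] at hmod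
  rw [Nat.odd_iff]
  unfold Nat.ModEq at hmod
  omega

end Cfsg.GagP
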