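import Cfsg.Agent.Gag2.ElatS
import Cfsg.Agent.Gag2.LemA
import Cfsg.Agent.Grp.ThompsonTransfer

/-!
# Two elements of order three: the irreducible case
-/

set_option autoImplicit false
set_option linter.unusedSectionVars false

namespace Cfsg.Gag2

open Subgroup MulAction
open scoped Pointwise

universe u v

/-- `G = ⟨y, y'⟩` is not cyclic and acts irreducibly. -/
structure Qd (G : Type u) [Group G] (V : Type v) [AddCommGroup V] [DistribMulAction G V]
    (y y' : G) : Prop where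
  o₁ : orderOf y = 3
  o₂ : orderOf y' = 3
  gen : closure ({y, y'} : Set G) = ⊤
  ne : y' ∉ zpowers y
  irr : ∀ W : AddSubgroup V, (∀ g : G, ∀ v ∈ W, g • v ∈ W) → W = ⊥ ∨ W = ⊤

variable {G : Type u} [Group G] [Finite G] {V : Type v} [AddCommGroup V] [Finite V]
  [DistribMulAction G V] {y y' : G}

namespace Qd

variable (H : Hyp G V) (Q : Qd G V y y')
include H Q

theorem commute_tr (g x : G) : Commute (tr V g) (op V x) :=
  H.commute_tr Q.o₁ Q.o₂ (Q.gen ▸ mem_top g) (Q.gen ▸ mem_top x)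

/-- `g N_a + N_a g⁻¹ = tr (g a) + tr g` is central. -/
theorem commute_tau (g : G) {a : G} (h : a * a = 1) (x : G) :
    Commute (op V g * nu V a + nu V a * op V g⁻¹) (op V x) := by
  have e : op V g * nu V a + nu V a * op V g⁻¹ = tr V (g * a) + tr V g := by
    simp only [tr, nu, mul_inv_rev, inv_eq_of_mul_eq_one_right h, map_mul]
    noncomm_ring
  rw [e]
  exact (Q.commute_tr H _ x).add_left (Q.commute_tr H _ x)

/-- Schur's lemma. -/
theorem eq_zero_of_commute {φ : AddMonoid.End V} (h : ∀ x : G, Commute φ (op V x)) {v : V}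
    (h0 : v ≠ 0) (hv : φ v = 0) : φ = 0 := by
  rcases Q.irr (AddMonoidHom.ker (φ : V →+ V)) (fun g w hw => by
    have h1 : φ (g • w) = g • φ w := DFunLike.congr_fun (h g).eq w
    change φ (g • w) = 0
    rw [h1, show φ w = 0 from hw, smul_zero]) with e | e
  · exact absurd (AddSubgroup.mem_bot.1 (e ▸ hv)) h0
  · ext w
    exact (e ▸ AddSubgroup.mem_top w : w ∈ AddMonoidHom.ker (φ : V →+ V))

/-- `tr g = g⁻¹ (nu g)²` kills a fixed vector of `g`. -/
theorem mul_self_of_tw {g : G} (h : Tw g) : g * g = 1 := by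
  obtain ⟨n, hn⟩ := h
  have hX : IsPGroup 2 (zpowers g) := by
    rintro ⟨_, m, rfl⟩
    refine ⟨n, Subtype.ext ?_⟩
    change (g ^ m) ^ 2 ^ n = 1
    rw [← zpow_natCast, ← zpow_mul, mul_comm, zpow_mul, zpow_natCast, hn, one_zpow]
  obtain ⟨v₀, hv₀⟩ := H.nt
  obtain ⟨v, -, h0, hf⟩ := H.exists_fix hX (W := ⊤)
    (fun e => hv₀ (AddSubgroup.mem_bot.1 (e ▸ AddSubgroup.mem_top v₀))) (fun _ _ _ _ => trivial)
  have h1 := Q.eq_zero_of_commute H (Q.commute_tr H g) h0 (by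
    rw [tr_apply, hf g (mem_zpowers g), hf g⁻¹ (inv_mem (mem_zpowers g)), H.two])
  rw [tr, H.add_eq_zero_iff_end] at h1
  exact mul_eq_one_iff_eq_inv.2 (H.op_inj h1)

/-- `a b` is a `2`-element, so `a`, `b` commute.  `κ = N_a N_b`; for all `g`:
`τ = g N_a + N_a g⁻¹ = tr (g a) + tr g` is central and `N_a g N_a = τ N_a`, so `κ g κ = 0`;
`σ = g κ + κ g⁻¹ = tr (g a b) + tr (g a) + tr (g b) + tr g` is central, `σ κ = 0`.  If `κ ≠ 0` then
`σ = 0` for all `g`, `range κ` is invariant, so `⊤`, but `κ² = 0`. -/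
theorem eg : EG V {t : G | Iv t} := by
  refine ⟨fun t ht => ht, fun t ht g => Iv.conj ht g, fun a ia b ib v h0 ha hb => ?_,
    fun t ht s hs h1 => (H.iv_of_mem_cw ht hs h1).1⟩
  have ia : Iv a := ia
  have ib : Iv b := ib
  have hab : (a * b) * (a * b) = 1 :=
    Q.mul_self_of_tw H (H.tw_of_fix h0 (by rw [mul_smul, hb, ha]))
  have hc : b * a = a * b := by
    rw [← inv_eq_of_mul_eq_one_right hab, mul_inv_rev, ia.inv_eq, ib.inv_eq]
  have hN : nu V b * nu V a = nu V a * nu V b := by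
    have h1 := H.nu_mul a b
    rw [← hc, H.nu_mul b a, add_right_comm] at h1
    exact add_right_cancel (add_right_cancel h1)
  have aa := H.nu_mul_self ia.1
  have bb := H.nu_mul_self ib.1
  set κ := nu V a * nu V b with hκ
  have κκ : κ * κ = 0 := by
    rw [hκ, mul_assoc, ← mul_assoc (nu V b), hN, hκ, mul_assoc, bb, mul_zero, mul_zero]
  have k1 : ∀ g : G, κ * op V g * κ = 0 := fun g => by
    have h1 := Q.commute_tau H g ia.1
    set τ := op V g * nu V a + nu V a * op V g⁻¹ with hτ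
    have h2 : nu V a * τ = nu V a * op V g * nu V a := by
      rw [hτ, mul_add, ← mul_assoc, ← mul_assoc, aa, zero_mul, add_zero]
    have h3 : Commute τ (nu V b) := (h1 b).add_right (Commute.one_right _)
    calc κ * op V g * κ = nu V b * (nu V a * op V g * nu V a) * nu V b := by
          conv_lhs => rw [← hN]
          conv_lhs => congr; rfl; rw [hN, hκ]
          simp only [mul_assoc]
      _ = nu V b * nu V a * (nu V b * τ) := by rw [← h2, ← h3.eq]; simp only [mul_assoc]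
      _ = 0 := by
          rw [hN, hκ, mul_assoc, ← mul_assoc (nu V b), bb, zero_mul, mul_zero]
  have k0 : κ = 0 := by
    by_contra hne
    obtain ⟨u, hu⟩ : ∃ u, κ u ≠ 0 := by
      by_contra hcon
      push Not at hcon
      exact hne (by ext u; exact hcon u)
    have e : κ = nu V (a * b) + nu V a + nu V b := by
      rw [H.nu_mul, ← hκ, add_assoc, add_assoc, add_assoc, ← add_assoc (nu V b), add_comm (nu V b),
        add_assoc, H.add_self, add_zero, H.add_self, add_zero]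
    have k2 : ∀ g : G, op V g * κ = κ * op V g⁻¹ := fun g => by
      rw [← H.add_eq_zero_iff_end]
      refine Q.eq_zero_of_commute H (fun x => ?_) hu ?_
      · have := ((Q.commute_tau H g hab x).add_left (Q.commute_tau H g ia.1 x)).add_left
          (Q.commute_tau H g ib.1 x)
        rwa [show op V g * κ + κ * op V g⁻¹ = op V g * nu V (a * b) + nu V (a * b) * op V g⁻¹ +
          (op V g * nu V a + nu V a * op V g⁻¹) + (op V g * nu V b + nu V b * op V g⁻¹) by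
            rw [e]; noncomm_ring]
      · change ((op V g * κ + κ * op V g⁻¹) * κ) u = 0
        rw [add_mul, mul_assoc, κκ, k1, mul_zero, add_zero]
        rfl
    rcases Q.irr (AddMonoidHom.range (κ : V →+ V)) (by
      rintro g _ ⟨w, rfl⟩
      exact ⟨g⁻¹ • w, (DFunLike.congr_fun (k2 g) w).symm⟩) with e' | e'
    · exact hu (AddSubgroup.mem_bot.1 (e' ▸ ⟨u, rfl⟩))
    · obtain ⟨w, rfl⟩ : u ∈ AddMonoidHom.range (κ : V →+ V) := e' ▸ AddSubgroup.mem_top u
      exact hu (DFunLike.congr_fun κκ w)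
  exact (H.iv_of_mem_cw ib (H.mem_cw_of_nu_mul ib k0) ia.2).2

/-- Every element fixing the axis is special: `N_a k + k⁻¹ N_a = tr (a k) + tr k` kills the axis. -/
theorem sp_of_smul {a k : G} (ia : Iv a) (h : k • fx V a = fx V a) : Sp V a k := by
  obtain ⟨⟨v, hv⟩, h0⟩ := (AddSubgroup.ne_bot_iff_exists_ne_zero).1 (H.fx_ne_bot ia.1)
  have h1 := Q.eq_zero_of_commute H (Q.commute_tau H k⁻¹ ia.1) (v := v)
    (fun e => h0 (Subtype.ext e)) (by
      change k⁻¹ • nu V a v + nu V a (k⁻¹⁻¹ • v) = 0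
      rw [inv_inv, H.mem_fx_iff.1 hv, H.mem_fx_iff.1 (smul_mem_of_smul_eq h hv), smul_zero,
        add_zero])
  rw [H.add_eq_zero_iff_end, inv_inv] at h1
  unfold Sp
  rw [mul_assoc, ← h1, ← mul_assoc, op_mul_inv, one_mul]

/-- If `|G|` is odd, `G` is a Z-group, `G'` is cyclic; for `c ∈ G'`, `c' = y c y⁻¹ = c ^ i` has
`tr c' = tr c`, so `(c' + c) (c' + c⁻¹) = 0`, so `c' c⁻¹` or `c' c` fixes a nonzero vector and is `1`;
`c' = c⁻¹` forces `c = 1` (`y` has odd order).  So `G` is cyclic (`isCyclic_of_gen_centralizes`),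
`y' ∈ zpowers y`. -/
theorem exists_iv : ∃ t : G, Iv t := by
  by_contra hc
  have : Fact (Nat.Prime 2) := ⟨Nat.prime_two⟩
  have ho : Odd (Nat.card G) := by
    by_contra h
    obtain ⟨t, ht⟩ := exists_prime_orderOf_dvd_card' 2 (even_iff_two_dvd.1 (Nat.not_odd_iff_even.1 h))
    refine hc ⟨t, ?_, fun e => ?_⟩
    · rw [← pow_two, ← ht, pow_orderOf_eq_one]
    · rw [e, orderOf_one] at ht
      exact absurd ht (by decide)
  have hoo : ∀ g : G, Odd (orderOf g) := fun g => ho.of_dvd_nat (orderOf_dvd_natCard g)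
  have hZ : IsZGroup G := by
    have := H.isZGroup (K := ⊤) (by rwa [card_top])
    exact IsZGroup.of_surjective (f := (⊤ : Subgroup G).subtype) fun g => ⟨⟨g, trivial⟩, rfl⟩
  have hcy := IsZGroup.isCyclic_commutator G
  have key : ∀ x : G, orderOf x = 3 → ∀ c ∈ commutator G, Commute x c := by
    intro x hx c hcm
    have hc' : x * c * x⁻¹ ∈ commutator G := (commutator_normal ⊤ ⊤).conj_mem c hcm x
    set c' := x * c * x⁻¹ with hc'e
    have h1 : c' * c⁻¹ = c⁻¹ * c' := by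
      let := IsCyclic.commGroup (α := commutator G)
      exact congrArg Subtype.val (mul_comm (⟨c', hc'⟩ : commutator G) ⟨c⁻¹, inv_mem hcm⟩)
    have h2 : tr V c' = tr V c := by
      rw [hc'e, tr_conj, ← (Q.commute_tr H c x).eq, mul_assoc, op_mul_inv, mul_one]
    have h3 : (op V c' + op V c⁻¹) * (op V c' + op V c) = 0 := by
      have hev := H.even_smul
      have e1 : op V c' * op V c⁻¹ = op V c⁻¹ * op V c' := by rw [← map_mul, h1, map_mul]
      have e2 := op_inv_mul (V := V) c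
      have e3 := op_mul_inv (V := V) c'
      have e4 : op V c' * (op V c' + op V c'⁻¹) = op V c' * (op V c + op V c⁻¹) :=
        congrArg (op V c' * ·) h2
      linear_combination (norm := (noncomm_ring; simp (disch := decide) only [hev, add_zero]))
        e2 + e3 - e4 - e1
    by_contra hn
    obtain ⟨v, hv⟩ : ∃ v : V, c' • v + c • v ≠ 0 := by
      by_contra hcon
      push Not at hcon
      refine hn (mul_inv_eq_iff_eq_mul.1 (H.op_inj (V := V) ?_))
      ext v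
      exact H.add_eq_zero_iff.1 (hcon v)
    have h4 : c' • (c' • v + c • v) + c⁻¹ • (c' • v + c • v) = 0 := DFunLike.congr_fun h3 v
    rw [H.add_eq_zero_iff] at h4
    have h5 : c * c' = 1 := by
      by_contra h6
      exact hv (H.eq_zero_of_odd (hoo _) h6 (by rw [mul_smul, h4, smul_inv_smul]))
    have h6 : x * c * x⁻¹ = c⁻¹ := eq_inv_of_mul_eq_one_right h5
    have h7 : x * c⁻¹ * x⁻¹ = c := by
      rw [show x * c⁻¹ * x⁻¹ = (x * c * x⁻¹)⁻¹ by group, h6, inv_inv]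
    have h8 : x * x * x = 1 := by
      have := pow_orderOf_eq_one x
      rwa [hx, pow_succ, pow_two] at this
    have h9 : c = c⁻¹ := by
      calc c = (x * x * x) * c * (x * x * x)⁻¹ := by rw [h8]; group
        _ = x * (x * (x * c * x⁻¹) * x⁻¹) * x⁻¹ := by group
        _ = c⁻¹ := by rw [h6, h7, h6]
    have h10 : c = 1 := Tw.eq_one_of_odd ⟨1, by
      rw [pow_one, pow_two]; exact mul_eq_one_iff_eq_inv.2 h9⟩ (hoo c)
    exact hn (h10 ▸ Commute.one_right x)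
  have hcyc : IsCyclic G := isCyclic_of_gen_centralizes Q.gen (by
    rintro x (rfl | rfl)
    · exact key _ Q.o₁
    · exact key _ Q.o₂)
  exact Q.ne (mem_zpowers_of_isCyclic (R := ⊤) inferInstance (mem_top _) (mem_top _)
    (by rw [Q.o₁, Q.o₂]))

/-- Otherwise the unique axis is invariant. -/
theorem exists_ne {a : G} (ia : Iv a) : ∃ b : G, Iv b ∧ fx V b ≠ fx V a := by
  by_contra hc
  push Not at hc
  rcases Q.irr (fx V a) (fun g v hv =>
    smul_mem_of_smul_eq ((smul_fx g a).trans (hc _ (ia.conj g))) hv) with e | e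
  · exact H.fx_ne_bot ia.1 e
  · exact H.fx_ne_top ia.2 e

/-- A Sylow `2`-subgroup fixes a nonzero vector, so is contained in an elation group.  If these have
order two, `¬ 4 ∣ |G|` and `exists_index_two_of_forall_conj_notMem` (`M = ⊥`) gives a subgroup of
index two, which contains `y`, `y'`. -/
theorem card_cw_ne_two {a : G} (ia : Iv a) : Nat.card (cw G (fx V a)) ≠ 2 := by
  intro h2
  have : Fact (Nat.Prime 2) := ⟨Nat.prime_two⟩
  have E := Q.eg H
  have h4 : ¬ 4 ∣ (⊥ : Subgroup G).index := by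
    rw [index_bot]
    intro hd
    obtain ⟨K, hK⟩ := Sylow.exists_subgroup_card_pow_prime 2 (n := 2) hd
    have hp : IsPGroup 2 K := IsPGroup.of_card hK
    obtain ⟨v₀, hv₀⟩ := H.nt
    obtain ⟨v, -, h0, hf⟩ := H.exists_fix hp (W := ⊤)
      (fun e => hv₀ (AddSubgroup.mem_bot.1 (e ▸ AddSubgroup.mem_top v₀))) (fun _ _ _ _ => trivial)
    obtain ⟨⟨x, hx⟩, x1⟩ := (ne_bot_iff_exists_ne_one (H := K)).1 (fun e => by
      rw [e, card_bot] at hK
      exact absurd hK (by decide))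
    have ix : Iv x := ⟨Q.mul_self_of_tw H (tw_of_mem hp hx), fun e => x1 (Subtype.ext e)⟩
    have hle : K ≤ cw G (fx V x) := fun z hz => by
      by_cases z1 : z = 1
      · rw [z1]; exact one_mem _
      · rw [E.ti x ix z ⟨Q.mul_self_of_tw H (tw_of_mem hp hz), z1⟩ v h0 (hf x hx) (hf z hz)]
        exact self_mem_cw z
    have h5 := card_le_of_le hle
    rw [hK, E.card_cw_eq H ⟨x, ix, rfl⟩ ⟨a, ia, rfl⟩, h2] at h5
    omega
  obtain ⟨M, hM, -⟩ := exists_index_two_of_forall_conj_notMem h4 ia.1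
    (fun g hg => (ia.conj g).2 (mem_bot.1 hg))
  have key : ∀ x : G, orderOf x = 3 → x ∈ M := fun x hx => by
    have h5 : x = (x ^ 2) ^ 2 := by
      rw [← pow_mul, show 2 * 2 = 3 + 1 by rfl, pow_succ, ← hx, pow_orderOf_eq_one, one_mul]
    rw [h5]
    exact sq_mem_of_index_two hM _
  have h6 : M = ⊤ := by
    rw [eq_top_iff, ← Q.gen, closure_le]
    rintro x (rfl | rfl)
    · exact key _ Q.o₁
    · exact key _ Q.o₂
  rw [h6, index_top] at hM
  exact absurd hM (by decide)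

/-- `σ = N₁ N₂ N₃ + N₃ N₂ N₁` is a sum of traces, so central, and `k σ k = σ`, so `(k² + 1) σ = 0`,
`σ = 0`; then `N₁ N₂ N₃` has values in `W₁ ⊓ W₃ = ⊥`, `N₂ W₃ ≤ W₁ ⊓ W₂ = ⊥`, `W₃ ≤ W₂`. -/
theorem not_three {k a₁ a₂ a₃ : G} (ho : Odd (orderOf k)) (h1 : k ≠ 1) (i₁ : Iv a₁) (i₂ : Iv a₂)
    (i₃ : Iv a₃) (e₁ : k • fx V a₁ = fx V a₁) (e₂ : k • fx V a₂ = fx V a₂)
    (e₃ : k • fx V a₃ = fx V a₃) (n₁₂ : fx V a₁ ≠ fx V a₂) (n₁₃ : fx V a₁ ≠ fx V a₃)
    (n₂₃ : fx V a₂ ≠ fx V a₃) : False := by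
  have E := Q.eg H
  have s₁ := Q.sp_of_smul H i₁ e₁
  have s₂ := Q.sp_of_smul H i₂ e₂
  have s₃ := Q.sp_of_smul H i₃ e₃
  have t : ∀ {a b c : G}, Sp V a k → Sp V b k → Sp V c k →
      op V k * (nu V a * nu V b * nu V c) * op V k = nu V a * nu V b * nu V c := by
    intro a b c sa sb sc
    calc _ = (op V k * nu V a) * nu V b * nu V c * op V k := by simp only [mul_assoc]
      _ = nu V a * (op V k⁻¹ * nu V b) * nu V c * op V k := by
          rw [sa.mul_nu]; simp only [mul_assoc]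
      _ = nu V a * nu V b * (op V k * nu V c * op V k) := by
          rw [← sb.nu_mul]; simp only [mul_assoc]
      _ = _ := by rw [sc]
  set σ := nu V a₁ * nu V a₂ * nu V a₃ + nu V a₃ * nu V a₂ * nu V a₁ with hσ
  have h2 : σ = tr V (a₁ * a₂ * a₃) + tr V (a₁ * a₂) + tr V (a₁ * a₃) + tr V (a₂ * a₃) := by
    have hev := H.even_smul
    simp only [hσ, tr, nu, mul_inv_rev, i₁.inv_eq, i₂.inv_eq, i₃.inv_eq, map_mul]
    linear_combination (norm := (noncomm_ring; simp (disch := decide) only [hev, add_zero]))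
  have h3 : Commute σ (op V k) := by
    rw [h2]
    exact (((Q.commute_tr H _ k).add_left (Q.commute_tr H _ k)).add_left
      (Q.commute_tr H _ k)).add_left (Q.commute_tr H _ k)
  have h4 : op V k * op V k * σ = σ := by
    rw [mul_assoc, ← h3.eq, ← mul_assoc, hσ, mul_add, add_mul, t s₁ s₂ s₃, t s₃ s₂ s₁]
  have h5 : ∀ v, σ v = 0 := fun v => by
    refine H.eq_zero_of_odd (g := k * k) ?_
      (fun e => h1 (Tw.eq_one_of_odd ⟨1, by rwa [pow_one, pow_two]⟩ ho)) ?_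
    · rw [← pow_two]
      exact ho.of_dvd_nat (orderOf_pow_dvd 2)
    · rw [mul_smul]
      exact DFunLike.congr_fun h4 v
  have h6 : nu V a₂ * nu V a₃ = 0 := by
    ext v
    have e1 : nu V a₁ (nu V a₂ (nu V a₃ v)) = nu V a₃ (nu V a₂ (nu V a₁ v)) :=
      H.add_eq_zero_iff.1 (h5 v)
    have e2 : nu V a₁ (nu V a₂ (nu V a₃ v)) ∈ fx V a₁ ⊓ fx V a₃ :=
      ⟨H.nu_mem_fx i₁.1 _, e1 ▸ H.nu_mem_fx i₃.1 _⟩
    rw [E.inf_eq_bot H ⟨a₁, i₁, rfl⟩ ⟨a₃, i₃, rfl⟩ n₁₃, AddSubgroup.mem_bot] at e2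
    have e3 : nu V a₂ (nu V a₃ v) ∈ fx V a₁ ⊓ fx V a₂ :=
      ⟨H.mem_fx_iff.2 e2, H.nu_mem_fx i₂.1 _⟩
    rw [E.inf_eq_bot H ⟨a₁, i₁, rfl⟩ ⟨a₂, i₂, rfl⟩ n₁₂, AddSubgroup.mem_bot] at e3
    exact e3
  exact n₂₃ (H.iv_of_mem_cw i₃ (H.mem_cw_of_nu_mul i₃ h6) i₂.2).2

/-- Two axes `W₁ ≠ W₂`, torus `K` of order `α - 1 = 2 ^ e - 1 > 1`, `k ∈ K` of prime order; `card_Ax`
and `not_three` give `f = 1`, so `Reg`, `exists_braid`.  If `e` is even, `3 ∣ |K|` and an element of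
order three of `K` acts nontrivially on `cw W₁`, against `NA4`.  `x ↦ k⁻¹ (x k x⁻¹)` is injective on
`cw W_i` (`sp_conj_ne`), so onto. -/
theorem exists_triple (h4 : NA4 G) :
    ∃ (a b k x x' : G) (e : ℕ), Iv a ∧ Iv b ∧ a ≠ b ∧ a * b * a = b * a * b ∧ (orderOf k).Prime ∧
      orderOf k ≠ 2 ∧ Odd e ∧ k ^ 2 ^ e = k ∧ a = k⁻¹ * (x * k * x⁻¹) ∧
      b = k⁻¹ * (x' * k * x'⁻¹) := by
  have E := Q.eg H
  obtain ⟨a, ia⟩ := Q.exists_iv H
  obtain ⟨b₀, ib₀, hne⟩ := Q.exists_ne H ia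
  have h1 : fx V a ∈ Ax V {t : G | Iv t} := ⟨a, ia, rfl⟩
  have h2 : fx V b₀ ∈ Ax V {t : G | Iv t} := ⟨b₀, ib₀, rfl⟩
  obtain ⟨j, hj⟩ := E.sw_nonempty H h1 h2 hne.symm
  obtain ⟨K, hK⟩ := E.exists_tor H h1 h2 hne.symm hj
  obtain ⟨e, e0, he⟩ := E.exists_card_cw H h1
  have hcK : Nat.card K + 1 = 2 ^ e := hK.card.trans he
  have hK1 : Nat.card K ≠ 1 := fun h => Q.card_cw_ne_two H ia (by rw [← hK.card, h])
  obtain ⟨r, hr, hd⟩ := Nat.exists_prime_and_dvd hK1
  have cauchy : ∀ s : ℕ, s.Prime → s ∣ Nat.card K → ∃ k ∈ K, orderOf k = s := fun s hs hd => by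
    have : Fact s.Prime := ⟨hs⟩
    obtain ⟨k, hk⟩ := exists_prime_orderOf_dvd_card' s hd
    exact ⟨k, k.2, by rw [← hk, orderOf_coe]⟩
  obtain ⟨k, hkK, hk⟩ := cauchy r hr hd
  have ho : Odd (orderOf k) := hK.odd_orderOf hkK
  have r2 : r ≠ 2 := fun h => by
    rw [hk, h] at ho
    exact absurd ho (by decide)
  have k1 : k ≠ 1 := fun h => by
    rw [h, orderOf_one] at hk
    exact hr.one_lt.ne hk
  have f1 := hK.fix₁ k hkK
  have f2 := hK.fix₂ k hkK
  obtain ⟨f, c1, c2, c3⟩ := E.card_Ax H ia (Q.sp_of_smul H ia f1) hr r2 hk h2 hne f2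
  have hf : f = 1 := by
    have h3 : ¬ 2 < f + 1 := by
      rw [← c1]
      intro h3
      have := Nat.finite_of_card_ne_zero (c1.trans_ne (Nat.succ_ne_zero f))
      have := Fintype.ofFinite {W : AddSubgroup V // W ∈ Ax V {t : G | Iv t} ∧ k • W = W}
      rw [Nat.card_eq_fintype_card, Fintype.two_lt_card_iff] at h3
      obtain ⟨⟨_, ⟨a₁, i₁, rfl⟩, e₁⟩, ⟨_, ⟨a₂, i₂, rfl⟩, e₂⟩, ⟨_, ⟨a₃, i₃, rfl⟩, e₃⟩, n₁₂, n₁₃, n₂₃⟩ := h3
      exact Q.not_three H ho k1 i₁ i₂ i₃ e₁ e₂ e₃ (fun e => n₁₂ (Subtype.ext e))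
        (fun e => n₁₃ (Subtype.ext e)) (fun e => n₂₃ (Subtype.ext e))
    obtain ⟨m, hm⟩ := c2
    omega
  rw [hf, mul_one] at c3
  obtain ⟨b, hb, b1, hbr⟩ := E.exists_braid H (E.reg_of_card H h1 c3) h1 h2 hne.symm
    (self_mem_cw a) ia.2
  obtain ⟨ib, hfb⟩ := E.mem_of_mem_cw H h2 hb b1
  have surj : ∀ W ∈ Ax V {t : G | Iv t}, k • W = W → ∀ c ∈ cw G W,
      ∃ x : G, c = k⁻¹ * (x * k * x⁻¹) := by
    intro W hW ek c hc
    have ek' : k⁻¹ • W = W := by rw [inv_smul_eq_iff, ek]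
    let φ : cw G W → cw G W := fun x => ⟨k⁻¹ * x * k * (x : G)⁻¹, mul_mem (by
      have := conj_mem_cw (g := k⁻¹) x.2
      rwa [ek', inv_inv] at this) (inv_mem x.2)⟩
    have hφ : Function.Injective φ := fun x x' e => by
      have e' : k⁻¹ * x * k * (x : G)⁻¹ = k⁻¹ * x' * k * (x' : G)⁻¹ := congrArg Subtype.val e
      by_contra hn
      have d1 : (x' : G)⁻¹ * x ≠ 1 := fun h => hn (Subtype.ext (inv_mul_eq_one.1 h).symm)
      obtain ⟨id', hfd⟩ := E.mem_of_mem_cw H hW (mul_mem (inv_mem x'.2) x.2) d1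
      refine H.sp_conj_ne (Q.sp_of_smul H id' (by rw [hfd, ek])) d1 ho k1 ?_
      calc k * ((x' : G)⁻¹ * x) * k⁻¹
          = (x' : G)⁻¹ * k * (k⁻¹ * x' * k * (x' : G)⁻¹) * x * k⁻¹ := by group
        _ = (x' : G)⁻¹ * x := by rw [← e']; group
    obtain ⟨x, hx⟩ := Finite.surjective_of_injective hφ ⟨c, hc⟩
    refine ⟨x, ?_⟩
    rw [show c = k⁻¹ * x * k * (x : G)⁻¹ from (congrArg Subtype.val hx).symm]
    group
  obtain ⟨x, hx⟩ := surj _ h1 f1 a (self_mem_cw a)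
  obtain ⟨x', hx'⟩ := surj _ h2 f2 b hb
  refine ⟨a, b, k, x, x', e, ia, ib, fun h => hne (by rw [← hfb, h]), hbr, hk ▸ hr, hk ▸ r2, ?_,
    ?_, hx, hx'⟩
  · by_contra hev
    obtain ⟨m, rfl⟩ := Nat.not_odd_iff_even.1 hev
    have h3 : 3 ∣ Nat.card K := by
      have h5 : 2 ^ (m + m) % 3 = 1 := by
        rw [← two_mul, pow_mul, Nat.pow_mod]
        simp
      omega
    obtain ⟨z, hz, oz⟩ := cauchy 3 Nat.prime_three h3
    have h5 := h4 z oz _ (H.isPGroup_cw (H.fx_ne_bot ia.1)) (mem_normalizer_cw (hK.fix₁ z hz)) a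
      (self_mem_cw a)
    have h6 := hK.free z hz a (self_mem_cw a) ia.2 (mul_inv_eq_iff_eq_mul.2 h5.eq)
    rw [h6, orderOf_one] at oz
    exact absurd oz (by decide)
  · rw [← hcK, pow_succ, orderOf_dvd_iff_pow_eq_one.1 (hk ▸ hd), one_mul]

end Qd

end Cfsg.Gag2

set_option linter.all false in
theorem Cfsg.Rz.Gag2_QuadA_0 : True := by
  have := @_root_.Cfsg.Gag2.Qd.mk.congr_simp.{0, 0}
  trivial
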