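import Cfsg.Agent.Gag2.Zgp
import Cfsg.Agent.Gag2.LemA

/-!
# Weak closure of the elation group of a special pair: the common configuration, order three
-/

set_option autoImplicit false
set_option linter.unusedSectionVars false

namespace Cfsg.Gag2

open Subgroup MulAction
open scoped Pointwise

universe u v

/-- Two commuting conjugate elation groups `A = cw (fx a)`, `A' = cw (fx b)`. -/
structure Cfg {L : Type u} [Group L] (V : Type v) [AddCommGroup V] [DistribMulAction L V]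
    (a k b k' : L) (Q : Subgroup L) : Prop where
  ia : Iv a
  ib : Iv b
  sa : Sp V a k
  sb : Sp V b k'
  odd : Odd (orderOf k)
  ne_one : k ≠ 1
  ne : fx V a ≠ fx V b
  comm : ∀ x ∈ cw L (fx V a), ∀ x' ∈ cw L (fx V b), Commute x x'
  /-- `[A', k] ≤ A` -/
  ck : ∀ x' ∈ cw L (fx V b), k * x' * k⁻¹ * x'⁻¹ ∈ cw L (fx V a)
  /-- `[A, k'] ≤ A'` -/
  ck' : ∀ x ∈ cw L (fx V a), k' * x * k'⁻¹ * x⁻¹ ∈ cw L (fx V b)
  two : IsPGroup 2 Q
  leA : cw L (fx V a) ≤ Q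
  leB : cw L (fx V b) ≤ Q
  hQ : k⁻¹ * k' ∈ Q
  kQ : k ∈ normalizer (Q : Set L)
  nE : Q ≤ normalizer ((cw L (fx V a) ⊔ cw L (fx V b) : Subgroup L) : Set L)
  fixJ : ∀ x ∈ Q, ∀ v : V, x • nu V a (nu V b v) = nu V a (nu V b v)

theorem exists_conj_normalize_of_not_le {L : Type u} [Group L] [Finite L] {p : ℕ} [Fact p.Prime]
    {P A : Subgroup L} (hP : IsPGroup p P) (hA : A ≤ P) (h : ¬ P ≤ normalizer (A : Set L)) :
    ∃ x ∉ normalizer (A : Set L), (∀ a ∈ A, x * a * x⁻¹ ∈ normalizer (A : Set L)) ∧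
      ∀ a ∈ A, x⁻¹ * a * x ∈ normalizer (A : Set L) := by
  have h1 : P ⊓ normalizer (A : Set L) < P := inf_lt_left.2 h
  obtain ⟨x, ⟨hxP, hxN⟩, hx⟩ := SetLike.exists_of_lt (lt_inf_normalizer_of_isPGroup hP h1)
  refine ⟨x, fun e => hx ⟨hxP, e⟩, fun a ha => ?_, fun a ha => ?_⟩
  · exact (conj_mem_of_mem_normalizer hxN ⟨hA ha, le_normalizer ha⟩).2
  · have := (conj_mem_of_mem_normalizer (inv_mem hxN) ⟨hA ha, le_normalizer ha⟩).2
    rwa [inv_inv] at this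

/-- If two distinct conjugates of `A` lie in a `p`-group, two distinct conjugates normalize each
other. -/
theorem exists_conj_normalize {L : Type u} [Group L] [Finite L] {p : ℕ} [Fact p.Prime]
    {P A : Subgroup L} (hP : IsPGroup p P) (hA : A ≤ P) {g : L}
    (hg : ∀ a ∈ A, g * a * g⁻¹ ∈ P) (hne : g ∉ normalizer (A : Set L)) :
    ∃ x ∉ normalizer (A : Set L), (∀ a ∈ A, x * a * x⁻¹ ∈ normalizer (A : Set L)) ∧
      ∀ a ∈ A, x⁻¹ * a * x ∈ normalizer (A : Set L) := by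
  by_cases h1 : P ≤ normalizer (A : Set L)
  · by_cases h2 : P.map (MulAut.conj g⁻¹).toMonoidHom ≤ normalizer (A : Set L)
    · refine ⟨g, hne, fun a ha => h1 (hg a ha), fun a ha => h2 ⟨a, hA ha, by simp⟩⟩
    · exact exists_conj_normalize_of_not_le (hP.map _) (fun a ha => ⟨_, hg a ha, by
        simp [mul_assoc]⟩) h2
  · exact exists_conj_normalize_of_not_le hP hA h1

variable {L : Type u} [Group L] [Finite L] {V : Type v} [AddCommGroup V] [Finite V]
  [DistribMulAction L V]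

theorem smul_comm_of_sq {k c : L} {W : AddSubgroup V} (ho : Odd (orderOf k))
    (hk : ∀ w ∈ W, k • w ∈ W) (h : ∀ w ∈ W, c • k • k • w = k • k • c • w) :
    ∀ w ∈ W, c • k • w = k • c • w := by
  obtain ⟨m, hm⟩ := exists_pow_eq_self_of_coprime (x := k) (n := 2) (Nat.coprime_two_left.2 ho)
  have : ∀ n, ∀ w ∈ W, c • (k ^ 2) ^ n • w = (k ^ 2) ^ n • c • w := fun n => by
    induction n with
    | zero => simp
    | succ n ih =>
      intro w hw
      rw [pow_succ, mul_smul, mul_smul, pow_two, mul_smul, mul_smul, ← pow_two,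
        ih _ (hk _ (hk w hw)), h w hw]
  exact hm ▸ this m

theorem nu_comm {g h : L} (hc : Commute g h) (v : V) : nu V g (nu V h v) = nu V h (nu V g v) :=
  DFunLike.congr_fun (show nu V g * nu V h = nu V h * nu V g from
    (((hc.map (op V)).add_right (Commute.one_right _)).add_left (Commute.one_left _)).eq) v

theorem nu_smul {g h : L} (hc : Commute g h) (v : V) : nu V g (h • v) = h • nu V g v := by
  rw [nu_apply, nu_apply, smul_add, ← mul_smul, ← mul_smul, hc.eq]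

namespace Hyp

variable (H : Hyp L V)
include H

theorem sp_conj_mem {a k : L} (sa : Sp V a k) : k * a * k⁻¹ ∈ cw L (fx V a) := by
  rw [← H.sp_fx_conj sa]; exact self_mem_cw _

/-- `c` commutes with `N = nu a` and `k² N = nu (k a k⁻¹)`, so `c k² c⁻¹ = k²` on `W = range N`, which
`c`, `k` preserve; so `c` commutes with `k²`, hence with `k` (odd order), on `W`. -/
theorem commutator_mem_cw {a k c : L} (ia : Iv a) (sa : Sp V a k) (ho : Odd (orderOf k))
    (h1 : Commute c a) (h2 : Commute c (k * a * k⁻¹)) : k * c * k⁻¹ * c⁻¹ ∈ cw L (fx V a) := by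
  have kW : ∀ v ∈ fx V a, k • v ∈ fx V a := fun v hv =>
    smul_mem_of_smul_eq (H.sp_smul_fx sa) hv
  have h3 : ∀ u, nu V (k * a * k⁻¹) u = k • k • nu V a u := fun u =>
    DFunLike.congr_fun sa.nu_conj u
  have h4 := smul_comm_of_sq (c := c) ho kW fun w hw => by
    obtain ⟨u, rfl⟩ := H.exists_nu_eq ia hw
    rw [← h3, ← nu_smul h2.symm, h3, nu_smul h1.symm]
  intro w hw
  have h5 := smul_mem_of_smul_eq (H.sp_smul_fx sa.inv)
    (smul_mem_of_smul_eq (smul_fx_of_commute h1.inv_left) hw)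
  rw [mul_smul, mul_smul, mul_smul, ← h4 _ h5, smul_inv_smul, smul_inv_smul]

theorem smul_nu_nu {a k b : L} (ia : Iv a) (sa : Sp V a k) (ho : Odd (orderOf k))
    (hb : ∀ x ∈ cw L (fx V a), Commute b x) (v : V) :
    k • nu V a (nu V b v) = nu V a (nu V b (k⁻¹ • v)) := by
  have h1 := H.commutator_mem_cw ia sa.inv (by rwa [orderOf_inv]) (hb a (self_mem_cw a))
    (hb _ (H.sp_conj_mem sa.inv))
  have h2 : k • nu V a (nu V b v) = nu V a (k⁻¹ • nu V b v) := DFunLike.congr_fun sa.mul_nu _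
  have h3 : nu V (k⁻¹ * b * k⁻¹⁻¹) (k⁻¹ • v) = k⁻¹ • nu V b (k⁻¹⁻¹ • k⁻¹ • v) :=
    DFunLike.congr_fun (nu_conj k⁻¹ b) _
  rw [inv_smul_smul, show k⁻¹ * b * k⁻¹⁻¹ = k⁻¹ * b * k⁻¹⁻¹ * b⁻¹ * b by group, H.nu_mul] at h3
  have h4 : ∀ u, nu V a (nu V (k⁻¹ * b * k⁻¹⁻¹ * b⁻¹) u) = 0 := fun u =>
    H.mem_fx_iff.1 (H.nu_mem_of_mem_cw ia h1 u)
  rw [h2, ← h3]
  change nu V a (nu V _ (nu V b _) + nu V _ _ + nu V b _) = _
  rw [map_add, map_add, h4, h4, zero_add, zero_add]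

/-- `A` and `g A g⁻¹ = cw (g • W)` lie in the `2`-group `stabilizer v`; `exists_conj_normalize`, and
commutators lie in `A ⊓ A' = ⊥` (`eq_one_of_mem_cw`).  `b = g' a g'⁻¹`, `k₁ = g' k g'⁻¹`.
`κ = N_a N_b = N_b N_a ≠ 0`, `k κ = κ k⁻¹` (`k⁻¹ b k = α b` with `α ∈ A`, `N_a nu (α b) = N_a N_b`),
symmetrically `k₁ κ = κ k₁⁻¹` and `k₁ κ₁ = κ₁ k₁⁻¹` for `κ₁ = nu (k a k⁻¹) N_b = k² κ`; so `k²`, hence
`k`, commutes with `k₁` on `J = range κ`; `exists_pow_eq_on` (roles exchanged) gives `k' = k₁ ^ i`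
acting as `k` on `J`.  `Q = cw J ⊓ normalizer (A ⊔ A')`. -/
theorem exists_cfg {a k : L} (ia : Iv a) (sa : Sp V a k) {r : ℕ} (hr : r.Prime) (h2 : r ≠ 2)
    (hk : orderOf k = r) {g : L} {v : V} (h0 : v ≠ 0) (hv : v ∈ fx V a) (hv' : v ∈ g • fx V a)
    (hne : g • fx V a ≠ fx V a) :
    ∃ (b k' : L) (Q : Subgroup L), orderOf k' = r ∧ Cfg V a k b k' Q := by
  haveI : Fact (Nat.Prime 2) := ⟨Nat.prime_two⟩
  have ho : Odd (orderOf k) := hk ▸ hr.odd_of_ne_two h2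
  have h1 : k ≠ 1 := fun e => hr.ne_one (by rw [← hk, e, orderOf_one])
  obtain ⟨x, hx, hx1, hx2⟩ := exists_conj_normalize (P := stabilizer L v) (A := cw L (fx V a))
    (H.stab v h0) (fun y hy => hy v hv) (g := g) (fun y hy => conj_mem_cw hy v hv')
    fun e => hne (by
      rw [smul_fx]
      exact (H.iv_of_mem_cw ia (conj_mem_of_mem_normalizer e (self_mem_cw a)) (ia.conj g).2).2)
  have ib := ia.conj x
  have sb := sa.conj x
  have ok : orderOf (x * k * x⁻¹) = r := by rw [← hk]; exact (MulAut.conj x).orderOf_eq k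
  set b := x * a * x⁻¹ with hb
  set k₁ := x * k * x⁻¹ with hk₁
  have hne' : fx V a ≠ fx V b := fun e => hx (mem_normalizer_cw (by rw [smul_fx, ← e]))
  have comm : ∀ y ∈ cw L (fx V a), ∀ y' ∈ cw L (fx V b), Commute y y' := fun y hy y' hy' => by
    rw [hb, ← smul_fx, mem_cw_smul] at hy'
    have e1 : y * (y' * y⁻¹ * y'⁻¹) ∈ cw L (fx V a) := by
      have := hx1 _ hy'
      rw [show x * (x⁻¹ * y' * x) * x⁻¹ = y' by group] at this
      exact mul_mem hy (conj_mem_of_mem_normalizer this (inv_mem hy))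
    have e2 : y * (y' * y⁻¹ * y'⁻¹) ∈ cw L (fx V b) := by
      rw [hb, ← smul_fx, mem_cw_smul]
      convert mul_mem (conj_mem_of_mem_normalizer (hx2 y hy) hy') (inv_mem hy') using 1
      group
    have e3 := H.eq_one_of_mem_cw ia ib hne' e1 e2
    change y * y' = y' * y
    calc _ = y * (y' * y⁻¹ * y'⁻¹) * (y' * y) := by group
      _ = _ := by rw [e3, one_mul]
  have cab := comm a (self_mem_cw a) b (self_mem_cw b)
  set J : AddSubgroup V := AddMonoidHom.range (nu V a * nu V b : AddMonoid.End V) with hJ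
  have mJ : ∀ u, nu V a (nu V b u) ∈ J := fun u => ⟨u, rfl⟩
  have r1 := H.smul_nu_nu ia sa ho (b := b) fun y hy => (comm y hy b (self_mem_cw b)).symm
  have r2 := fun a₁ (h : a₁ ∈ cw L (fx V a)) =>
    H.smul_nu_nu ib sb (ok ▸ hr.odd_of_ne_two h2) (b := a₁) (comm a₁ h)
  have r3 : ∀ u, k₁ • nu V a (nu V b u) = nu V a (nu V b (k₁⁻¹ • u)) := fun u => by
    rw [nu_comm cab, r2 a (self_mem_cw a), nu_comm cab]
  have kJ : ∀ w ∈ J, k • w ∈ J := by
    rintro _ ⟨u, rfl⟩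
    exact (r1 u) ▸ mJ _
  have kJ' : ∀ w ∈ J, k₁ • w ∈ J := by
    rintro _ ⟨u, rfl⟩
    exact (r3 u) ▸ mJ _
  have r4 := smul_comm_of_sq (c := k₁) ho kJ (by
    rintro _ ⟨u, rfl⟩
    have h3 : ∀ u, nu V (k * a * k⁻¹) u = k • k • nu V a u := fun u =>
      DFunLike.congr_fun sa.nu_conj u
    have c2 := comm _ (H.sp_conj_mem sa) b (self_mem_cw b)
    change k₁ • k • k • nu V a (nu V b u) = k • k • k₁ • nu V a (nu V b u)
    rw [r3, ← h3, ← h3, nu_comm c2, nu_comm c2, r2 _ (H.sp_conj_mem sa)])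
  obtain ⟨i, hi, e⟩ := H.exists_pow_eq_on hr h2 ok hk kJ' kJ r4
  have ok' : orderOf (k₁ ^ i) = r := by
    rw [← ok]
    exact (ok ▸ (hr.coprime_iff_not_dvd.2 hi)).orderOf_pow
  have sb' := sb.pow i
  have J0 : J ≠ ⊥ := fun e0 => ia.2 (H.eq_one_of_mem_cw ia ib hne' (self_mem_cw a)
    (H.mem_cw_of_nu_mul ib (by
      ext u
      exact AddSubgroup.mem_bot.1 (e0 ▸ mJ u))))
  have ck : ∀ y ∈ cw L (fx V b), k * y * k⁻¹ * y⁻¹ ∈ cw L (fx V a) := fun y hy =>
    H.commutator_mem_cw ia sa ho (comm _ (self_mem_cw a) y hy).symm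
      (comm _ (H.sp_conj_mem sa) y hy).symm
  have ck' : ∀ y ∈ cw L (fx V a), k₁ ^ i * y * (k₁ ^ i)⁻¹ * y⁻¹ ∈ cw L (fx V b) := fun y hy =>
    H.commutator_mem_cw ib sb' (ok' ▸ hr.odd_of_ne_two h2) (comm y hy _ (self_mem_cw b))
      (comm y hy _ (H.sp_conj_mem sb'))
  set E := cw L (fx V a) ⊔ cw L (fx V b) with hE
  have nE : ∀ g : L, (∀ y ∈ cw L (fx V a), g * y * g⁻¹ ∈ E) →
      (∀ y ∈ cw L (fx V b), g * y * g⁻¹ ∈ E) → g ∈ normalizer (E : Set L) := fun g g1 g2 =>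
    mem_normalizer_of_map_conj_le (by
      rw [hE, Subgroup.map_sup]
      exact sup_le (map_conj_le_iff.2 g1) (map_conj_le_iff.2 g2))
  have kE : k ∈ normalizer (E : Set L) := nE k
    (fun y hy => mem_sup_left (conj_mem_of_mem_normalizer (mem_normalizer_cw (H.sp_smul_fx sa)) hy))
    fun y hy => by
      have := mul_mem (mem_sup_left (ck y hy) : _ ∈ E) (mem_sup_right hy)
      rwa [inv_mul_cancel_right] at this
  have kE' : k₁ ^ i ∈ normalizer (E : Set L) := nE _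
    (fun y hy => by
      have := mul_mem (mem_sup_right (ck' y hy) : _ ∈ E) (mem_sup_left hy)
      rwa [inv_mul_cancel_right] at this)
    fun y hy => mem_sup_right (conj_mem_of_mem_normalizer (mem_normalizer_cw (H.sp_smul_fx sb')) hy)
  refine ⟨b, k₁ ^ i, cw L J ⊓ normalizer (E : Set L), ok', ia, ib, sa, sb', ho, h1, hne', comm, ck,
    ck', (H.isPGroup_cw J0).to_le inf_le_left, fun y hy => ⟨?_, le_normalizer (mem_sup_left hy)⟩,
    fun y hy => ⟨?_, le_normalizer (mem_sup_right hy)⟩,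
    ⟨fun w hw => ?_, Subgroup.mul_mem _ (Subgroup.inv_mem _ kE) kE'⟩,
    mem_normalizer_of_forall_conj_mem fun y hy => ⟨fun w hw => ?_,
      Subgroup.mul_mem _ (Subgroup.mul_mem _ kE hy.2) (Subgroup.inv_mem _ kE)⟩,
    inf_le_right, fun y hy u => hy.1 _ (mJ u)⟩
  · rintro _ ⟨u, rfl⟩
    exact hy _ (H.nu_mem_fx ia.1 _)
  · rintro _ ⟨u, rfl⟩
    change y • nu V a (nu V b u) = nu V a (nu V b u)
    rw [nu_comm cab]
    exact hy _ (H.nu_mem_fx ib.1 _)
  · rw [mul_smul, ← e w hw, inv_smul_smul]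
  · obtain ⟨u, rfl⟩ := hw
    have h5 : k⁻¹ • nu V a (nu V b u) = nu V a (nu V b (k • u)) := by
      rw [inv_smul_eq_iff, r1, inv_smul_smul]
    change _ • nu V a (nu V b u) = nu V a (nu V b u)
    rw [mul_smul, mul_smul, hy.1 _ (h5 ▸ mJ _), smul_inv_smul]

/-- Order three: `h = k⁻¹ k'` is special by `lemA`, lies in `A` by `lemB`, so
`k' a k'⁻¹ a⁻¹ = k a k⁻¹ a⁻¹ ∈ A ⊓ A' = ⊥`. -/
theorem not_cfg_three {a k b k' : L} {Q : Subgroup L} (hk : orderOf k = 3) (hk' : orderOf k' = 3)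
    (C : Cfg V a k b k' Q) : False := by
  obtain ⟨h1, h2⟩ := H.lemA C.odd C.ne_one ((H.tr_of_three hk).trans (H.tr_of_three hk').symm)
    (tw_of_mem C.two C.hQ)
  have h3 := H.lemB hk C.two C.kQ (C.leA (self_mem_cw a)) C.hQ C.ia h1 C.sa h2
  have h4 := H.commute_of_mem_cw C.ia h3 (self_mem_cw a)
  have h5 : k' * a * k'⁻¹ * a⁻¹ = k * a * k⁻¹ * a⁻¹ := by
    calc _ = k * ((k⁻¹ * k') * a) * k'⁻¹ * a⁻¹ := by group
      _ = _ := by rw [h4.eq]; group
  have h6 := H.eq_one_of_mem_cw C.ia C.ib C.ne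
    (mul_mem (H.sp_conj_mem C.sa) (inv_mem (self_mem_cw a))) (h5 ▸ C.ck' a (self_mem_cw a))
  exact H.sp_conj_ne C.sa C.ia.2 C.odd C.ne_one (mul_inv_eq_one.1 h6)

end Hyp

end Cfsg.Gag2

set_option linter.all false in
theorem Cfsg.Rz.Gag2_Weak0_0 : True := by
  have := @_root_.Cfsg.Gag2.Cfg.mk.congr_simp.{0, 0}
  trivial
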