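import Cfsg.Agent.Gag2.Weak0

/-!
# Weak closure without `A₄`: the projector and the final computation
-/

set_option autoImplicit false
set_option linter.unusedSectionVars false

namespace Cfsg.Gag2

open Subgroup MulAction
open scoped Pointwise

universe u v

/-- `∑ k ^ (2 i)` over a list of exponents. -/
def theta {L : Type u} [Group L] (V : Type v) [AddCommGroup V] [DistribMulAction L V] (k : L)
    (l : List ℕ) : AddMonoid.End V := (l.map fun i => op V (k ^ (2 * i))).sum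

variable {L : Type u} [Group L] [Finite L] {V : Type v} [AddCommGroup V] [Finite V]
  [DistribMulAction L V]

theorem theta_nil (k : L) : theta V k [] = 0 := rfl

theorem theta_cons (k : L) (i : ℕ) (l : List ℕ) :
    theta V k (i :: l) = op V (k ^ (2 * i)) + theta V k l := by
  simp [theta]

theorem theta_append (k : L) (l l' : List ℕ) :
    theta V k (l ++ l') = theta V k l + theta V k l' := by
  simp [theta]

theorem op_mul_theta (k : L) (i : ℕ) (l : List ℕ) :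
    op V (k ^ (2 * i)) * theta V k l = theta V k (l.map (i + ·)) := by
  induction l with
  | nil => simp [theta_nil]
  | cons j l ih => rw [List.map_cons, theta_cons, theta_cons, mul_add, ih, ← map_mul, ← pow_add,
      mul_add]

theorem exists_theta_mul (k : L) (l l' : List ℕ) :
    ∃ m, theta V k m = theta V k l * theta V k l' := by
  induction l with
  | nil => exact ⟨[], by simp [theta_nil]⟩
  | cons j l ih =>
    obtain ⟨m, hm⟩ := ih
    exact ⟨l'.map (j + ·) ++ m, by rw [theta_append, theta_cons, add_mul, op_mul_theta, hm]⟩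

theorem commute_theta {k z : L} (h : Commute z k) (l : List ℕ) :
    Commute (op V z) (theta V k l) := by
  induction l with
  | nil => exact Commute.zero_right _
  | cons i l ih =>
    rw [theta_cons]
    exact ((h.pow_right _).map (op V)).add_right ih

theorem Sp.nu_mul_theta {a k : L} (h : Sp V a k) (l : List ℕ) :
    nu V a * theta V k l = theta V k⁻¹ l * nu V a := by
  induction l with
  | nil => simp [theta_nil]
  | cons i l ih => rw [theta_cons, theta_cons, mul_add, add_mul, ih, (h.pow _).nu_mul, inv_pow]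

theorem theta_mem {k : L} {W : AddSubgroup V} (h : ∀ v ∈ W, k • v ∈ W) (l : List ℕ) {v : V}
    (hv : v ∈ W) : theta V k l v ∈ W := by
  induction l with
  | nil => exact W.zero_mem
  | cons i l ih =>
    rw [theta_cons]
    refine W.add_mem ?_ ih
    change k ^ (2 * i) • v ∈ W
    generalize 2 * i = n
    induction n with
    | zero => simpa using hv
    | succ n ih2 => rw [pow_succ', mul_smul]; exact h _ ih2

namespace Hyp

variable (H : Hyp L V)
include H

theorem add_pow_two_pow {x y : AddMonoid.End V} (h : Commute x y) (n : ℕ) :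
    (x + y) ^ 2 ^ n = x ^ 2 ^ n + y ^ 2 ^ n := by
  induction n with
  | zero => simp
  | succ n ih =>
    have h1 := (h.pow_pow (2 ^ n) (2 ^ n)).eq
    have h2 := H.add_self (x ^ 2 ^ n * y ^ 2 ^ n)
    rw [pow_succ 2 n, pow_mul, pow_mul, pow_mul, ih, pow_two, pow_two, pow_two, add_mul, mul_add,
      mul_add, ← h1, add_assoc, ← add_assoc (x ^ 2 ^ n * y ^ 2 ^ n), h2, zero_add]

theorem nu_prod_conj {a k : L} (ia : Iv a) (sa : Sp V a k) (l : List ℕ) :
    (l.map fun i => k ^ i * a * (k ^ i)⁻¹).prod ∈ cw L (fx V a) ∧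
      nu V (l.map fun i => k ^ i * a * (k ^ i)⁻¹).prod = theta V k l * nu V a := by
  induction l with
  | nil => exact ⟨one_mem _, by simp [theta_nil, H.nu_one]⟩
  | cons i l ih =>
    have h1 : k ^ i * a * (k ^ i)⁻¹ ∈ cw L (fx V a) :=
      H.sp_fx_conj (sa.pow i) ▸ self_mem_cw _
    rw [List.map_cons, List.prod_cons]
    refine ⟨mul_mem h1 ih.1, ?_⟩
    rw [H.nu_mul_of_mem_cw ia h1 ih.1, ih.2, (sa.pow i).nu_conj, theta_cons, add_mul, ← map_mul,
      ← pow_add, two_mul]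

/-- `theta k l * nu a = nu (∏ k^i a k^(-i))`, an element of `cw (fx a)`; so it is `0` or has kernel
`fx a`. -/
theorem theta_dichotomy {a k : L} (ia : Iv a) (sa : Sp V a k) (l : List ℕ) :
    (∀ w ∈ fx V a, theta V k l w = 0) ∨ ∀ w ∈ fx V a, theta V k l w = 0 → w = 0 := by
  obtain ⟨h1, h2⟩ := H.nu_prod_conj ia sa l
  by_cases h : (l.map fun i => k ^ i * a * (k ^ i)⁻¹).prod = 1
  · refine Or.inl fun w hw => ?_
    obtain ⟨u, rfl⟩ := H.exists_nu_eq ia hw
    rw [h, H.nu_one] at h2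
    exact (DFunLike.congr_fun h2 u).symm
  · refine Or.inr fun w hw e => ?_
    obtain ⟨u, rfl⟩ := H.exists_nu_eq ia hw
    rw [← H.mem_fx_iff, ← (H.iv_of_mem_cw ia h1 h).2, H.mem_fx_iff, h2]
    exact e

/-- The operators `theta k l` form a commutative subring `R ∋ K = op k, K⁻¹` (odd order) on which
`x ^ 2 ^ e = x` for `x = K, K⁻¹, μ = tr k`; `μ` is a unit of the finite ring `End V` (`tr_inj`), so
`μ⁻¹` is a power of `μ`; `t = K μ⁻¹ ∈ R`, `t ^ 2 ^ e = t`, `N t = (t + 1) N`;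
`Θ = ∑_{i<e} t ^ 2 ^ i` is idempotent and `N Θ = (Θ + e) N = (Θ + 1) N`.  By `theta_dichotomy` `Θ` is
`0` or `1` on `fx a`; take `Θ` or `Θ + 1`. -/
theorem exists_theta {a k : L} (ia : Iv a) (sa : Sp V a k) (ho : Odd (orderOf k)) (h1 : k ≠ 1)
    {e : ℕ} (he : Odd e) (hk : k ^ 2 ^ e = k) :
    ∃ l : List ℕ, (∀ w ∈ fx V a, theta V k l w = 0) ∧ nu V a * theta V k l = nu V a := by
  let P : AddMonoid.End V → Prop := fun x => ∃ l, theta V k l = x
  have Padd : ∀ {x y}, P x → P y → P (x + y) := by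
    rintro _ _ ⟨l, rfl⟩ ⟨l', rfl⟩
    exact ⟨l ++ l', theta_append k l l'⟩
  have Pmul : ∀ {x y}, P x → P y → P (x * y) := by
    rintro _ _ ⟨l, rfl⟩ ⟨l', rfl⟩
    exact exists_theta_mul k l l'
  have Pone : P 1 := ⟨[0], by simp [theta_cons, theta_nil]⟩
  have Ppow : ∀ {x} n, P x → P (x ^ n) := fun {x} n hx => by
    induction n with
    | zero => simpa using Pone
    | succ n ih => rw [pow_succ]; exact Pmul ih hx
  obtain ⟨m, hm⟩ := ho
  have hm1 : k ^ (2 * m) * k = 1 := by rw [← pow_succ, ← hm, pow_orderOf_eq_one]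
  have PK : P (op V k) := ⟨[m + 1], by
    rw [theta_cons, theta_nil, add_zero, mul_add, mul_one, pow_add, pow_two, ← mul_assoc, hm1,
      one_mul]⟩
  have PK' : P (op V k⁻¹) := ⟨[m], by
    rw [theta_cons, theta_nil, add_zero, eq_inv_of_mul_eq_one_left hm1]⟩
  have cK : Commute (op V k) (op V k⁻¹) := ((Commute.refl k).inv_right).map _
  have cμ : Commute (op V k) (tr V k) := (Commute.refl _).add_right cK
  have hμ : tr V k ^ 2 ^ e = tr V k := by
    rw [tr, H.add_pow_two_pow cK, ← map_pow, ← map_pow, inv_pow, hk]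
  obtain ⟨n, hn⟩ : ∃ n, 2 ^ e = n + 1 + 1 :=
    ⟨2 ^ e - 2, by have := Nat.one_lt_two_pow he.pos.ne'; omega⟩
  have hμ1 : tr V k * tr V k ^ n = 1 := by
    rw [← H.add_eq_zero_iff_end]
    ext v
    refine H.tr_inj ⟨m, hm⟩ h1 ?_
    change (tr V k * (tr V k * tr V k ^ n + 1)) v = 0
    rw [mul_add, mul_one, ← pow_succ', ← pow_succ', ← hn, hμ, H.add_self]
    rfl
  set t := op V k * tr V k ^ n with ht
  have Pt : P t := Pmul PK (Ppow n (Padd PK PK'))
  have ht1 : t ^ 2 ^ e = t := by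
    rw [ht, (cμ.pow_right n).mul_pow, ← map_pow, hk, ← pow_mul, mul_comm n, pow_mul, hμ]
  have cN : Commute (nu V a) (tr V k) := by
    change nu V a * tr V k = tr V k * nu V a
    rw [tr, mul_add, add_mul, sa.nu_mul, sa.mul_nu, add_comm]
  have hNt : nu V a * t = (t + 1) * nu V a := by
    have : op V k⁻¹ * tr V k ^ n = t + 1 := by
      rw [← hμ1, tr, add_mul, ← tr, ← ht, ← add_assoc, H.add_self, zero_add]
    rw [ht, ← mul_assoc, sa.nu_mul, mul_assoc, (cN.pow_right n).eq, ← mul_assoc, this]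
  have hNp : ∀ j, nu V a * t ^ j = (t + 1) ^ j * nu V a := fun j => by
    induction j with
    | zero => simp
    | succ j ih => rw [pow_succ, ← mul_assoc, ih, mul_assoc, hNt, ← mul_assoc, ← pow_succ]
  let Θ : ℕ → AddMonoid.End V := fun j => ∑ i ∈ Finset.range j, t ^ 2 ^ i
  have PΘ : ∀ j, P (Θ j) := fun j => by
    induction j with
    | zero => exact ⟨[], rfl⟩
    | succ j ih =>
      have e1 : Θ (j + 1) = Θ j + t ^ 2 ^ j := Finset.sum_range_succ _ j
      rw [e1]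
      exact Padd ih (Ppow _ Pt)
  have hNΘ : ∀ j, nu V a * Θ j = (Θ j + j) * nu V a := fun j => by
    induction j with
    | zero => simp [Θ]
    | succ j ih =>
      have e1 : Θ (j + 1) = Θ j + t ^ 2 ^ j := Finset.sum_range_succ _ j
      rw [e1, mul_add, ih, hNp, H.add_pow_two_pow (Commute.one_right t), one_pow, Nat.cast_succ]
      noncomm_ring
  have hΘ2 : ∀ j, Θ j * Θ j + t = Θ j + t ^ 2 ^ j := fun j => by
    induction j with
    | zero => simp [Θ]
    | succ j ih =>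
      have e1 : Θ (j + 1) = Θ j + t ^ 2 ^ j := Finset.sum_range_succ _ j
      have c1 : Commute (Θ j) (t ^ 2 ^ j) :=
        Commute.sum_left _ _ _ fun i _ => (Commute.refl t).pow_pow _ _
      have e2 := H.add_pow_two_pow c1 1
      rw [pow_one, pow_two, pow_two, pow_two] at e2
      rw [e1, e2, add_right_comm, ih, ← pow_add, ← two_mul, ← pow_succ']
  have hΘ : Θ e * Θ e = Θ e := add_right_cancel ((hΘ2 e).trans (by rw [ht1]))
  have he1 : (e : AddMonoid.End V) = 1 := by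
    obtain ⟨c, rfl⟩ := he
    rw [Nat.cast_add, Nat.cast_one, two_mul, Nat.cast_add, H.add_self, zero_add]
  have hN1 := hNΘ e
  rw [he1, add_mul, one_mul] at hN1
  obtain ⟨l, hl⟩ := PΘ e
  rcases H.theta_dichotomy ia sa l with h | h
  · refine ⟨l, h, ?_⟩
    have : Θ e * nu V a = 0 := by
      ext v
      rw [← hl]
      exact h _ (H.nu_mem_fx ia.1 v)
    rw [hl, hN1, this, zero_add]
  · have h2 : ∀ w ∈ fx V a, Θ e w + w = 0 := fun w hw => by
      refine h _ ((fx V a).add_mem (hl ▸ theta_mem (fun v hv =>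
        smul_mem_of_smul_eq (H.sp_smul_fx sa) hv) l hw) hw) ?_
      rw [hl, map_add]
      exact H.add_eq_zero_iff.2 (DFunLike.congr_fun hΘ w)
    obtain ⟨l', hl'⟩ := Padd (PΘ e) Pone
    refine ⟨l', fun w hw => hl' ▸ h2 w hw, ?_⟩
    rw [hl', mul_add, mul_one, hN1, add_assoc, H.add_self, add_zero, ← H.add_eq_zero_iff_end]
    ext v
    exact h2 _ (H.nu_mem_fx ia.1 v)

/-- The final computation.  `W = fx a`, `W₀ = fx z₀`, `J = N_{z₀} W = W ⊓ W₀`, `N_x = nu x`, `x ∈ Q`.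
(1) `N_x W ≤ W₀` (`N_{z₀} N_x = N_x N_{z₀}` kills `W`).  (2) `x a x⁻¹ = a' z`; on `W₀`:
`N_{a'} = x N_a x⁻¹ = N_a x⁻¹` (`N_a W₀ ≤ W ⊓ W₀`), so `nu (a a') = N_a nu x⁻¹` on `W₀`; if `a' ≠ a`,
`exists_notMem_apply_mem` (nilpotent `nu x⁻¹`, `W₀ ≰ J`) gives `w ∈ W₀ \ J` killed by `nu (a a')`,
so `w ∈ W`, false.  So `a' = a` and `N_x W₀ ≤ J`.  (3) `x * x ∈ cw W₀` commutes with `k`.
(4) `x a = a z x` gives `N_a N_x w = N_z w` for `w ∈ W`.  Suppose `z ≠ 1`; `fx z = W₀`,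
`N_z W = J` (`N_z W = N_a W₀ = N_{z₀} W`, as `range N_z = W₀ = range N_{z₀}`), so `W₀ = N_x W + J`,
`N_x k w ≡ k⁻¹ N_x w` mod `J`, and with (3) `k N_x k = N_x` on `W₀`.  (5) For `x_i = k^i x k^(-i) ∈ Q`:
`N_{x_i} = k^(2i) N_x` on `W₀`, `N_a N_{x_i} = k^(-2i) N_z` on `W`; both are additive in products of
elements of `Q`.  For `X = ∏_{i ∈ l} x_i`: `N_X = Θ N_x = 0` on `W₀`, so `X` commutes with `a`,
`N_a N_X W = 0`, so `theta k⁻¹ l (N_z w) = 0`; but `theta k⁻¹ l N_a = N_a Θ = N_a` and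
`N_z W ≤ W = range N_a`.  So `N_z W = 0`, `z ∈ cw W`, `fx z = W`, `W₀ = W`, false. -/
theorem commute_of_theta {a k z₀ : L} {Q : Subgroup L} {l : List ℕ} (ia : Iv a) (iz : Iv z₀)
    (hne : fx V a ≠ fx V z₀) (sa : Sp V a k) (hzk : Commute z₀ k)
    (t₁ : ∀ w ∈ fx V a, theta V k l w = 0) (t₂ : nu V a * theta V k l = nu V a)
    (hQ : IsPGroup 2 Q) (kQ : k ∈ normalizer (Q : Set L)) (aQ : a ∈ Q)
    (hc : ∀ x ∈ Q, Commute x z₀) (hJ : ∀ x ∈ Q, ∀ w ∈ fx V a, x • nu V z₀ w = nu V z₀ w)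
    (hI : ∀ v ∈ fx V a, v ∈ fx V z₀ → ∃ w ∈ fx V a, nu V z₀ w = v)
    (hE : ∀ x ∈ Q, ∃ a' ∈ cw L (fx V a), ∃ z ∈ cw L (fx V z₀), x * a * x⁻¹ = a' * z)
    (hk : ∀ z ∈ cw L (fx V z₀), Commute z k) (ha : ∀ z ∈ cw L (fx V z₀), Commute z a) :
    ∀ x ∈ Q, Commute x a := by
  have mulN : ∀ (g h : L) (v : V), nu V (g * h) v = nu V g (nu V h v) + nu V g v + nu V h v :=
    fun g h v => DFunLike.congr_fun (H.nu_mul g h) v
  have comN : ∀ {g h : L}, Commute g h → ∀ v, nu V g (h • v) = h • nu V g v := fun {g h} c v => by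
    rw [nu_apply, nu_apply, smul_add, ← mul_smul, ← mul_smul, c.eq]
  have comNN : ∀ {g h : L}, Commute g h → ∀ v, nu V g (nu V h v) = nu V h (nu V g v) :=
    fun {g h} c v => by rw [nu_apply h v, map_add, comN c, nu_apply h]
  have pres : ∀ {g t : L}, Commute g t → ∀ v ∈ fx V t, g • v ∈ fx V t := fun c v hv =>
    smul_mem_of_smul_eq (smul_fx_of_commute c) hv
  have presN : ∀ {g t : L}, Commute g t → ∀ v ∈ fx V t, nu V g v ∈ fx V t := fun c v hv =>
    (fx V _).add_mem (pres c v hv) hv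
  have kW : ∀ v ∈ fx V a, k • v ∈ fx V a := fun v hv =>
    smul_mem_of_smul_eq (H.sp_smul_fx sa) hv
  have kW' : ∀ v ∈ fx V a, k⁻¹ • v ∈ fx V a := fun v hv =>
    smul_mem_of_smul_eq (H.sp_smul_fx sa.inv) hv
  -- `Q` fixes `J = W ⊓ W₀`
  have fJ : ∀ x ∈ Q, ∀ v ∈ fx V a, v ∈ fx V z₀ → nu V x v = 0 := fun x hx v h1 h2 => by
    obtain ⟨w, hw, rfl⟩ := hI v h1 h2
    exact H.mem_fx_iff.1 (hJ x hx w hw)
  have aJ : ∀ v ∈ fx V z₀, nu V a v ∈ fx V z₀ := presN (hc a aQ)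
  -- (1)
  have s1 : ∀ x ∈ Q, ∀ w ∈ fx V a, nu V x w ∈ fx V z₀ := fun x hx w hw => by
    rw [H.mem_fx_iff, ← comNN (hc x hx)]
    exact H.mem_fx_iff.1 (hJ x hx w hw)
  -- (2)
  have s2 : ∀ x ∈ Q, (∃ z ∈ cw L (fx V z₀), x * a * x⁻¹ = a * z) ∧
      ∀ v ∈ fx V z₀, nu V x⁻¹ v ∈ fx V a := fun x hx => by
    obtain ⟨a', ha', z, hz, e⟩ := hE x hx
    have e1 : ∀ v ∈ fx V z₀, nu V (a * a') v = nu V a (nu V x⁻¹ v) := fun v hv => by
      have h1 : nu V a' v = nu V a (x⁻¹ • v) := by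
        have h2 : nu V (x * a * x⁻¹) v = x • nu V a (x⁻¹ • v) :=
          DFunLike.congr_fun (nu_conj x a) v
        rw [H.mem_fx_iff.2 (fJ x hx _ (H.nu_mem_fx ia.1 _)
          (aJ _ (pres (hc x hx).inv_left v hv)))] at h2
        rw [← h2, e, nu_apply, nu_apply, mul_smul, hz v hv]
      rw [H.nu_mul_of_mem_cw ia (self_mem_cw a) ha', nu_apply x⁻¹, map_add, ← h1, add_comm]
      rfl
    have e2 : a * a' = 1 := by
      by_contra h1
      have h2 := (H.iv_of_mem_cw ia (mul_mem (self_mem_cw a) ha') h1).2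
      obtain ⟨n, hn⟩ := tw_of_mem hQ (inv_mem hx)
      obtain ⟨w, hw, hw1, hw2⟩ := exists_notMem_apply_mem (N := nu V x⁻¹) (n := 2 ^ n)
        (by rw [H.nu_pow, hn, H.nu_one]) (J := fx V a) (W := fx V z₀)
        (presN (hc x hx).inv_left) (fun h => hne (H.fx_eq_of_le iz ia h).symm)
      apply hw1
      rw [← h2, H.mem_fx_iff, e1 w hw]
      exact H.mem_fx_iff.1 hw2
    have e3 : a' = a := by rw [← ia.inv_eq]; exact (inv_eq_of_mul_eq_one_right e2).symm ▸ rfl
    refine ⟨⟨z, hz, e3 ▸ e⟩, fun v hv => ?_⟩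
    rw [H.mem_fx_iff, ← e1 v hv, e2, H.nu_one]
    rfl
  have s2' : ∀ x ∈ Q, ∀ v ∈ fx V z₀, nu V x v ∈ fx V a := fun x hx v hv => by
    have := (s2 x⁻¹ (inv_mem hx)).2 v hv
    rwa [inv_inv] at this
  have s3 : ∀ x ∈ Q, ∀ y ∈ Q, ∀ v ∈ fx V z₀, nu V x (nu V y v) = 0 := fun x hx y hy v hv =>
    fJ x hx _ (s2' y hy v hv) (presN (hc y hy) v hv)
  intro x hx
  obtain ⟨z, hz, e⟩ := (s2 x hx).1
  by_contra hxa
  have hz1 : z ≠ 1 := fun e1 => hxa (by
    rw [e1, mul_one, mul_inv_eq_iff_eq_mul] at e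
    exact e)
  obtain ⟨iz', hzz⟩ := H.iv_of_mem_cw iz hz hz1
  have hxx : Commute (x * x) k := hk _ fun v hv => by
    rw [← mem_fx, H.mem_fx_iff, mulN, s3 x hx x hx v hv, zero_add, H.two]
  -- (4)
  have s4 : ∀ w ∈ fx V a, nu V a (nu V x w) = nu V z w := fun w hw => by
    have e1 : x * a = a * z * x := by rw [← e]; group
    have h1 : x • w = nu V x w + w := by rw [nu_apply, add_assoc, H.two, add_zero]
    have h2 : z • w = nu V z w + w := by rw [nu_apply, add_assoc, H.two, add_zero]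
    have h3 : x • w = a • z • x • w := by
      rw [← mul_smul, ← mul_smul, ← e1, mul_smul, mem_fx.1 hw]
    rw [h1, smul_add, hz _ (s1 x hx w hw), h2, smul_add, smul_add, mem_fx.1 hw,
      mem_fx.1 (presN (ha z hz) w hw), ← add_assoc, add_left_inj] at h3
    rw [nu_apply, ← H.add_eq_zero_iff, add_right_comm, ← h3, H.two]
  have s5 : ∀ v ∈ fx V z₀, ∃ w ∈ fx V a, v + nu V x w ∈ fx V a := fun v hv => by
    obtain ⟨u, rfl⟩ := H.exists_nu_eq iz' (hzz ▸ hv)
    refine ⟨nu V a u, H.nu_mem_fx ia.1 u, ?_⟩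
    rw [H.mem_fx_iff, map_add, s4 _ (H.nu_mem_fx ia.1 u), comNN (ha z hz), H.two]
  have aK : ∀ v, nu V a (k • v) = k⁻¹ • nu V a v := fun v => DFunLike.congr_fun sa.nu_mul v
  have s6 : ∀ v ∈ fx V z₀, nu V x (k • v) = k⁻¹ • nu V x v := fun v hv => by
    obtain ⟨w, hw, h1⟩ := s5 v hv
    have h2 : v + nu V x w ∈ fx V z₀ := (fx V z₀).add_mem hv (s1 x hx w hw)
    have h3 : nu V x v = nu V x (nu V x w) := by
      rw [← H.add_eq_zero_iff, ← map_add]; exact fJ x hx _ h1 h2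
    have h4 : nu V x (k • v) = nu V x (k • nu V x w) := by
      rw [← H.add_eq_zero_iff, ← map_add, ← smul_add]
      exact fJ x hx _ (kW _ h1) (pres hzk.symm _ h2)
    have h5 : nu V x (k • nu V x w) = nu V x (nu V x (k⁻¹ • w)) := by
      rw [← H.add_eq_zero_iff, ← map_add]
      refine fJ x hx _ ?_ ((fx V z₀).add_mem (pres hzk.symm _ (s1 x hx w hw))
        (s1 x hx _ (kW' w hw)))
      rw [H.mem_fx_iff, map_add, aK, s4 w hw, s4 _ (kW' w hw), comN (hk z hz).inv_right, H.two]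
    have h6 : ∀ u, nu V x (nu V x u) = nu V (x * x) u := fun u => by
      rw [mulN, add_assoc, H.two, add_zero]
    rw [h4, h5, h3, h6, h6, comN hxx.inv_right]
  -- (5)
  have kpQ : ∀ i : ℕ, k ^ i * x * (k ^ i)⁻¹ ∈ Q := fun i =>
    (mem_normalizer_iff.1 (pow_mem kQ i) x).1 hx
  have s7 : ∀ (i : ℕ), ∀ v ∈ fx V z₀, nu V x ((k ^ i)⁻¹ • v) = k ^ i • nu V x v := fun i => by
    induction i with
    | zero => intro v _; simp
    | succ i ih =>
      intro v hv
      have h1 := s6 _ (pres (hzk.symm.pow_left (i + 1)).inv_left v hv)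
      have e1 : k • (k ^ (i + 1))⁻¹ • v = (k ^ i)⁻¹ • v := by
        rw [← mul_smul, pow_succ, mul_inv_rev, mul_inv_cancel_left]
      rw [e1, ih v hv, eq_inv_smul_iff, ← mul_smul, ← pow_succ'] at h1
      exact h1.symm
  have s8 : ∀ l : List ℕ, (l.map fun i => k ^ i * x * (k ^ i)⁻¹).prod ∈ Q ∧
      (∀ v ∈ fx V z₀, nu V (l.map fun i => k ^ i * x * (k ^ i)⁻¹).prod v =
        theta V k l (nu V x v)) ∧
      ∀ w ∈ fx V a, nu V a (nu V (l.map fun i => k ^ i * x * (k ^ i)⁻¹).prod w) =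
        theta V k⁻¹ l (nu V z w) := fun l => by
    induction l with
    | nil => exact ⟨one_mem _, fun v _ => by simp [H.nu_one, theta_nil],
        fun v _ => by simp [H.nu_one, theta_nil]⟩
    | cons i l ih =>
      obtain ⟨h1, h2, h3⟩ := ih
      have e1 : ∀ u, nu V (k ^ i * x * (k ^ i)⁻¹) u = k ^ i • nu V x ((k ^ i)⁻¹ • u) := fun u =>
        DFunLike.congr_fun (nu_conj (k ^ i) x) u
      rw [List.map_cons, List.prod_cons]
      refine ⟨mul_mem (kpQ i) h1, fun v hv => ?_, fun w hw => ?_⟩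
      · rw [mulN, s3 _ (kpQ i) _ h1 v hv, zero_add, h2 v hv, e1, s7 i v hv, theta_cons, ← mul_smul,
          ← pow_add, two_mul]
        rfl
      · have h4 : (k ^ i)⁻¹ • w ∈ fx V a := smul_mem_of_smul_eq (H.sp_smul_fx (sa.pow i).inv) hw
        have h5 : nu V a (k ^ i • nu V x ((k ^ i)⁻¹ • w)) =
            (k ^ i)⁻¹ • nu V a (nu V x ((k ^ i)⁻¹ • w)) := DFunLike.congr_fun (sa.pow i).nu_mul _
        rw [mulN, map_add, map_add, H.mem_fx_iff.1 (s2' _ (kpQ i) _ (s1 _ h1 w hw)), zero_add,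
          h3 w hw, e1, h5, s4 _ h4, comN ((hk z hz).pow_right i).inv_right, theta_cons, ← mul_smul,
          ← inv_pow, ← pow_add, two_mul]
        rfl
  obtain ⟨h1, h2, h3⟩ := s8 l
  have h4 : Commute (l.map fun i => k ^ i * x * (k ^ i)⁻¹).prod a := ha _ fun v hv => by
    rw [← mem_fx, H.mem_fx_iff, h2 v hv]
    exact t₁ _ (s2' x hx v hv)
  refine hne ((H.fx_eq_of_le ia iz' fun w hw => ?_).trans hzz)
  obtain ⟨u, hu⟩ := H.exists_nu_eq ia (presN (ha z hz) w hw)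
  have h5 := h3 w hw
  rw [← comNN h4, H.mem_fx_iff.1 hw, map_zero, ← hu] at h5
  have h6 : theta V k⁻¹ l (nu V a u) = nu V a u := by
    have := DFunLike.congr_fun ((sa.nu_mul_theta l).symm.trans t₂) u
    exact this
  rw [H.mem_fx_iff, ← hu, ← h6, ← h5]

end Hyp

end Cfsg.Gag2

set_option linter.all false in
theorem Cfsg.Rz.Gag2_Weak1_0 : True := by
  have := @_root_.Cfsg.Gag2.theta.eq_def.{0, 0}
  have := @_root_.Cfsg.Gag2.theta.eq_1.{0, 0}
  have := @_root_.Cfsg.Gag2.theta.fun_cases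
  trivial
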