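import Cfsg.Agent.Gag2.Weak1

/-!
# Weak closure without `A₄`
-/

set_option autoImplicit false
set_option linter.unusedSectionVars false

namespace Cfsg.Gag2

open Subgroup MulAction
open scoped Pointwise

universe u v

variable {L : Type u} [Group L] [Finite L] {V : Type v} [AddCommGroup V] [Finite V]
  [DistribMulAction L V]

namespace Hyp

variable (H : Hyp L V)
include H

/-- `(a c) ^ 3 = 1`, `a c ≠ 1`, `tr (a c) = 1`. -/
theorem nu_braid {a c : L} (ia : Iv a) (ic : Iv c) (hne : a ≠ c) (hb : a * c * a = c * a * c) :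
    orderOf (a * c) = 3 ∧ nu V a * nu V c + nu V c * nu V a = 1 := by
  haveI : Fact (Nat.Prime 3) := ⟨Nat.prime_three⟩
  have h1 : orderOf (a * c) = 3 := by
    refine orderOf_eq_prime ?_ fun e => hne ?_
    · calc _ = (a * c * a) * (c * a * c) := by rw [pow_succ, pow_two]; simp only [mul_assoc]
        _ = c * (a * (c * c) * a) * c := by rw [hb]; simp only [mul_assoc]
        _ = 1 := by rw [ic.1, mul_one, ia.1, mul_one, ic.1]
    · rw [eq_inv_of_mul_eq_one_left e, ic.inv_eq]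
  refine ⟨h1, ?_⟩
  rw [← H.tr_of_three h1, tr, mul_inv_rev, ia.inv_eq, ic.inv_eq, H.op_eq, H.op_eq (c * a),
    H.nu_mul, H.nu_mul]
  calc _ = nu V a * nu V c + nu V c * nu V a + (nu V a + nu V a) + (nu V c + nu V c) +
        (1 + 1) := by simp only [H.add_self, add_zero]
    _ = _ := by abel

theorem eq_zero_of_braid {a c : L} (ia : Iv a) (ic : Iv c) (hne : a ≠ c)
    (hb : a * c * a = c * a * c) {v : V} (h1 : v ∈ fx V a) (h2 : v ∈ fx V c) : v = 0 := by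
  have h : nu V a (nu V c v) + nu V c (nu V a v) = v :=
    DFunLike.congr_fun (H.nu_braid ia ic hne hb).2 v
  rw [← h, H.mem_fx_iff.1 h1, H.mem_fx_iff.1 h2, map_zero, map_zero, add_zero]

/-- `op (a c a) = N_a + N_c`. -/
theorem braid_inverts {a c k : L} (ia : Iv a) (ic : Iv c) (hne : a ≠ c)
    (hb : a * c * a = c * a * c) (sa : Sp V a k) (sc : Sp V c k) :
    (a * c * a) * k * (a * c * a)⁻¹ = k⁻¹ := by
  have h1 := (H.nu_braid ia ic hne hb).2
  have h2 := H.nu_mul_self ia.1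
  have h3 : op V (a * c * a) = nu V a + nu V c := by
    rw [map_mul, map_mul, H.op_eq a, H.op_eq c]
    calc _ = nu V a * (nu V a * nu V c + nu V c * nu V a) + (nu V a * nu V c + nu V c * nu V a) +
        (nu V a + nu V a) + nu V c + 1 + nu V a * nu V a - nu V a * nu V a * nu V c := by
          noncomm_ring
      _ = _ := by
        rw [h1, h2, H.add_self, mul_one, add_zero, add_zero, zero_mul, sub_zero, add_right_comm _ 1,
          add_assoc, H.add_self, add_zero]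
  have h4 : k * (a * c * a) * k = a * c * a := H.op_inj (by
    rw [map_mul, map_mul, h3, mul_add, add_mul, show _ = _ from sa, show _ = _ from sc])
  rw [mul_inv_eq_iff_eq_mul, eq_inv_mul_iff_mul_eq, ← mul_assoc, h4]

section theta

variable {a k : L} {l : List ℕ} (ia : Iv a) (t₁ : ∀ w ∈ fx V a, theta V k l w = 0)
  (t₂ : nu V a * theta V k l = nu V a)
include ia t₁ t₂

/-- `N_{a₁} Θ = Θ N_{a₁} = 0`, so `range Θ ≤ fx a`, `N_a = N_a Θ = 0`. -/
theorem eq_one_of_commute {a₁ : L} (h : a₁ ∈ cw L (fx V a)) (hc : Commute a₁ k) : a₁ = 1 := by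
  by_contra h1
  refine ia.2 (H.nu_eq_zero_iff.1 ?_)
  rw [← t₂]
  ext v
  have h2 : Commute (nu V a₁) (theta V k l) := (commute_theta hc l).add_left (Commute.one_left _)
  have h3 : nu V a₁ (theta V k l v) = theta V k l (nu V a₁ v) := DFunLike.congr_fun h2.eq v
  rw [t₁ _ (H.nu_mem_of_mem_cw ia h v), ← H.mem_fx_iff, (H.iv_of_mem_cw ia h h1).2,
    H.mem_fx_iff] at h3
  exact h3

/-- `fx c = {v | Θ v = v}` (`V = fx a ⊕ fx c` by `nu_braid`), so `z` preserves `fx c`; then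
`nu (z c z⁻¹)` and `nu c` agree on `fx c` and on `fx a`. -/
theorem commute_opp {c z : L} (ic : Iv c) (hne : a ≠ c) (hb : a * c * a = c * a * c)
    (sc : Sp V c k) (h1 : Commute z k) (h2 : Commute z a) : Commute z c := by
  have hs : ∀ v, nu V a (nu V c v) + nu V c (nu V a v) = v := fun v =>
    DFunLike.congr_fun (H.nu_braid ia ic hne hb).2 v
  have h3 : ∀ v ∈ fx V c, theta V k l v = v := fun v hv => by
    rw [← H.add_eq_zero_iff]
    refine H.eq_zero_of_braid ia ic hne hb ?_ ((fx V c).add_mem (theta_mem (fun u hu =>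
      smul_mem_of_smul_eq (H.sp_smul_fx sc) hu) l hv) hv)
    rw [H.mem_fx_iff, map_add]
    exact H.add_eq_zero_iff.2 (DFunLike.congr_fun t₂ v)
  have h4 : ∀ v, theta V k l v = v → v ∈ fx V c := fun v hv => by
    rw [← hv, ← hs v, map_add, t₁ _ (H.nu_mem_fx ia.1 _), h3 _ (H.nu_mem_fx ic.1 _), zero_add]
    exact H.nu_mem_fx ic.1 _
  have h5 : ∀ g : L, Commute g k → ∀ v ∈ fx V c, g • v ∈ fx V c := fun g hg v hv => h4 _ (by
    have : g • theta V k l v = theta V k l (g • v) :=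
      DFunLike.congr_fun (commute_theta hg l).eq v
    rw [← this, h3 v hv])
  have h6 : ∀ v, nu V (z * c * z⁻¹) v = z • nu V c (z⁻¹ • v) := fun v =>
    DFunLike.congr_fun (nu_conj z c) v
  have h7 : ∀ u, nu V a (z • u) = z • nu V a u := fun u => by
    rw [nu_apply, nu_apply, smul_add, ← mul_smul, ← mul_smul, h2.eq]
  have h8 : ∀ w ∈ fx V a, nu V a (nu V c w) = w := fun w hw => by
    have := hs w
    rwa [H.mem_fx_iff.1 hw, map_zero, add_zero] at this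
  have h9 : z * c * z⁻¹ = c := H.nu_inj (by
    ext v
    rw [← hs v, map_add, map_add, h6 (nu V c _), H.mem_fx_iff.1 (H.nu_mem_fx ic.1 _),
      H.mem_fx_iff.1 (h5 _ h1.inv_left _ (H.nu_mem_fx ic.1 _)), smul_zero, add_left_inj,
      ← H.add_eq_zero_iff]
    have hw := H.nu_mem_fx ia.1 (nu V c v)
    generalize nu V a (nu V c v) = w at hw
    refine H.eq_zero_of_braid ia ic hne hb ?_ ((fx V c).add_mem ?_ (H.nu_mem_fx ic.1 _))
    · rw [H.mem_fx_iff, map_add, h6, h7, h8 w hw,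
        h8 _ (smul_mem_of_smul_eq (smul_fx_of_commute h2.inv_left) hw), smul_inv_smul, H.two]
    · rw [h6]
      exact h5 z h1 _ (H.nu_mem_fx ic.1 _))
  exact mul_inv_eq_iff_eq_mul.1 h9

end theta

/-- `a`, `c`, `k` normalize `A₀ = cw (fx z₀)`, and `C = centralizer A₀` is normalized by them.
`a c ∈ C` by `NA4`.  So `a`, `c`, `j = a c a` act alike on `A₀`; `a` commutes with `k a k⁻¹`, `j` inverts
`k`, so `k ^ 4 ∈ C`, `k ∈ C`; then `k a k⁻¹ a ∈ C`; likewise all `k^i a k^(-i) a ∈ C`, and the product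
of the `k^i a k^(-i)`, `i < orderOf k` (odd), is `1` (`∑ k^(2i) = 0`), so `a ∈ C`. -/
theorem commute_of_mem_cw_fx (h4 : NA4 L) {a c k z₀ : L} (ia : Iv a) (ic : Iv c) (hne : a ≠ c)
    (hb : a * c * a = c * a * c) (sa : Sp V a k) (sc : Sp V c k) (ho : Odd (orderOf k))
    (h1 : k ≠ 1) (iz : Iv z₀) (za : Commute z₀ a) (zc : Commute z₀ c) (zk : Commute z₀ k) {z : L}
    (hz : z ∈ cw L (fx V z₀)) : Commute z k ∧ Commute z a := by
  set C := centralizer ((cw L (fx V z₀) : Subgroup L) : Set L) with hC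
  have hconj : ∀ {g x : L}, Commute z₀ g → x ∈ C → g * x * g⁻¹ ∈ C := fun {g x} hg hx u hu => by
    have h2 : g⁻¹ * u * g⁻¹⁻¹ ∈ cw L (fx V z₀) := by
      have := conj_mem_cw (g := g⁻¹) (show u ∈ cw L (fx V z₀) from hu)
      rwa [smul_fx_of_commute hg.symm.inv_left] at this
    calc _ = g * (g⁻¹ * u * g⁻¹⁻¹ * x) * g⁻¹ := by group
      _ = g * (x * (g⁻¹ * u * g⁻¹⁻¹)) * g⁻¹ := by rw [hx _ h2]
      _ = _ := by group
  have c0 : a * c ∈ C := fun u hu => (h4 _ (H.nu_braid ia ic hne hb).1 _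
    (H.isPGroup_cw (H.fx_ne_bot iz.1))
    (mem_normalizer_cw (smul_fx_of_commute (za.mul_right zc).symm)) u hu).symm.eq
  have hj := H.braid_inverts ia ic hne hb sa sc
  have c3 : k * (a * k * a) ∈ C := by
    have h2 := mul_mem (hconj zk (inv_mem c0)) c0
    rw [← hj] at h2
    convert h2 using 1
    conv_lhs => rw [show a * k * a = a * k * a⁻¹ by rw [ia.inv_eq]]
    group
  have hcm := H.commute_of_mem_cw ia (self_mem_cw a)
    (H.sp_fx_conj sa ▸ self_mem_cw (V := V) (k * a * k⁻¹))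
  have k4 : k ^ 4 ∈ C := by
    have h2 := mul_mem c3 (hconj (zk.pow_right 2).inv_right c3)
    convert h2 using 1
    have e : k * a * k⁻¹ * a = a * (k * a * k⁻¹) := hcm.eq.symm
    have e1 := ia.1
    calc k ^ 4 = k * (a * a) * (k * (a * a) * k⁻¹) * k * k ^ 2 := by rw [e1]; group
      _ = k * a * (a * (k * a * k⁻¹)) * (k * a * k⁻¹) * k * k ^ 2 := by group
      _ = k * a * (k * a * k⁻¹ * a) * (k * a * k⁻¹) * k * k ^ 2 := by rw [e]
      _ = _ := by group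
  have kC : k ∈ C := by
    obtain ⟨m, hm⟩ := exists_pow_eq_self_of_coprime (x := k) (n := 4)
      ((Nat.coprime_two_left.2 ho).pow_left 2)
    exact hm ▸ pow_mem k4 m
  have h5 : ∀ l : List ℕ, ∃ x ∈ C, (l.map fun i => k ^ i * a * (k ^ i)⁻¹).prod =
      x * a ^ l.length := fun l => by
    induction l with
    | nil => exact ⟨1, one_mem _, by simp⟩
    | cons i l ih =>
      obtain ⟨x, hx, e⟩ := ih
      refine ⟨_, mul_mem (pow_mem kC i) (hconj za (mul_mem (inv_mem (pow_mem kC i)) hx)), ?_⟩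
      rw [List.map_cons, List.prod_cons, e, List.length_cons, pow_succ']
      group
  have h6 : theta V k (List.range (orderOf k)) = 0 := by
    have := FpfEnd.sum_pow_eq_zero (t := op V (k ^ 2)) (n := orderOf k)
      (by rw [← map_pow, ← pow_mul, mul_comm, pow_mul, pow_orderOf_eq_one, one_pow, map_one])
      fun v hv => H.eq_zero_of_odd (ho.of_dvd_nat (orderOf_pow_dvd 2))
        (fun e => h1 (Tw.eq_one_of_odd ⟨1, by rwa [pow_one]⟩ ho)) hv
    rw [← this, theta, ← List.sum_toFinset _ List.nodup_range, List.toFinset_range]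
    exact Finset.sum_congr rfl fun i _ => by rw [← map_pow, ← pow_mul]
  obtain ⟨x, hx, e⟩ := h5 (List.range (orderOf k))
  have h7 := (H.nu_prod_conj ia sa (List.range (orderOf k))).2
  rw [h6, zero_mul, H.nu_eq_zero_iff, e, List.length_range] at h7
  obtain ⟨m, hm⟩ := ho
  rw [hm, pow_succ, pow_mul, pow_two, ia.1, one_pow, one_mul] at h7
  have aC : a ∈ C := by rw [eq_inv_of_mul_eq_one_right h7]; exact inv_mem hx
  exact ⟨kC z hz, aC z hz⟩

/-- `A = cw (fx a)`, `A' = cw (fx b)`, `E = A ⊔ A' = A A'` abelian.  `exists_theta`.  Each coset `b₁ A`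
(`b₁ ∈ A'`) is `k`-invariant, so contains `z(b₁)` commuting with `k` (coprime action,
`IsCoprimeAction.exists_mul_mem_centralizer`), which commutes with `a`, so with `c`.
`N_{z(b₁)} N_{z(b₂)} = 0` on `fx a` (there it is `N_{b₁} N_{b₂}`) and on `fx c = N_c (fx a)`.
`Z₀ = E ⊓ C(Q) ≠ ⊥` is `k`-invariant; `A ⊓ Z₀ = ⊥` (else `h = k⁻¹ k'` normalizes `A`, `k'` centralizes
`A` by `ck'`, `k` commutes with an element of `A`, `eq_one_of_commute`), so `1 ≠ z₀ ∈ Z₀` commutes with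
`k` (`[k, E] ≤ A`) and `z₀ = z(b₁)`, all `z(b₂) ∈ cw (fx z₀)`.  `commute_of_theta` shows that `Q`
centralizes `a`; so `h` normalizes `A`, `k'` centralizes `a`, `k` centralizes `a`: false. -/
theorem not_cfg (h4 : NA4 L) {a c k b k' : L} {Q : Subgroup L} (C : Cfg V a k b k' Q) (ic : Iv c)
    (hne : a ≠ c) (hb : a * c * a = c * a * c) (sc : Sp V c k) {e : ℕ} (he : Odd e)
    (hk : k ^ 2 ^ e = k) : False := by
  haveI : Fact (Nat.Prime 2) := ⟨Nat.prime_two⟩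
  obtain ⟨l, t₁, t₂⟩ := H.exists_theta C.ia C.sa C.odd C.ne_one he hk
  have ia := C.ia
  have ib := C.ib
  set A := cw L (fx V a) with hA
  set B := cw L (fx V b) with hB
  have aA : a ∈ A := self_mem_cw a
  have a'A : k * a * k⁻¹ ∈ A := by
    rw [hA, ← H.sp_fx_conj C.sa]; exact self_mem_cw _
  have AB : ∀ {x}, x ∈ A → x ∈ B → x = 1 := H.eq_one_of_mem_cw ia ib C.ne
  have dec : ∀ x ∈ A ⊔ B, ∃ a₁ ∈ A, ∃ b₁ ∈ B, a₁ * b₁ = x := fun x hx => by
    have h1 : B ≤ normalizer (A : Set L) := fun y hy =>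
      mem_normalizer_cw (smul_fx_of_commute (C.comm a aA y hy).symm)
    have h2 : x ∈ (A : Set L) * (B : Set L) := coe_mul_of_right_le_normalizer_left A B h1 ▸ hx
    exact h2
  have EA : ∀ x ∈ A ⊔ B, ∀ y ∈ A, Commute x y := fun x hx y hy => by
    obtain ⟨a₁, h1, b₁, h2, rfl⟩ := dec x hx
    exact (H.commute_of_mem_cw ia h1 hy).mul_left (C.comm y hy b₁ h2).symm
  have EQ : A ⊔ B ≤ Q := sup_le C.leA C.leB
  -- if `k⁻¹ k'` centralizes an element of `A`, that element is trivial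
  have key : ∀ a₁ ∈ A, Commute (k⁻¹ * k') a₁ → a₁ = 1 := fun a₁ h1 hc => by
    have h2 : k' * a₁ * k'⁻¹ * a₁⁻¹ = k * a₁ * k⁻¹ * a₁⁻¹ := by
      calc _ = k * ((k⁻¹ * k') * a₁) * k'⁻¹ * a₁⁻¹ := by group
        _ = _ := by rw [hc.eq]; group
    have h3 : k * a₁ * k⁻¹ * a₁⁻¹ = 1 := AB (mul_mem ((mem_normalizer_iff.1
      (mem_normalizer_cw (H.sp_smul_fx C.sa)) a₁).1 h1) (inv_mem h1)) (h2 ▸ C.ck' a₁ h1)
    rw [mul_inv_eq_one, mul_inv_eq_iff_eq_mul] at h3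
    exact H.eq_one_of_commute ia t₁ t₂ h1 h3.symm
  have hz : ∀ b₁ ∈ B, ∃ m ∈ A, Commute (b₁ * m) k := fun b₁ hb₁ => by
    obtain ⟨n, hn⟩ := (H.isPGroup_cw (H.fx_ne_bot ia.1)).exists_card_eq
    obtain ⟨m, hm, h1⟩ := (isCoprimeAction_zpowers (N := A)
      (mem_normalizer_cw (H.sp_smul_fx C.sa))
      (hn ▸ (Nat.coprime_two_left.2 C.odd).pow_left n)).exists_mul_mem_centralizer (x := b₁)
      fun κ hκ => by
        have sκ := C.sa.of_mem_zpowers hκ
        have h2 := H.commutator_mem_cw ia sκ (C.odd.of_dvd_nat (orderOf_dvd_of_mem_zpowers hκ))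
          (C.comm a aA b₁ hb₁).symm (C.comm _ (H.sp_fx_conj sκ ▸ self_mem_cw _) b₁ hb₁).symm
        have h3 := (C.comm _ h2 b₁ hb₁).eq
        have e : b₁⁻¹ * κ * b₁ * κ⁻¹ = κ * b₁ * κ⁻¹ * b₁⁻¹ := by
          calc _ = b₁⁻¹ * (κ * b₁ * κ⁻¹ * b₁⁻¹ * b₁) := by group
            _ = _ := by rw [h3]; group
        exact e ▸ h2
    exact ⟨m, hm, (h1 k (mem_zpowers k)).symm⟩
  have hs : ∀ v, nu V a (nu V c v) + nu V c (nu V a v) = v := fun v =>
    DFunLike.congr_fun (H.nu_braid ia ic hne hb).2 v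
  have comNN : ∀ {g h : L}, Commute g h → ∀ v, nu V g (nu V h v) = nu V h (nu V g v) :=
    fun {g h} hc v => DFunLike.congr_fun (show nu V g * nu V h = nu V h * nu V g from
      (((hc.map (op V)).add_right (Commute.one_right _)).add_left (Commute.one_left _)).eq) v
  have onW : ∀ b₁ : L, ∀ m ∈ A, ∀ w ∈ fx V a, nu V (b₁ * m) w = nu V b₁ w := fun b₁ m hm w hw => by
    rw [nu_apply, nu_apply, mul_smul, hm w hw]
  have memE : ∀ b₁ ∈ B, ∀ m ∈ A, b₁ * m ∈ A ⊔ B := fun b₁ h1 m h2 =>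
    mul_mem (mem_sup_right h1) (mem_sup_left h2)
  have zz : ∀ b₁ ∈ B, ∀ m₁ ∈ A, ∀ b₂ ∈ B, ∀ m₂ ∈ A, Commute (b₁ * m₁) k → Commute (b₂ * m₂) k →
      nu V (b₁ * m₁) * nu V (b₂ * m₂) = 0 := fun b₁ h1 m₁ h2 b₂ h3 m₂ h5 c₁ c₂ => by
    have hw : ∀ w ∈ fx V a, nu V (b₁ * m₁) (nu V (b₂ * m₂) w) = 0 := fun w hw => by
      rw [onW b₂ m₂ h5 w hw, onW b₁ m₁ h2 (nu V b₂ w) ((fx V a).add_mem
        (smul_mem_of_smul_eq (smul_fx_of_commute (C.comm a aA b₂ h3).symm) hw) hw)]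
      exact DFunLike.congr_fun (H.nu_mul_nu_of_mem_cw ib h1 h3) w
    have d₁ := H.commute_opp ia t₁ t₂ ic hne hb sc c₁ (EA _ (memE _ h1 _ h2) a aA)
    have d₂ := H.commute_opp ia t₁ t₂ ic hne hb sc c₂ (EA _ (memE _ h3 _ h5) a aA)
    ext v
    change nu V (b₁ * m₁) (nu V (b₂ * m₂) v) = 0
    rw [← hs v, map_add, map_add, hw _ (H.nu_mem_fx ia.1 _), comNN d₂, comNN d₁,
      hw _ (H.nu_mem_fx ia.1 _), map_zero, add_zero]
  -- the central element
  obtain ⟨⟨z₀, hzE, hzQ⟩, hz1⟩ := (ne_bot_iff_exists_ne_one).1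
    (inf_centralizer_ne_bot_of_isPGroup (C.two.to_le EQ) C.two C.nE fun e =>
      ia.2 (mem_bot.1 (e ▸ mem_sup_left aA)))
  replace hz1 : z₀ ≠ 1 := fun e => hz1 (Subtype.ext e)
  have hc : ∀ x ∈ Q, Commute x z₀ := fun x hx => hzQ x hx
  have zk : Commute z₀ k := by
    have h1 := H.commutator_mem_cw ia C.sa C.odd (EA _ hzE a aA) (EA _ hzE _ a'A)
    have h2 : Commute (k⁻¹ * k') (k * z₀ * k⁻¹) := by
      have h3 := (hc _ ((mem_normalizer_iff.1 (inv_mem C.kQ) _).1 C.hQ)).eq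
      change _ * _ = _ * _
      calc _ = k * (k⁻¹ * (k⁻¹ * k') * k⁻¹⁻¹ * z₀) * k⁻¹ := by group
        _ = _ := by rw [h3]; group
    have h3 := key _ h1 (h2.mul_right (hc _ C.hQ).inv_right)
    rw [mul_inv_eq_one, mul_inv_eq_iff_eq_mul] at h3
    exact h3.symm
  obtain ⟨a₀, ha₀, b₀, hb₀, e₀⟩ := dec z₀ hzE
  rw [(C.comm _ ha₀ _ hb₀).eq] at e₀
  have iz : Iv z₀ := by
    refine ⟨?_, hz1⟩
    rw [← e₀, ← (C.comm _ ha₀ _ hb₀).symm.mul_mul_mul_comm, H.mul_self_of_mem_cw ia ha₀,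
      H.mul_self_of_mem_cw ib hb₀, mul_one]
  have hne' : fx V a ≠ fx V z₀ := fun e => hz1 (key z₀ (hA ▸ e ▸ self_mem_cw z₀) (hc _ C.hQ))
  have dec' : ∀ b₁ ∈ B, ∃ m ∈ A, b₁ * m ∈ cw L (fx V z₀) := fun b₁ h1 => by
    obtain ⟨m, hm, h2⟩ := hz b₁ h1
    exact ⟨m, hm, H.mem_cw_of_nu_mul iz (e₀ ▸ zz b₁ h1 m hm b₀ hb₀ a₀ ha₀ h2 (e₀ ▸ zk))⟩
  have za : Commute z₀ a := EA _ hzE a aA
  have zc := H.commute_opp ia t₁ t₂ ic hne hb sc zk za
  have hA0 := fun z hz => H.commute_of_mem_cw_fx h4 ia ic hne hb C.sa sc C.odd C.ne_one iz za zc zk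
    (z := z) hz
  refine ia.2 (key a aA (H.commute_of_theta ia iz hne' C.sa zk t₁ t₂ C.two C.kQ (C.leA aA) hc
    ?_ ?_ ?_ (fun z hz => (hA0 z hz).1) (fun z hz => (hA0 z hz).2) _ C.hQ))
  · intro x hx w hw
    obtain ⟨u, rfl⟩ := H.exists_nu_eq ia hw
    obtain ⟨m, hm, h1⟩ := dec' b (self_mem_cw b)
    obtain ⟨i1, h2⟩ := H.iv_of_mem_cw iz h1 fun e =>
      ib.2 (AB (eq_inv_of_mul_eq_one_left e ▸ inv_mem hm) (self_mem_cw b))
    obtain ⟨u', hu'⟩ := H.exists_nu_eq i1 (h2 ▸ H.nu_mem_fx iz.1 u)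
    rw [comNN za, ← hu', comNN (EA _ (memE _ (self_mem_cw b) _ hm) a aA).symm,
      onW b m hm _ (H.nu_mem_fx ia.1 _), ← comNN (C.comm a aA b (self_mem_cw b))]
    exact C.fixJ x hx u'
  · intro v h1 h2
    obtain ⟨u, rfl⟩ := H.exists_nu_eq iz h2
    refine ⟨_, H.nu_mem_fx ia.1 (nu V c u), ?_⟩
    have h3 : nu V a (nu V c (nu V z₀ u)) + nu V c (nu V a (nu V z₀ u)) = nu V z₀ u := hs _
    rw [H.mem_fx_iff.1 h1, map_zero, add_zero] at h3
    rw [comNN za, comNN zc, h3]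
  · intro x hx
    obtain ⟨a₁, h1, b₁, h2, e⟩ := dec _ ((mem_normalizer_iff.1 (C.nE hx) a).1 (mem_sup_left aA))
    obtain ⟨m, hm, h3⟩ := dec' b₁ h2
    refine ⟨a₁ * m⁻¹, mul_mem h1 (inv_mem hm), _, h3, ?_⟩
    rw [← e, ← (C.comm m hm b₁ h2).eq]
    group

end Hyp

end Cfsg.Gag2
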